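import Mathlib

/-! The numbers just below the minimal degree of type E6 do not divide the order. -/

set_option autoImplicit false

namespace CfsgLib.RootChain.E6

/-- Removing a factor by a Bezout relation. -/
theorem dvd_mul_step {k A B c : ℤ} (a b : ℤ) (h : a * k + b * B = c) (hk : k ∣ A * B) :
    k ∣ A * c := by
  obtain ⟨m, hm⟩ := hk
  exact ⟨a * A + b * m, by rw [← h]; linear_combination b * hm⟩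

/-- The same for a power. -/
theorem dvd_mul_pow_step {k B c : ℤ} (a b : ℤ) (h : a * k + b * B = c) :
    ∀ (m : ℕ) (A : ℤ), k ∣ A * B ^ m → k ∣ A * c ^ m
  | 0, A, hk => by simpa using hk
  | m + 1, A, hk => by
    have h1 : k ∣ A * B ^ m * c := dvd_mul_step a b h (by rwa [pow_succ, ← mul_assoc] at hk)
    have h2 := dvd_mul_pow_step a b h m (A * c) (by rwa [mul_right_comm] at h1)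
    rwa [pow_succ', ← mul_assoc]

theorem small_1 {x : ℤ} (hx : 6 ≤ x) (h : -1 + x ^ 2 + x ^ 3 + x ^ 4 + x ^ 5 + x ^ 8 + x ^ 9 ∣ 1 * ((-1 + x) ^ 6 * (1 + x) ^ 4 * (1 + x + x ^ 2) ^ 3 * (1 + x ^ 2) ^ 2 * (1 + x + x ^ 2 + x ^ 3 + x ^ 4) ^ 1 * (1 - x + x ^ 2) ^ 1 * (1 + x ^ 4) ^ 1 * (1 + x ^ 3 + x ^ 6) ^ 1 * (1 - x ^ 2 + x ^ 4) ^ 1)) : False := by
  generalize hk : (-1 + x ^ 2 + x ^ 3 + x ^ 4 + x ^ 5 + x ^ 8 + x ^ 9 : ℤ) = k at h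
  simp only [← mul_assoc] at h
  have h12 := dvd_mul_pow_step (B := 1 - x ^ 2 + x ^ 4) (c := 2) (-1 + x - x ^ 2) (1 + x + x ^ 2 + x ^ 3 + x ^ 4 + x ^ 5 + x ^ 7)
    (by subst hk; ring) 1 _ h
  clear h
  have h : k ∣ 1 * 2 ^ 1 * (-1 + x) ^ 6 * (1 + x) ^ 4 * (1 + x + x ^ 2) ^ 3 * (1 + x ^ 2) ^ 2 * (1 + x + x ^ 2 + x ^ 3 + x ^ 4) ^ 1 * (1 - x + x ^ 2) ^ 1 * (1 + x ^ 4) ^ 1 * (1 + x ^ 3 + x ^ 6) ^ 1 := by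
    refine dvd_trans h12 (dvd_of_eq ?_); ring
  have h9 := dvd_mul_pow_step (B := 1 + x ^ 3 + x ^ 6) (c := 1) (-1 + x - x ^ 2) (x + x ^ 5)
    (by subst hk; ring) 1 _ h
  clear h
  have h : k ∣ 1 * 1 ^ 1 * 2 ^ 1 * (-1 + x) ^ 6 * (1 + x) ^ 4 * (1 + x + x ^ 2) ^ 3 * (1 + x ^ 2) ^ 2 * (1 + x + x ^ 2 + x ^ 3 + x ^ 4) ^ 1 * (1 - x + x ^ 2) ^ 1 * (1 + x ^ 4) ^ 1 := by
    refine dvd_trans h9 (dvd_of_eq ?_); ring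
  have h8 := dvd_mul_pow_step (B := 1 + x ^ 4) (c := 1) (-1 + x - x ^ 2) (x + x ^ 4 + x ^ 7)
    (by subst hk; ring) 1 _ h
  clear h
  have h : k ∣ 1 * 1 ^ 1 * 1 ^ 1 * 2 ^ 1 * (-1 + x) ^ 6 * (1 + x) ^ 4 * (1 + x + x ^ 2) ^ 3 * (1 + x ^ 2) ^ 2 * (1 + x + x ^ 2 + x ^ 3 + x ^ 4) ^ 1 * (1 - x + x ^ 2) ^ 1 := by
    refine dvd_trans h8 (dvd_of_eq ?_); ring
  have h6 := dvd_mul_pow_step (B := 1 - x + x ^ 2) (c := 4) (-1) (3 + 3 * x + x ^ 2 - x ^ 3 - x ^ 4 + x ^ 5 + 2 * x ^ 6 + x ^ 7)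
    (by subst hk; ring) 1 _ h
  clear h
  have h : k ∣ 1 * 4 ^ 1 * 1 ^ 1 * 1 ^ 1 * 2 ^ 1 * (-1 + x) ^ 6 * (1 + x) ^ 4 * (1 + x + x ^ 2) ^ 3 * (1 + x ^ 2) ^ 2 * (1 + x + x ^ 2 + x ^ 3 + x ^ 4) ^ 1 := by
    refine dvd_trans h6 (dvd_of_eq ?_); ring
  have h5 := dvd_mul_pow_step (B := 1 + x + x ^ 2 + x ^ 3 + x ^ 4) (c := 5) (-4 + 2 * x - 2 * x ^ 2 - x ^ 3) (1 + x - x ^ 3 + 3 * x ^ 4 + 2 * x ^ 5 - 3 * x ^ 6 + 2 * x ^ 7 + x ^ 8)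
    (by subst hk; ring) 1 _ h
  clear h
  have h : k ∣ 1 * 5 ^ 1 * 4 ^ 1 * 1 ^ 1 * 1 ^ 1 * 2 ^ 1 * (-1 + x) ^ 6 * (1 + x) ^ 4 * (1 + x + x ^ 2) ^ 3 * (1 + x ^ 2) ^ 2 := by
    refine dvd_trans h5 (dvd_of_eq ?_); ring
  have h4 := dvd_mul_pow_step (B := 1 + x ^ 2) (c := 1) (-x) (1 - x - x ^ 2 + 2 * x ^ 3 + 2 * x ^ 4 - x ^ 5 - x ^ 6 + x ^ 7 + x ^ 8)
    (by subst hk; ring) 2 _ h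
  clear h
  have h : k ∣ 1 * 1 ^ 2 * 5 ^ 1 * 4 ^ 1 * 1 ^ 1 * 1 ^ 1 * 2 ^ 1 * (-1 + x) ^ 6 * (1 + x) ^ 4 * (1 + x + x ^ 2) ^ 3 := by
    refine dvd_trans h4 (dvd_of_eq ?_); ring
  have h3 := dvd_mul_pow_step (B := 1 + x + x ^ 2) (c := 2) (x) (2 - x - x ^ 2 + x ^ 3 - x ^ 4 - x ^ 5 + x ^ 6 - x ^ 8)
    (by subst hk; ring) 3 _ h
  clear h
  have h : k ∣ 1 * 2 ^ 3 * 1 ^ 2 * 5 ^ 1 * 4 ^ 1 * 1 ^ 1 * 1 ^ 1 * 2 ^ 1 * (-1 + x) ^ 6 * (1 + x) ^ 4 := by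
    refine dvd_trans h3 (dvd_of_eq ?_); ring
  have h2 := dvd_mul_pow_step (B := 1 + x) (c := 1) (-1) (x ^ 2 + x ^ 4 + x ^ 8)
    (by subst hk; ring) 4 _ h
  clear h
  have h : k ∣ 1 * 1 ^ 4 * 2 ^ 3 * 1 ^ 2 * 5 ^ 1 * 4 ^ 1 * 1 ^ 1 * 1 ^ 1 * 2 ^ 1 * (-1 + x) ^ 6 := by
    refine dvd_trans h2 (dvd_of_eq ?_); ring
  have h1 := dvd_mul_pow_step (B := -1 + x) (c := 5) (1) (-6 - 6 * x - 5 * x ^ 2 - 4 * x ^ 3 - 3 * x ^ 4 - 2 * x ^ 5 - 2 * x ^ 6 - 2 * x ^ 7 - x ^ 8)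
    (by subst hk; ring) 6 _ h
  clear h
  have h : k ∣ 1 * 5 ^ 6 * 1 ^ 4 * 2 ^ 3 * 1 ^ 2 * 5 ^ 1 * 4 ^ 1 * 1 ^ 1 * 1 ^ 1 * 2 ^ 1 := by
    refine dvd_trans h1 (dvd_of_eq ?_); ring
  have hle := Int.le_of_dvd (by norm_num) h
  obtain ⟨u, hu, rfl⟩ : ∃ u, 0 ≤ u ∧ x = 6 + u := ⟨x - 6, by omega, by ring⟩
  have e : k - 5000000 = 6766635 + 17363496 * u + 11386459 * u ^ 2 + 4354945 * u ^ 3 + 1070527 * u ^ 4 + 175393 * u ^ 5 + 19152 * u ^ 6 + 1344 * u ^ 7 + 55 * u ^ 8 + u ^ 9 := by subst hk; ring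
  have : 0 < k - 5000000 := by rw [e]; positivity
  norm_num at hle
  linarith

theorem small_2 {x : ℤ} (hx : 11 ≤ x) (h : -2 + x + 2 * x ^ 2 - x ^ 3 - x ^ 4 + 2 * x ^ 5 + x ^ 6 - x ^ 7 + x ^ 9 ∣ 2 * ((-1 + x) ^ 6 * (1 + x) ^ 4 * (1 + x + x ^ 2) ^ 3 * (1 + x ^ 2) ^ 1 * (1 + x + x ^ 2 + x ^ 3 + x ^ 4) ^ 1 * (1 - x + x ^ 2) ^ 2 * (1 + x ^ 4) ^ 1 * (1 + x ^ 3 + x ^ 6) ^ 1 * (1 - x ^ 2 + x ^ 4) ^ 1)) : False := by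
  generalize hk : (-2 + x + 2 * x ^ 2 - x ^ 3 - x ^ 4 + 2 * x ^ 5 + x ^ 6 - x ^ 7 + x ^ 9 : ℤ) = k at h
  simp only [← mul_assoc] at h
  have h12 := dvd_mul_pow_step (B := 1 - x ^ 2 + x ^ 4) (c := 3) (-1 - x ^ 2) (1 + x + x ^ 2 + x ^ 3 + x ^ 4 + x ^ 5 + x ^ 7)
    (by subst hk; ring) 1 _ h
  clear h
  have h : k ∣ 2 * 3 ^ 1 * (-1 + x) ^ 6 * (1 + x) ^ 4 * (1 + x + x ^ 2) ^ 3 * (1 + x ^ 2) ^ 1 * (1 + x + x ^ 2 + x ^ 3 + x ^ 4) ^ 1 * (1 - x + x ^ 2) ^ 2 * (1 + x ^ 4) ^ 1 * (1 + x ^ 3 + x ^ 6) ^ 1 := by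
    refine dvd_trans h12 (dvd_of_eq ?_); ring
  have h9 := dvd_mul_pow_step (B := 1 + x ^ 3 + x ^ 6) (c := 2) (-1 - x ^ 2) (x + x ^ 5)
    (by subst hk; ring) 1 _ h
  clear h
  have h : k ∣ 2 * 2 ^ 1 * 3 ^ 1 * (-1 + x) ^ 6 * (1 + x) ^ 4 * (1 + x + x ^ 2) ^ 3 * (1 + x ^ 2) ^ 1 * (1 + x + x ^ 2 + x ^ 3 + x ^ 4) ^ 1 * (1 - x + x ^ 2) ^ 2 * (1 + x ^ 4) ^ 1 := by
    refine dvd_trans h9 (dvd_of_eq ?_); ring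
  have h8 := dvd_mul_pow_step (B := 1 + x ^ 4) (c := 2) (-1 - x ^ 2) (x + x ^ 4 + x ^ 7)
    (by subst hk; ring) 1 _ h
  clear h
  have h : k ∣ 2 * 2 ^ 1 * 2 ^ 1 * 3 ^ 1 * (-1 + x) ^ 6 * (1 + x) ^ 4 * (1 + x + x ^ 2) ^ 3 * (1 + x ^ 2) ^ 1 * (1 + x + x ^ 2 + x ^ 3 + x ^ 4) ^ 1 * (1 - x + x ^ 2) ^ 2 := by
    refine dvd_trans h8 (dvd_of_eq ?_); ring
  have h6 := dvd_mul_pow_step (B := 1 - x + x ^ 2) (c := 1) (-x) (1 - x - x ^ 2 + 2 * x ^ 3 + 2 * x ^ 4 - x ^ 5 - x ^ 6 + x ^ 7 + x ^ 8)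
    (by subst hk; ring) 2 _ h
  clear h
  have h : k ∣ 2 * 1 ^ 2 * 2 ^ 1 * 2 ^ 1 * 3 ^ 1 * (-1 + x) ^ 6 * (1 + x) ^ 4 * (1 + x + x ^ 2) ^ 3 * (1 + x ^ 2) ^ 1 * (1 + x + x ^ 2 + x ^ 3 + x ^ 4) ^ 1 := by
    refine dvd_trans h6 (dvd_of_eq ?_); ring
  have h5 := dvd_mul_pow_step (B := 1 + x + x ^ 2 + x ^ 3 + x ^ 4) (c := 31) (-13 - 4 * x - 15 * x ^ 2 - 5 * x ^ 3) (5 - 5 * x ^ 2 + 18 * x ^ 4 + 4 * x ^ 5 - 16 * x ^ 6 + 10 * x ^ 7 + 5 * x ^ 8)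
    (by subst hk; ring) 1 _ h
  clear h
  have h : k ∣ 2 * 31 ^ 1 * 1 ^ 2 * 2 ^ 1 * 2 ^ 1 * 3 ^ 1 * (-1 + x) ^ 6 * (1 + x) ^ 4 * (1 + x + x ^ 2) ^ 3 * (1 + x ^ 2) ^ 1 := by
    refine dvd_trans h5 (dvd_of_eq ?_); ring
  have h4 := dvd_mul_pow_step (B := 1 + x ^ 2) (c := 12) (-1 - x) (10 - x - 7 * x ^ 2 + 2 * x ^ 3 + 5 * x ^ 4 - x ^ 5 - 2 * x ^ 6 + x ^ 7 + x ^ 8)
    (by subst hk; ring) 1 _ h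
  clear h
  have h : k ∣ 2 * 12 ^ 1 * 31 ^ 1 * 1 ^ 2 * 2 ^ 1 * 2 ^ 1 * 3 ^ 1 * (-1 + x) ^ 6 * (1 + x) ^ 4 * (1 + x + x ^ 2) ^ 3 := by
    refine dvd_trans h4 (dvd_of_eq ?_); ring
  have h3 := dvd_mul_pow_step (B := 1 + x + x ^ 2) (c := 5) (x) (5 - 3 * x - 3 * x ^ 2 + 4 * x ^ 3 - 3 * x ^ 5 + x ^ 6 + x ^ 7 - x ^ 8)
    (by subst hk; ring) 3 _ h
  clear h
  have h : k ∣ 2 * 5 ^ 3 * 12 ^ 1 * 31 ^ 1 * 1 ^ 2 * 2 ^ 1 * 2 ^ 1 * 3 ^ 1 * (-1 + x) ^ 6 * (1 + x) ^ 4 := by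
    refine dvd_trans h3 (dvd_of_eq ?_); ring
  have h2 := dvd_mul_pow_step (B := 1 + x) (c := 2) (-1) (x + x ^ 2 - 2 * x ^ 3 + x ^ 4 + x ^ 5 - x ^ 7 + x ^ 8)
    (by subst hk; ring) 4 _ h
  clear h
  have h : k ∣ 2 * 2 ^ 4 * 5 ^ 3 * 12 ^ 1 * 31 ^ 1 * 1 ^ 2 * 2 ^ 1 * 2 ^ 1 * 3 ^ 1 * (-1 + x) ^ 6 := by
    refine dvd_trans h2 (dvd_of_eq ?_); ring
  have h1 := dvd_mul_pow_step (B := -1 + x) (c := 2) (1) (-4 - 3 * x - x ^ 2 - 2 * x ^ 3 - 3 * x ^ 4 - x ^ 5 - x ^ 7 - x ^ 8)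
    (by subst hk; ring) 6 _ h
  clear h
  have h : k ∣ 2 * 2 ^ 6 * 2 ^ 4 * 5 ^ 3 * 12 ^ 1 * 31 ^ 1 * 1 ^ 2 * 2 ^ 1 * 2 ^ 1 * 3 ^ 1 := by
    refine dvd_trans h1 (dvd_of_eq ?_); ring
  have hle := Int.le_of_dvd (by norm_num) h
  obtain ⟨u, hu, rfl⟩ : ∃ u, 0 ≤ u ∧ x = 11 + u := ⟨x - 11, by omega, by ring⟩
  have e : k - 1142784000 = 1197754462 + 1917936076 * u + 698401563 * u ^ 2 + 148327684 * u ^ 3 + 20247765 * u ^ 4 + 1842293 * u ^ 5 + 111728 * u ^ 6 + 4355 * u ^ 7 + 99 * u ^ 8 + u ^ 9 := by subst hk; ring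
  have : 0 < k - 1142784000 := by rw [e]; positivity
  norm_num at hle
  linarith

theorem small_3 {x : ℤ} (hx : 15 ≤ x) (h : -3 + x + x ^ 4 + x ^ 5 + x ^ 7 + x ^ 8 + x ^ 11 ∣ 3 * ((-1 + x) ^ 6 * (1 + x) ^ 4 * (1 + x + x ^ 2) ^ 3 * (1 + x ^ 2) ^ 2 * (1 + x + x ^ 2 + x ^ 3 + x ^ 4) ^ 1 * (1 - x + x ^ 2) ^ 2 * (1 + x ^ 4) ^ 1 * (1 + x ^ 3 + x ^ 6) ^ 1 * (1 - x ^ 2 + x ^ 4) ^ 1)) : False := by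
  generalize hk : (-3 + x + x ^ 4 + x ^ 5 + x ^ 7 + x ^ 8 + x ^ 11 : ℤ) = k at h
  simp only [← mul_assoc] at h
  have h12 := dvd_mul_pow_step (B := 1 - x ^ 2 + x ^ 4) (c := 4) (-1) (1 + x + x ^ 2 + x ^ 3 + x ^ 4 + x ^ 5 + x ^ 7)
    (by subst hk; ring) 1 _ h
  clear h
  have h : k ∣ 3 * 4 ^ 1 * (-1 + x) ^ 6 * (1 + x) ^ 4 * (1 + x + x ^ 2) ^ 3 * (1 + x ^ 2) ^ 2 * (1 + x + x ^ 2 + x ^ 3 + x ^ 4) ^ 1 * (1 - x + x ^ 2) ^ 2 * (1 + x ^ 4) ^ 1 * (1 + x ^ 3 + x ^ 6) ^ 1 := by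
    refine dvd_trans h12 (dvd_of_eq ?_); ring
  have h9 := dvd_mul_pow_step (B := 1 + x ^ 3 + x ^ 6) (c := 3) (-1) (x + x ^ 5)
    (by subst hk; ring) 1 _ h
  clear h
  have h : k ∣ 3 * 3 ^ 1 * 4 ^ 1 * (-1 + x) ^ 6 * (1 + x) ^ 4 * (1 + x + x ^ 2) ^ 3 * (1 + x ^ 2) ^ 2 * (1 + x + x ^ 2 + x ^ 3 + x ^ 4) ^ 1 * (1 - x + x ^ 2) ^ 2 * (1 + x ^ 4) ^ 1 := by
    refine dvd_trans h9 (dvd_of_eq ?_); ring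
  have h8 := dvd_mul_pow_step (B := 1 + x ^ 4) (c := 3) (-1) (x + x ^ 4 + x ^ 7)
    (by subst hk; ring) 1 _ h
  clear h
  have h : k ∣ 3 * 3 ^ 1 * 3 ^ 1 * 4 ^ 1 * (-1 + x) ^ 6 * (1 + x) ^ 4 * (1 + x + x ^ 2) ^ 3 * (1 + x ^ 2) ^ 2 * (1 + x + x ^ 2 + x ^ 3 + x ^ 4) ^ 1 * (1 - x + x ^ 2) ^ 2 := by
    refine dvd_trans h8 (dvd_of_eq ?_); ring
  have h6 := dvd_mul_pow_step (B := 1 - x + x ^ 2) (c := 2) (-1) (-1 + x ^ 2 + x ^ 3 + x ^ 4 + x ^ 5 + x ^ 8 + x ^ 9)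
    (by subst hk; ring) 2 _ h
  clear h
  have h : k ∣ 3 * 2 ^ 2 * 3 ^ 1 * 3 ^ 1 * 4 ^ 1 * (-1 + x) ^ 6 * (1 + x) ^ 4 * (1 + x + x ^ 2) ^ 3 * (1 + x ^ 2) ^ 2 * (1 + x + x ^ 2 + x ^ 3 + x ^ 4) ^ 1 := by
    refine dvd_trans h6 (dvd_of_eq ?_); ring
  have h5 := dvd_mul_pow_step (B := 1 + x + x ^ 2 + x ^ 3 + x ^ 4) (c := 121) (-40 - 13 * x - 4 * x ^ 2 - x ^ 3) (1 + 40 * x ^ 4 + 13 * x ^ 5 - 36 * x ^ 6 + 28 * x ^ 7 + 9 * x ^ 8 + 3 * x ^ 9 + x ^ 10)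
    (by subst hk; ring) 1 _ h
  clear h
  have h : k ∣ 3 * 121 ^ 1 * 2 ^ 2 * 3 ^ 1 * 3 ^ 1 * 4 ^ 1 * (-1 + x) ^ 6 * (1 + x) ^ 4 * (1 + x + x ^ 2) ^ 3 * (1 + x ^ 2) ^ 2 := by
    refine dvd_trans h5 (dvd_of_eq ?_); ring
  have h4 := dvd_mul_pow_step (B := 1 + x ^ 2) (c := 1) (-1) (-2 + x + 2 * x ^ 2 - x ^ 3 - x ^ 4 + 2 * x ^ 5 + x ^ 6 - x ^ 7 + x ^ 9)
    (by subst hk; ring) 2 _ h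
  clear h
  have h : k ∣ 3 * 1 ^ 2 * 121 ^ 1 * 2 ^ 2 * 3 ^ 1 * 3 ^ 1 * 4 ^ 1 * (-1 + x) ^ 6 * (1 + x) ^ 4 * (1 + x + x ^ 2) ^ 3 := by
    refine dvd_trans h4 (dvd_of_eq ?_); ring
  have h3 := dvd_mul_pow_step (B := 1 + x + x ^ 2) (c := 6) (-1) (3 - 2 * x - x ^ 2 + 3 * x ^ 3 - x ^ 4 - x ^ 5 + 2 * x ^ 6 - x ^ 8 + x ^ 9)
    (by subst hk; ring) 3 _ h
  clear h
  have h : k ∣ 3 * 6 ^ 3 * 1 ^ 2 * 121 ^ 1 * 2 ^ 2 * 3 ^ 1 * 3 ^ 1 * 4 ^ 1 * (-1 + x) ^ 6 * (1 + x) ^ 4 := by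
    refine dvd_trans h3 (dvd_of_eq ?_); ring
  have h2 := dvd_mul_pow_step (B := 1 + x) (c := 5) (-1) (2 - x + x ^ 2 - x ^ 3 + 2 * x ^ 4 - x ^ 5 + x ^ 6 + x ^ 8 - x ^ 9 + x ^ 10)
    (by subst hk; ring) 4 _ h
  clear h
  have h : k ∣ 3 * 5 ^ 4 * 6 ^ 3 * 1 ^ 2 * 121 ^ 1 * 2 ^ 2 * 3 ^ 1 * 3 ^ 1 * 4 ^ 1 * (-1 + x) ^ 6 := by
    refine dvd_trans h2 (dvd_of_eq ?_); ring
  have h1 := dvd_mul_pow_step (B := -1 + x) (c := 3) (1) (-6 - 5 * x - 5 * x ^ 2 - 5 * x ^ 3 - 4 * x ^ 4 - 3 * x ^ 5 - 3 * x ^ 6 - 2 * x ^ 7 - x ^ 8 - x ^ 9 - x ^ 10)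
    (by subst hk; ring) 6 _ h
  clear h
  have h : k ∣ 3 * 3 ^ 6 * 5 ^ 4 * 6 ^ 3 * 1 ^ 2 * 121 ^ 1 * 2 ^ 2 * 3 ^ 1 * 3 ^ 1 * 4 ^ 1 := by
    refine dvd_trans h1 (dvd_of_eq ?_); ring
  have hle := Int.le_of_dvd (by norm_num) h
  obtain ⟨u, hu, rfl⟩ : ∃ u, 0 ≤ u ∧ x = 15 + u := ⟨x - 15, by omega, by ring⟩
  have e : k - 5144348880000 = 3508141539387 + 6344601172876 * u + 2114719685100 * u ^ 2 + 422921252310 * u ^ 3 + 56387255701 * u ^ 4 + 5262662476 * u ^ 5 + 350837655 * u ^ 6 + 16706371 * u ^ 7 + 556876 * u ^ 8 + 12375 * u ^ 9 + 165 * u ^ 10 + u ^ 11 := by subst hk; ring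
  have : 0 < k - 5144348880000 := by rw [e]; positivity
  norm_num at hle
  linarith

theorem small_4 {x : ℤ} (hx : 19 ≤ x) (h : -4 + x + x ^ 4 + x ^ 5 + x ^ 7 + x ^ 8 + x ^ 11 ∣ 4 * ((-1 + x) ^ 6 * (1 + x) ^ 4 * (1 + x + x ^ 2) ^ 3 * (1 + x ^ 2) ^ 2 * (1 + x + x ^ 2 + x ^ 3 + x ^ 4) ^ 1 * (1 - x + x ^ 2) ^ 2 * (1 + x ^ 4) ^ 1 * (1 + x ^ 3 + x ^ 6) ^ 1 * (1 - x ^ 2 + x ^ 4) ^ 1)) : False := by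
  generalize hk : (-4 + x + x ^ 4 + x ^ 5 + x ^ 7 + x ^ 8 + x ^ 11 : ℤ) = k at h
  simp only [← mul_assoc] at h
  have h12 := dvd_mul_pow_step (B := 1 - x ^ 2 + x ^ 4) (c := 5) (-1) (1 + x + x ^ 2 + x ^ 3 + x ^ 4 + x ^ 5 + x ^ 7)
    (by subst hk; ring) 1 _ h
  clear h
  have h : k ∣ 4 * 5 ^ 1 * (-1 + x) ^ 6 * (1 + x) ^ 4 * (1 + x + x ^ 2) ^ 3 * (1 + x ^ 2) ^ 2 * (1 + x + x ^ 2 + x ^ 3 + x ^ 4) ^ 1 * (1 - x + x ^ 2) ^ 2 * (1 + x ^ 4) ^ 1 * (1 + x ^ 3 + x ^ 6) ^ 1 := by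
    refine dvd_trans h12 (dvd_of_eq ?_); ring
  have h9 := dvd_mul_pow_step (B := 1 + x ^ 3 + x ^ 6) (c := 4) (-1) (x + x ^ 5)
    (by subst hk; ring) 1 _ h
  clear h
  have h : k ∣ 4 * 4 ^ 1 * 5 ^ 1 * (-1 + x) ^ 6 * (1 + x) ^ 4 * (1 + x + x ^ 2) ^ 3 * (1 + x ^ 2) ^ 2 * (1 + x + x ^ 2 + x ^ 3 + x ^ 4) ^ 1 * (1 - x + x ^ 2) ^ 2 * (1 + x ^ 4) ^ 1 := by
    refine dvd_trans h9 (dvd_of_eq ?_); ring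
  have h8 := dvd_mul_pow_step (B := 1 + x ^ 4) (c := 4) (-1) (x + x ^ 4 + x ^ 7)
    (by subst hk; ring) 1 _ h
  clear h
  have h : k ∣ 4 * 4 ^ 1 * 4 ^ 1 * 5 ^ 1 * (-1 + x) ^ 6 * (1 + x) ^ 4 * (1 + x + x ^ 2) ^ 3 * (1 + x ^ 2) ^ 2 * (1 + x + x ^ 2 + x ^ 3 + x ^ 4) ^ 1 * (1 - x + x ^ 2) ^ 2 := by
    refine dvd_trans h8 (dvd_of_eq ?_); ring
  have h6 := dvd_mul_pow_step (B := 1 - x + x ^ 2) (c := 3) (-1) (-1 + x ^ 2 + x ^ 3 + x ^ 4 + x ^ 5 + x ^ 8 + x ^ 9)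
    (by subst hk; ring) 2 _ h
  clear h
  have h : k ∣ 4 * 3 ^ 2 * 4 ^ 1 * 4 ^ 1 * 5 ^ 1 * (-1 + x) ^ 6 * (1 + x) ^ 4 * (1 + x + x ^ 2) ^ 3 * (1 + x ^ 2) ^ 2 * (1 + x + x ^ 2 + x ^ 3 + x ^ 4) ^ 1 := by
    refine dvd_trans h6 (dvd_of_eq ?_); ring
  have h5 := dvd_mul_pow_step (B := 1 + x + x ^ 2 + x ^ 3 + x ^ 4) (c := 341) (-85 - 21 * x - 5 * x ^ 2 - x ^ 3) (1 + 85 * x ^ 4 + 21 * x ^ 5 - 80 * x ^ 6 + 65 * x ^ 7 + 16 * x ^ 8 + 4 * x ^ 9 + x ^ 10)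
    (by subst hk; ring) 1 _ h
  clear h
  have h : k ∣ 4 * 341 ^ 1 * 3 ^ 2 * 4 ^ 1 * 4 ^ 1 * 5 ^ 1 * (-1 + x) ^ 6 * (1 + x) ^ 4 * (1 + x + x ^ 2) ^ 3 * (1 + x ^ 2) ^ 2 := by
    refine dvd_trans h5 (dvd_of_eq ?_); ring
  have h4 := dvd_mul_pow_step (B := 1 + x ^ 2) (c := 2) (-1) (-2 + x + 2 * x ^ 2 - x ^ 3 - x ^ 4 + 2 * x ^ 5 + x ^ 6 - x ^ 7 + x ^ 9)
    (by subst hk; ring) 2 _ h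
  clear h
  have h : k ∣ 4 * 2 ^ 2 * 341 ^ 1 * 3 ^ 2 * 4 ^ 1 * 4 ^ 1 * 5 ^ 1 * (-1 + x) ^ 6 * (1 + x) ^ 4 * (1 + x + x ^ 2) ^ 3 := by
    refine dvd_trans h4 (dvd_of_eq ?_); ring
  have h3 := dvd_mul_pow_step (B := 1 + x + x ^ 2) (c := 7) (-1) (3 - 2 * x - x ^ 2 + 3 * x ^ 3 - x ^ 4 - x ^ 5 + 2 * x ^ 6 - x ^ 8 + x ^ 9)
    (by subst hk; ring) 3 _ h
  clear h
  have h : k ∣ 4 * 7 ^ 3 * 2 ^ 2 * 341 ^ 1 * 3 ^ 2 * 4 ^ 1 * 4 ^ 1 * 5 ^ 1 * (-1 + x) ^ 6 * (1 + x) ^ 4 := by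
    refine dvd_trans h3 (dvd_of_eq ?_); ring
  have h2 := dvd_mul_pow_step (B := 1 + x) (c := 6) (-1) (2 - x + x ^ 2 - x ^ 3 + 2 * x ^ 4 - x ^ 5 + x ^ 6 + x ^ 8 - x ^ 9 + x ^ 10)
    (by subst hk; ring) 4 _ h
  clear h
  have h : k ∣ 4 * 6 ^ 4 * 7 ^ 3 * 2 ^ 2 * 341 ^ 1 * 3 ^ 2 * 4 ^ 1 * 4 ^ 1 * 5 ^ 1 * (-1 + x) ^ 6 := by
    refine dvd_trans h2 (dvd_of_eq ?_); ring
  have h1 := dvd_mul_pow_step (B := -1 + x) (c := 2) (1) (-6 - 5 * x - 5 * x ^ 2 - 5 * x ^ 3 - 4 * x ^ 4 - 3 * x ^ 5 - 3 * x ^ 6 - 2 * x ^ 7 - x ^ 8 - x ^ 9 - x ^ 10)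
    (by subst hk; ring) 6 _ h
  clear h
  have h : k ∣ 4 * 2 ^ 6 * 6 ^ 4 * 7 ^ 3 * 2 ^ 2 * 341 ^ 1 * 3 ^ 2 * 4 ^ 1 * 4 ^ 1 * 5 ^ 1 := by
    refine dvd_trans h1 (dvd_of_eq ?_); ring
  have hle := Int.le_of_dvd (by norm_num) h
  obtain ⟨u, hu, rfl⟩ : ∃ u, 0 ≤ u ∧ x = 19 + u := ⟨x - 19, by omega, by ring⟩
  have e : k - 111759886909440 = 4748252029994 + 67449209809932 * u + 17749192731348 * u ^ 2 + 2802431128230 * u ^ 3 + 294987036501 * u ^ 4 + 21735588708 * u ^ 5 + 1143967979 * u ^ 6 + 43006083 * u ^ 7 + 1131736 * u ^ 8 + 19855 * u ^ 9 + 209 * u ^ 10 + u ^ 11 := by subst hk; ring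
  have : 0 < k - 111759886909440 := by rw [e]; positivity
  norm_num at hle
  linarith

theorem small_5 {x : ℤ} (hx : 19 ≤ x) (h : -5 + x + x ^ 4 + x ^ 5 + x ^ 7 + x ^ 8 + x ^ 11 ∣ 5 * ((-1 + x) ^ 6 * (1 + x) ^ 4 * (1 + x + x ^ 2) ^ 3 * (1 + x ^ 2) ^ 2 * (1 + x + x ^ 2 + x ^ 3 + x ^ 4) ^ 1 * (1 - x + x ^ 2) ^ 2 * (1 + x ^ 4) ^ 1 * (1 + x ^ 3 + x ^ 6) ^ 1 * (1 - x ^ 2 + x ^ 4) ^ 1)) : False := by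
  generalize hk : (-5 + x + x ^ 4 + x ^ 5 + x ^ 7 + x ^ 8 + x ^ 11 : ℤ) = k at h
  simp only [← mul_assoc] at h
  have h12 := dvd_mul_pow_step (B := 1 - x ^ 2 + x ^ 4) (c := 6) (-1) (1 + x + x ^ 2 + x ^ 3 + x ^ 4 + x ^ 5 + x ^ 7)
    (by subst hk; ring) 1 _ h
  clear h
  have h : k ∣ 5 * 6 ^ 1 * (-1 + x) ^ 6 * (1 + x) ^ 4 * (1 + x + x ^ 2) ^ 3 * (1 + x ^ 2) ^ 2 * (1 + x + x ^ 2 + x ^ 3 + x ^ 4) ^ 1 * (1 - x + x ^ 2) ^ 2 * (1 + x ^ 4) ^ 1 * (1 + x ^ 3 + x ^ 6) ^ 1 := by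
    refine dvd_trans h12 (dvd_of_eq ?_); ring
  have h9 := dvd_mul_pow_step (B := 1 + x ^ 3 + x ^ 6) (c := 5) (-1) (x + x ^ 5)
    (by subst hk; ring) 1 _ h
  clear h
  have h : k ∣ 5 * 5 ^ 1 * 6 ^ 1 * (-1 + x) ^ 6 * (1 + x) ^ 4 * (1 + x + x ^ 2) ^ 3 * (1 + x ^ 2) ^ 2 * (1 + x + x ^ 2 + x ^ 3 + x ^ 4) ^ 1 * (1 - x + x ^ 2) ^ 2 * (1 + x ^ 4) ^ 1 := by
    refine dvd_trans h9 (dvd_of_eq ?_); ring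
  have h8 := dvd_mul_pow_step (B := 1 + x ^ 4) (c := 5) (-1) (x + x ^ 4 + x ^ 7)
    (by subst hk; ring) 1 _ h
  clear h
  have h : k ∣ 5 * 5 ^ 1 * 5 ^ 1 * 6 ^ 1 * (-1 + x) ^ 6 * (1 + x) ^ 4 * (1 + x + x ^ 2) ^ 3 * (1 + x ^ 2) ^ 2 * (1 + x + x ^ 2 + x ^ 3 + x ^ 4) ^ 1 * (1 - x + x ^ 2) ^ 2 := by
    refine dvd_trans h8 (dvd_of_eq ?_); ring
  have h6 := dvd_mul_pow_step (B := 1 - x + x ^ 2) (c := 4) (-1) (-1 + x ^ 2 + x ^ 3 + x ^ 4 + x ^ 5 + x ^ 8 + x ^ 9)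
    (by subst hk; ring) 2 _ h
  clear h
  have h : k ∣ 5 * 4 ^ 2 * 5 ^ 1 * 5 ^ 1 * 6 ^ 1 * (-1 + x) ^ 6 * (1 + x) ^ 4 * (1 + x + x ^ 2) ^ 3 * (1 + x ^ 2) ^ 2 * (1 + x + x ^ 2 + x ^ 3 + x ^ 4) ^ 1 := by
    refine dvd_trans h6 (dvd_of_eq ?_); ring
  have h5 := dvd_mul_pow_step (B := 1 + x + x ^ 2 + x ^ 3 + x ^ 4) (c := 781) (-156 - 31 * x - 6 * x ^ 2 - x ^ 3) (1 + 156 * x ^ 4 + 31 * x ^ 5 - 150 * x ^ 6 + 126 * x ^ 7 + 25 * x ^ 8 + 5 * x ^ 9 + x ^ 10)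
    (by subst hk; ring) 1 _ h
  clear h
  have h : k ∣ 5 * 781 ^ 1 * 4 ^ 2 * 5 ^ 1 * 5 ^ 1 * 6 ^ 1 * (-1 + x) ^ 6 * (1 + x) ^ 4 * (1 + x + x ^ 2) ^ 3 * (1 + x ^ 2) ^ 2 := by
    refine dvd_trans h5 (dvd_of_eq ?_); ring
  have h4 := dvd_mul_pow_step (B := 1 + x ^ 2) (c := 3) (-1) (-2 + x + 2 * x ^ 2 - x ^ 3 - x ^ 4 + 2 * x ^ 5 + x ^ 6 - x ^ 7 + x ^ 9)
    (by subst hk; ring) 2 _ h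
  clear h
  have h : k ∣ 5 * 3 ^ 2 * 781 ^ 1 * 4 ^ 2 * 5 ^ 1 * 5 ^ 1 * 6 ^ 1 * (-1 + x) ^ 6 * (1 + x) ^ 4 * (1 + x + x ^ 2) ^ 3 := by
    refine dvd_trans h4 (dvd_of_eq ?_); ring
  have h3 := dvd_mul_pow_step (B := 1 + x + x ^ 2) (c := 8) (-1) (3 - 2 * x - x ^ 2 + 3 * x ^ 3 - x ^ 4 - x ^ 5 + 2 * x ^ 6 - x ^ 8 + x ^ 9)
    (by subst hk; ring) 3 _ h
  clear h
  have h : k ∣ 5 * 8 ^ 3 * 3 ^ 2 * 781 ^ 1 * 4 ^ 2 * 5 ^ 1 * 5 ^ 1 * 6 ^ 1 * (-1 + x) ^ 6 * (1 + x) ^ 4 := by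
    refine dvd_trans h3 (dvd_of_eq ?_); ring
  have h2 := dvd_mul_pow_step (B := 1 + x) (c := 7) (-1) (2 - x + x ^ 2 - x ^ 3 + 2 * x ^ 4 - x ^ 5 + x ^ 6 + x ^ 8 - x ^ 9 + x ^ 10)
    (by subst hk; ring) 4 _ h
  clear h
  have h : k ∣ 5 * 7 ^ 4 * 8 ^ 3 * 3 ^ 2 * 781 ^ 1 * 4 ^ 2 * 5 ^ 1 * 5 ^ 1 * 6 ^ 1 * (-1 + x) ^ 6 := by
    refine dvd_trans h2 (dvd_of_eq ?_); ring
  have h1 := dvd_mul_pow_step (B := -1 + x) (c := 1) (1) (-6 - 5 * x - 5 * x ^ 2 - 5 * x ^ 3 - 4 * x ^ 4 - 3 * x ^ 5 - 3 * x ^ 6 - 2 * x ^ 7 - x ^ 8 - x ^ 9 - x ^ 10)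
    (by subst hk; ring) 6 _ h
  clear h
  have h : k ∣ 5 * 1 ^ 6 * 7 ^ 4 * 8 ^ 3 * 3 ^ 2 * 781 ^ 1 * 4 ^ 2 * 5 ^ 1 * 5 ^ 1 * 6 ^ 1 := by
    refine dvd_trans h1 (dvd_of_eq ?_); ring
  have hle := Int.le_of_dvd (by norm_num) h
  obtain ⟨u, hu, rfl⟩ : ∃ u, 0 ≤ u ∧ x = 19 + u := ⟨x - 19, by omega, by ring⟩
  have e : k - 103690008576000 = 12818130363433 + 67449209809932 * u + 17749192731348 * u ^ 2 + 2802431128230 * u ^ 3 + 294987036501 * u ^ 4 + 21735588708 * u ^ 5 + 1143967979 * u ^ 6 + 43006083 * u ^ 7 + 1131736 * u ^ 8 + 19855 * u ^ 9 + 209 * u ^ 10 + u ^ 11 := by subst hk; ring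
  have : 0 < k - 103690008576000 := by rw [e]; positivity
  norm_num at hle
  linarith

theorem small_6 {x : ℤ} (hx : 136 ≤ x) (h : 6 + 5 * x + 5 * x ^ 2 + 5 * x ^ 3 + 4 * x ^ 4 + 3 * x ^ 5 + 3 * x ^ 6 + 2 * x ^ 7 + x ^ 8 + x ^ 9 + x ^ 10 ∣ 6 * ((-1 + x) ^ 5 * (1 + x) ^ 4 * (1 + x + x ^ 2) ^ 3 * (1 + x ^ 2) ^ 2 * (1 + x + x ^ 2 + x ^ 3 + x ^ 4) ^ 1 * (1 - x + x ^ 2) ^ 2 * (1 + x ^ 4) ^ 1 * (1 + x ^ 3 + x ^ 6) ^ 1 * (1 - x ^ 2 + x ^ 4) ^ 1)) : False := by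
  generalize hk : (6 + 5 * x + 5 * x ^ 2 + 5 * x ^ 3 + 4 * x ^ 4 + 3 * x ^ 5 + 3 * x ^ 6 + 2 * x ^ 7 + x ^ 8 + x ^ 9 + x ^ 10 : ℤ) = k at h
  simp only [← mul_assoc] at h
  have h12 := dvd_mul_pow_step (B := 1 - x ^ 2 + x ^ 4) (c := 7) (1 - x) (1 + x + x ^ 2 + x ^ 3 + x ^ 4 + x ^ 5 + x ^ 7)
    (by subst hk; ring) 1 _ h
  clear h
  have h : k ∣ 6 * 7 ^ 1 * (-1 + x) ^ 5 * (1 + x) ^ 4 * (1 + x + x ^ 2) ^ 3 * (1 + x ^ 2) ^ 2 * (1 + x + x ^ 2 + x ^ 3 + x ^ 4) ^ 1 * (1 - x + x ^ 2) ^ 2 * (1 + x ^ 4) ^ 1 * (1 + x ^ 3 + x ^ 6) ^ 1 := by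
    refine dvd_trans h12 (dvd_of_eq ?_); ring
  have h9 := dvd_mul_pow_step (B := 1 + x ^ 3 + x ^ 6) (c := 6) (1 - x) (x + x ^ 5)
    (by subst hk; ring) 1 _ h
  clear h
  have h : k ∣ 6 * 6 ^ 1 * 7 ^ 1 * (-1 + x) ^ 5 * (1 + x) ^ 4 * (1 + x + x ^ 2) ^ 3 * (1 + x ^ 2) ^ 2 * (1 + x + x ^ 2 + x ^ 3 + x ^ 4) ^ 1 * (1 - x + x ^ 2) ^ 2 * (1 + x ^ 4) ^ 1 := by
    refine dvd_trans h9 (dvd_of_eq ?_); ring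
  have h8 := dvd_mul_pow_step (B := 1 + x ^ 4) (c := 6) (1 - x) (x + x ^ 4 + x ^ 7)
    (by subst hk; ring) 1 _ h
  clear h
  have h : k ∣ 6 * 6 ^ 1 * 6 ^ 1 * 7 ^ 1 * (-1 + x) ^ 5 * (1 + x) ^ 4 * (1 + x + x ^ 2) ^ 3 * (1 + x ^ 2) ^ 2 * (1 + x + x ^ 2 + x ^ 3 + x ^ 4) ^ 1 * (1 - x + x ^ 2) ^ 2 := by
    refine dvd_trans h8 (dvd_of_eq ?_); ring
  have h6 := dvd_mul_pow_step (B := 1 - x + x ^ 2) (c := 5) (1 - x) (-1 + x ^ 2 + x ^ 3 + x ^ 4 + x ^ 5 + x ^ 8 + x ^ 9)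
    (by subst hk; ring) 2 _ h
  clear h
  have h : k ∣ 6 * 5 ^ 2 * 6 ^ 1 * 6 ^ 1 * 7 ^ 1 * (-1 + x) ^ 5 * (1 + x) ^ 4 * (1 + x + x ^ 2) ^ 3 * (1 + x ^ 2) ^ 2 * (1 + x + x ^ 2 + x ^ 3 + x ^ 4) ^ 1 := by
    refine dvd_trans h6 (dvd_of_eq ?_); ring
  have h5 := dvd_mul_pow_step (B := 1 + x + x ^ 2 + x ^ 3 + x ^ 4) (c := 311) (52 - 43 * x - 7 * x ^ 2 - x ^ 3) (-1 - x - x ^ 2 - x ^ 3 + 51 * x ^ 4 + 8 * x ^ 5 - 51 * x ^ 6 + 43 * x ^ 7 + 7 * x ^ 8 + x ^ 9)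
    (by subst hk; ring) 1 _ h
  clear h
  have h : k ∣ 6 * 311 ^ 1 * 5 ^ 2 * 6 ^ 1 * 6 ^ 1 * 7 ^ 1 * (-1 + x) ^ 5 * (1 + x) ^ 4 * (1 + x + x ^ 2) ^ 3 * (1 + x ^ 2) ^ 2 := by
    refine dvd_trans h5 (dvd_of_eq ?_); ring
  have h4 := dvd_mul_pow_step (B := 1 + x ^ 2) (c := 4) (1 - x) (-2 + x + 2 * x ^ 2 - x ^ 3 - x ^ 4 + 2 * x ^ 5 + x ^ 6 - x ^ 7 + x ^ 9)
    (by subst hk; ring) 2 _ h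
  clear h
  have h : k ∣ 6 * 4 ^ 2 * 311 ^ 1 * 5 ^ 2 * 6 ^ 1 * 6 ^ 1 * 7 ^ 1 * (-1 + x) ^ 5 * (1 + x) ^ 4 * (1 + x + x ^ 2) ^ 3 := by
    refine dvd_trans h4 (dvd_of_eq ?_); ring
  have h3 := dvd_mul_pow_step (B := 1 + x + x ^ 2) (c := 9) (1 - x) (3 - 2 * x - x ^ 2 + 3 * x ^ 3 - x ^ 4 - x ^ 5 + 2 * x ^ 6 - x ^ 8 + x ^ 9)
    (by subst hk; ring) 3 _ h
  clear h
  have h : k ∣ 6 * 9 ^ 3 * 4 ^ 2 * 311 ^ 1 * 5 ^ 2 * 6 ^ 1 * 6 ^ 1 * 7 ^ 1 * (-1 + x) ^ 5 * (1 + x) ^ 4 := by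
    refine dvd_trans h3 (dvd_of_eq ?_); ring
  have h2 := dvd_mul_pow_step (B := 1 + x) (c := 4) (1) (-2 - 3 * x - 2 * x ^ 2 - 3 * x ^ 3 - x ^ 4 - 2 * x ^ 5 - x ^ 6 - x ^ 7 - x ^ 9)
    (by subst hk; ring) 4 _ h
  clear h
  have h : k ∣ 6 * 4 ^ 4 * 9 ^ 3 * 4 ^ 2 * 311 ^ 1 * 5 ^ 2 * 6 ^ 1 * 6 ^ 1 * 7 ^ 1 * (-1 + x) ^ 5 := by
    refine dvd_trans h2 (dvd_of_eq ?_); ring
  have h1 := dvd_mul_pow_step (B := -1 + x) (c := 36) (1) (-30 - 25 * x - 20 * x ^ 2 - 15 * x ^ 3 - 11 * x ^ 4 - 8 * x ^ 5 - 5 * x ^ 6 - 3 * x ^ 7 - 2 * x ^ 8 - x ^ 9)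
    (by subst hk; ring) 5 _ h
  clear h
  have h : k ∣ 6 * 36 ^ 5 * 4 ^ 4 * 9 ^ 3 * 4 ^ 2 * 311 ^ 1 * 5 ^ 2 * 6 ^ 1 * 6 ^ 1 * 7 ^ 1 := by
    refine dvd_trans h1 (dvd_of_eq ?_); ring
  have hle := Int.le_of_dvd (by norm_num) h
  obtain ⟨u, hu, rfl⟩ : ∃ u, 0 ≤ u ∧ x = 136 + u := ⟨x - 136, by omega, by ring⟩
  have e : k - 2122521846404559667200 = 58170490786200098286 + 160226231390333063445 * u + 5297679193368304125 * u ^ 2 + 103799249385281541 * u ^ 3 + 1334665350670140 * u ^ 4 + 11767766791187 * u ^ 5 + 72053241459 * u ^ 6 + 302521666 * u ^ 7 + 833545 * u ^ 8 + 1361 * u ^ 9 + u ^ 10 := by subst hk; ring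
  have : 0 < k - 2122521846404559667200 := by rw [e]; positivity
  norm_num at hle
  linarith

end CfsgLib.RootChain.E6
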