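import Cfsg.Agent.Lib.RootChain.ArithE6

/-! The numbers just below the minimal degree of type E8 do not divide the order. -/

set_option autoImplicit false

namespace CfsgLib.RootChain.E8

open E6

theorem small_1 {x : ℤ} (hx : 8 ≤ x) (h : -1 + x ^ 3 + x ^ 5 + x ^ 7 + x ^ 9 + x ^ 11 + x ^ 13 - x ^ 16 + x ^ 19 + x ^ 20 + x ^ 21 ∣ 1 * ((-1 + x) ^ 8 * (1 + x) ^ 8 * (1 + x + x ^ 2) ^ 4 * (1 + x ^ 2) ^ 4 * (1 + x + x ^ 2 + x ^ 3 + x ^ 4) ^ 2 * (1 - x + x ^ 2) ^ 4 * (1 + x + x ^ 2 + x ^ 3 + x ^ 4 + x ^ 5 + x ^ 6) ^ 1 * (1 + x ^ 4) ^ 2 * (1 + x ^ 3 + x ^ 6) ^ 1 * (1 - x + x ^ 2 - x ^ 3 + x ^ 4) ^ 2 * (1 - x ^ 2 + x ^ 4) ^ 2 * (1 - x + x ^ 2 - x ^ 3 + x ^ 4 - x ^ 5 + x ^ 6) ^ 1 * (1 - x ^ 3 + x ^ 6) ^ 1 * (1 - x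 ^ 2 + x ^ 4 - x ^ 6 + x ^ 8) ^ 1 * (1 - x ^ 4 + x ^ 8) ^ 1 * (1 + x - x ^ 3 - x ^ 4 - x ^ 5 + x ^ 7 + x ^ 8) ^ 1)) : False := by
  generalize hk : (-1 + x ^ 3 + x ^ 5 + x ^ 7 + x ^ 9 + x ^ 11 + x ^ 13 - x ^ 16 + x ^ 19 + x ^ 20 + x ^ 21 : ℤ) = k at h
  simp only [← mul_assoc] at h
  have h30 := dvd_mul_pow_step (B := 1 + x - x ^ 3 - x ^ 4 - x ^ 5 + x ^ 7 + x ^ 8) (c := 1) (x - x ^ 3 - x ^ 5 + x ^ 7) (1 + x ^ 16 - x ^ 20)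
    (by subst hk; ring) 1 _ h
  clear h
  have h : k ∣ 1 * 1 ^ 1 * (-1 + x) ^ 8 * (1 + x) ^ 8 * (1 + x + x ^ 2) ^ 4 * (1 + x ^ 2) ^ 4 * (1 + x + x ^ 2 + x ^ 3 + x ^ 4) ^ 2 * (1 - x + x ^ 2) ^ 4 * (1 + x + x ^ 2 + x ^ 3 + x ^ 4 + x ^ 5 + x ^ 6) ^ 1 * (1 + x ^ 4) ^ 2 * (1 + x ^ 3 + x ^ 6) ^ 1 * (1 - x + x ^ 2 - x ^ 3 + x ^ 4) ^ 2 * (1 - x ^ 2 + x ^ 4) ^ 2 * (1 - x + x ^ 2 - x ^ 3 + x ^ 4 - x ^ 5 + x ^ 6) ^ 1 * (1 - x ^ 3 + x ^ 6) ^ 1 * (1 - x ^ 2 + x ^ 4 - x ^ 6 + x ^ 8) ^ 1 * (1 - x ^ 4 + x ^ 8) ^ 1 := by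
    refine dvd_trans h30 (dvd_of_eq ?_); ring
  have h24 := dvd_mul_pow_step (B := 1 - x ^ 4 + x ^ 8) (c := 1) (x - x ^ 3 - x ^ 5 + x ^ 7) (1 + x - x ^ 3 - x ^ 9 + x ^ 11 - x ^ 13 + x ^ 15 + x ^ 16 + x ^ 17 - x ^ 19 - x ^ 20)
    (by subst hk; ring) 1 _ h
  clear h
  have h : k ∣ 1 * 1 ^ 1 * 1 ^ 1 * (-1 + x) ^ 8 * (1 + x) ^ 8 * (1 + x + x ^ 2) ^ 4 * (1 + x ^ 2) ^ 4 * (1 + x + x ^ 2 + x ^ 3 + x ^ 4) ^ 2 * (1 - x + x ^ 2) ^ 4 * (1 + x + x ^ 2 + x ^ 3 + x ^ 4 + x ^ 5 + x ^ 6) ^ 1 * (1 + x ^ 4) ^ 2 * (1 + x ^ 3 + x ^ 6) ^ 1 * (1 - x + x ^ 2 - x ^ 3 + x ^ 4) ^ 2 * (1 - x ^ 2 + x ^ 4) ^ 2 * (1 - x + x ^ 2 - x ^ 3 + x ^ 4 - x ^ 5 + x ^ 6) ^ 1 * (1 - x ^ 3 + x ^ 6) ^ 1 * (1 - x ^ 2 + x ^ 4 - x ^ 6 + x ^ 8) ^ 1 :=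 by
    refine dvd_trans h24 (dvd_of_eq ?_); ring
  have h20 := dvd_mul_pow_step (B := 1 - x ^ 2 + x ^ 4 - x ^ 6 + x ^ 8) (c := 1) (x - x ^ 2 - x ^ 3 + 2 * x ^ 4 - x ^ 5 - x ^ 6 + x ^ 7) (1 + x - x ^ 5 - x ^ 11 + x ^ 15 + x ^ 16 - x ^ 20)
    (by subst hk; ring) 1 _ h
  clear h
  have h : k ∣ 1 * 1 ^ 1 * 1 ^ 1 * 1 ^ 1 * (-1 + x) ^ 8 * (1 + x) ^ 8 * (1 + x + x ^ 2) ^ 4 * (1 + x ^ 2) ^ 4 * (1 + x + x ^ 2 + x ^ 3 + x ^ 4) ^ 2 * (1 - x + x ^ 2) ^ 4 * (1 + x + x ^ 2 + x ^ 3 + x ^ 4 + x ^ 5 + x ^ 6) ^ 1 * (1 + x ^ 4) ^ 2 * (1 + x ^ 3 + x ^ 6) ^ 1 * (1 - x + x ^ 2 - x ^ 3 + x ^ 4) ^ 2 * (1 - x ^ 2 + x ^ 4) ^ 2 * (1 - x + x ^ 2 - x ^ 3 + x ^ 4 - x ^ 5 + x ^ 6) ^ 1 * (1 - x ^ 3 + x ^ 6) ^ 1 := by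
    refine dvd_trans h20 (dvd_of_eq ?_); ring
  have h18 := dvd_mul_pow_step (B := 1 - x ^ 3 + x ^ 6) (c := 3) (-x + 2 * x ^ 2 - 3 * x ^ 3 + 2 * x ^ 4 - x ^ 5) (3 - x + 2 * x ^ 2 + 2 * x ^ 4 - x ^ 5 + x ^ 6 - x ^ 7 + 2 * x ^ 8 - 3 * x ^ 9 + 2 * x ^ 10 - x ^ 11 + x ^ 12 - x ^ 13 + 2 * x ^ 14 + x ^ 16 + 2 * x ^ 18 - x ^ 19 + x ^ 20)
    (by subst hk; ring) 1 _ h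
  clear h
  have h : k ∣ 1 * 3 ^ 1 * 1 ^ 1 * 1 ^ 1 * 1 ^ 1 * (-1 + x) ^ 8 * (1 + x) ^ 8 * (1 + x + x ^ 2) ^ 4 * (1 + x ^ 2) ^ 4 * (1 + x + x ^ 2 + x ^ 3 + x ^ 4) ^ 2 * (1 - x + x ^ 2) ^ 4 * (1 + x + x ^ 2 + x ^ 3 + x ^ 4 + x ^ 5 + x ^ 6) ^ 1 * (1 + x ^ 4) ^ 2 * (1 + x ^ 3 + x ^ 6) ^ 1 * (1 - x + x ^ 2 - x ^ 3 + x ^ 4) ^ 2 * (1 - x ^ 2 + x ^ 4) ^ 2 * (1 - x + x ^ 2 - x ^ 3 + x ^ 4 - x ^ 5 + x ^ 6) ^ 1 := by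
    refine dvd_trans h18 (dvd_of_eq ?_); ring
  have h14 := dvd_mul_pow_step (B := 1 - x + x ^ 2 - x ^ 3 + x ^ 4 - x ^ 5 + x ^ 6) (c := 1) (-1 + x ^ 2 - x ^ 3 + x ^ 4 - x ^ 5) (x ^ 2 + x ^ 3 + x ^ 4 + x ^ 8 + x ^ 12 + x ^ 13 + x ^ 14 - x ^ 15 - x ^ 16 + x ^ 18 + x ^ 19 + x ^ 20)
    (by subst hk; ring) 1 _ h
  clear h
  have h : k ∣ 1 * 1 ^ 1 * 3 ^ 1 * 1 ^ 1 * 1 ^ 1 * 1 ^ 1 * (-1 + x) ^ 8 * (1 + x) ^ 8 * (1 + x + x ^ 2) ^ 4 * (1 + x ^ 2) ^ 4 * (1 + x + x ^ 2 + x ^ 3 + x ^ 4) ^ 2 * (1 - x + x ^ 2) ^ 4 * (1 + x + x ^ 2 + x ^ 3 + x ^ 4 + x ^ 5 + x ^ 6) ^ 1 * (1 + x ^ 4) ^ 2 * (1 + x ^ 3 + x ^ 6) ^ 1 * (1 - x + x ^ 2 - x ^ 3 + x ^ 4) ^ 2 * (1 - x ^ 2 + x ^ 4) ^ 2 := by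
    refine dvd_trans h14 (dvd_of_eq ?_); ring
  have h12 := dvd_mul_pow_step (B := 1 - x ^ 2 + x ^ 4) (c := 1) (-2 + x + 2 * x ^ 2 - 2 * x ^ 3) (-1 + x + x ^ 2 + x ^ 3 + x ^ 4 + x ^ 6 - x ^ 7 + x ^ 8 - x ^ 9 + x ^ 10 + x ^ 12 + x ^ 13 + x ^ 14 - x ^ 15 - x ^ 17 + x ^ 18 + 2 * x ^ 20)
    (by subst hk; ring) 2 _ h
  clear h
  have h : k ∣ 1 * 1 ^ 2 * 1 ^ 1 * 3 ^ 1 * 1 ^ 1 * 1 ^ 1 * 1 ^ 1 * (-1 + x) ^ 8 * (1 + x) ^ 8 * (1 + x + x ^ 2) ^ 4 * (1 + x ^ 2) ^ 4 * (1 + x + x ^ 2 + x ^ 3 + x ^ 4) ^ 2 * (1 - x + x ^ 2) ^ 4 * (1 + x + x ^ 2 + x ^ 3 + x ^ 4 + x ^ 5 + x ^ 6) ^ 1 * (1 + x ^ 4) ^ 2 * (1 + x ^ 3 + x ^ 6) ^ 1 * (1 - x + x ^ 2 - x ^ 3 + x ^ 4) ^ 2 := by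
    refine dvd_trans h12 (dvd_of_eq ?_); ring
  have h10 := dvd_mul_pow_step (B := 1 - x + x ^ 2 - x ^ 3 + x ^ 4) (c := 1) (1 - 2 * x + 2 * x ^ 2 - x ^ 3) (2 - 3 * x ^ 5 + 3 * x ^ 10 - 2 * x ^ 15 + x ^ 20)
    (by subst hk; ring) 2 _ h
  clear h
  have h : k ∣ 1 * 1 ^ 2 * 1 ^ 2 * 1 ^ 1 * 3 ^ 1 * 1 ^ 1 * 1 ^ 1 * 1 ^ 1 * (-1 + x) ^ 8 * (1 + x) ^ 8 * (1 + x + x ^ 2) ^ 4 * (1 + x ^ 2) ^ 4 * (1 + x + x ^ 2 + x ^ 3 + x ^ 4) ^ 2 * (1 - x + x ^ 2) ^ 4 * (1 + x + x ^ 2 + x ^ 3 + x ^ 4 + x ^ 5 + x ^ 6) ^ 1 * (1 + x ^ 4) ^ 2 * (1 + x ^ 3 + x ^ 6) ^ 1 := by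
    refine dvd_trans h10 (dvd_of_eq ?_); ring
  have h9 := dvd_mul_pow_step (B := 1 + x ^ 3 + x ^ 6) (c := 19) (-12 - 3 * x + 4 * x ^ 2 - 11 * x ^ 3 + 2 * x ^ 4 - 9 * x ^ 5) (7 - 3 * x + 4 * x ^ 2 - 6 * x ^ 3 + 8 * x ^ 4 - 5 * x ^ 5 + 13 * x ^ 6 + x ^ 7 + 24 * x ^ 8 - x ^ 9 + 14 * x ^ 10 - 13 * x ^ 11 + 11 * x ^ 12 - 9 * x ^ 13 + 12 * x ^ 14 - 16 * x ^ 15 + 3 * x ^ 16 - 4 * x ^ 17 + 18 * x ^ 18 + 7 * x ^ 19 + 9 * x ^ 20)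
    (by subst hk; ring) 1 _ h
  clear h
  have h : k ∣ 1 * 19 ^ 1 * 1 ^ 2 * 1 ^ 2 * 1 ^ 1 * 3 ^ 1 * 1 ^ 1 * 1 ^ 1 * 1 ^ 1 * (-1 + x) ^ 8 * (1 + x) ^ 8 * (1 + x + x ^ 2) ^ 4 * (1 + x ^ 2) ^ 4 * (1 + x + x ^ 2 + x ^ 3 + x ^ 4) ^ 2 * (1 - x + x ^ 2) ^ 4 * (1 + x + x ^ 2 + x ^ 3 + x ^ 4 + x ^ 5 + x ^ 6) ^ 1 * (1 + x ^ 4) ^ 2 := by
    refine dvd_trans h9 (dvd_of_eq ?_); ring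
  have h8 := dvd_mul_pow_step (B := 1 + x ^ 4) (c := 1) (-3 + 2 * x - 2 * x ^ 3) (-2 + 2 * x + x ^ 3 + x ^ 5 + 2 * x ^ 7 + 2 * x ^ 9 + x ^ 11 + x ^ 13 - x ^ 15 - x ^ 16 + x ^ 17 + 2 * x ^ 19 + 2 * x ^ 20)
    (by subst hk; ring) 2 _ h
  clear h
  have h : k ∣ 1 * 1 ^ 2 * 19 ^ 1 * 1 ^ 2 * 1 ^ 2 * 1 ^ 1 * 3 ^ 1 * 1 ^ 1 * 1 ^ 1 * 1 ^ 1 * (-1 + x) ^ 8 * (1 + x) ^ 8 * (1 + x + x ^ 2) ^ 4 * (1 + x ^ 2) ^ 4 * (1 + x + x ^ 2 + x ^ 3 + x ^ 4) ^ 2 * (1 - x + x ^ 2) ^ 4 * (1 + x + x ^ 2 + x ^ 3 + x ^ 4 + x ^ 5 + x ^ 6) ^ 1 := by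
    refine dvd_trans h8 (dvd_of_eq ?_); ring
  have h7 := dvd_mul_pow_step (B := 1 + x + x ^ 2 + x ^ 3 + x ^ 4 + x ^ 5 + x ^ 6) (c := 7) (1 + 2 * x + 3 * x ^ 2 - 3 * x ^ 3 + 5 * x ^ 4 - x ^ 5) (8 - 6 * x + x ^ 2 - 7 * x ^ 3 + 7 * x ^ 4 - 8 * x ^ 5 + 6 * x ^ 6 - 2 * x ^ 7 + 5 * x ^ 8 - 10 * x ^ 9 + 4 * x ^ 10 - 4 * x ^ 11 + 3 * x ^ 12 - 5 * x ^ 13 + 9 * x ^ 14 - 5 * x ^ 15 + 3 * x ^ 16 - 4 * x ^ 17 + 3 * x ^ 18 - 5 * x ^ 19 + x ^ 20)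
    (by subst hk; ring) 1 _ h
  clear h
  have h : k ∣ 1 * 7 ^ 1 * 1 ^ 2 * 19 ^ 1 * 1 ^ 2 * 1 ^ 2 * 1 ^ 1 * 3 ^ 1 * 1 ^ 1 * 1 ^ 1 * 1 ^ 1 * (-1 + x) ^ 8 * (1 + x) ^ 8 * (1 + x + x ^ 2) ^ 4 * (1 + x ^ 2) ^ 4 * (1 + x + x ^ 2 + x ^ 3 + x ^ 4) ^ 2 * (1 - x + x ^ 2) ^ 4 := by
    refine dvd_trans h7 (dvd_of_eq ?_); ring
  have h6 := dvd_mul_pow_step (B := 1 - x + x ^ 2) (c := 3) (-x) (3 + 2 * x - x ^ 2 - 3 * x ^ 3 - x ^ 4 + 2 * x ^ 5 + 4 * x ^ 6 + 2 * x ^ 7 - x ^ 8 - 3 * x ^ 9 - x ^ 10 + 2 * x ^ 11 + 4 * x ^ 12 + 2 * x ^ 13 - x ^ 14 - 3 * x ^ 15 - 2 * x ^ 16 + 2 * x ^ 18 + 2 * x ^ 19 + x ^ 20)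
    (by subst hk; ring) 4 _ h
  clear h
  have h : k ∣ 1 * 3 ^ 4 * 7 ^ 1 * 1 ^ 2 * 19 ^ 1 * 1 ^ 2 * 1 ^ 2 * 1 ^ 1 * 3 ^ 1 * 1 ^ 1 * 1 ^ 1 * 1 ^ 1 * (-1 + x) ^ 8 * (1 + x) ^ 8 * (1 + x + x ^ 2) ^ 4 * (1 + x ^ 2) ^ 4 * (1 + x + x ^ 2 + x ^ 3 + x ^ 4) ^ 2 := by
    refine dvd_trans h6 (dvd_of_eq ?_); ring
  have h5 := dvd_mul_pow_step (B := 1 + x + x ^ 2 + x ^ 3 + x ^ 4) (c := 1) (-1 - x ^ 3) (x ^ 5 + x ^ 10 + x ^ 20)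
    (by subst hk; ring) 2 _ h
  clear h
  have h : k ∣ 1 * 1 ^ 2 * 3 ^ 4 * 7 ^ 1 * 1 ^ 2 * 19 ^ 1 * 1 ^ 2 * 1 ^ 2 * 1 ^ 1 * 3 ^ 1 * 1 ^ 1 * 1 ^ 1 * 1 ^ 1 * (-1 + x) ^ 8 * (1 + x) ^ 8 * (1 + x + x ^ 2) ^ 4 * (1 + x ^ 2) ^ 4 := by
    refine dvd_trans h5 (dvd_of_eq ?_); ring
  have h4 := dvd_mul_pow_step (B := 1 + x ^ 2) (c := 1) (-1) (x ^ 3 + x ^ 7 + x ^ 11 - x ^ 16 + x ^ 18 + x ^ 19)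
    (by subst hk; ring) 4 _ h
  clear h
  have h : k ∣ 1 * 1 ^ 4 * 1 ^ 2 * 3 ^ 4 * 7 ^ 1 * 1 ^ 2 * 19 ^ 1 * 1 ^ 2 * 1 ^ 2 * 1 ^ 1 * 3 ^ 1 * 1 ^ 1 * 1 ^ 1 * 1 ^ 1 * (-1 + x) ^ 8 * (1 + x) ^ 8 * (1 + x + x ^ 2) ^ 4 := by
    refine dvd_trans h4 (dvd_of_eq ?_); ring
  have h3 := dvd_mul_pow_step (B := 1 + x + x ^ 2) (c := 1) (x) (1 - x ^ 2 + x ^ 3 - x ^ 4 - x ^ 8 + x ^ 9 - x ^ 10 - x ^ 14 + x ^ 15 - x ^ 20)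
    (by subst hk; ring) 4 _ h
  clear h
  have h : k ∣ 1 * 1 ^ 4 * 1 ^ 4 * 1 ^ 2 * 3 ^ 4 * 7 ^ 1 * 1 ^ 2 * 19 ^ 1 * 1 ^ 2 * 1 ^ 2 * 1 ^ 1 * 3 ^ 1 * 1 ^ 1 * 1 ^ 1 * 1 ^ 1 * (-1 + x) ^ 8 * (1 + x) ^ 8 := by
    refine dvd_trans h3 (dvd_of_eq ?_); ring
  have h2 := dvd_mul_pow_step (B := 1 + x) (c := 9) (-1) (8 - 8 * x + 8 * x ^ 2 - 7 * x ^ 3 + 7 * x ^ 4 - 6 * x ^ 5 + 6 * x ^ 6 - 5 * x ^ 7 + 5 * x ^ 8 - 4 * x ^ 9 + 4 * x ^ 10 - 3 * x ^ 11 + 3 * x ^ 12 - 2 * x ^ 13 + 2 * x ^ 14 - 2 * x ^ 15 + x ^ 16 - x ^ 17 + x ^ 18 + x ^ 20)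
    (by subst hk; ring) 8 _ h
  clear h
  have h : k ∣ 1 * 9 ^ 8 * 1 ^ 4 * 1 ^ 4 * 1 ^ 2 * 3 ^ 4 * 7 ^ 1 * 1 ^ 2 * 19 ^ 1 * 1 ^ 2 * 1 ^ 2 * 1 ^ 1 * 3 ^ 1 * 1 ^ 1 * 1 ^ 1 * 1 ^ 1 * (-1 + x) ^ 8 := by
    refine dvd_trans h2 (dvd_of_eq ?_); ring
  have h1 := dvd_mul_pow_step (B := -1 + x) (c := 7) (1) (-8 - 8 * x - 8 * x ^ 2 - 7 * x ^ 3 - 7 * x ^ 4 - 6 * x ^ 5 - 6 * x ^ 6 - 5 * x ^ 7 - 5 * x ^ 8 - 4 * x ^ 9 - 4 * x ^ 10 - 3 * x ^ 11 - 3 * x ^ 12 - 2 * x ^ 13 - 2 * x ^ 14 - 2 * x ^ 15 - 3 * x ^ 16 - 3 * x ^ 17 - 3 * x ^ 18 - 2 * x ^ 19 - x ^ 20)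
    (by subst hk; ring) 8 _ h
  clear h
  have h : k ∣ 1 * 7 ^ 8 * 9 ^ 8 * 1 ^ 4 * 1 ^ 4 * 1 ^ 2 * 3 ^ 4 * 7 ^ 1 * 1 ^ 2 * 19 ^ 1 * 1 ^ 2 * 1 ^ 2 * 1 ^ 1 * 3 ^ 1 * 1 ^ 1 * 1 ^ 1 * 1 ^ 1 := by
    refine dvd_trans h1 (dvd_of_eq ?_); ring
  have hle := Int.le_of_dvd (by norm_num) h
  obtain ⟨u, hu, rfl⟩ : ∃ u, 0 ≤ u ∧ x = 8 + u := ⟨x - 8, by omega, by ring⟩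
  have e : k - 8020146662466011199 = 2499981150576853440 + 27435366885304848576 * u + 34071455892763218968 * u ^ 2 + 26798643504269636225 * u ^ 3 + 14977017800499873320 * u ^ 4 + 6324335791661114689 * u ^ 5 + 2094620429630548024 * u ^ 6 + 557483020997929217 * u ^ 7 + 121175431608322632 * u ^ 8 + 21740647344815553 * u ^ 9 + 3240584280161368 * u ^ 10 + 402537043202945 * u ^ 11 + 41669706530920 * u ^ 12 + 3583679111169 * u ^ 13 + 254398554624 * u ^ 14 + 14748893056 * u ^ 15 + 687137279 * u ^ 16 + 25109184 * u ^ 17 + 693272 * u ^ 18 + 13601 * u ^ 19 + 169 * u ^ 20 + u ^ 21 := by subst hk; ring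
  have : 0 < k - 8020146662466011199 := by rw [e]; positivity
  norm_num at hle
  linarith

theorem small_2 {x : ℤ} (hx : 11 ≤ x) (h : -2 - x + x ^ 2 + 2 * x ^ 5 + x ^ 6 + x ^ 8 - 2 * x ^ 10 + x ^ 12 + x ^ 14 + 2 * x ^ 15 + x ^ 18 - x ^ 20 + x ^ 24 + x ^ 25 ∣ 2 * ((-1 + x) ^ 8 * (1 + x) ^ 8 * (1 + x + x ^ 2) ^ 4 * (1 + x ^ 2) ^ 4 * (1 + x + x ^ 2 + x ^ 3 + x ^ 4) ^ 2 * (1 - x + x ^ 2) ^ 4 * (1 + x + x ^ 2 + x ^ 3 + x ^ 4 + x ^ 5 + x ^ 6) ^ 1 * (1 + x ^ 4) ^ 2 * (1 + x ^ 3 + x ^ 6) ^ 1 * (1 - x + x ^ 2 - x ^ 3 + x ^ 4) ^ 1 * (1 - x ^ 2 + x ^ 4) ^ 2 * (1 - x + x ^ 2 - x ^ 3 + x ^ 4 - x ^ 5 + x ^ 6) ^ 1 * (1 - x + x ^ 3 - x ^ 4 + x ^ 5 - x ^ 7 + x ^ 8) ^ 1 * (1 - x ^ 3 + x ^ 6) ^ 1 * (1 - x ^ 2 + x ^ 4 - x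 ^ 6 + x ^ 8) ^ 1 * (1 - x ^ 4 + x ^ 8) ^ 1 * (1 + x - x ^ 3 - x ^ 4 - x ^ 5 + x ^ 7 + x ^ 8) ^ 1)) : False := by
  generalize hk : (-2 - x + x ^ 2 + 2 * x ^ 5 + x ^ 6 + x ^ 8 - 2 * x ^ 10 + x ^ 12 + x ^ 14 + 2 * x ^ 15 + x ^ 18 - x ^ 20 + x ^ 24 + x ^ 25 : ℤ) = k at h
  simp only [← mul_assoc] at h
  have h30 := dvd_mul_pow_step (B := 1 + x - x ^ 3 - x ^ 4 - x ^ 5 + x ^ 7 + x ^ 8) (c := 3) (-1 + x - x ^ 2 + x ^ 3 - x ^ 4) (1 + x ^ 3 + x ^ 5 + x ^ 7 + x ^ 9 + x ^ 11 + x ^ 13 + x ^ 16 + x ^ 19 - x ^ 20 + x ^ 21)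
    (by subst hk; ring) 1 _ h
  clear h
  have h : k ∣ 2 * 3 ^ 1 * (-1 + x) ^ 8 * (1 + x) ^ 8 * (1 + x + x ^ 2) ^ 4 * (1 + x ^ 2) ^ 4 * (1 + x + x ^ 2 + x ^ 3 + x ^ 4) ^ 2 * (1 - x + x ^ 2) ^ 4 * (1 + x + x ^ 2 + x ^ 3 + x ^ 4 + x ^ 5 + x ^ 6) ^ 1 * (1 + x ^ 4) ^ 2 * (1 + x ^ 3 + x ^ 6) ^ 1 * (1 - x + x ^ 2 - x ^ 3 + x ^ 4) ^ 1 * (1 - x ^ 2 + x ^ 4) ^ 2 * (1 - x + x ^ 2 - x ^ 3 + x ^ 4 - x ^ 5 + x ^ 6) ^ 1 * (1 - x + x ^ 3 - x ^ 4 + x ^ 5 - x ^ 7 + x ^ 8) ^ 1 * (1 - x ^ 3 + x ^ 6) ^ 1 * (1 - x ^ 2 + x ^ 4 - x ^ 6 + x ^ 8) ^ 1 * (1 - x ^ 4 + x ^ 8) ^ 1 := by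
    refine dvd_trans h30 (dvd_of_eq ?_); ring
  have h24 := dvd_mul_pow_step (B := 1 - x ^ 4 + x ^ 8) (c := 2) (-1 + x - x ^ 2 + x ^ 3 - x ^ 4) (x + x ^ 5 + x ^ 7 + 2 * x ^ 11 + x ^ 15 + x ^ 17 + x ^ 21)
    (by subst hk; ring) 1 _ h
  clear h
  have h : k ∣ 2 * 2 ^ 1 * 3 ^ 1 * (-1 + x) ^ 8 * (1 + x) ^ 8 * (1 + x + x ^ 2) ^ 4 * (1 + x ^ 2) ^ 4 * (1 + x + x ^ 2 + x ^ 3 + x ^ 4) ^ 2 * (1 - x + x ^ 2) ^ 4 * (1 + x + x ^ 2 + x ^ 3 + x ^ 4 + x ^ 5 + x ^ 6) ^ 1 * (1 + x ^ 4) ^ 2 * (1 + x ^ 3 + x ^ 6) ^ 1 * (1 - x + x ^ 2 - x ^ 3 + x ^ 4) ^ 1 * (1 - x ^ 2 + x ^ 4) ^ 2 * (1 - x + x ^ 2 - x ^ 3 + x ^ 4 - x ^ 5 + x ^ 6) ^ 1 * (1 - x + x ^ 3 - x ^ 4 + x ^ 5 - x ^ 7 + x ^ 8) ^ 1 * (1 - x ^ 3 + x ^ 6) ^ 1 * (1 - x ^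 2 + x ^ 4 - x ^ 6 + x ^ 8) ^ 1 := by
    refine dvd_trans h24 (dvd_of_eq ?_); ring
  have h20 := dvd_mul_pow_step (B := 1 - x ^ 2 + x ^ 4 - x ^ 6 + x ^ 8) (c := 2) (-1 + x - x ^ 2 + x ^ 3 - x ^ 4) (x + x ^ 3 + x ^ 7 + x ^ 9 + x ^ 13 + x ^ 15 + x ^ 19 + x ^ 21)
    (by subst hk; ring) 1 _ h
  clear h
  have h : k ∣ 2 * 2 ^ 1 * 2 ^ 1 * 3 ^ 1 * (-1 + x) ^ 8 * (1 + x) ^ 8 * (1 + x + x ^ 2) ^ 4 * (1 + x ^ 2) ^ 4 * (1 + x + x ^ 2 + x ^ 3 + x ^ 4) ^ 2 * (1 - x + x ^ 2) ^ 4 * (1 + x + x ^ 2 + x ^ 3 + x ^ 4 + x ^ 5 + x ^ 6) ^ 1 * (1 + x ^ 4) ^ 2 * (1 + x ^ 3 + x ^ 6) ^ 1 * (1 - x + x ^ 2 - x ^ 3 + x ^ 4) ^ 1 * (1 - x ^ 2 + x ^ 4) ^ 2 * (1 - x + x ^ 2 - x ^ 3 + x ^ 4 - x ^ 5 + x ^ 6) ^ 1 * (1 - x + x ^ 3 - x ^ 4 +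 x ^ 5 - x ^ 7 + x ^ 8) ^ 1 * (1 - x ^ 3 + x ^ 6) ^ 1 := by
    refine dvd_trans h20 (dvd_of_eq ?_); ring
  have h18 := dvd_mul_pow_step (B := 1 - x ^ 3 + x ^ 6) (c := 127) (-59 + 20 * x - 24 * x ^ 2 + 37 * x ^ 3 - 19 * x ^ 4 - 28 * x ^ 5) (9 - 19 * x + 31 * x ^ 2 + 39 * x ^ 3 + 4 * x ^ 4 + 37 * x ^ 5 + 40 * x ^ 6 + 79 * x ^ 7 + 15 * x ^ 8 - 18 * x ^ 9 + 56 * x ^ 10 + 9 * x ^ 11 - 28 * x ^ 12 + 59 * x ^ 13 + 39 * x ^ 14 - 5 * x ^ 15 + 6 * x ^ 16 + 69 * x ^ 17 + 27 * x ^ 18 - 7 * x ^ 19 + 51 * x ^ 20 + 15 * x ^ 21 - 18 * x ^ 22 + 47 * x ^ 23 + 28 * x ^ 24)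
    (by subst hk; ring) 1 _ h
  clear h
  have h : k ∣ 2 * 127 ^ 1 * 2 ^ 1 * 2 ^ 1 * 3 ^ 1 * (-1 + x) ^ 8 * (1 + x) ^ 8 * (1 + x + x ^ 2) ^ 4 * (1 + x ^ 2) ^ 4 * (1 + x + x ^ 2 + x ^ 3 + x ^ 4) ^ 2 * (1 - x + x ^ 2) ^ 4 * (1 + x + x ^ 2 + x ^ 3 + x ^ 4 + x ^ 5 + x ^ 6) ^ 1 * (1 + x ^ 4) ^ 2 * (1 + x ^ 3 + x ^ 6) ^ 1 * (1 - x + x ^ 2 - x ^ 3 + x ^ 4) ^ 1 * (1 - x ^ 2 + x ^ 4) ^ 2 * (1 - x + x ^ 2 - x ^ 3 + x ^ 4 - x ^ 5 + x ^ 6) ^ 1 * (1 - x + x ^ 3 - x ^ 4 + x ^ 5 - x ^ 7 + x ^ 8) ^ 1 := by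
    refine dvd_trans h18 (dvd_of_eq ?_); ring
  have h15 := dvd_mul_pow_step (B := 1 - x + x ^ 3 - x ^ 4 + x ^ 5 - x ^ 7 + x ^ 8) (c := 1) (-1 + x - x ^ 2 + x ^ 3 - x ^ 4) (-1 + x ^ 3 + x ^ 5 + x ^ 7 + x ^ 9 + x ^ 11 + x ^ 13 - x ^ 16 + x ^ 19 + x ^ 20 + x ^ 21)
    (by subst hk; ring) 1 _ h
  clear h
  have h : k ∣ 2 * 1 ^ 1 * 127 ^ 1 * 2 ^ 1 * 2 ^ 1 * 3 ^ 1 * (-1 + x) ^ 8 * (1 + x) ^ 8 * (1 + x + x ^ 2) ^ 4 * (1 + x ^ 2) ^ 4 * (1 + x + x ^ 2 + x ^ 3 + x ^ 4) ^ 2 * (1 - x + x ^ 2) ^ 4 * (1 + x + x ^ 2 + x ^ 3 + x ^ 4 + x ^ 5 + x ^ 6) ^ 1 * (1 + x ^ 4) ^ 2 * (1 + x ^ 3 + x ^ 6) ^ 1 * (1 - x + x ^ 2 - x ^ 3 + x ^ 4) ^ 1 * (1 - x ^ 2 + x ^ 4) ^ 2 * (1 - x + x ^ 2 - x ^ 3 + x ^ 4 - x ^ 5 + x ^ 6) ^ 1 := by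
    refine dvd_trans h15 (dvd_of_eq ?_); ring
  have h14 := dvd_mul_pow_step (B := 1 - x + x ^ 2 - x ^ 3 + x ^ 4 - x ^ 5 + x ^ 6) (c := 43) (-16 + 8 * x - 12 * x ^ 2 + 10 * x ^ 3 - 11 * x ^ 4 - 11 * x ^ 5) (11 + 11 * x - 11 * x ^ 5 - 11 * x ^ 6 + 16 * x ^ 7 + 24 * x ^ 8 + 12 * x ^ 9 + 17 * x ^ 10 + 30 * x ^ 11 + 31 * x ^ 12 + 37 * x ^ 13 + 13 * x ^ 14 - 26 * x ^ 15 - 13 * x ^ 16 + 15 * x ^ 17 + 2 * x ^ 18 + x ^ 19 + 6 * x ^ 20 + 3 * x ^ 21 + 23 * x ^ 22 + 33 * x ^ 23 + 11 * x ^ 24)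
    (by subst hk; ring) 1 _ h
  clear h
  have h : k ∣ 2 * 43 ^ 1 * 1 ^ 1 * 127 ^ 1 * 2 ^ 1 * 2 ^ 1 * 3 ^ 1 * (-1 + x) ^ 8 * (1 + x) ^ 8 * (1 + x + x ^ 2) ^ 4 * (1 + x ^ 2) ^ 4 * (1 + x + x ^ 2 + x ^ 3 + x ^ 4) ^ 2 * (1 - x + x ^ 2) ^ 4 * (1 + x + x ^ 2 + x ^ 3 + x ^ 4 + x ^ 5 + x ^ 6) ^ 1 * (1 + x ^ 4) ^ 2 * (1 + x ^ 3 + x ^ 6) ^ 1 * (1 - x + x ^ 2 - x ^ 3 + x ^ 4) ^ 1 * (1 - x ^ 2 + x ^ 4) ^ 2 := by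
    refine dvd_trans h14 (dvd_of_eq ?_); ring
  have h12 := dvd_mul_pow_step (B := 1 - x ^ 2 + x ^ 4) (c := 2) (x - 2 * x ^ 2 + x ^ 3) (2 + 2 * x - x ^ 2 + x ^ 3 - 2 * x ^ 5 - x ^ 6 - x ^ 8 + 2 * x ^ 10 + x ^ 11 - x ^ 12 + 2 * x ^ 13 - x ^ 14 - x ^ 15 - x ^ 18 + x ^ 20 + x ^ 23 - x ^ 24)
    (by subst hk; ring) 2 _ h
  clear h
  have h : k ∣ 2 * 2 ^ 2 * 43 ^ 1 * 1 ^ 1 * 127 ^ 1 * 2 ^ 1 * 2 ^ 1 * 3 ^ 1 * (-1 + x) ^ 8 * (1 + x) ^ 8 * (1 + x + x ^ 2) ^ 4 * (1 + x ^ 2) ^ 4 * (1 + x + x ^ 2 + x ^ 3 + x ^ 4) ^ 2 * (1 - x + x ^ 2) ^ 4 * (1 + x + x ^ 2 + x ^ 3 + x ^ 4 + x ^ 5 + x ^ 6) ^ 1 * (1 + x ^ 4) ^ 2 * (1 + x ^ 3 + x ^ 6) ^ 1 * (1 - x + x ^ 2 - x ^ 3 + x ^ 4) ^ 1 := by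
    refine dvd_trans h12 (dvd_of_eq ?_); ring
  have h10 := dvd_mul_pow_step (B := 1 - x + x ^ 2 - x ^ 3 + x ^ 4) (c := 12) (-1) (10 + 9 * x + x ^ 3 - 8 * x ^ 5 - 6 * x ^ 6 + x ^ 7 + x ^ 9 + 6 * x ^ 10 + 4 * x ^ 11 + x ^ 13 - 3 * x ^ 15 - 2 * x ^ 16 + x ^ 19 + 2 * x ^ 20 + x ^ 21)
    (by subst hk; ring) 1 _ h
  clear h
  have h : k ∣ 2 * 12 ^ 1 * 2 ^ 2 * 43 ^ 1 * 1 ^ 1 * 127 ^ 1 * 2 ^ 1 * 2 ^ 1 * 3 ^ 1 * (-1 + x) ^ 8 * (1 + x) ^ 8 * (1 + x + x ^ 2) ^ 4 * (1 + x ^ 2) ^ 4 * (1 + x + x ^ 2 + x ^ 3 + x ^ 4) ^ 2 * (1 - x + x ^ 2) ^ 4 * (1 + x + x ^ 2 + x ^ 3 + x ^ 4 + x ^ 5 + x ^ 6) ^ 1 * (1 + x ^ 4) ^ 2 * (1 + x ^ 3 + x ^ 6) ^ 1 := by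
    refine dvd_trans h10 (dvd_of_eq ?_); ring
  have h9 := dvd_mul_pow_step (B := 1 + x ^ 3 + x ^ 6) (c := 57) (-17 + 18 * x - 28 * x ^ 2 + 35 * x ^ 3 - 27 * x ^ 4 + 4 * x ^ 5) (23 + 19 * x - 21 * x ^ 2 + x ^ 3 - 10 * x ^ 4 + x ^ 5 - 12 * x ^ 6 + 25 * x ^ 7 - 5 * x ^ 8 + 12 * x ^ 9 - 2 * x ^ 10 + x ^ 11 - 12 * x ^ 12 + 25 * x ^ 13 - 5 * x ^ 14 - 11 * x ^ 15 - 4 * x ^ 16 + 21 * x ^ 17 - 3 * x ^ 18 + 11 * x ^ 19 - 13 * x ^ 20 - 3 * x ^ 21 - 8 * x ^ 22 + 23 * x ^ 23 - 4 * x ^ 24)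
    (by subst hk; ring) 1 _ h
  clear h
  have h : k ∣ 2 * 57 ^ 1 * 12 ^ 1 * 2 ^ 2 * 43 ^ 1 * 1 ^ 1 * 127 ^ 1 * 2 ^ 1 * 2 ^ 1 * 3 ^ 1 * (-1 + x) ^ 8 * (1 + x) ^ 8 * (1 + x + x ^ 2) ^ 4 * (1 + x ^ 2) ^ 4 * (1 + x + x ^ 2 + x ^ 3 + x ^ 4) ^ 2 * (1 - x + x ^ 2) ^ 4 * (1 + x + x ^ 2 + x ^ 3 + x ^ 4 + x ^ 5 + x ^ 6) ^ 1 * (1 + x ^ 4) ^ 2 := by
    refine dvd_trans h9 (dvd_of_eq ?_); ring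
  have h8 := dvd_mul_pow_step (B := 1 + x ^ 4) (c := 2) (x - x ^ 2 + x ^ 3) (2 + 2 * x - x ^ 2 - 3 * x ^ 5 - x ^ 6 + x ^ 7 - x ^ 8 + x ^ 9 + 2 * x ^ 10 - x ^ 12 - x ^ 14 - 2 * x ^ 15 + x ^ 17 - x ^ 18 + x ^ 19 + x ^ 20 - x ^ 21 - x ^ 24)
    (by subst hk; ring) 2 _ h
  clear h
  have h : k ∣ 2 * 2 ^ 2 * 57 ^ 1 * 12 ^ 1 * 2 ^ 2 * 43 ^ 1 * 1 ^ 1 * 127 ^ 1 * 2 ^ 1 * 2 ^ 1 * 3 ^ 1 * (-1 + x) ^ 8 * (1 + x) ^ 8 * (1 + x + x ^ 2) ^ 4 * (1 + x ^ 2) ^ 4 * (1 + x + x ^ 2 + x ^ 3 + x ^ 4) ^ 2 * (1 - x + x ^ 2) ^ 4 * (1 + x + x ^ 2 + x ^ 3 + x ^ 4 + x ^ 5 + x ^ 6) ^ 1 := by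
    refine dvd_trans h8 (dvd_of_eq ?_); ring
  have h7 := dvd_mul_pow_step (B := 1 + x + x ^ 2 + x ^ 3 + x ^ 4 + x ^ 5 + x ^ 6) (c := 127) (-58 + 40 * x - 38 * x ^ 2 + 50 * x ^ 3 - 33 * x ^ 4 - 11 * x ^ 5) (11 + 11 * x - 11 * x ^ 5 - 11 * x ^ 6 + 58 * x ^ 7 - 40 * x ^ 8 - 20 * x ^ 9 + x ^ 10 + 64 * x ^ 11 - 37 * x ^ 12 + 45 * x ^ 13 + 17 * x ^ 14 - 66 * x ^ 15 - 33 * x ^ 16 + 47 * x ^ 17 + 18 * x ^ 18 + 9 * x ^ 19 + 10 * x ^ 20 + 5 * x ^ 21 - 61 * x ^ 22 + 33 * x ^ 23 + 11 * x ^ 24)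
    (by subst hk; ring) 1 _ h
  clear h
  have h : k ∣ 2 * 127 ^ 1 * 2 ^ 2 * 57 ^ 1 * 12 ^ 1 * 2 ^ 2 * 43 ^ 1 * 1 ^ 1 * 127 ^ 1 * 2 ^ 1 * 2 ^ 1 * 3 ^ 1 * (-1 + x) ^ 8 * (1 + x) ^ 8 * (1 + x + x ^ 2) ^ 4 * (1 + x ^ 2) ^ 4 * (1 + x + x ^ 2 + x ^ 3 + x ^ 4) ^ 2 * (1 - x + x ^ 2) ^ 4 := by
    refine dvd_trans h7 (dvd_of_eq ?_); ring
  have h6 := dvd_mul_pow_step (B := 1 - x + x ^ 2) (c := 2) (1 - x) (4 + 3 * x - 3 * x ^ 2 - 5 * x ^ 3 - 2 * x ^ 4 + x ^ 5 + 4 * x ^ 6 + 4 * x ^ 7 - x ^ 8 - 4 * x ^ 9 - x ^ 10 + x ^ 11 + x ^ 12 + x ^ 13 - x ^ 14 - 3 * x ^ 15 + 3 * x ^ 17 + 2 * x ^ 18 - x ^ 20 - 2 * x ^ 21 - x ^ 22 + x ^ 23 + x ^ 24)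
    (by subst hk; ring) 4 _ h
  clear h
  have h : k ∣ 2 * 2 ^ 4 * 127 ^ 1 * 2 ^ 2 * 57 ^ 1 * 12 ^ 1 * 2 ^ 2 * 43 ^ 1 * 1 ^ 1 * 127 ^ 1 * 2 ^ 1 * 2 ^ 1 * 3 ^ 1 * (-1 + x) ^ 8 * (1 + x) ^ 8 * (1 + x + x ^ 2) ^ 4 * (1 + x ^ 2) ^ 4 * (1 + x + x ^ 2 + x ^ 3 + x ^ 4) ^ 2 := by
    refine dvd_trans h6 (dvd_of_eq ?_); ring
  have h5 := dvd_mul_pow_step (B := 1 + x + x ^ 2 + x ^ 3 + x ^ 4) (c := 2) (x + x ^ 3) (2 - x ^ 2 - x ^ 6 - x ^ 8 + 2 * x ^ 10 - x ^ 12 - x ^ 14 - x ^ 18 + x ^ 20 - x ^ 24)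
    (by subst hk; ring) 2 _ h
  clear h
  have h : k ∣ 2 * 2 ^ 2 * 2 ^ 4 * 127 ^ 1 * 2 ^ 2 * 57 ^ 1 * 12 ^ 1 * 2 ^ 2 * 43 ^ 1 * 1 ^ 1 * 127 ^ 1 * 2 ^ 1 * 2 ^ 1 * 3 ^ 1 * (-1 + x) ^ 8 * (1 + x) ^ 8 * (1 + x + x ^ 2) ^ 4 * (1 + x ^ 2) ^ 4 := by
    refine dvd_trans h5 (dvd_of_eq ?_); ring
  have h4 := dvd_mul_pow_step (B := 1 + x ^ 2) (c := 2) (-1) (-x + x ^ 2 + x ^ 3 - x ^ 4 + x ^ 5 + 2 * x ^ 6 - x ^ 7 - x ^ 8 + x ^ 9 - x ^ 10 - x ^ 11 + 2 * x ^ 12 + x ^ 13 - x ^ 14 + x ^ 15 + x ^ 16 - x ^ 17 + x ^ 19 - x ^ 20 - x ^ 21 + x ^ 22 + x ^ 23)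
    (by subst hk; ring) 4 _ h
  clear h
  have h : k ∣ 2 * 2 ^ 4 * 2 ^ 2 * 2 ^ 4 * 127 ^ 1 * 2 ^ 2 * 57 ^ 1 * 12 ^ 1 * 2 ^ 2 * 43 ^ 1 * 1 ^ 1 * 127 ^ 1 * 2 ^ 1 * 2 ^ 1 * 3 ^ 1 * (-1 + x) ^ 8 * (1 + x) ^ 8 * (1 + x + x ^ 2) ^ 4 := by
    refine dvd_trans h4 (dvd_of_eq ?_); ring
  have h3 := dvd_mul_pow_step (B := 1 + x + x ^ 2) (c := 6) (1 + x) (8 - 5 * x - 3 * x ^ 2 + 7 * x ^ 3 - 4 * x ^ 4 - 5 * x ^ 5 + 6 * x ^ 6 - 2 * x ^ 7 - 5 * x ^ 8 + 6 * x ^ 9 + x ^ 10 - 5 * x ^ 11 + 3 * x ^ 12 + x ^ 13 - 5 * x ^ 14 + x ^ 15 + 2 * x ^ 16 - 3 * x ^ 17 + 2 * x ^ 19 - x ^ 20 + x ^ 22 - x ^ 23 - x ^ 24)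
    (by subst hk; ring) 4 _ h
  clear h
  have h : k ∣ 2 * 6 ^ 4 * 2 ^ 4 * 2 ^ 2 * 2 ^ 4 * 127 ^ 1 * 2 ^ 2 * 57 ^ 1 * 12 ^ 1 * 2 ^ 2 * 43 ^ 1 * 1 ^ 1 * 127 ^ 1 * 2 ^ 1 * 2 ^ 1 * 3 ^ 1 * (-1 + x) ^ 8 * (1 + x) ^ 8 := by
    refine dvd_trans h3 (dvd_of_eq ?_); ring
  have h2 := dvd_mul_pow_step (B := 1 + x) (c := 2) (-1) (-x + 2 * x ^ 2 - 2 * x ^ 3 + 2 * x ^ 4 + x ^ 6 - x ^ 7 + 2 * x ^ 8 - 2 * x ^ 9 + x ^ 12 - x ^ 13 + 2 * x ^ 14 + x ^ 18 - x ^ 19 + x ^ 24)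
    (by subst hk; ring) 8 _ h
  clear h
  have h : k ∣ 2 * 2 ^ 8 * 6 ^ 4 * 2 ^ 4 * 2 ^ 2 * 2 ^ 4 * 127 ^ 1 * 2 ^ 2 * 57 ^ 1 * 12 ^ 1 * 2 ^ 2 * 43 ^ 1 * 1 ^ 1 * 127 ^ 1 * 2 ^ 1 * 2 ^ 1 * 3 ^ 1 * (-1 + x) ^ 8 := by
    refine dvd_trans h2 (dvd_of_eq ?_); ring
  have h1 := dvd_mul_pow_step (B := -1 + x) (c := 6) (1) (-8 - 9 * x - 8 * x ^ 2 - 8 * x ^ 3 - 8 * x ^ 4 - 6 * x ^ 5 - 5 * x ^ 6 - 5 * x ^ 7 - 4 * x ^ 8 - 4 * x ^ 9 - 6 * x ^ 10 - 6 * x ^ 11 - 5 * x ^ 12 - 5 * x ^ 13 - 4 * x ^ 14 - 2 * x ^ 15 - 2 * x ^ 16 - 2 * x ^ 17 - x ^ 18 - x ^ 19 - 2 * x ^ 20 - 2 * x ^ 21 - 2 * x ^ 22 - 2 * x ^ 23 - x ^ 24)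
    (by subst hk; ring) 8 _ h
  clear h
  have h : k ∣ 2 * 6 ^ 8 * 2 ^ 8 * 6 ^ 4 * 2 ^ 4 * 2 ^ 2 * 2 ^ 4 * 127 ^ 1 * 2 ^ 2 * 57 ^ 1 * 12 ^ 1 * 2 ^ 2 * 43 ^ 1 * 1 ^ 1 * 127 ^ 1 * 2 ^ 1 * 2 ^ 1 * 3 ^ 1 := by
    refine dvd_trans h1 (dvd_of_eq ?_); ring
  have hle := Int.le_of_dvd (by norm_num) h
  obtain ⟨u, hu, rfl⟩ : ∃ u, 0 ≤ u ∧ x = 11 + u := ⟨x - 11, by omega, by ring⟩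
  have e : k - 103948481662875332392255488 = 14247643265475714618903598 + 267732428661432708713690708 * u + 291095182460895150503876580 * u ^ 2 + 202203856678892321005299030 * u ^ 3 + 100761581777417379283097292 * u ^ 4 + 38342648743081820329524818 * u ^ 5 + 11579602888323499642463346 * u ^ 6 + 2847586823829374258230610 * u ^ 7 + 580473169409018278463203 * u ^ 8 + 99335870252248253919251 * u ^ 9 + 14399203583159314541829 * u ^ 10 + 1778870173575044939554 * u ^ 11 + 188015232917664972832 * u ^ 12 + 17032946592922254896 * u ^ 13 + 1322618101583827687 * u ^ 14 + 87866239580689418 * u ^ 15 + 4974882853671544 * u ^ 16 + 238589793032217 * u ^ 17 + 9605928101067 * u ^ 18 + 320588764584 * u ^ 19 + 8712214895 * u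 ^ 20 + 187902594 * u ^ 21 + 3094696 * u ^ 22 + 36564 * u ^ 23 + 276 * u ^ 24 + u ^ 25 := by subst hk; ring
  have : 0 < k - 103948481662875332392255488 := by rw [e]; positivity
  norm_num at hle
  linarith

theorem small_3 {x : ℤ} (hx : 19 ≤ x) (h : -3 + x + x ^ 7 + x ^ 11 + x ^ 13 + x ^ 17 + x ^ 19 + x ^ 23 + x ^ 29 ∣ 3 * ((-1 + x) ^ 8 * (1 + x) ^ 8 * (1 + x + x ^ 2) ^ 4 * (1 + x ^ 2) ^ 4 * (1 + x + x ^ 2 + x ^ 3 + x ^ 4) ^ 2 * (1 - x + x ^ 2) ^ 4 * (1 + x + x ^ 2 + x ^ 3 + x ^ 4 + x ^ 5 + x ^ 6) ^ 1 * (1 + x ^ 4) ^ 2 * (1 + x ^ 3 + x ^ 6) ^ 1 * (1 - x + x ^ 2 - x ^ 3 + x ^ 4) ^ 2 * (1 - x ^ 2 + x ^ 4) ^ 2 * (1 - x + x ^ 2 - x ^ 3 + x ^ 4 - x ^ 5 + x ^ 6) ^ 1 * (1 - x + x ^ 3 - x ^ 4 + x ^ 5 - x ^ 7 + x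 ^ 8) ^ 1 * (1 - x ^ 3 + x ^ 6) ^ 1 * (1 - x ^ 2 + x ^ 4 - x ^ 6 + x ^ 8) ^ 1 * (1 - x ^ 4 + x ^ 8) ^ 1 * (1 + x - x ^ 3 - x ^ 4 - x ^ 5 + x ^ 7 + x ^ 8) ^ 1)) : False := by
  generalize hk : (-3 + x + x ^ 7 + x ^ 11 + x ^ 13 + x ^ 17 + x ^ 19 + x ^ 23 + x ^ 29 : ℤ) = k at h
  simp only [← mul_assoc] at h
  have h30 := dvd_mul_pow_step (B := 1 + x - x ^ 3 - x ^ 4 - x ^ 5 + x ^ 7 + x ^ 8) (c := 4) (-1) (1 + x ^ 3 + x ^ 5 + x ^ 7 + x ^ 9 + x ^ 11 + x ^ 13 + x ^ 16 + x ^ 19 - x ^ 20 + x ^ 21)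
    (by subst hk; ring) 1 _ h
  clear h
  have h : k ∣ 3 * 4 ^ 1 * (-1 + x) ^ 8 * (1 + x) ^ 8 * (1 + x + x ^ 2) ^ 4 * (1 + x ^ 2) ^ 4 * (1 + x + x ^ 2 + x ^ 3 + x ^ 4) ^ 2 * (1 - x + x ^ 2) ^ 4 * (1 + x + x ^ 2 + x ^ 3 + x ^ 4 + x ^ 5 + x ^ 6) ^ 1 * (1 + x ^ 4) ^ 2 * (1 + x ^ 3 + x ^ 6) ^ 1 * (1 - x + x ^ 2 - x ^ 3 + x ^ 4) ^ 2 * (1 - x ^ 2 + x ^ 4) ^ 2 * (1 - x + x ^ 2 - x ^ 3 + x ^ 4 - x ^ 5 + x ^ 6) ^ 1 * (1 - x + x ^ 3 - x ^ 4 + x ^ 5 - x ^ 7 + x ^ 8) ^ 1 * (1 - x ^ 3 + x ^ 6) ^ 1 * (1 - x ^ 2 + x ^ 4 - x ^ 6 + x ^ 8) ^ 1 * (1 - x ^ 4 + x ^ 8) ^ 1 := by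
    refine dvd_trans h30 (dvd_of_eq ?_); ring
  have h24 := dvd_mul_pow_step (B := 1 - x ^ 4 + x ^ 8) (c := 3) (-1) (x + x ^ 5 + x ^ 7 + 2 * x ^ 11 + x ^ 15 + x ^ 17 + x ^ 21)
    (by subst hk; ring) 1 _ h
  clear h
  have h : k ∣ 3 * 3 ^ 1 * 4 ^ 1 * (-1 + x) ^ 8 * (1 + x) ^ 8 * (1 + x + x ^ 2) ^ 4 * (1 + x ^ 2) ^ 4 * (1 + x + x ^ 2 + x ^ 3 + x ^ 4) ^ 2 * (1 - x + x ^ 2) ^ 4 * (1 + x + x ^ 2 + x ^ 3 + x ^ 4 + x ^ 5 + x ^ 6) ^ 1 * (1 + x ^ 4) ^ 2 * (1 + x ^ 3 + x ^ 6) ^ 1 * (1 - x + x ^ 2 - x ^ 3 + x ^ 4) ^ 2 * (1 - x ^ 2 + x ^ 4) ^ 2 * (1 - x + x ^ 2 - x ^ 3 + x ^ 4 - x ^ 5 + x ^ 6) ^ 1 * (1 - x + x ^ 3 - x ^ 4 + x ^ 5 - x ^ 7 + x ^ 8) ^ 1 * (1 - x ^ 3 + x ^ 6) ^ 1 * (1 - x ^ 2 + x ^ 4 - x ^ 6 + x ^ 8) ^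 1 := by
    refine dvd_trans h24 (dvd_of_eq ?_); ring
  have h20 := dvd_mul_pow_step (B := 1 - x ^ 2 + x ^ 4 - x ^ 6 + x ^ 8) (c := 3) (-1) (x + x ^ 3 + x ^ 7 + x ^ 9 + x ^ 13 + x ^ 15 + x ^ 19 + x ^ 21)
    (by subst hk; ring) 1 _ h
  clear h
  have h : k ∣ 3 * 3 ^ 1 * 3 ^ 1 * 4 ^ 1 * (-1 + x) ^ 8 * (1 + x) ^ 8 * (1 + x + x ^ 2) ^ 4 * (1 + x ^ 2) ^ 4 * (1 + x + x ^ 2 + x ^ 3 + x ^ 4) ^ 2 * (1 - x + x ^ 2) ^ 4 * (1 + x + x ^ 2 + x ^ 3 + x ^ 4 + x ^ 5 + x ^ 6) ^ 1 * (1 + x ^ 4) ^ 2 * (1 + x ^ 3 + x ^ 6) ^ 1 * (1 - x + x ^ 2 - x ^ 3 + x ^ 4) ^ 2 * (1 - x ^ 2 + x ^ 4) ^ 2 * (1 - x + x ^ 2 - x ^ 3 + x ^ 4 - x ^ 5 + x ^ 6) ^ 1 * (1 - x + x ^ 3 - x ^ 4 + x ^ 5 - x ^ 7 + x ^ 8) ^ 1 * (1 - x ^ 3 + x ^ 6) ^ 1 :=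 by
    refine dvd_trans h20 (dvd_of_eq ?_); ring
  have h18 := dvd_mul_pow_step (B := 1 - x ^ 3 + x ^ 6) (c := 991) (-324 - 114 * x + 70 * x ^ 2 + 55 * x ^ 3 + x ^ 4 - 18 * x ^ 5) (19 - 18 * x + 324 * x ^ 2 + 114 * x ^ 3 - 70 * x ^ 4 + 269 * x ^ 5 + 113 * x ^ 6 + 272 * x ^ 7 + 59 * x ^ 8 - 71 * x ^ 9 + 287 * x ^ 10 + 113 * x ^ 11 - 52 * x ^ 12 + 269 * x ^ 13 + 113 * x ^ 14 - 52 * x ^ 15 - 55 * x ^ 16 + 323 * x ^ 17 + 132 * x ^ 18 - 70 * x ^ 19 + 269 * x ^ 20 + 113 * x ^ 21 - 52 * x ^ 22 + 269 * x ^ 23 + 113 * x ^ 24 - 52 * x ^ 25 - 55 * x ^ 26 - x ^ 27 + 18 * x ^ 28)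
    (by subst hk; ring) 1 _ h
  clear h
  have h : k ∣ 3 * 991 ^ 1 * 3 ^ 1 * 3 ^ 1 * 4 ^ 1 * (-1 + x) ^ 8 * (1 + x) ^ 8 * (1 + x + x ^ 2) ^ 4 * (1 + x ^ 2) ^ 4 * (1 + x + x ^ 2 + x ^ 3 + x ^ 4) ^ 2 * (1 - x + x ^ 2) ^ 4 * (1 + x + x ^ 2 + x ^ 3 + x ^ 4 + x ^ 5 + x ^ 6) ^ 1 * (1 + x ^ 4) ^ 2 * (1 + x ^ 3 + x ^ 6) ^ 1 * (1 - x + x ^ 2 - x ^ 3 + x ^ 4) ^ 2 * (1 - x ^ 2 + x ^ 4) ^ 2 * (1 - x + x ^ 2 - x ^ 3 + x ^ 4 - x ^ 5 + x ^ 6) ^ 1 * (1 - x + x ^ 3 - x ^ 4 + x ^ 5 - x ^ 7 + x ^ 8) ^ 1 := by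
    refine dvd_trans h18 (dvd_of_eq ?_); ring
  have h15 := dvd_mul_pow_step (B := 1 - x + x ^ 3 - x ^ 4 + x ^ 5 - x ^ 7 + x ^ 8) (c := 2) (-1) (-1 + x ^ 3 + x ^ 5 + x ^ 7 + x ^ 9 + x ^ 11 + x ^ 13 - x ^ 16 + x ^ 19 + x ^ 20 + x ^ 21)
    (by subst hk; ring) 1 _ h
  clear h
  have h : k ∣ 3 * 2 ^ 1 * 991 ^ 1 * 3 ^ 1 * 3 ^ 1 * 4 ^ 1 * (-1 + x) ^ 8 * (1 + x) ^ 8 * (1 + x + x ^ 2) ^ 4 * (1 + x ^ 2) ^ 4 * (1 + x + x ^ 2 + x ^ 3 + x ^ 4) ^ 2 * (1 - x + x ^ 2) ^ 4 * (1 + x + x ^ 2 + x ^ 3 + x ^ 4 + x ^ 5 + x ^ 6) ^ 1 * (1 + x ^ 4) ^ 2 * (1 + x ^ 3 + x ^ 6) ^ 1 * (1 - x + x ^ 2 - x ^ 3 + x ^ 4) ^ 2 * (1 - x ^ 2 + x ^ 4) ^ 2 * (1 - x + x ^ 2 - x ^ 3 + x ^ 4 - x ^ 5 + x ^ 6) ^ 1 := by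
    refine dvd_trans h15 (dvd_of_eq ?_); ring
  have h14 := dvd_mul_pow_step (B := 1 - x + x ^ 2 - x ^ 3 + x ^ 4 - x ^ 5 + x ^ 6) (c := 547) (-182 - 61 * x - 20 * x ^ 2 - 7 * x ^ 3 - 2 * x ^ 4 - x ^ 5) (1 + 182 * x ^ 7 + 243 * x ^ 8 + 81 * x ^ 9 + 27 * x ^ 10 + 191 * x ^ 11 + 246 * x ^ 12 + 264 * x ^ 13 + 88 * x ^ 14 - 153 * x ^ 15 - 51 * x ^ 16 + 165 * x ^ 17 + 55 * x ^ 18 + 18 * x ^ 19 + 6 * x ^ 20 + 2 * x ^ 21 + 183 * x ^ 22 + 243 * x ^ 23 + 81 * x ^ 24 + 27 * x ^ 25 + 9 * x ^ 26 + 3 * x ^ 27 + x ^ 28)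
    (by subst hk; ring) 1 _ h
  clear h
  have h : k ∣ 3 * 547 ^ 1 * 2 ^ 1 * 991 ^ 1 * 3 ^ 1 * 3 ^ 1 * 4 ^ 1 * (-1 + x) ^ 8 * (1 + x) ^ 8 * (1 + x + x ^ 2) ^ 4 * (1 + x ^ 2) ^ 4 * (1 + x + x ^ 2 + x ^ 3 + x ^ 4) ^ 2 * (1 - x + x ^ 2) ^ 4 * (1 + x + x ^ 2 + x ^ 3 + x ^ 4 + x ^ 5 + x ^ 6) ^ 1 * (1 + x ^ 4) ^ 2 * (1 + x ^ 3 + x ^ 6) ^ 1 * (1 - x + x ^ 2 - x ^ 3 + x ^ 4) ^ 2 * (1 - x ^ 2 + x ^ 4) ^ 2 := by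
    refine dvd_trans h14 (dvd_of_eq ?_); ring
  have h12 := dvd_mul_pow_step (B := 1 - x ^ 2 + x ^ 4) (c := 3) (-1) (x + x ^ 3 + x ^ 11 + 2 * x ^ 13 + x ^ 15 + x ^ 23 + x ^ 25)
    (by subst hk; ring) 2 _ h
  clear h
  have h : k ∣ 3 * 3 ^ 2 * 547 ^ 1 * 2 ^ 1 * 991 ^ 1 * 3 ^ 1 * 3 ^ 1 * 4 ^ 1 * (-1 + x) ^ 8 * (1 + x) ^ 8 * (1 + x + x ^ 2) ^ 4 * (1 + x ^ 2) ^ 4 * (1 + x + x ^ 2 + x ^ 3 + x ^ 4) ^ 2 * (1 - x + x ^ 2) ^ 4 * (1 + x + x ^ 2 + x ^ 3 + x ^ 4 + x ^ 5 + x ^ 6) ^ 1 * (1 + x ^ 4) ^ 2 * (1 + x ^ 3 + x ^ 6) ^ 1 * (1 - x + x ^ 2 - x ^ 3 + x ^ 4) ^ 2 := by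
    refine dvd_trans h12 (dvd_of_eq ?_); ring
  have h10 := dvd_mul_pow_step (B := 1 - x + x ^ 2 - x ^ 3 + x ^ 4) (c := 1) (-1) (-2 - x + x ^ 2 + 2 * x ^ 5 + x ^ 6 + x ^ 8 - 2 * x ^ 10 + x ^ 12 + x ^ 14 + 2 * x ^ 15 + x ^ 18 - x ^ 20 + x ^ 24 + x ^ 25)
    (by subst hk; ring) 2 _ h
  clear h
  have h : k ∣ 3 * 1 ^ 2 * 3 ^ 2 * 547 ^ 1 * 2 ^ 1 * 991 ^ 1 * 3 ^ 1 * 3 ^ 1 * 4 ^ 1 * (-1 + x) ^ 8 * (1 + x) ^ 8 * (1 + x + x ^ 2) ^ 4 * (1 + x ^ 2) ^ 4 * (1 + x + x ^ 2 + x ^ 3 + x ^ 4) ^ 2 * (1 - x + x ^ 2) ^ 4 * (1 + x + x ^ 2 + x ^ 3 + x ^ 4 + x ^ 5 + x ^ 6) ^ 1 * (1 + x ^ 4) ^ 2 * (1 + x ^ 3 + x ^ 6) ^ 1 := by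
    refine dvd_trans h10 (dvd_of_eq ?_); ring
  have h9 := dvd_mul_pow_step (B := 1 + x ^ 3 + x ^ 6) (c := 1117) (-342 - 102 * x - 148 * x ^ 2 - 53 * x ^ 3 - 55 * x ^ 4 - 36 * x ^ 5) (91 + 36 * x - 342 * x ^ 2 - 102 * x ^ 3 - 148 * x ^ 4 + 289 * x ^ 5 + 47 * x ^ 6 + 454 * x ^ 7 + 155 * x ^ 8 + 203 * x ^ 9 - 253 * x ^ 10 - 47 * x ^ 11 - 112 * x ^ 12 + 289 * x ^ 13 + 47 * x ^ 14 + 112 * x ^ 15 + 53 * x ^ 16 + 397 * x ^ 17 + 138 * x ^ 18 + 148 * x ^ 19 - 289 * x ^ 20 - 47 * x ^ 21 - 112 * x ^ 22 + 289 * x ^ 23 + 47 * x ^ 24 + 112 * x ^ 25 + 53 * x ^ 26 + 55 * x ^ 27 + 36 * x ^ 28)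
    (by subst hk; ring) 1 _ h
  clear h
  have h : k ∣ 3 * 1117 ^ 1 * 1 ^ 2 * 3 ^ 2 * 547 ^ 1 * 2 ^ 1 * 991 ^ 1 * 3 ^ 1 * 3 ^ 1 * 4 ^ 1 * (-1 + x) ^ 8 * (1 + x) ^ 8 * (1 + x + x ^ 2) ^ 4 * (1 + x ^ 2) ^ 4 * (1 + x + x ^ 2 + x ^ 3 + x ^ 4) ^ 2 * (1 - x + x ^ 2) ^ 4 * (1 + x + x ^ 2 + x ^ 3 + x ^ 4 + x ^ 5 + x ^ 6) ^ 1 * (1 + x ^ 4) ^ 2 := by
    refine dvd_trans h9 (dvd_of_eq ?_); ring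
  have h8 := dvd_mul_pow_step (B := 1 + x ^ 4) (c := 3) (-1) (x - x ^ 5 + x ^ 7 + x ^ 9 + x ^ 17 + x ^ 19 - x ^ 21 + x ^ 25)
    (by subst hk; ring) 2 _ h
  clear h
  have h : k ∣ 3 * 3 ^ 2 * 1117 ^ 1 * 1 ^ 2 * 3 ^ 2 * 547 ^ 1 * 2 ^ 1 * 991 ^ 1 * 3 ^ 1 * 3 ^ 1 * 4 ^ 1 * (-1 + x) ^ 8 * (1 + x) ^ 8 * (1 + x + x ^ 2) ^ 4 * (1 + x ^ 2) ^ 4 * (1 + x + x ^ 2 + x ^ 3 + x ^ 4) ^ 2 * (1 - x + x ^ 2) ^ 4 * (1 + x + x ^ 2 + x ^ 3 + x ^ 4 + x ^ 5 + x ^ 6) ^ 1 := by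
    refine dvd_trans h8 (dvd_of_eq ?_); ring
  have h7 := dvd_mul_pow_step (B := 1 + x + x ^ 2 + x ^ 3 + x ^ 4 + x ^ 5 + x ^ 6) (c := 1093) (-364 - 121 * x - 40 * x ^ 2 - 13 * x ^ 3 - 4 * x ^ 4 - x ^ 5) (1 + 364 * x ^ 7 - 243 * x ^ 8 - 81 * x ^ 9 - 27 * x ^ 10 + 355 * x ^ 11 - 246 * x ^ 12 + 282 * x ^ 13 + 94 * x ^ 14 - 333 * x ^ 15 - 111 * x ^ 16 + 327 * x ^ 17 + 109 * x ^ 18 + 36 * x ^ 19 + 12 * x ^ 20 + 4 * x ^ 21 - 363 * x ^ 22 + 243 * x ^ 23 + 81 * x ^ 24 + 27 * x ^ 25 + 9 * x ^ 26 + 3 * x ^ 27 + x ^ 28)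
    (by subst hk; ring) 1 _ h
  clear h
  have h : k ∣ 3 * 1093 ^ 1 * 3 ^ 2 * 1117 ^ 1 * 1 ^ 2 * 3 ^ 2 * 547 ^ 1 * 2 ^ 1 * 991 ^ 1 * 3 ^ 1 * 3 ^ 1 * 4 ^ 1 * (-1 + x) ^ 8 * (1 + x) ^ 8 * (1 + x + x ^ 2) ^ 4 * (1 + x ^ 2) ^ 4 * (1 + x + x ^ 2 + x ^ 3 + x ^ 4) ^ 2 * (1 - x + x ^ 2) ^ 4 := by
    refine dvd_trans h7 (dvd_of_eq ?_); ring
  have h6 := dvd_mul_pow_step (B := 1 - x + x ^ 2) (c := 1) (1) (4 + 3 * x - x ^ 2 - 4 * x ^ 3 - 3 * x ^ 4 + x ^ 5 + 4 * x ^ 6 + 2 * x ^ 7 - 2 * x ^ 8 - 4 * x ^ 9 - 2 * x ^ 10 + x ^ 11 + 3 * x ^ 12 + x ^ 13 - 2 * x ^ 14 - 3 * x ^ 15 - x ^ 16 + x ^ 17 + 2 * x ^ 18 - 2 * x ^ 20 - 2 * x ^ 21 + x ^ 23 + x ^ 24 - x ^ 26 - x ^ 27)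
    (by subst hk; ring) 4 _ h
  clear h
  have h : k ∣ 3 * 1 ^ 4 * 1093 ^ 1 * 3 ^ 2 * 1117 ^ 1 * 1 ^ 2 * 3 ^ 2 * 547 ^ 1 * 2 ^ 1 * 991 ^ 1 * 3 ^ 1 * 3 ^ 1 * 4 ^ 1 * (-1 + x) ^ 8 * (1 + x) ^ 8 * (1 + x + x ^ 2) ^ 4 * (1 + x ^ 2) ^ 4 * (1 + x + x ^ 2 + x ^ 3 + x ^ 4) ^ 2 := by
    refine dvd_trans h6 (dvd_of_eq ?_); ring
  have h5 := dvd_mul_pow_step (B := 1 + x + x ^ 2 + x ^ 3 + x ^ 4) (c := 5) (-1) (2 - x - x ^ 2 + 2 * x ^ 5 - x ^ 6 - x ^ 8 + 2 * x ^ 10 - x ^ 12 - x ^ 14 + 2 * x ^ 15 - x ^ 18 + x ^ 20 - x ^ 24 + x ^ 25)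
    (by subst hk; ring) 2 _ h
  clear h
  have h : k ∣ 3 * 5 ^ 2 * 1 ^ 4 * 1093 ^ 1 * 3 ^ 2 * 1117 ^ 1 * 1 ^ 2 * 3 ^ 2 * 547 ^ 1 * 2 ^ 1 * 991 ^ 1 * 3 ^ 1 * 3 ^ 1 * 4 ^ 1 * (-1 + x) ^ 8 * (1 + x) ^ 8 * (1 + x + x ^ 2) ^ 4 * (1 + x ^ 2) ^ 4 := by
    refine dvd_trans h5 (dvd_of_eq ?_); ring
  have h4 := dvd_mul_pow_step (B := 1 + x ^ 2) (c := 3) (-1) (x - x ^ 3 + x ^ 5 + x ^ 11 + x ^ 17 + x ^ 23 - x ^ 25 + x ^ 27)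
    (by subst hk; ring) 4 _ h
  clear h
  have h : k ∣ 3 * 3 ^ 4 * 5 ^ 2 * 1 ^ 4 * 1093 ^ 1 * 3 ^ 2 * 1117 ^ 1 * 1 ^ 2 * 3 ^ 2 * 547 ^ 1 * 2 ^ 1 * 991 ^ 1 * 3 ^ 1 * 3 ^ 1 * 4 ^ 1 * (-1 + x) ^ 8 * (1 + x) ^ 8 * (1 + x + x ^ 2) ^ 4 := by
    refine dvd_trans h4 (dvd_of_eq ?_); ring
  have h3 := dvd_mul_pow_step (B := 1 + x + x ^ 2) (c := 7) (-1) (4 - 3 * x - x ^ 2 + 4 * x ^ 3 - 3 * x ^ 4 - x ^ 5 + 4 * x ^ 6 - 2 * x ^ 7 - 2 * x ^ 8 + 4 * x ^ 9 - 2 * x ^ 10 - x ^ 11 + 3 * x ^ 12 - x ^ 13 - 2 * x ^ 14 + 3 * x ^ 15 - x ^ 16 - x ^ 17 + 2 * x ^ 18 - 2 * x ^ 20 + 2 * x ^ 21 - x ^ 23 + x ^ 24 - x ^ 26 + x ^ 27)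
    (by subst hk; ring) 4 _ h
  clear h
  have h : k ∣ 3 * 7 ^ 4 * 3 ^ 4 * 5 ^ 2 * 1 ^ 4 * 1093 ^ 1 * 3 ^ 2 * 1117 ^ 1 * 1 ^ 2 * 3 ^ 2 * 547 ^ 1 * 2 ^ 1 * 991 ^ 1 * 3 ^ 1 * 3 ^ 1 * 4 ^ 1 * (-1 + x) ^ 8 * (1 + x) ^ 8 := by
    refine dvd_trans h3 (dvd_of_eq ?_); ring
  have h2 := dvd_mul_pow_step (B := 1 + x) (c := 11) (-1) (8 - 7 * x + 7 * x ^ 2 - 7 * x ^ 3 + 7 * x ^ 4 - 7 * x ^ 5 + 7 * x ^ 6 - 6 * x ^ 7 + 6 * x ^ 8 - 6 * x ^ 9 + 6 * x ^ 10 - 5 * x ^ 11 + 5 * x ^ 12 - 4 * x ^ 13 + 4 * x ^ 14 - 4 * x ^ 15 + 4 * x ^ 16 - 3 * x ^ 17 + 3 * x ^ 18 - 2 * x ^ 19 + 2 * x ^ 20 - 2 * x ^ 21 + 2 * x ^ 22 - x ^ 23 + x ^ 24 - x ^ 25 + x ^ 26 - x ^ 27 + x ^ 28)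
    (by subst hk; ring) 8 _ h
  clear h
  have h : k ∣ 3 * 11 ^ 8 * 7 ^ 4 * 3 ^ 4 * 5 ^ 2 * 1 ^ 4 * 1093 ^ 1 * 3 ^ 2 * 1117 ^ 1 * 1 ^ 2 * 3 ^ 2 * 547 ^ 1 * 2 ^ 1 * 991 ^ 1 * 3 ^ 1 * 3 ^ 1 * 4 ^ 1 * (-1 + x) ^ 8 := by
    refine dvd_trans h2 (dvd_of_eq ?_); ring
  have h1 := dvd_mul_pow_step (B := -1 + x) (c := 5) (1) (-8 - 7 * x - 7 * x ^ 2 - 7 * x ^ 3 - 7 * x ^ 4 - 7 * x ^ 5 - 7 * x ^ 6 - 6 * x ^ 7 - 6 * x ^ 8 - 6 * x ^ 9 - 6 * x ^ 10 - 5 * x ^ 11 - 5 * x ^ 12 - 4 * x ^ 13 - 4 * x ^ 14 - 4 * x ^ 15 - 4 * x ^ 16 - 3 * x ^ 17 - 3 * x ^ 18 - 2 * x ^ 19 - 2 * x ^ 20 - 2 * x ^ 21 - 2 * x ^ 22 - x ^ 23 - x ^ 24 - x ^ 25 - x ^ 26 - x ^ 27 - x ^ 28)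
    (by subst hk; ring) 8 _ h
  clear h
  have h : k ∣ 3 * 5 ^ 8 * 11 ^ 8 * 7 ^ 4 * 3 ^ 4 * 5 ^ 2 * 1 ^ 4 * 1093 ^ 1 * 3 ^ 2 * 1117 ^ 1 * 1 ^ 2 * 3 ^ 2 * 547 ^ 1 * 2 ^ 1 * 991 ^ 1 * 3 ^ 1 * 3 ^ 1 * 4 ^ 1 := by
    refine dvd_trans h1 (dvd_of_eq ?_); ring
  have hle := Int.le_of_dvd (by norm_num) h
  obtain ⟨u, hu, rfl⟩ : ∃ u, 0 ≤ u ∧ x = 19 + u := ⟨x - 19, by omega, by ring⟩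
  have e : k - 4714024002223600272116090074921875000 = 7415798250197233417776825767675439389 + 18513939145958239967009176569090883320 * u + 13641849847740883640241206428047791680 * u ^ 2 + 6461928856224990308538600408281572200 * u ^ 3 + 2210659866610735375590791137036799058 * u ^ 4 + 581752595370045878558070894206876790 * u ^ 5 + 122474230419809831153487049844099540 * u ^ 6 + 21179754107791300876824727195632540 * u ^ 7 + 3065490723336361268803906264271737 * u ^ 8 + 376463772780130899379671659499853 * u ^ 9 + 39627765535184056197647940042101 * u ^ 10 + 3602524138180997310946783049725 * u ^ 11 + 284409800303958299555665692638 * u ^ 12 + 19574763579847235401760497254 * u ^ 13 + 1177429388103269499865313542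 * u ^ 14 + 61969967789357400882508126 * u ^ 15 + 2853880095398157680690702 * u ^ 16 + 114862047179136892566574 * u ^ 17 + 4030247269360081482122 * u ^ 18 + 122805318455570600466 * u ^ 19 + 3231718906707321184 * u ^ 20 + 72895915188704278 * u ^ 21 + 1395137132796857 * u ^ 22 + 22347734392621 * u ^ 23 + 294049136745 * u ^ 24 + 3095254071 * u ^ 25 + 25062786 * u ^ 26 + 146566 * u ^ 27 + 551 * u ^ 28 + u ^ 29 := by subst hk; ring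
  have : 0 < k - 4714024002223600272116090074921875000 := by rw [e]; positivity
  norm_num at hle
  linarith

theorem small_4 {x : ℤ} (hx : 32 ≤ x) (h : -4 - 3 * x + x ^ 2 + 4 * x ^ 3 + 3 * x ^ 4 - x ^ 5 - 4 * x ^ 6 - 2 * x ^ 7 + 2 * x ^ 8 + 4 * x ^ 9 + 2 * x ^ 10 - x ^ 11 - 3 * x ^ 12 - x ^ 13 + 2 * x ^ 14 + 3 * x ^ 15 + x ^ 16 - x ^ 17 - 2 * x ^ 18 + 2 * x ^ 20 + 2 * x ^ 21 - x ^ 23 - x ^ 24 + x ^ 26 + x ^ 27 ∣ 4 * ((-1 + x) ^ 8 * (1 + x) ^ 8 * (1 + x + x ^ 2) ^ 4 * (1 + x ^ 2) ^ 4 * (1 + x + x ^ 2 + x ^ 3 + x ^ 4) ^ 2 * (1 - x + x ^ 2) ^ 3 * (1 + x + x ^ 2 + x ^ 3 + x ^ 4 + x ^ 5 + x ^ 6) ^ 1 * (1 + x ^ 4) ^ 2 * (1 + x ^ 3 + x ^ 6) ^ 1 * (1 - x + x ^ 2 - x ^ 3 + x ^ 4) ^ 2 * (1 - x ^ 2 + x ^ 4) ^ 2 *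 (1 - x + x ^ 2 - x ^ 3 + x ^ 4 - x ^ 5 + x ^ 6) ^ 1 * (1 - x + x ^ 3 - x ^ 4 + x ^ 5 - x ^ 7 + x ^ 8) ^ 1 * (1 - x ^ 3 + x ^ 6) ^ 1 * (1 - x ^ 2 + x ^ 4 - x ^ 6 + x ^ 8) ^ 1 * (1 - x ^ 4 + x ^ 8) ^ 1 * (1 + x - x ^ 3 - x ^ 4 - x ^ 5 + x ^ 7 + x ^ 8) ^ 1)) : False := by
  generalize hk : (-4 - 3 * x + x ^ 2 + 4 * x ^ 3 + 3 * x ^ 4 - x ^ 5 - 4 * x ^ 6 - 2 * x ^ 7 + 2 * x ^ 8 + 4 * x ^ 9 + 2 * x ^ 10 - x ^ 11 - 3 * x ^ 12 - x ^ 13 + 2 * x ^ 14 + 3 * x ^ 15 + x ^ 16 - x ^ 17 - 2 * x ^ 18 + 2 * x ^ 20 + 2 * x ^ 21 - x ^ 23 - x ^ 24 + x ^ 26 + x ^ 27 : ℤ) = k at h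
  simp only [← mul_assoc] at h
  have h30 := dvd_mul_pow_step (B := 1 + x - x ^ 3 - x ^ 4 - x ^ 5 + x ^ 7 + x ^ 8) (c := 5) (-1 + x - x ^ 2) (1 + x ^ 3 + x ^ 5 + x ^ 7 + x ^ 9 + x ^ 11 + x ^ 13 + x ^ 16 + x ^ 19 - x ^ 20 + x ^ 21)
    (by subst hk; ring) 1 _ h
  clear h
  have h : k ∣ 4 * 5 ^ 1 * (-1 + x) ^ 8 * (1 + x) ^ 8 * (1 + x + x ^ 2) ^ 4 * (1 + x ^ 2) ^ 4 * (1 + x + x ^ 2 + x ^ 3 + x ^ 4) ^ 2 * (1 - x + x ^ 2) ^ 3 * (1 + x + x ^ 2 + x ^ 3 + x ^ 4 + x ^ 5 + x ^ 6) ^ 1 * (1 + x ^ 4) ^ 2 * (1 + x ^ 3 + x ^ 6) ^ 1 * (1 - x + x ^ 2 - x ^ 3 + x ^ 4) ^ 2 * (1 - x ^ 2 + x ^ 4) ^ 2 * (1 - x + x ^ 2 - x ^ 3 + x ^ 4 - x ^ 5 + x ^ 6) ^ 1 * (1 - x + x ^ 3 - x ^ 4 + x ^ 5 - x ^ 7 + x ^ 8) ^ 1 * (1 - x ^ 3 + x ^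 6) ^ 1 * (1 - x ^ 2 + x ^ 4 - x ^ 6 + x ^ 8) ^ 1 * (1 - x ^ 4 + x ^ 8) ^ 1 := by
    refine dvd_trans h30 (dvd_of_eq ?_); ring
  have h24 := dvd_mul_pow_step (B := 1 - x ^ 4 + x ^ 8) (c := 4) (-1 + x - x ^ 2) (x + x ^ 5 + x ^ 7 + 2 * x ^ 11 + x ^ 15 + x ^ 17 + x ^ 21)
    (by subst hk; ring) 1 _ h
  clear h
  have h : k ∣ 4 * 4 ^ 1 * 5 ^ 1 * (-1 + x) ^ 8 * (1 + x) ^ 8 * (1 + x + x ^ 2) ^ 4 * (1 + x ^ 2) ^ 4 * (1 + x + x ^ 2 + x ^ 3 + x ^ 4) ^ 2 * (1 - x + x ^ 2) ^ 3 * (1 + x + x ^ 2 + x ^ 3 + x ^ 4 + x ^ 5 + x ^ 6) ^ 1 * (1 + x ^ 4) ^ 2 * (1 + x ^ 3 + x ^ 6) ^ 1 * (1 - x + x ^ 2 - x ^ 3 + x ^ 4) ^ 2 * (1 - x ^ 2 + x ^ 4) ^ 2 * (1 - x + x ^ 2 - x ^ 3 + x ^ 4 - x ^ 5 + x ^ 6) ^ 1 * (1 - x + x ^ 3 - x ^ 4 +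 x ^ 5 - x ^ 7 + x ^ 8) ^ 1 * (1 - x ^ 3 + x ^ 6) ^ 1 * (1 - x ^ 2 + x ^ 4 - x ^ 6 + x ^ 8) ^ 1 := by
    refine dvd_trans h24 (dvd_of_eq ?_); ring
  have h20 := dvd_mul_pow_step (B := 1 - x ^ 2 + x ^ 4 - x ^ 6 + x ^ 8) (c := 4) (-1 + x - x ^ 2) (x + x ^ 3 + x ^ 7 + x ^ 9 + x ^ 13 + x ^ 15 + x ^ 19 + x ^ 21)
    (by subst hk; ring) 1 _ h
  clear h
  have h : k ∣ 4 * 4 ^ 1 * 4 ^ 1 * 5 ^ 1 * (-1 + x) ^ 8 * (1 + x) ^ 8 * (1 + x + x ^ 2) ^ 4 * (1 + x ^ 2) ^ 4 * (1 + x + x ^ 2 + x ^ 3 + x ^ 4) ^ 2 * (1 - x + x ^ 2) ^ 3 * (1 + x + x ^ 2 + x ^ 3 + x ^ 4 + x ^ 5 + x ^ 6) ^ 1 * (1 + x ^ 4) ^ 2 * (1 + x ^ 3 + x ^ 6) ^ 1 * (1 - x + x ^ 2 - x ^ 3 + x ^ 4) ^ 2 * (1 - x ^ 2 + x ^ 4) ^ 2 * (1 - x + x ^ 2 - x ^ 3 + x ^ 4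 - x ^ 5 + x ^ 6) ^ 1 * (1 - x + x ^ 3 - x ^ 4 + x ^ 5 - x ^ 7 + x ^ 8) ^ 1 * (1 - x ^ 3 + x ^ 6) ^ 1 := by
    refine dvd_trans h20 (dvd_of_eq ?_); ring
  have h18 := dvd_mul_pow_step (B := 1 - x ^ 3 + x ^ 6) (c := 541) (-137 + 104 * x - 75 * x ^ 2 - 43 * x ^ 3 + 5 * x ^ 4 + 12 * x ^ 5) (-7 + 5 * x + 149 * x ^ 2 + 40 * x ^ 3 - 34 * x ^ 4 + 106 * x ^ 5 + 31 * x ^ 6 + 125 * x ^ 7 + 33 * x ^ 8 - 22 * x ^ 9 + 113 * x ^ 10 + 26 * x ^ 11 - 24 * x ^ 12 + 130 * x ^ 13 + 45 * x ^ 14 - 22 * x ^ 15 - 24 * x ^ 16 + 130 * x ^ 17 + 38 * x ^ 18 - 17 * x ^ 19 + 125 * x ^ 20 + 33 * x ^ 21 - 29 * x ^ 22 + 118 * x ^ 23 + 38 * x ^ 24 - 17 * x ^ 25 - 12 * x ^ 26)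
    (by subst hk; ring) 1 _ h
  clear h
  have h : k ∣ 4 * 541 ^ 1 * 4 ^ 1 * 4 ^ 1 * 5 ^ 1 * (-1 + x) ^ 8 * (1 + x) ^ 8 * (1 + x + x ^ 2) ^ 4 * (1 + x ^ 2) ^ 4 * (1 + x + x ^ 2 + x ^ 3 + x ^ 4) ^ 2 * (1 - x + x ^ 2) ^ 3 * (1 + x + x ^ 2 + x ^ 3 + x ^ 4 + x ^ 5 + x ^ 6) ^ 1 * (1 + x ^ 4) ^ 2 * (1 + x ^ 3 + x ^ 6) ^ 1 * (1 - x + x ^ 2 - x ^ 3 + x ^ 4) ^ 2 * (1 - x ^ 2 + x ^ 4) ^ 2 * (1 - x + x ^ 2 - x ^ 3 + x ^ 4 - x ^ 5 + x ^ 6) ^ 1 * (1 - x + x ^ 3 - x ^ 4 + x ^ 5 - x ^ 7 + x ^ 8) ^ 1 := by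
    refine dvd_trans h18 (dvd_of_eq ?_); ring
  have h15 := dvd_mul_pow_step (B := 1 - x + x ^ 3 - x ^ 4 + x ^ 5 - x ^ 7 + x ^ 8) (c := 3) (-1 + x - x ^ 2) (-1 + x ^ 3 + x ^ 5 + x ^ 7 + x ^ 9 + x ^ 11 + x ^ 13 - x ^ 16 + x ^ 19 + x ^ 20 + x ^ 21)
    (by subst hk; ring) 1 _ h
  clear h
  have h : k ∣ 4 * 3 ^ 1 * 541 ^ 1 * 4 ^ 1 * 4 ^ 1 * 5 ^ 1 * (-1 + x) ^ 8 * (1 + x) ^ 8 * (1 + x + x ^ 2) ^ 4 * (1 + x ^ 2) ^ 4 * (1 + x + x ^ 2 + x ^ 3 + x ^ 4) ^ 2 * (1 - x + x ^ 2) ^ 3 * (1 + x + x ^ 2 + x ^ 3 + x ^ 4 + x ^ 5 + x ^ 6) ^ 1 * (1 + x ^ 4) ^ 2 * (1 + x ^ 3 + x ^ 6) ^ 1 * (1 - x + x ^ 2 - x ^ 3 + x ^ 4) ^ 2 * (1 - x ^ 2 + x ^ 4) ^ 2 * (1 - x + x ^ 2 - x ^ 3 + x ^ 4 - x ^ 5 + x ^ 6) ^ 1 := by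
    refine dvd_trans h15 (dvd_of_eq ?_); ring
  have h14 := dvd_mul_pow_step (B := 1 - x + x ^ 2 - x ^ 3 + x ^ 4 - x ^ 5 + x ^ 6) (c := 3277) (-816 + 612 * x - 663 * x ^ 2 - 169 * x ^ 3 - 39 * x ^ 4 - 13 * x ^ 5) (13 + 13 * x - 13 * x ^ 3 - 13 * x ^ 4 + 13 * x ^ 6 + 829 * x ^ 7 + 1020 * x ^ 8 + 242 * x ^ 9 + 54 * x ^ 10 + 836 * x ^ 11 + 1038 * x ^ 12 + 1082 * x ^ 13 + 264 * x ^ 14 - 763 * x ^ 15 - 194 * x ^ 16 + 774 * x ^ 17 + 200 * x ^ 18 + 50 * x ^ 19 + 6 * x ^ 20 - 5 * x ^ 21 + 818 * x ^ 22 + 1027 * x ^ 23 + 260 * x ^ 24 + 65 * x ^ 25 + 13 * x ^ 26)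
    (by subst hk; ring) 1 _ h
  clear h
  have h : k ∣ 4 * 3277 ^ 1 * 3 ^ 1 * 541 ^ 1 * 4 ^ 1 * 4 ^ 1 * 5 ^ 1 * (-1 + x) ^ 8 * (1 + x) ^ 8 * (1 + x + x ^ 2) ^ 4 * (1 + x ^ 2) ^ 4 * (1 + x + x ^ 2 + x ^ 3 + x ^ 4) ^ 2 * (1 - x + x ^ 2) ^ 3 * (1 + x + x ^ 2 + x ^ 3 + x ^ 4 + x ^ 5 + x ^ 6) ^ 1 * (1 + x ^ 4) ^ 2 * (1 + x ^ 3 + x ^ 6) ^ 1 * (1 - x + x ^ 2 - x ^ 3 + x ^ 4) ^ 2 * (1 - x ^ 2 + x ^ 4) ^ 2 := by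
    refine dvd_trans h14 (dvd_of_eq ?_); ring
  have h12 := dvd_mul_pow_step (B := 1 - x ^ 2 + x ^ 4) (c := 4) (-1 + x - x ^ 2) (x + x ^ 3 + x ^ 11 + 2 * x ^ 13 + x ^ 15 + x ^ 23 + x ^ 25)
    (by subst hk; ring) 2 _ h
  clear h
  have h : k ∣ 4 * 4 ^ 2 * 3277 ^ 1 * 3 ^ 1 * 541 ^ 1 * 4 ^ 1 * 4 ^ 1 * 5 ^ 1 * (-1 + x) ^ 8 * (1 + x) ^ 8 * (1 + x + x ^ 2) ^ 4 * (1 + x ^ 2) ^ 4 * (1 + x + x ^ 2 + x ^ 3 + x ^ 4) ^ 2 * (1 - x + x ^ 2) ^ 3 * (1 + x + x ^ 2 + x ^ 3 + x ^ 4 + x ^ 5 + x ^ 6) ^ 1 * (1 + x ^ 4) ^ 2 * (1 + x ^ 3 + x ^ 6) ^ 1 * (1 - x + x ^ 2 - x ^ 3 + x ^ 4) ^ 2 := by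
    refine dvd_trans h12 (dvd_of_eq ?_); ring
  have h10 := dvd_mul_pow_step (B := 1 - x + x ^ 2 - x ^ 3 + x ^ 4) (c := 2) (-1 + x - x ^ 2) (-2 - x + x ^ 2 + 2 * x ^ 5 + x ^ 6 + x ^ 8 - 2 * x ^ 10 + x ^ 12 + x ^ 14 + 2 * x ^ 15 + x ^ 18 - x ^ 20 + x ^ 24 + x ^ 25)
    (by subst hk; ring) 2 _ h
  clear h
  have h : k ∣ 4 * 2 ^ 2 * 4 ^ 2 * 3277 ^ 1 * 3 ^ 1 * 541 ^ 1 * 4 ^ 1 * 4 ^ 1 * 5 ^ 1 * (-1 + x) ^ 8 * (1 + x) ^ 8 * (1 + x + x ^ 2) ^ 4 * (1 + x ^ 2) ^ 4 * (1 + x + x ^ 2 + x ^ 3 + x ^ 4) ^ 2 * (1 - x + x ^ 2) ^ 3 * (1 + x + x ^ 2 + x ^ 3 + x ^ 4 + x ^ 5 + x ^ 6) ^ 1 * (1 + x ^ 4) ^ 2 * (1 + x ^ 3 + x ^ 6) ^ 1 := by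
    refine dvd_trans h10 (dvd_of_eq ?_); ring
  have h9 := dvd_mul_pow_step (B := 1 + x ^ 3 + x ^ 6) (c := 5149) (-1191 + 1008 * x - 1333 * x ^ 2 + 15 * x ^ 3 - 311 * x ^ 4 - 74 * x ^ 5) (385 + 459 * x - 1117 * x ^ 2 - 568 * x ^ 3 - 784 * x ^ 4 + 990 * x ^ 5 + 455 * x ^ 6 + 1915 * x ^ 7 + 437 * x ^ 8 + 166 * x ^ 9 - 1403 * x ^ 10 - 250 * x ^ 11 - 106 * x ^ 12 + 1350 * x ^ 13 + 137 * x ^ 14 + 46 * x ^ 15 - 106 * x ^ 16 + 1350 * x ^ 17 + 522 * x ^ 18 + 505 * x ^ 19 - 1223 * x ^ 20 - 409 * x ^ 21 - 445 * x ^ 22 + 1170 * x ^ 23 + 296 * x ^ 24 + 385 * x ^ 25 + 74 * x ^ 26)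
    (by subst hk; ring) 1 _ h
  clear h
  have h : k ∣ 4 * 5149 ^ 1 * 2 ^ 2 * 4 ^ 2 * 3277 ^ 1 * 3 ^ 1 * 541 ^ 1 * 4 ^ 1 * 4 ^ 1 * 5 ^ 1 * (-1 + x) ^ 8 * (1 + x) ^ 8 * (1 + x + x ^ 2) ^ 4 * (1 + x ^ 2) ^ 4 * (1 + x + x ^ 2 + x ^ 3 + x ^ 4) ^ 2 * (1 - x + x ^ 2) ^ 3 * (1 + x + x ^ 2 + x ^ 3 + x ^ 4 + x ^ 5 + x ^ 6) ^ 1 * (1 + x ^ 4) ^ 2 := by
    refine dvd_trans h9 (dvd_of_eq ?_); ring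
  have h8 := dvd_mul_pow_step (B := 1 + x ^ 4) (c := 4) (-1 + x - x ^ 2) (x - x ^ 5 + x ^ 7 + x ^ 9 + x ^ 17 + x ^ 19 - x ^ 21 + x ^ 25)
    (by subst hk; ring) 2 _ h
  clear h
  have h : k ∣ 4 * 4 ^ 2 * 5149 ^ 1 * 2 ^ 2 * 4 ^ 2 * 3277 ^ 1 * 3 ^ 1 * 541 ^ 1 * 4 ^ 1 * 4 ^ 1 * 5 ^ 1 * (-1 + x) ^ 8 * (1 + x) ^ 8 * (1 + x + x ^ 2) ^ 4 * (1 + x ^ 2) ^ 4 * (1 + x + x ^ 2 + x ^ 3 + x ^ 4) ^ 2 * (1 - x + x ^ 2) ^ 3 * (1 + x + x ^ 2 + x ^ 3 + x ^ 4 + x ^ 5 + x ^ 6) ^ 1 := by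
    refine dvd_trans h8 (dvd_of_eq ?_); ring
  have h7 := dvd_mul_pow_step (B := 1 + x + x ^ 2 + x ^ 3 + x ^ 4 + x ^ 5 + x ^ 6) (c := 5461) (-1362 + 1028 * x - 1105 * x ^ 2 - 273 * x ^ 3 - 65 * x ^ 4 - 13 * x ^ 5) (13 + 13 * x - 13 * x ^ 3 - 13 * x ^ 4 + 13 * x ^ 6 + 1375 * x ^ 7 - 1028 * x ^ 8 - 270 * x ^ 9 - 74 * x ^ 10 + 1350 * x ^ 11 - 1018 * x ^ 12 + 1114 * x ^ 13 + 272 * x ^ 14 - 1307 * x ^ 15 - 330 * x ^ 16 + 1286 * x ^ 17 + 328 * x ^ 18 + 82 * x ^ 19 + 14 * x ^ 20 - 3 * x ^ 21 - 1366 * x ^ 22 + 1027 * x ^ 23 + 260 * x ^ 24 + 65 * x ^ 25 + 13 * x ^ 26)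
    (by subst hk; ring) 1 _ h
  clear h
  have h : k ∣ 4 * 5461 ^ 1 * 4 ^ 2 * 5149 ^ 1 * 2 ^ 2 * 4 ^ 2 * 3277 ^ 1 * 3 ^ 1 * 541 ^ 1 * 4 ^ 1 * 4 ^ 1 * 5 ^ 1 * (-1 + x) ^ 8 * (1 + x) ^ 8 * (1 + x + x ^ 2) ^ 4 * (1 + x ^ 2) ^ 4 * (1 + x + x ^ 2 + x ^ 3 + x ^ 4) ^ 2 * (1 - x + x ^ 2) ^ 3 := by
    refine dvd_trans h7 (dvd_of_eq ?_); ring
  have h6 := dvd_mul_pow_step (B := 1 - x + x ^ 2) (c := 40) (-1) (36 + 33 * x - 2 * x ^ 2 - 31 * x ^ 3 - 26 * x ^ 4 + 4 * x ^ 5 + 26 * x ^ 6 + 20 * x ^ 7 - 4 * x ^ 8 - 20 * x ^ 9 - 14 * x ^ 10 + 5 * x ^ 11 + 16 * x ^ 12 + 10 * x ^ 13 - 4 * x ^ 14 - 11 * x ^ 15 - 6 * x ^ 16 + 4 * x ^ 17 + 8 * x ^ 18 + 4 * x ^ 19 - 2 * x ^ 20 - 4 * x ^ 21 - 2 * x ^ 22 + x ^ 23 + 2 * x ^ 24 +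 x ^ 25)
    (by subst hk; ring) 3 _ h
  clear h
  have h : k ∣ 4 * 40 ^ 3 * 5461 ^ 1 * 4 ^ 2 * 5149 ^ 1 * 2 ^ 2 * 4 ^ 2 * 3277 ^ 1 * 3 ^ 1 * 541 ^ 1 * 4 ^ 1 * 4 ^ 1 * 5 ^ 1 * (-1 + x) ^ 8 * (1 + x) ^ 8 * (1 + x + x ^ 2) ^ 4 * (1 + x ^ 2) ^ 4 * (1 + x + x ^ 2 + x ^ 3 + x ^ 4) ^ 2 := by
    refine dvd_trans h6 (dvd_of_eq ?_); ring
  have h5 := dvd_mul_pow_step (B := 1 + x + x ^ 2 + x ^ 3 + x ^ 4) (c := 6) (-1 + x - x ^ 2) (2 - x - x ^ 2 + 2 * x ^ 5 - x ^ 6 - x ^ 8 + 2 * x ^ 10 - x ^ 12 - x ^ 14 + 2 * x ^ 15 - x ^ 18 + x ^ 20 - x ^ 24 + x ^ 25)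
    (by subst hk; ring) 2 _ h
  clear h
  have h : k ∣ 4 * 6 ^ 2 * 40 ^ 3 * 5461 ^ 1 * 4 ^ 2 * 5149 ^ 1 * 2 ^ 2 * 4 ^ 2 * 3277 ^ 1 * 3 ^ 1 * 541 ^ 1 * 4 ^ 1 * 4 ^ 1 * 5 ^ 1 * (-1 + x) ^ 8 * (1 + x) ^ 8 * (1 + x + x ^ 2) ^ 4 * (1 + x ^ 2) ^ 4 := by
    refine dvd_trans h5 (dvd_of_eq ?_); ring
  have h4 := dvd_mul_pow_step (B := 1 + x ^ 2) (c := 4) (x) (4 + 4 * x - x ^ 2 - 5 * x ^ 3 - 3 * x ^ 4 + 2 * x ^ 5 + 4 * x ^ 6 + 2 * x ^ 7 - 2 * x ^ 8 - 4 * x ^ 9 - 2 * x ^ 10 + 2 * x ^ 11 + 3 * x ^ 12 + x ^ 13 - 2 * x ^ 14 - 3 * x ^ 15 - x ^ 16 + 2 * x ^ 17 + 2 * x ^ 18 - 2 * x ^ 20 - 2 * x ^ 21 + 2 * x ^ 23 + x ^ 24 - x ^ 25 - x ^ 26)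
    (by subst hk; ring) 4 _ h
  clear h
  have h : k ∣ 4 * 4 ^ 4 * 6 ^ 2 * 40 ^ 3 * 5461 ^ 1 * 4 ^ 2 * 5149 ^ 1 * 2 ^ 2 * 4 ^ 2 * 3277 ^ 1 * 3 ^ 1 * 541 ^ 1 * 4 ^ 1 * 4 ^ 1 * 5 ^ 1 * (-1 + x) ^ 8 * (1 + x) ^ 8 * (1 + x + x ^ 2) ^ 4 := by
    refine dvd_trans h4 (dvd_of_eq ?_); ring
  have h3 := dvd_mul_pow_step (B := 1 + x + x ^ 2) (c := 4) (x) (4 - x ^ 2 - 3 * x ^ 4 + 4 * x ^ 6 - 2 * x ^ 8 - 2 * x ^ 10 + 3 * x ^ 12 - 2 * x ^ 14 - x ^ 16 + 2 * x ^ 18 - 2 * x ^ 20 + x ^ 24 - x ^ 26)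
    (by subst hk; ring) 4 _ h
  clear h
  have h : k ∣ 4 * 4 ^ 4 * 4 ^ 4 * 6 ^ 2 * 40 ^ 3 * 5461 ^ 1 * 4 ^ 2 * 5149 ^ 1 * 2 ^ 2 * 4 ^ 2 * 3277 ^ 1 * 3 ^ 1 * 541 ^ 1 * 4 ^ 1 * 4 ^ 1 * 5 ^ 1 * (-1 + x) ^ 8 * (1 + x) ^ 8 := by
    refine dvd_trans h3 (dvd_of_eq ?_); ring
  have h2 := dvd_mul_pow_step (B := 1 + x) (c := 4) (-1) (-3 * x + 4 * x ^ 2 + 3 * x ^ 4 - 4 * x ^ 5 - 2 * x ^ 7 + 4 * x ^ 8 + 2 * x ^ 10 - 3 * x ^ 11 - x ^ 13 + 3 * x ^ 14 + x ^ 16 - 2 * x ^ 17 + 2 * x ^ 20 - x ^ 23 + x ^ 26)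
    (by subst hk; ring) 8 _ h
  clear h
  have h : k ∣ 4 * 4 ^ 8 * 4 ^ 4 * 4 ^ 4 * 6 ^ 2 * 40 ^ 3 * 5461 ^ 1 * 4 ^ 2 * 5149 ^ 1 * 2 ^ 2 * 4 ^ 2 * 3277 ^ 1 * 3 ^ 1 * 541 ^ 1 * 4 ^ 1 * 4 ^ 1 * 5 ^ 1 * (-1 + x) ^ 8 := by
    refine dvd_trans h2 (dvd_of_eq ?_); ring
  have h1 := dvd_mul_pow_step (B := -1 + x) (c := 4) (1) (-8 - 11 * x - 10 * x ^ 2 - 6 * x ^ 3 - 3 * x ^ 4 - 4 * x ^ 5 - 8 * x ^ 6 - 10 * x ^ 7 - 8 * x ^ 8 - 4 * x ^ 9 - 2 * x ^ 10 - 3 * x ^ 11 - 6 * x ^ 12 - 7 * x ^ 13 - 5 * x ^ 14 - 2 * x ^ 15 - x ^ 16 - 2 * x ^ 17 - 4 * x ^ 18 - 4 * x ^ 19 - 2 * x ^ 20 - x ^ 23 - 2 * x ^ 24 - 2 * x ^ 25 - x ^ 26)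
    (by subst hk; ring) 8 _ h
  clear h
  have h : k ∣ 4 * 4 ^ 8 * 4 ^ 8 * 4 ^ 4 * 4 ^ 4 * 6 ^ 2 * 40 ^ 3 * 5461 ^ 1 * 4 ^ 2 * 5149 ^ 1 * 2 ^ 2 * 4 ^ 2 * 3277 ^ 1 * 3 ^ 1 * 541 ^ 1 * 4 ^ 1 * 4 ^ 1 * 5 ^ 1 := by
    refine dvd_trans h1 (dvd_of_eq ?_); ring
  have hle := Int.le_of_dvd (by norm_num) h
  obtain ⟨u, hu, rfl⟩ : ∃ u, 0 ≤ u ∧ x = 32 + u := ⟨x - 32, by omega, by ring⟩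
  have e : k - 31780610169268421690044203466311598080000 = 13135291581587228666569067291890418844572 + 37855386598075104682330929034740349939773 * u + 15361519433011730819485354995346346559873 * u ^ 2 + 3995907317506176053299991006429132085636 * u ^ 3 + 748390868083870286594454462955695902563 * u ^ 4 + 107460159792853110266775822285164467455 * u ^ 5 + 12299272808460516857683330928254443068 * u ^ 6 + 1151756219825285075013293319596425726 * u ^ 7 + 89879326583686871340889411764022402 * u ^ 8 + 5922833137871025577257135841289860 * u ^ 9 + 332782104223380683056129906697890 * u ^ 10 + 16053640321633963148432824255359 * u ^ 11 + 668142295778201456725988300381 * u ^ 12 + 24064284097945595144579116927 * u ^ 13 +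 751152986400227353370158498 * u ^ 14 + 20320543734755205080539651 * u ^ 15 + 475719337370166916494817 * u ^ 16 + 9608335824986708376447 * u ^ 17 + 166620588593183715326 * u ^ 18 + 2463598677450986752 * u ^ 19 + 30759674842875202 * u ^ 20 + 320045461277698 * u ^ 21 + 2724525223200 * u ^ 22 + 18487704831 * u ^ 23 + 96179199 * u ^ 24 + 360256 * u ^ 25 + 865 * u ^ 26 + u ^ 27 := by subst hk; ring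
  have : 0 < k - 31780610169268421690044203466311598080000 := by rw [e]; positivity
  norm_num at hle
  linarith

theorem small_5 {x : ℤ} (hx : 35 ≤ x) (h : -5 + x + x ^ 7 + x ^ 11 + x ^ 13 + x ^ 17 + x ^ 19 + x ^ 23 + x ^ 29 ∣ 5 * ((-1 + x) ^ 8 * (1 + x) ^ 8 * (1 + x + x ^ 2) ^ 4 * (1 + x ^ 2) ^ 4 * (1 + x + x ^ 2 + x ^ 3 + x ^ 4) ^ 2 * (1 - x + x ^ 2) ^ 4 * (1 + x + x ^ 2 + x ^ 3 + x ^ 4 + x ^ 5 + x ^ 6) ^ 1 * (1 + x ^ 4) ^ 2 * (1 + x ^ 3 + x ^ 6) ^ 1 * (1 - x + x ^ 2 - x ^ 3 + x ^ 4) ^ 2 * (1 - x ^ 2 + x ^ 4) ^ 2 * (1 - x + x ^ 2 - x ^ 3 + x ^ 4 - x ^ 5 + x ^ 6) ^ 1 * (1 - x + x ^ 3 - x ^ 4 + x ^ 5 - x ^ 7 + x ^ 8) ^ 1 * (1 - x ^ 3 + x ^ 6) ^ 1 * (1 - x ^ 2 + x ^ 4 - x ^ 6 + x ^ 8) ^ 1 * (1 - x ^ 4 +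 x ^ 8) ^ 1 * (1 + x - x ^ 3 - x ^ 4 - x ^ 5 + x ^ 7 + x ^ 8) ^ 1)) : False := by
  generalize hk : (-5 + x + x ^ 7 + x ^ 11 + x ^ 13 + x ^ 17 + x ^ 19 + x ^ 23 + x ^ 29 : ℤ) = k at h
  simp only [← mul_assoc] at h
  have h30 := dvd_mul_pow_step (B := 1 + x - x ^ 3 - x ^ 4 - x ^ 5 + x ^ 7 + x ^ 8) (c := 6) (-1) (1 + x ^ 3 + x ^ 5 + x ^ 7 + x ^ 9 + x ^ 11 + x ^ 13 + x ^ 16 + x ^ 19 - x ^ 20 + x ^ 21)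
    (by subst hk; ring) 1 _ h
  clear h
  have h : k ∣ 5 * 6 ^ 1 * (-1 + x) ^ 8 * (1 + x) ^ 8 * (1 + x + x ^ 2) ^ 4 * (1 + x ^ 2) ^ 4 * (1 + x + x ^ 2 + x ^ 3 + x ^ 4) ^ 2 * (1 - x + x ^ 2) ^ 4 * (1 + x + x ^ 2 + x ^ 3 + x ^ 4 + x ^ 5 + x ^ 6) ^ 1 * (1 + x ^ 4) ^ 2 * (1 + x ^ 3 + x ^ 6) ^ 1 * (1 - x + x ^ 2 - x ^ 3 + x ^ 4) ^ 2 * (1 - x ^ 2 + x ^ 4) ^ 2 * (1 - x + x ^ 2 - x ^ 3 + x ^ 4 - x ^ 5 + x ^ 6) ^ 1 * (1 - x + x ^ 3 - x ^ 4 + x ^ 5 - x ^ 7 + x ^ 8) ^ 1 * (1 - x ^ 3 + x ^ 6) ^ 1 * (1 - x ^ 2 + x ^ 4 - x ^ 6 + x ^ 8) ^ 1 * (1 - x ^ 4 + x ^ 8) ^ 1 := by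
    refine dvd_trans h30 (dvd_of_eq ?_); ring
  have h24 := dvd_mul_pow_step (B := 1 - x ^ 4 + x ^ 8) (c := 5) (-1) (x + x ^ 5 + x ^ 7 + 2 * x ^ 11 + x ^ 15 + x ^ 17 + x ^ 21)
    (by subst hk; ring) 1 _ h
  clear h
  have h : k ∣ 5 * 5 ^ 1 * 6 ^ 1 * (-1 + x) ^ 8 * (1 + x) ^ 8 * (1 + x + x ^ 2) ^ 4 * (1 + x ^ 2) ^ 4 * (1 + x + x ^ 2 + x ^ 3 + x ^ 4) ^ 2 * (1 - x + x ^ 2) ^ 4 * (1 + x + x ^ 2 + x ^ 3 + x ^ 4 + x ^ 5 + x ^ 6) ^ 1 * (1 + x ^ 4) ^ 2 * (1 + x ^ 3 + x ^ 6) ^ 1 * (1 - x + x ^ 2 - x ^ 3 + x ^ 4) ^ 2 * (1 - x ^ 2 + x ^ 4) ^ 2 * (1 - x + x ^ 2 - x ^ 3 + x ^ 4 - x ^ 5 + x ^ 6) ^ 1 * (1 - x + x ^ 3 - x ^ 4 + x ^ 5 - x ^ 7 + x ^ 8) ^ 1 * (1 - x ^ 3 + x ^ 6) ^ 1 * (1 - x ^ 2 + x ^ 4 - x ^ 6 + x ^ 8) ^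 1 := by
    refine dvd_trans h24 (dvd_of_eq ?_); ring
  have h20 := dvd_mul_pow_step (B := 1 - x ^ 2 + x ^ 4 - x ^ 6 + x ^ 8) (c := 5) (-1) (x + x ^ 3 + x ^ 7 + x ^ 9 + x ^ 13 + x ^ 15 + x ^ 19 + x ^ 21)
    (by subst hk; ring) 1 _ h
  clear h
  have h : k ∣ 5 * 5 ^ 1 * 5 ^ 1 * 6 ^ 1 * (-1 + x) ^ 8 * (1 + x) ^ 8 * (1 + x + x ^ 2) ^ 4 * (1 + x ^ 2) ^ 4 * (1 + x + x ^ 2 + x ^ 3 + x ^ 4) ^ 2 * (1 - x + x ^ 2) ^ 4 * (1 + x + x ^ 2 + x ^ 3 + x ^ 4 + x ^ 5 + x ^ 6) ^ 1 * (1 + x ^ 4) ^ 2 * (1 + x ^ 3 + x ^ 6) ^ 1 * (1 - x + x ^ 2 - x ^ 3 + x ^ 4) ^ 2 * (1 - x ^ 2 + x ^ 4) ^ 2 * (1 - x + x ^ 2 - x ^ 3 + x ^ 4 - x ^ 5 + x ^ 6) ^ 1 * (1 - x + x ^ 3 - x ^ 4 + x ^ 5 - x ^ 7 + x ^ 8) ^ 1 * (1 - x ^ 3 + x ^ 6) ^ 1 :=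 by
    refine dvd_trans h20 (dvd_of_eq ?_); ring
  have h18 := dvd_mul_pow_step (B := 1 - x ^ 3 + x ^ 6) (c := 17461) (-3490 - 710 * x + 556 * x ^ 2 + 251 * x ^ 3 - 49 * x ^ 4 - 60 * x ^ 5) (11 - 60 * x + 3490 * x ^ 2 + 710 * x ^ 3 - 556 * x ^ 4 + 3239 * x ^ 5 + 759 * x ^ 6 + 2994 * x ^ 7 + 459 * x ^ 8 - 507 * x ^ 9 + 3299 * x ^ 10 + 759 * x ^ 11 - 496 * x ^ 12 + 3239 * x ^ 13 + 759 * x ^ 14 - 496 * x ^ 15 - 251 * x ^ 16 + 3539 * x ^ 17 + 770 * x ^ 18 - 556 * x ^ 19 + 3239 * x ^ 20 + 759 * x ^ 21 - 496 * x ^ 22 + 3239 * x ^ 23 + 759 * x ^ 24 - 496 * x ^ 25 - 251 * x ^ 26 + 49 * x ^ 27 + 60 * x ^ 28)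
    (by subst hk; ring) 1 _ h
  clear h
  have h : k ∣ 5 * 17461 ^ 1 * 5 ^ 1 * 5 ^ 1 * 6 ^ 1 * (-1 + x) ^ 8 * (1 + x) ^ 8 * (1 + x + x ^ 2) ^ 4 * (1 + x ^ 2) ^ 4 * (1 + x + x ^ 2 + x ^ 3 + x ^ 4) ^ 2 * (1 - x + x ^ 2) ^ 4 * (1 + x + x ^ 2 + x ^ 3 + x ^ 4 + x ^ 5 + x ^ 6) ^ 1 * (1 + x ^ 4) ^ 2 * (1 + x ^ 3 + x ^ 6) ^ 1 * (1 - x + x ^ 2 - x ^ 3 + x ^ 4) ^ 2 * (1 - x ^ 2 + x ^ 4) ^ 2 * (1 - x + x ^ 2 - x ^ 3 + x ^ 4 - x ^ 5 + x ^ 6) ^ 1 * (1 - x + x ^ 3 - x ^ 4 + x ^ 5 - x ^ 7 + x ^ 8) ^ 1 := by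
    refine dvd_trans h18 (dvd_of_eq ?_); ring
  have h15 := dvd_mul_pow_step (B := 1 - x + x ^ 3 - x ^ 4 + x ^ 5 - x ^ 7 + x ^ 8) (c := 4) (-1) (-1 + x ^ 3 + x ^ 5 + x ^ 7 + x ^ 9 + x ^ 11 + x ^ 13 - x ^ 16 + x ^ 19 + x ^ 20 + x ^ 21)
    (by subst hk; ring) 1 _ h
  clear h
  have h : k ∣ 5 * 4 ^ 1 * 17461 ^ 1 * 5 ^ 1 * 5 ^ 1 * 6 ^ 1 * (-1 + x) ^ 8 * (1 + x) ^ 8 * (1 + x + x ^ 2) ^ 4 * (1 + x ^ 2) ^ 4 * (1 + x + x ^ 2 + x ^ 3 + x ^ 4) ^ 2 * (1 - x + x ^ 2) ^ 4 * (1 + x + x ^ 2 + x ^ 3 + x ^ 4 + x ^ 5 + x ^ 6) ^ 1 * (1 + x ^ 4) ^ 2 * (1 + x ^ 3 + x ^ 6) ^ 1 * (1 - x + x ^ 2 - x ^ 3 + x ^ 4) ^ 2 * (1 - x ^ 2 + x ^ 4) ^ 2 * (1 - x + x ^ 2 - x ^ 3 + x ^ 4 - x ^ 5 + x ^ 6) ^ 1 := by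
    refine dvd_trans h15 (dvd_of_eq ?_); ring
  have h14 := dvd_mul_pow_step (B := 1 - x + x ^ 2 - x ^ 3 + x ^ 4 - x ^ 5 + x ^ 6) (c := 13021) (-2604 - 521 * x - 104 * x ^ 2 - 21 * x ^ 3 - 4 * x ^ 4 - x ^ 5) (1 + 2604 * x ^ 7 + 3125 * x ^ 8 + 625 * x ^ 9 + 125 * x ^ 10 + 2629 * x ^ 11 + 3130 * x ^ 12 + 3230 * x ^ 13 + 646 * x ^ 14 - 2475 * x ^ 15 - 495 * x ^ 16 + 2505 * x ^ 17 + 501 * x ^ 18 + 100 * x ^ 19 + 20 * x ^ 20 + 4 * x ^ 21 + 2605 * x ^ 22 + 3125 * x ^ 23 + 625 * x ^ 24 + 125 * x ^ 25 + 25 * x ^ 26 + 5 * x ^ 27 + x ^ 28)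
    (by subst hk; ring) 1 _ h
  clear h
  have h : k ∣ 5 * 13021 ^ 1 * 4 ^ 1 * 17461 ^ 1 * 5 ^ 1 * 5 ^ 1 * 6 ^ 1 * (-1 + x) ^ 8 * (1 + x) ^ 8 * (1 + x + x ^ 2) ^ 4 * (1 + x ^ 2) ^ 4 * (1 + x + x ^ 2 + x ^ 3 + x ^ 4) ^ 2 * (1 - x + x ^ 2) ^ 4 * (1 + x + x ^ 2 + x ^ 3 + x ^ 4 + x ^ 5 + x ^ 6) ^ 1 * (1 + x ^ 4) ^ 2 * (1 + x ^ 3 + x ^ 6) ^ 1 * (1 - x + x ^ 2 - x ^ 3 + x ^ 4) ^ 2 * (1 - x ^ 2 + x ^ 4) ^ 2 := by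
    refine dvd_trans h14 (dvd_of_eq ?_); ring
  have h12 := dvd_mul_pow_step (B := 1 - x ^ 2 + x ^ 4) (c := 5) (-1) (x + x ^ 3 + x ^ 11 + 2 * x ^ 13 + x ^ 15 + x ^ 23 + x ^ 25)
    (by subst hk; ring) 2 _ h
  clear h
  have h : k ∣ 5 * 5 ^ 2 * 13021 ^ 1 * 4 ^ 1 * 17461 ^ 1 * 5 ^ 1 * 5 ^ 1 * 6 ^ 1 * (-1 + x) ^ 8 * (1 + x) ^ 8 * (1 + x + x ^ 2) ^ 4 * (1 + x ^ 2) ^ 4 * (1 + x + x ^ 2 + x ^ 3 + x ^ 4) ^ 2 * (1 - x + x ^ 2) ^ 4 * (1 + x + x ^ 2 + x ^ 3 + x ^ 4 + x ^ 5 + x ^ 6) ^ 1 * (1 + x ^ 4) ^ 2 * (1 + x ^ 3 + x ^ 6) ^ 1 * (1 - x + x ^ 2 - x ^ 3 + x ^ 4) ^ 2 := by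
    refine dvd_trans h12 (dvd_of_eq ?_); ring
  have h10 := dvd_mul_pow_step (B := 1 - x + x ^ 2 - x ^ 3 + x ^ 4) (c := 3) (-1) (-2 - x + x ^ 2 + 2 * x ^ 5 + x ^ 6 + x ^ 8 - 2 * x ^ 10 + x ^ 12 + x ^ 14 + 2 * x ^ 15 + x ^ 18 - x ^ 20 + x ^ 24 + x ^ 25)
    (by subst hk; ring) 2 _ h
  clear h
  have h : k ∣ 5 * 3 ^ 2 * 5 ^ 2 * 13021 ^ 1 * 4 ^ 1 * 17461 ^ 1 * 5 ^ 1 * 5 ^ 1 * 6 ^ 1 * (-1 + x) ^ 8 * (1 + x) ^ 8 * (1 + x + x ^ 2) ^ 4 * (1 + x ^ 2) ^ 4 * (1 + x + x ^ 2 + x ^ 3 + x ^ 4) ^ 2 * (1 - x + x ^ 2) ^ 4 * (1 + x + x ^ 2 + x ^ 3 + x ^ 4 + x ^ 5 + x ^ 6) ^ 1 * (1 + x ^ 4) ^ 2 * (1 + x ^ 3 + x ^ 6) ^ 1 := by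
    refine dvd_trans h10 (dvd_of_eq ?_); ring
  have h9 := dvd_mul_pow_step (B := 1 + x ^ 3 + x ^ 6) (c := 5997) (-1180 - 230 * x - 282 * x ^ 2 - 83 * x ^ 3 - 67 * x ^ 4 - 30 * x ^ 5) (97 + 30 * x - 1180 * x ^ 2 - 230 * x ^ 3 - 282 * x ^ 4 + 1097 * x ^ 5 + 163 * x ^ 6 + 1432 * x ^ 7 + 313 * x ^ 8 + 349 * x ^ 9 - 1067 * x ^ 10 - 163 * x ^ 11 - 252 * x ^ 12 + 1097 * x ^ 13 + 163 * x ^ 14 + 252 * x ^ 15 + 83 * x ^ 16 + 1247 * x ^ 17 + 260 * x ^ 18 + 282 * x ^ 19 - 1097 * x ^ 20 - 163 * x ^ 21 - 252 * x ^ 22 + 1097 * x ^ 23 + 163 * x ^ 24 + 252 * x ^ 25 + 83 * x ^ 26 + 67 * x ^ 27 + 30 * x ^ 28)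
    (by subst hk; ring) 1 _ h
  clear h
  have h : k ∣ 5 * 5997 ^ 1 * 3 ^ 2 * 5 ^ 2 * 13021 ^ 1 * 4 ^ 1 * 17461 ^ 1 * 5 ^ 1 * 5 ^ 1 * 6 ^ 1 * (-1 + x) ^ 8 * (1 + x) ^ 8 * (1 + x + x ^ 2) ^ 4 * (1 + x ^ 2) ^ 4 * (1 + x + x ^ 2 + x ^ 3 + x ^ 4) ^ 2 * (1 - x + x ^ 2) ^ 4 * (1 + x + x ^ 2 + x ^ 3 + x ^ 4 + x ^ 5 + x ^ 6) ^ 1 * (1 + x ^ 4) ^ 2 := by
    refine dvd_trans h9 (dvd_of_eq ?_); ring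
  have h8 := dvd_mul_pow_step (B := 1 + x ^ 4) (c := 5) (-1) (x - x ^ 5 + x ^ 7 + x ^ 9 + x ^ 17 + x ^ 19 - x ^ 21 + x ^ 25)
    (by subst hk; ring) 2 _ h
  clear h
  have h : k ∣ 5 * 5 ^ 2 * 5997 ^ 1 * 3 ^ 2 * 5 ^ 2 * 13021 ^ 1 * 4 ^ 1 * 17461 ^ 1 * 5 ^ 1 * 5 ^ 1 * 6 ^ 1 * (-1 + x) ^ 8 * (1 + x) ^ 8 * (1 + x + x ^ 2) ^ 4 * (1 + x ^ 2) ^ 4 * (1 + x + x ^ 2 + x ^ 3 + x ^ 4) ^ 2 * (1 - x + x ^ 2) ^ 4 * (1 + x + x ^ 2 + x ^ 3 + x ^ 4 + x ^ 5 + x ^ 6) ^ 1 := by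
    refine dvd_trans h8 (dvd_of_eq ?_); ring
  have h7 := dvd_mul_pow_step (B := 1 + x + x ^ 2 + x ^ 3 + x ^ 4 + x ^ 5 + x ^ 6) (c := 19531) (-3906 - 781 * x - 156 * x ^ 2 - 31 * x ^ 3 - 6 * x ^ 4 - x ^ 5) (1 + 3906 * x ^ 7 - 3125 * x ^ 8 - 625 * x ^ 9 - 125 * x ^ 10 + 3881 * x ^ 11 - 3130 * x ^ 12 + 3280 * x ^ 13 + 656 * x ^ 14 - 3775 * x ^ 15 - 755 * x ^ 16 + 3755 * x ^ 17 + 751 * x ^ 18 + 150 * x ^ 19 + 30 * x ^ 20 + 6 * x ^ 21 - 3905 * x ^ 22 + 3125 * x ^ 23 + 625 * x ^ 24 + 125 * x ^ 25 + 25 * x ^ 26 + 5 * x ^ 27 + x ^ 28)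
    (by subst hk; ring) 1 _ h
  clear h
  have h : k ∣ 5 * 19531 ^ 1 * 5 ^ 2 * 5997 ^ 1 * 3 ^ 2 * 5 ^ 2 * 13021 ^ 1 * 4 ^ 1 * 17461 ^ 1 * 5 ^ 1 * 5 ^ 1 * 6 ^ 1 * (-1 + x) ^ 8 * (1 + x) ^ 8 * (1 + x + x ^ 2) ^ 4 * (1 + x ^ 2) ^ 4 * (1 + x + x ^ 2 + x ^ 3 + x ^ 4) ^ 2 * (1 - x + x ^ 2) ^ 4 := by
    refine dvd_trans h7 (dvd_of_eq ?_); ring
  have h6 := dvd_mul_pow_step (B := 1 - x + x ^ 2) (c := 1) (-1) (-4 - 3 * x + x ^ 2 + 4 * x ^ 3 + 3 * x ^ 4 - x ^ 5 - 4 * x ^ 6 - 2 * x ^ 7 + 2 * x ^ 8 + 4 * x ^ 9 + 2 * x ^ 10 - x ^ 11 - 3 * x ^ 12 - x ^ 13 + 2 * x ^ 14 + 3 * x ^ 15 + x ^ 16 - x ^ 17 - 2 * x ^ 18 + 2 * x ^ 20 + 2 * x ^ 21 - x ^ 23 - x ^ 24 + x ^ 26 + x ^ 27)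
    (by subst hk; ring) 4 _ h
  clear h
  have h : k ∣ 5 * 1 ^ 4 * 19531 ^ 1 * 5 ^ 2 * 5997 ^ 1 * 3 ^ 2 * 5 ^ 2 * 13021 ^ 1 * 4 ^ 1 * 17461 ^ 1 * 5 ^ 1 * 5 ^ 1 * 6 ^ 1 * (-1 + x) ^ 8 * (1 + x) ^ 8 * (1 + x + x ^ 2) ^ 4 * (1 + x ^ 2) ^ 4 * (1 + x + x ^ 2 + x ^ 3 + x ^ 4) ^ 2 := by
    refine dvd_trans h6 (dvd_of_eq ?_); ring
  have h5 := dvd_mul_pow_step (B := 1 + x + x ^ 2 + x ^ 3 + x ^ 4) (c := 7) (-1) (2 - x - x ^ 2 + 2 * x ^ 5 - x ^ 6 - x ^ 8 + 2 * x ^ 10 - x ^ 12 - x ^ 14 + 2 * x ^ 15 - x ^ 18 + x ^ 20 - x ^ 24 + x ^ 25)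
    (by subst hk; ring) 2 _ h
  clear h
  have h : k ∣ 5 * 7 ^ 2 * 1 ^ 4 * 19531 ^ 1 * 5 ^ 2 * 5997 ^ 1 * 3 ^ 2 * 5 ^ 2 * 13021 ^ 1 * 4 ^ 1 * 17461 ^ 1 * 5 ^ 1 * 5 ^ 1 * 6 ^ 1 * (-1 + x) ^ 8 * (1 + x) ^ 8 * (1 + x + x ^ 2) ^ 4 * (1 + x ^ 2) ^ 4 := by
    refine dvd_trans h5 (dvd_of_eq ?_); ring
  have h4 := dvd_mul_pow_step (B := 1 + x ^ 2) (c := 5) (-1) (x - x ^ 3 + x ^ 5 + x ^ 11 + x ^ 17 + x ^ 23 - x ^ 25 + x ^ 27)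
    (by subst hk; ring) 4 _ h
  clear h
  have h : k ∣ 5 * 5 ^ 4 * 7 ^ 2 * 1 ^ 4 * 19531 ^ 1 * 5 ^ 2 * 5997 ^ 1 * 3 ^ 2 * 5 ^ 2 * 13021 ^ 1 * 4 ^ 1 * 17461 ^ 1 * 5 ^ 1 * 5 ^ 1 * 6 ^ 1 * (-1 + x) ^ 8 * (1 + x) ^ 8 * (1 + x + x ^ 2) ^ 4 := by
    refine dvd_trans h4 (dvd_of_eq ?_); ring
  have h3 := dvd_mul_pow_step (B := 1 + x + x ^ 2) (c := 9) (-1) (4 - 3 * x - x ^ 2 + 4 * x ^ 3 - 3 * x ^ 4 - x ^ 5 + 4 * x ^ 6 - 2 * x ^ 7 - 2 * x ^ 8 + 4 * x ^ 9 - 2 * x ^ 10 - x ^ 11 + 3 * x ^ 12 - x ^ 13 - 2 * x ^ 14 + 3 * x ^ 15 - x ^ 16 - x ^ 17 + 2 * x ^ 18 - 2 * x ^ 20 + 2 * x ^ 21 - x ^ 23 + x ^ 24 - x ^ 26 + x ^ 27)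
    (by subst hk; ring) 4 _ h
  clear h
  have h : k ∣ 5 * 9 ^ 4 * 5 ^ 4 * 7 ^ 2 * 1 ^ 4 * 19531 ^ 1 * 5 ^ 2 * 5997 ^ 1 * 3 ^ 2 * 5 ^ 2 * 13021 ^ 1 * 4 ^ 1 * 17461 ^ 1 * 5 ^ 1 * 5 ^ 1 * 6 ^ 1 * (-1 + x) ^ 8 * (1 + x) ^ 8 := by
    refine dvd_trans h3 (dvd_of_eq ?_); ring
  have h2 := dvd_mul_pow_step (B := 1 + x) (c := 13) (-1) (8 - 7 * x + 7 * x ^ 2 - 7 * x ^ 3 + 7 * x ^ 4 - 7 * x ^ 5 + 7 * x ^ 6 - 6 * x ^ 7 + 6 * x ^ 8 - 6 * x ^ 9 + 6 * x ^ 10 - 5 * x ^ 11 + 5 * x ^ 12 - 4 * x ^ 13 + 4 * x ^ 14 - 4 * x ^ 15 + 4 * x ^ 16 - 3 * x ^ 17 + 3 * x ^ 18 - 2 * x ^ 19 + 2 * x ^ 20 - 2 * x ^ 21 + 2 * x ^ 22 - x ^ 23 + x ^ 24 - x ^ 25 + x ^ 26 - x ^ 27 + x ^ 28)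
    (by subst hk; ring) 8 _ h
  clear h
  have h : k ∣ 5 * 13 ^ 8 * 9 ^ 4 * 5 ^ 4 * 7 ^ 2 * 1 ^ 4 * 19531 ^ 1 * 5 ^ 2 * 5997 ^ 1 * 3 ^ 2 * 5 ^ 2 * 13021 ^ 1 * 4 ^ 1 * 17461 ^ 1 * 5 ^ 1 * 5 ^ 1 * 6 ^ 1 * (-1 + x) ^ 8 := by
    refine dvd_trans h2 (dvd_of_eq ?_); ring
  have h1 := dvd_mul_pow_step (B := -1 + x) (c := 3) (1) (-8 - 7 * x - 7 * x ^ 2 - 7 * x ^ 3 - 7 * x ^ 4 - 7 * x ^ 5 - 7 * x ^ 6 - 6 * x ^ 7 - 6 * x ^ 8 - 6 * x ^ 9 - 6 * x ^ 10 - 5 * x ^ 11 - 5 * x ^ 12 - 4 * x ^ 13 - 4 * x ^ 14 - 4 * x ^ 15 - 4 * x ^ 16 - 3 * x ^ 17 - 3 * x ^ 18 - 2 * x ^ 19 - 2 * x ^ 20 - 2 * x ^ 21 - 2 * x ^ 22 - x ^ 23 - x ^ 24 - x ^ 25 - x ^ 26 - x ^ 27 - x ^ 28)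
    (by subst hk; ring) 8 _ h
  clear h
  have h : k ∣ 5 * 3 ^ 8 * 13 ^ 8 * 9 ^ 4 * 5 ^ 4 * 7 ^ 2 * 1 ^ 4 * 19531 ^ 1 * 5 ^ 2 * 5997 ^ 1 * 3 ^ 2 * 5 ^ 2 * 13021 ^ 1 * 4 ^ 1 * 17461 ^ 1 * 5 ^ 1 * 5 ^ 1 * 6 ^ 1 := by
    refine dvd_trans h1 (dvd_of_eq ?_); ring
  have hle := Int.le_of_dvd (by norm_num) h
  obtain ⟨u, hu, rfl⟩ : ∃ u, 0 ≤ u ∧ x = 35 + u := ⟨x - 35, by omega, by ring⟩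
  have e : k - 483257667000796160790406114665561476953125000 = 116496517030090713706997806697122885140078155 + 496939180998232909381276372975407171695984376 * u + 198775672380916002720512475064169929784600000 * u ^ 2 + 51113744322670805697924640563712892148225000 * u ^ 3 + 9492552516489867604906798247782628951891250 * u ^ 4 + 1356078930861116209989568574637681851791350 * u ^ 5 + 154980449235298296335343380419517070809620 * u ^ 6 + 14549185029813724599780440686825632846876 * u ^ 7 + 1143150252315867417087870210516714055625 * u ^ 8 + 76210016819704709622702601480461686125 * u ^ 9 + 4354858103925135487525171465864918885 * u ^ 10 + 214915075256534294595592630915314301 * u ^ 11 + 9210646082357627339956734892784830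 * u ^ 12 + 344134029449003105048847255753126 * u ^ 13 + 11237029532990028405843819923750 * u ^ 14 + 321057986656121870420861120350 * u ^ 15 + 8026449666391216838664671470 * u ^ 16 + 175367807836959965593615726 * u ^ 17 + 3340339196892708226541290 * u ^ 18 + 55253731076404791940626 * u ^ 19 + 789339015377097416000 * u ^ 20 + 9665375698494450550 * u ^ 21 + 100419487776563305 * u ^ 22 + 873212937187501 * u ^ 23 + 6237235265625 * u ^ 24 + 35641344375 * u ^ 25 + 156665250 * u ^ 26 + 497350 * u ^ 27 + 1015 * u ^ 28 + u ^ 29 := by subst hk; ring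
  have : 0 < k - 483257667000796160790406114665561476953125000 := by rw [e]; positivity
  norm_num at hle
  linarith

theorem small_6 {x : ℤ} (hx : 48 ≤ x) (h : -6 + x + x ^ 7 + x ^ 11 + x ^ 13 + x ^ 17 + x ^ 19 + x ^ 23 + x ^ 29 ∣ 6 * ((-1 + x) ^ 8 * (1 + x) ^ 8 * (1 + x + x ^ 2) ^ 4 * (1 + x ^ 2) ^ 4 * (1 + x + x ^ 2 + x ^ 3 + x ^ 4) ^ 2 * (1 - x + x ^ 2) ^ 4 * (1 + x + x ^ 2 + x ^ 3 + x ^ 4 + x ^ 5 + x ^ 6) ^ 1 * (1 + x ^ 4) ^ 2 * (1 + x ^ 3 + x ^ 6) ^ 1 * (1 - x + x ^ 2 - x ^ 3 + x ^ 4) ^ 2 * (1 - x ^ 2 + x ^ 4) ^ 2 * (1 - x + x ^ 2 - x ^ 3 + x ^ 4 - x ^ 5 + x ^ 6) ^ 1 * (1 - x + x ^ 3 - x ^ 4 + x ^ 5 - x ^ 7 + x ^ 8) ^ 1 * (1 - x ^ 3 + x ^ 6) ^ 1 * (1 - x ^ 2 + x ^ 4 - x ^ 6 + x ^ 8) ^ 1 * (1 - x ^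 4 + x ^ 8) ^ 1 * (1 + x - x ^ 3 - x ^ 4 - x ^ 5 + x ^ 7 + x ^ 8) ^ 1)) : False := by
  generalize hk : (-6 + x + x ^ 7 + x ^ 11 + x ^ 13 + x ^ 17 + x ^ 19 + x ^ 23 + x ^ 29 : ℤ) = k at h
  simp only [← mul_assoc] at h
  have h30 := dvd_mul_pow_step (B := 1 + x - x ^ 3 - x ^ 4 - x ^ 5 + x ^ 7 + x ^ 8) (c := 7) (-1) (1 + x ^ 3 + x ^ 5 + x ^ 7 + x ^ 9 + x ^ 11 + x ^ 13 + x ^ 16 + x ^ 19 - x ^ 20 + x ^ 21)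
    (by subst hk; ring) 1 _ h
  clear h
  have h : k ∣ 6 * 7 ^ 1 * (-1 + x) ^ 8 * (1 + x) ^ 8 * (1 + x + x ^ 2) ^ 4 * (1 + x ^ 2) ^ 4 * (1 + x + x ^ 2 + x ^ 3 + x ^ 4) ^ 2 * (1 - x + x ^ 2) ^ 4 * (1 + x + x ^ 2 + x ^ 3 + x ^ 4 + x ^ 5 + x ^ 6) ^ 1 * (1 + x ^ 4) ^ 2 * (1 + x ^ 3 + x ^ 6) ^ 1 * (1 - x + x ^ 2 - x ^ 3 + x ^ 4) ^ 2 * (1 - x ^ 2 + x ^ 4) ^ 2 * (1 - x + x ^ 2 - x ^ 3 + x ^ 4 - x ^ 5 + x ^ 6) ^ 1 * (1 - x + x ^ 3 - x ^ 4 + x ^ 5 - x ^ 7 + x ^ 8) ^ 1 * (1 - x ^ 3 + x ^ 6) ^ 1 * (1 - x ^ 2 + x ^ 4 - x ^ 6 + x ^ 8) ^ 1 * (1 - x ^ 4 + x ^ 8) ^ 1 := by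
    refine dvd_trans h30 (dvd_of_eq ?_); ring
  have h24 := dvd_mul_pow_step (B := 1 - x ^ 4 + x ^ 8) (c := 6) (-1) (x + x ^ 5 + x ^ 7 + 2 * x ^ 11 + x ^ 15 + x ^ 17 + x ^ 21)
    (by subst hk; ring) 1 _ h
  clear h
  have h : k ∣ 6 * 6 ^ 1 * 7 ^ 1 * (-1 + x) ^ 8 * (1 + x) ^ 8 * (1 + x + x ^ 2) ^ 4 * (1 + x ^ 2) ^ 4 * (1 + x + x ^ 2 + x ^ 3 + x ^ 4) ^ 2 * (1 - x + x ^ 2) ^ 4 * (1 + x + x ^ 2 + x ^ 3 + x ^ 4 + x ^ 5 + x ^ 6) ^ 1 * (1 + x ^ 4) ^ 2 * (1 + x ^ 3 + x ^ 6) ^ 1 * (1 - x + x ^ 2 - x ^ 3 + x ^ 4) ^ 2 * (1 - x ^ 2 + x ^ 4) ^ 2 * (1 - x + x ^ 2 - x ^ 3 + x ^ 4 - x ^ 5 + x ^ 6) ^ 1 * (1 - x + x ^ 3 - x ^ 4 + x ^ 5 - x ^ 7 + x ^ 8) ^ 1 * (1 - x ^ 3 + x ^ 6) ^ 1 * (1 - x ^ 2 + x ^ 4 - x ^ 6 + x ^ 8) ^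 1 := by
    refine dvd_trans h24 (dvd_of_eq ?_); ring
  have h20 := dvd_mul_pow_step (B := 1 - x ^ 2 + x ^ 4 - x ^ 6 + x ^ 8) (c := 6) (-1) (x + x ^ 3 + x ^ 7 + x ^ 9 + x ^ 13 + x ^ 15 + x ^ 19 + x ^ 21)
    (by subst hk; ring) 1 _ h
  clear h
  have h : k ∣ 6 * 6 ^ 1 * 6 ^ 1 * 7 ^ 1 * (-1 + x) ^ 8 * (1 + x) ^ 8 * (1 + x + x ^ 2) ^ 4 * (1 + x ^ 2) ^ 4 * (1 + x + x ^ 2 + x ^ 3 + x ^ 4) ^ 2 * (1 - x + x ^ 2) ^ 4 * (1 + x + x ^ 2 + x ^ 3 + x ^ 4 + x ^ 5 + x ^ 6) ^ 1 * (1 + x ^ 4) ^ 2 * (1 + x ^ 3 + x ^ 6) ^ 1 * (1 - x + x ^ 2 - x ^ 3 + x ^ 4) ^ 2 * (1 - x ^ 2 + x ^ 4) ^ 2 * (1 - x + x ^ 2 - x ^ 3 + x ^ 4 - x ^ 5 + x ^ 6) ^ 1 * (1 - x + x ^ 3 - x ^ 4 + x ^ 5 - x ^ 7 + x ^ 8) ^ 1 * (1 - x ^ 3 + x ^ 6) ^ 1 :=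 by
    refine dvd_trans h20 (dvd_of_eq ?_); ring
  have h18 := dvd_mul_pow_step (B := 1 - x ^ 3 + x ^ 6) (c := 50419) (-8406 - 1416 * x + 1165 * x ^ 2 + 433 * x ^ 3 - 107 * x ^ 4 - 90 * x ^ 5) (-17 - 90 * x + 8406 * x ^ 2 + 1416 * x ^ 3 - 1165 * x ^ 4 + 7973 * x ^ 5 + 1523 * x ^ 6 + 7331 * x ^ 7 + 983 * x ^ 8 - 1058 * x ^ 9 + 8063 * x ^ 10 + 1523 * x ^ 11 - 1075 * x ^ 12 + 7973 * x ^ 13 + 1523 * x ^ 14 - 1075 * x ^ 15 - 433 * x ^ 16 + 8513 * x ^ 17 + 1506 * x ^ 18 - 1165 * x ^ 19 + 7973 * x ^ 20 + 1523 * x ^ 21 - 1075 * x ^ 22 + 7973 * x ^ 23 + 1523 * x ^ 24 - 1075 * x ^ 25 - 433 * x ^ 26 + 107 * x ^ 27 + 90 * x ^ 28)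
    (by subst hk; ring) 1 _ h
  clear h
  have h : k ∣ 6 * 50419 ^ 1 * 6 ^ 1 * 6 ^ 1 * 7 ^ 1 * (-1 + x) ^ 8 * (1 + x) ^ 8 * (1 + x + x ^ 2) ^ 4 * (1 + x ^ 2) ^ 4 * (1 + x + x ^ 2 + x ^ 3 + x ^ 4) ^ 2 * (1 - x + x ^ 2) ^ 4 * (1 + x + x ^ 2 + x ^ 3 + x ^ 4 + x ^ 5 + x ^ 6) ^ 1 * (1 + x ^ 4) ^ 2 * (1 + x ^ 3 + x ^ 6) ^ 1 * (1 - x + x ^ 2 - x ^ 3 + x ^ 4) ^ 2 * (1 - x ^ 2 + x ^ 4) ^ 2 * (1 - x + x ^ 2 - x ^ 3 + x ^ 4 - x ^ 5 + x ^ 6) ^ 1 * (1 - x + x ^ 3 - x ^ 4 + x ^ 5 - x ^ 7 + x ^ 8) ^ 1 := by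
    refine dvd_trans h18 (dvd_of_eq ?_); ring
  have h15 := dvd_mul_pow_step (B := 1 - x + x ^ 3 - x ^ 4 + x ^ 5 - x ^ 7 + x ^ 8) (c := 5) (-1) (-1 + x ^ 3 + x ^ 5 + x ^ 7 + x ^ 9 + x ^ 11 + x ^ 13 - x ^ 16 + x ^ 19 + x ^ 20 + x ^ 21)
    (by subst hk; ring) 1 _ h
  clear h
  have h : k ∣ 6 * 5 ^ 1 * 50419 ^ 1 * 6 ^ 1 * 6 ^ 1 * 7 ^ 1 * (-1 + x) ^ 8 * (1 + x) ^ 8 * (1 + x + x ^ 2) ^ 4 * (1 + x ^ 2) ^ 4 * (1 + x + x ^ 2 + x ^ 3 + x ^ 4) ^ 2 * (1 - x + x ^ 2) ^ 4 * (1 + x + x ^ 2 + x ^ 3 + x ^ 4 + x ^ 5 + x ^ 6) ^ 1 * (1 + x ^ 4) ^ 2 * (1 + x ^ 3 + x ^ 6) ^ 1 * (1 - x + x ^ 2 - x ^ 3 + x ^ 4) ^ 2 * (1 - x ^ 2 + x ^ 4) ^ 2 * (1 - x + x ^ 2 - x ^ 3 + x ^ 4 - x ^ 5 + x ^ 6) ^ 1 := by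
    refine dvd_trans h15 (dvd_of_eq ?_); ring
  have h14 := dvd_mul_pow_step (B := 1 - x + x ^ 2 - x ^ 3 + x ^ 4 - x ^ 5 + x ^ 6) (c := 39991) (-6665 - 1111 * x - 185 * x ^ 2 - 31 * x ^ 3 - 5 * x ^ 4 - x ^ 5) (1 + 6665 * x ^ 7 + 7776 * x ^ 8 + 1296 * x ^ 9 + 216 * x ^ 10 + 6701 * x ^ 11 + 7782 * x ^ 12 + 7962 * x ^ 13 + 1327 * x ^ 14 - 6444 * x ^ 15 - 1074 * x ^ 16 + 6486 * x ^ 17 + 1081 * x ^ 18 + 180 * x ^ 19 + 30 * x ^ 20 + 5 * x ^ 21 + 6666 * x ^ 22 + 7776 * x ^ 23 + 1296 * x ^ 24 + 216 * x ^ 25 + 36 * x ^ 26 + 6 * x ^ 27 + x ^ 28)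
    (by subst hk; ring) 1 _ h
  clear h
  have h : k ∣ 6 * 39991 ^ 1 * 5 ^ 1 * 50419 ^ 1 * 6 ^ 1 * 6 ^ 1 * 7 ^ 1 * (-1 + x) ^ 8 * (1 + x) ^ 8 * (1 + x + x ^ 2) ^ 4 * (1 + x ^ 2) ^ 4 * (1 + x + x ^ 2 + x ^ 3 + x ^ 4) ^ 2 * (1 - x + x ^ 2) ^ 4 * (1 + x + x ^ 2 + x ^ 3 + x ^ 4 + x ^ 5 + x ^ 6) ^ 1 * (1 + x ^ 4) ^ 2 * (1 + x ^ 3 + x ^ 6) ^ 1 * (1 - x + x ^ 2 - x ^ 3 + x ^ 4) ^ 2 * (1 - x ^ 2 + x ^ 4) ^ 2 := by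
    refine dvd_trans h14 (dvd_of_eq ?_); ring
  have h12 := dvd_mul_pow_step (B := 1 - x ^ 2 + x ^ 4) (c := 6) (-1) (x + x ^ 3 + x ^ 11 + 2 * x ^ 13 + x ^ 15 + x ^ 23 + x ^ 25)
    (by subst hk; ring) 2 _ h
  clear h
  have h : k ∣ 6 * 6 ^ 2 * 39991 ^ 1 * 5 ^ 1 * 50419 ^ 1 * 6 ^ 1 * 6 ^ 1 * 7 ^ 1 * (-1 + x) ^ 8 * (1 + x) ^ 8 * (1 + x + x ^ 2) ^ 4 * (1 + x ^ 2) ^ 4 * (1 + x + x ^ 2 + x ^ 3 + x ^ 4) ^ 2 * (1 - x + x ^ 2) ^ 4 * (1 + x + x ^ 2 + x ^ 3 + x ^ 4 + x ^ 5 + x ^ 6) ^ 1 * (1 + x ^ 4) ^ 2 * (1 + x ^ 3 + x ^ 6) ^ 1 * (1 - x + x ^ 2 - x ^ 3 + x ^ 4) ^ 2 := by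
    refine dvd_trans h12 (dvd_of_eq ?_); ring
  have h10 := dvd_mul_pow_step (B := 1 - x + x ^ 2 - x ^ 3 + x ^ 4) (c := 4) (-1) (-2 - x + x ^ 2 + 2 * x ^ 5 + x ^ 6 + x ^ 8 - 2 * x ^ 10 + x ^ 12 + x ^ 14 + 2 * x ^ 15 + x ^ 18 - x ^ 20 + x ^ 24 + x ^ 25)
    (by subst hk; ring) 2 _ h
  clear h
  have h : k ∣ 6 * 4 ^ 2 * 6 ^ 2 * 39991 ^ 1 * 5 ^ 1 * 50419 ^ 1 * 6 ^ 1 * 6 ^ 1 * 7 ^ 1 * (-1 + x) ^ 8 * (1 + x) ^ 8 * (1 + x + x ^ 2) ^ 4 * (1 + x ^ 2) ^ 4 * (1 + x + x ^ 2 + x ^ 3 + x ^ 4) ^ 2 * (1 - x + x ^ 2) ^ 4 * (1 + x + x ^ 2 + x ^ 3 + x ^ 4 + x ^ 5 + x ^ 6) ^ 1 * (1 + x ^ 4) ^ 2 * (1 + x ^ 3 + x ^ 6) ^ 1 := by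
    refine dvd_trans h10 (dvd_of_eq ?_); ring
  have h9 := dvd_mul_pow_step (B := 1 + x ^ 3 + x ^ 6) (c := 51319) (-8478 - 1392 * x - 1645 * x ^ 2 - 431 * x ^ 3 - 325 * x ^ 4 - 126 * x ^ 5) (451 + 126 * x - 8478 * x ^ 2 - 1392 * x ^ 3 - 1645 * x ^ 4 + 8047 * x ^ 5 + 1067 * x ^ 6 + 9997 * x ^ 7 + 1823 * x ^ 8 + 1970 * x ^ 9 - 7921 * x ^ 10 - 1067 * x ^ 11 - 1519 * x ^ 12 + 8047 * x ^ 13 + 1067 * x ^ 14 + 1519 * x ^ 15 + 431 * x ^ 16 + 8803 * x ^ 17 + 1518 * x ^ 18 + 1645 * x ^ 19 - 8047 * x ^ 20 - 1067 * x ^ 21 - 1519 * x ^ 22 + 8047 * x ^ 23 + 1067 * x ^ 24 + 1519 * x ^ 25 + 431 * x ^ 26 + 325 * x ^ 27 + 126 * x ^ 28)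
    (by subst hk; ring) 1 _ h
  clear h
  have h : k ∣ 6 * 51319 ^ 1 * 4 ^ 2 * 6 ^ 2 * 39991 ^ 1 * 5 ^ 1 * 50419 ^ 1 * 6 ^ 1 * 6 ^ 1 * 7 ^ 1 * (-1 + x) ^ 8 * (1 + x) ^ 8 * (1 + x + x ^ 2) ^ 4 * (1 + x ^ 2) ^ 4 * (1 + x + x ^ 2 + x ^ 3 + x ^ 4) ^ 2 * (1 - x + x ^ 2) ^ 4 * (1 + x + x ^ 2 + x ^ 3 + x ^ 4 + x ^ 5 + x ^ 6) ^ 1 * (1 + x ^ 4) ^ 2 := by
    refine dvd_trans h9 (dvd_of_eq ?_); ring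
  have h8 := dvd_mul_pow_step (B := 1 + x ^ 4) (c := 6) (-1) (x - x ^ 5 + x ^ 7 + x ^ 9 + x ^ 17 + x ^ 19 - x ^ 21 + x ^ 25)
    (by subst hk; ring) 2 _ h
  clear h
  have h : k ∣ 6 * 6 ^ 2 * 51319 ^ 1 * 4 ^ 2 * 6 ^ 2 * 39991 ^ 1 * 5 ^ 1 * 50419 ^ 1 * 6 ^ 1 * 6 ^ 1 * 7 ^ 1 * (-1 + x) ^ 8 * (1 + x) ^ 8 * (1 + x + x ^ 2) ^ 4 * (1 + x ^ 2) ^ 4 * (1 + x + x ^ 2 + x ^ 3 + x ^ 4) ^ 2 * (1 - x + x ^ 2) ^ 4 * (1 + x + x ^ 2 + x ^ 3 + x ^ 4 + x ^ 5 + x ^ 6) ^ 1 := by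
    refine dvd_trans h8 (dvd_of_eq ?_); ring
  have h7 := dvd_mul_pow_step (B := 1 + x + x ^ 2 + x ^ 3 + x ^ 4 + x ^ 5 + x ^ 6) (c := 55987) (-9331 - 1555 * x - 259 * x ^ 2 - 43 * x ^ 3 - 7 * x ^ 4 - x ^ 5) (1 + 9331 * x ^ 7 - 7776 * x ^ 8 - 1296 * x ^ 9 - 216 * x ^ 10 + 9295 * x ^ 11 - 7782 * x ^ 12 + 8034 * x ^ 13 + 1339 * x ^ 14 - 9108 * x ^ 15 - 1518 * x ^ 16 + 9078 * x ^ 17 + 1513 * x ^ 18 + 252 * x ^ 19 + 42 * x ^ 20 + 7 * x ^ 21 - 9330 * x ^ 22 + 7776 * x ^ 23 + 1296 * x ^ 24 + 216 * x ^ 25 + 36 * x ^ 26 + 6 * x ^ 27 + x ^ 28)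
    (by subst hk; ring) 1 _ h
  clear h
  have h : k ∣ 6 * 55987 ^ 1 * 6 ^ 2 * 51319 ^ 1 * 4 ^ 2 * 6 ^ 2 * 39991 ^ 1 * 5 ^ 1 * 50419 ^ 1 * 6 ^ 1 * 6 ^ 1 * 7 ^ 1 * (-1 + x) ^ 8 * (1 + x) ^ 8 * (1 + x + x ^ 2) ^ 4 * (1 + x ^ 2) ^ 4 * (1 + x + x ^ 2 + x ^ 3 + x ^ 4) ^ 2 * (1 - x + x ^ 2) ^ 4 := by
    refine dvd_trans h7 (dvd_of_eq ?_); ring
  have h6 := dvd_mul_pow_step (B := 1 - x + x ^ 2) (c := 2) (-1) (-4 - 3 * x + x ^ 2 + 4 * x ^ 3 + 3 * x ^ 4 - x ^ 5 - 4 * x ^ 6 - 2 * x ^ 7 + 2 * x ^ 8 + 4 * x ^ 9 + 2 * x ^ 10 - x ^ 11 - 3 * x ^ 12 - x ^ 13 + 2 * x ^ 14 + 3 * x ^ 15 + x ^ 16 - x ^ 17 - 2 * x ^ 18 + 2 * x ^ 20 + 2 * x ^ 21 - x ^ 23 - x ^ 24 + x ^ 26 + x ^ 27)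
    (by subst hk; ring) 4 _ h
  clear h
  have h : k ∣ 6 * 2 ^ 4 * 55987 ^ 1 * 6 ^ 2 * 51319 ^ 1 * 4 ^ 2 * 6 ^ 2 * 39991 ^ 1 * 5 ^ 1 * 50419 ^ 1 * 6 ^ 1 * 6 ^ 1 * 7 ^ 1 * (-1 + x) ^ 8 * (1 + x) ^ 8 * (1 + x + x ^ 2) ^ 4 * (1 + x ^ 2) ^ 4 * (1 + x + x ^ 2 + x ^ 3 + x ^ 4) ^ 2 := by
    refine dvd_trans h6 (dvd_of_eq ?_); ring
  have h5 := dvd_mul_pow_step (B := 1 + x + x ^ 2 + x ^ 3 + x ^ 4) (c := 8) (-1) (2 - x - x ^ 2 + 2 * x ^ 5 - x ^ 6 - x ^ 8 + 2 * x ^ 10 - x ^ 12 - x ^ 14 + 2 * x ^ 15 - x ^ 18 + x ^ 20 - x ^ 24 + x ^ 25)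
    (by subst hk; ring) 2 _ h
  clear h
  have h : k ∣ 6 * 8 ^ 2 * 2 ^ 4 * 55987 ^ 1 * 6 ^ 2 * 51319 ^ 1 * 4 ^ 2 * 6 ^ 2 * 39991 ^ 1 * 5 ^ 1 * 50419 ^ 1 * 6 ^ 1 * 6 ^ 1 * 7 ^ 1 * (-1 + x) ^ 8 * (1 + x) ^ 8 * (1 + x + x ^ 2) ^ 4 * (1 + x ^ 2) ^ 4 := by
    refine dvd_trans h5 (dvd_of_eq ?_); ring
  have h4 := dvd_mul_pow_step (B := 1 + x ^ 2) (c := 6) (-1) (x - x ^ 3 + x ^ 5 + x ^ 11 + x ^ 17 + x ^ 23 - x ^ 25 + x ^ 27)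
    (by subst hk; ring) 4 _ h
  clear h
  have h : k ∣ 6 * 6 ^ 4 * 8 ^ 2 * 2 ^ 4 * 55987 ^ 1 * 6 ^ 2 * 51319 ^ 1 * 4 ^ 2 * 6 ^ 2 * 39991 ^ 1 * 5 ^ 1 * 50419 ^ 1 * 6 ^ 1 * 6 ^ 1 * 7 ^ 1 * (-1 + x) ^ 8 * (1 + x) ^ 8 * (1 + x + x ^ 2) ^ 4 := by
    refine dvd_trans h4 (dvd_of_eq ?_); ring
  have h3 := dvd_mul_pow_step (B := 1 + x + x ^ 2) (c := 10) (-1) (4 - 3 * x - x ^ 2 + 4 * x ^ 3 - 3 * x ^ 4 - x ^ 5 + 4 * x ^ 6 - 2 * x ^ 7 - 2 * x ^ 8 + 4 * x ^ 9 - 2 * x ^ 10 - x ^ 11 + 3 * x ^ 12 - x ^ 13 - 2 * x ^ 14 + 3 * x ^ 15 - x ^ 16 - x ^ 17 + 2 * x ^ 18 - 2 * x ^ 20 + 2 * x ^ 21 - x ^ 23 + x ^ 24 - x ^ 26 + x ^ 27)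
    (by subst hk; ring) 4 _ h
  clear h
  have h : k ∣ 6 * 10 ^ 4 * 6 ^ 4 * 8 ^ 2 * 2 ^ 4 * 55987 ^ 1 * 6 ^ 2 * 51319 ^ 1 * 4 ^ 2 * 6 ^ 2 * 39991 ^ 1 * 5 ^ 1 * 50419 ^ 1 * 6 ^ 1 * 6 ^ 1 * 7 ^ 1 * (-1 + x) ^ 8 * (1 + x) ^ 8 := by
    refine dvd_trans h3 (dvd_of_eq ?_); ring
  have h2 := dvd_mul_pow_step (B := 1 + x) (c := 14) (-1) (8 - 7 * x + 7 * x ^ 2 - 7 * x ^ 3 + 7 * x ^ 4 - 7 * x ^ 5 + 7 * x ^ 6 - 6 * x ^ 7 + 6 * x ^ 8 - 6 * x ^ 9 + 6 * x ^ 10 - 5 * x ^ 11 + 5 * x ^ 12 - 4 * x ^ 13 + 4 * x ^ 14 - 4 * x ^ 15 + 4 * x ^ 16 - 3 * x ^ 17 + 3 * x ^ 18 - 2 * x ^ 19 + 2 * x ^ 20 - 2 * x ^ 21 + 2 * x ^ 22 - x ^ 23 + x ^ 24 - x ^ 25 + x ^ 26 - x ^ 27 + x ^ 28)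
    (by subst hk; ring) 8 _ h
  clear h
  have h : k ∣ 6 * 14 ^ 8 * 10 ^ 4 * 6 ^ 4 * 8 ^ 2 * 2 ^ 4 * 55987 ^ 1 * 6 ^ 2 * 51319 ^ 1 * 4 ^ 2 * 6 ^ 2 * 39991 ^ 1 * 5 ^ 1 * 50419 ^ 1 * 6 ^ 1 * 6 ^ 1 * 7 ^ 1 * (-1 + x) ^ 8 := by
    refine dvd_trans h2 (dvd_of_eq ?_); ring
  have h1 := dvd_mul_pow_step (B := -1 + x) (c := 2) (1) (-8 - 7 * x - 7 * x ^ 2 - 7 * x ^ 3 - 7 * x ^ 4 - 7 * x ^ 5 - 7 * x ^ 6 - 6 * x ^ 7 - 6 * x ^ 8 - 6 * x ^ 9 - 6 * x ^ 10 - 5 * x ^ 11 - 5 * x ^ 12 - 4 * x ^ 13 - 4 * x ^ 14 - 4 * x ^ 15 - 4 * x ^ 16 - 3 * x ^ 17 - 3 * x ^ 18 - 2 * x ^ 19 - 2 * x ^ 20 - 2 * x ^ 21 - 2 * x ^ 22 - x ^ 23 - x ^ 24 - x ^ 25 - x ^ 26 - x ^ 27 - x ^ 28)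
    (by subst hk; ring) 8 _ h
  clear h
  have h : k ∣ 6 * 2 ^ 8 * 14 ^ 8 * 10 ^ 4 * 6 ^ 4 * 8 ^ 2 * 2 ^ 4 * 55987 ^ 1 * 6 ^ 2 * 51319 ^ 1 * 4 ^ 2 * 6 ^ 2 * 39991 ^ 1 * 5 ^ 1 * 50419 ^ 1 * 6 ^ 1 * 6 ^ 1 * 7 ^ 1 := by
    refine dvd_trans h1 (dvd_of_eq ?_); ring
  have hle := Int.le_of_dvd (by norm_num) h
  obtain ⟨u, hu, rfl⟩ : ∃ u, 0 ≤ u ∧ x = 48 + u := ⟨x - 48, by omega, by ring⟩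
  have e : k - 4553421590637141963192527145382798598917324800000 = 1148167094496900445187008548319204924601193725994 + 3444709830543545464843251816512124390725621121025 * u + 1004707033894573136949347698365599966753209712640 * u ^ 2 + 188382568853099539298156247304234123879448248320 * u ^ 3 + 25510139531957274073369248979727574178761216000 * u ^ 4 + 2657306201226108671650697945917735334760725760 * u ^ 5 + 221442183434226509102298784655666105844498768 * u ^ 6 + 15158244699297987697247152332797300720664577 * u ^ 7 + 868441102560905457384077036757878477058048 * u ^ 8 + 42215886929931357719567154408899206770432 * u ^ 9 + 1758995288743619355966894455928335278608 * u ^ 10 + 63297178950908106207689236764797615617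 * u ^ 11 + 1978036842213771508998294659772973680 * u ^ 12 + 53888824226937233867331740810084353 * u ^ 13 + 1283067243497842366871059002261504 * u ^ 14 + 26730567572862504845969715677184 * u ^ 15 + 487275971380198134985865245488 * u ^ 16 + 7762975034242294376634385153 * u ^ 17 + 107819097697801070221198224 * u ^ 18 + 1300449643284824922193921 * u ^ 19 + 13546350450883299151872 * u ^ 20 + 120949557597171148032 * u ^ 21 + 916284527251293264 * u ^ 22 + 5809775082209281 * u ^ 23 + 30259245219840 * u ^ 24 + 126080188416 * u ^ 25 + 404103168 * u ^ 26 + 935424 * u ^ 27 + 1392 * u ^ 28 + u ^ 29 := by subst hk; ring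
  have : 0 < k - 4553421590637141963192527145382798598917324800000 := by rw [e]; positivity
  norm_num at hle
  linarith

theorem small_7 {x : ℤ} (hx : 52 ≤ x) (h : -7 + x + x ^ 7 + x ^ 11 + x ^ 13 + x ^ 17 + x ^ 19 + x ^ 23 + x ^ 29 ∣ 7 * ((-1 + x) ^ 8 * (1 + x) ^ 8 * (1 + x + x ^ 2) ^ 4 * (1 + x ^ 2) ^ 4 * (1 + x + x ^ 2 + x ^ 3 + x ^ 4) ^ 2 * (1 - x + x ^ 2) ^ 4 * (1 + x + x ^ 2 + x ^ 3 + x ^ 4 + x ^ 5 + x ^ 6) ^ 1 * (1 + x ^ 4) ^ 2 * (1 + x ^ 3 + x ^ 6) ^ 1 * (1 - x + x ^ 2 - x ^ 3 + x ^ 4) ^ 2 * (1 - x ^ 2 + x ^ 4) ^ 2 * (1 - x + x ^ 2 - x ^ 3 + x ^ 4 - x ^ 5 + x ^ 6) ^ 1 * (1 - x + x ^ 3 - x ^ 4 + x ^ 5 - x ^ 7 + x ^ 8) ^ 1 * (1 - x ^ 3 + x ^ 6) ^ 1 * (1 - x ^ 2 + x ^ 4 - x ^ 6 + x ^ 8) ^ 1 * (1 -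 x ^ 4 + x ^ 8) ^ 1 * (1 + x - x ^ 3 - x ^ 4 - x ^ 5 + x ^ 7 + x ^ 8) ^ 1)) : False := by
  generalize hk : (-7 + x + x ^ 7 + x ^ 11 + x ^ 13 + x ^ 17 + x ^ 19 + x ^ 23 + x ^ 29 : ℤ) = k at h
  simp only [← mul_assoc] at h
  have h30 := dvd_mul_pow_step (B := 1 + x - x ^ 3 - x ^ 4 - x ^ 5 + x ^ 7 + x ^ 8) (c := 8) (-1) (1 + x ^ 3 + x ^ 5 + x ^ 7 + x ^ 9 + x ^ 11 + x ^ 13 + x ^ 16 + x ^ 19 - x ^ 20 + x ^ 21)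
    (by subst hk; ring) 1 _ h
  clear h
  have h : k ∣ 7 * 8 ^ 1 * (-1 + x) ^ 8 * (1 + x) ^ 8 * (1 + x + x ^ 2) ^ 4 * (1 + x ^ 2) ^ 4 * (1 + x + x ^ 2 + x ^ 3 + x ^ 4) ^ 2 * (1 - x + x ^ 2) ^ 4 * (1 + x + x ^ 2 + x ^ 3 + x ^ 4 + x ^ 5 + x ^ 6) ^ 1 * (1 + x ^ 4) ^ 2 * (1 + x ^ 3 + x ^ 6) ^ 1 * (1 - x + x ^ 2 - x ^ 3 + x ^ 4) ^ 2 * (1 - x ^ 2 + x ^ 4) ^ 2 * (1 - x + x ^ 2 - x ^ 3 + x ^ 4 - x ^ 5 + x ^ 6) ^ 1 * (1 - x + x ^ 3 - x ^ 4 + x ^ 5 - x ^ 7 + x ^ 8) ^ 1 * (1 - x ^ 3 + x ^ 6) ^ 1 * (1 - x ^ 2 + x ^ 4 - x ^ 6 + x ^ 8) ^ 1 * (1 - x ^ 4 + x ^ 8) ^ 1 := by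
    refine dvd_trans h30 (dvd_of_eq ?_); ring
  have h24 := dvd_mul_pow_step (B := 1 - x ^ 4 + x ^ 8) (c := 7) (-1) (x + x ^ 5 + x ^ 7 + 2 * x ^ 11 + x ^ 15 + x ^ 17 + x ^ 21)
    (by subst hk; ring) 1 _ h
  clear h
  have h : k ∣ 7 * 7 ^ 1 * 8 ^ 1 * (-1 + x) ^ 8 * (1 + x) ^ 8 * (1 + x + x ^ 2) ^ 4 * (1 + x ^ 2) ^ 4 * (1 + x + x ^ 2 + x ^ 3 + x ^ 4) ^ 2 * (1 - x + x ^ 2) ^ 4 * (1 + x + x ^ 2 + x ^ 3 + x ^ 4 + x ^ 5 + x ^ 6) ^ 1 * (1 + x ^ 4) ^ 2 * (1 + x ^ 3 + x ^ 6) ^ 1 * (1 - x + x ^ 2 - x ^ 3 + x ^ 4) ^ 2 * (1 - x ^ 2 + x ^ 4) ^ 2 * (1 - x + x ^ 2 - x ^ 3 + x ^ 4 - x ^ 5 + x ^ 6) ^ 1 * (1 - x + x ^ 3 - x ^ 4 + x ^ 5 - x ^ 7 + x ^ 8) ^ 1 * (1 - x ^ 3 + x ^ 6) ^ 1 * (1 - x ^ 2 + x ^ 4 - x ^ 6 + x ^ 8) ^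 1 := by
    refine dvd_trans h24 (dvd_of_eq ?_); ring
  have h20 := dvd_mul_pow_step (B := 1 - x ^ 2 + x ^ 4 - x ^ 6 + x ^ 8) (c := 7) (-1) (x + x ^ 3 + x ^ 7 + x ^ 9 + x ^ 13 + x ^ 15 + x ^ 19 + x ^ 21)
    (by subst hk; ring) 1 _ h
  clear h
  have h : k ∣ 7 * 7 ^ 1 * 7 ^ 1 * 8 ^ 1 * (-1 + x) ^ 8 * (1 + x) ^ 8 * (1 + x + x ^ 2) ^ 4 * (1 + x ^ 2) ^ 4 * (1 + x + x ^ 2 + x ^ 3 + x ^ 4) ^ 2 * (1 - x + x ^ 2) ^ 4 * (1 + x + x ^ 2 + x ^ 3 + x ^ 4 + x ^ 5 + x ^ 6) ^ 1 * (1 + x ^ 4) ^ 2 * (1 + x ^ 3 + x ^ 6) ^ 1 * (1 - x + x ^ 2 - x ^ 3 + x ^ 4) ^ 2 * (1 - x ^ 2 + x ^ 4) ^ 2 * (1 - x + x ^ 2 - x ^ 3 + x ^ 4 - x ^ 5 + x ^ 6) ^ 1 * (1 - x + x ^ 3 - x ^ 4 + x ^ 5 - x ^ 7 + x ^ 8) ^ 1 * (1 - x ^ 3 + x ^ 6) ^ 1 :=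 by
    refine dvd_trans h20 (dvd_of_eq ?_); ring
  have h18 := dvd_mul_pow_step (B := 1 - x ^ 3 + x ^ 6) (c := 41529) (-5936 - 854 * x + 726 * x ^ 2 + 229 * x ^ 3 - 65 * x ^ 4 - 42 * x ^ 5) (-23 - 42 * x + 5936 * x ^ 2 + 854 * x ^ 3 - 726 * x ^ 4 + 5707 * x ^ 5 + 919 * x ^ 6 + 5252 * x ^ 7 + 625 * x ^ 8 - 661 * x ^ 9 + 5749 * x ^ 10 + 919 * x ^ 11 - 684 * x ^ 12 + 5707 * x ^ 13 + 919 * x ^ 14 - 684 * x ^ 15 - 229 * x ^ 16 + 6001 * x ^ 17 + 896 * x ^ 18 - 726 * x ^ 19 + 5707 * x ^ 20 + 919 * x ^ 21 - 684 * x ^ 22 + 5707 * x ^ 23 + 919 * x ^ 24 - 684 * x ^ 25 - 229 * x ^ 26 + 65 * x ^ 27 + 42 * x ^ 28)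
    (by subst hk; ring) 1 _ h
  clear h
  have h : k ∣ 7 * 41529 ^ 1 * 7 ^ 1 * 7 ^ 1 * 8 ^ 1 * (-1 + x) ^ 8 * (1 + x) ^ 8 * (1 + x + x ^ 2) ^ 4 * (1 + x ^ 2) ^ 4 * (1 + x + x ^ 2 + x ^ 3 + x ^ 4) ^ 2 * (1 - x + x ^ 2) ^ 4 * (1 + x + x ^ 2 + x ^ 3 + x ^ 4 + x ^ 5 + x ^ 6) ^ 1 * (1 + x ^ 4) ^ 2 * (1 + x ^ 3 + x ^ 6) ^ 1 * (1 - x + x ^ 2 - x ^ 3 + x ^ 4) ^ 2 * (1 - x ^ 2 + x ^ 4) ^ 2 * (1 - x + x ^ 2 - x ^ 3 + x ^ 4 - x ^ 5 + x ^ 6) ^ 1 * (1 - x + x ^ 3 - x ^ 4 + x ^ 5 - x ^ 7 + x ^ 8) ^ 1 := by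
    refine dvd_trans h18 (dvd_of_eq ?_); ring
  have h15 := dvd_mul_pow_step (B := 1 - x + x ^ 3 - x ^ 4 + x ^ 5 - x ^ 7 + x ^ 8) (c := 6) (-1) (-1 + x ^ 3 + x ^ 5 + x ^ 7 + x ^ 9 + x ^ 11 + x ^ 13 - x ^ 16 + x ^ 19 + x ^ 20 + x ^ 21)
    (by subst hk; ring) 1 _ h
  clear h
  have h : k ∣ 7 * 6 ^ 1 * 41529 ^ 1 * 7 ^ 1 * 7 ^ 1 * 8 ^ 1 * (-1 + x) ^ 8 * (1 + x) ^ 8 * (1 + x + x ^ 2) ^ 4 * (1 + x ^ 2) ^ 4 * (1 + x + x ^ 2 + x ^ 3 + x ^ 4) ^ 2 * (1 - x + x ^ 2) ^ 4 * (1 + x + x ^ 2 + x ^ 3 + x ^ 4 + x ^ 5 + x ^ 6) ^ 1 * (1 + x ^ 4) ^ 2 * (1 + x ^ 3 + x ^ 6) ^ 1 * (1 - x + x ^ 2 - x ^ 3 + x ^ 4) ^ 2 * (1 - x ^ 2 + x ^ 4) ^ 2 * (1 - x + x ^ 2 - x ^ 3 + x ^ 4 - x ^ 5 + x ^ 6) ^ 1 := by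
    refine dvd_trans h15 (dvd_of_eq ?_); ring
  have h14 := dvd_mul_pow_step (B := 1 - x + x ^ 2 - x ^ 3 + x ^ 4 - x ^ 5 + x ^ 6) (c := 102943) (-14706 - 2101 * x - 300 * x ^ 2 - 43 * x ^ 3 - 6 * x ^ 4 - x ^ 5) (1 + 14706 * x ^ 7 + 16807 * x ^ 8 + 2401 * x ^ 9 + 343 * x ^ 10 + 14755 * x ^ 11 + 16814 * x ^ 12 + 17108 * x ^ 13 + 2444 * x ^ 14 - 14357 * x ^ 15 - 2051 * x ^ 16 + 14413 * x ^ 17 + 2059 * x ^ 18 + 294 * x ^ 19 + 42 * x ^ 20 + 6 * x ^ 21 + 14707 * x ^ 22 + 16807 * x ^ 23 + 2401 * x ^ 24 + 343 * x ^ 25 + 49 * x ^ 26 + 7 * x ^ 27 + x ^ 28)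
    (by subst hk; ring) 1 _ h
  clear h
  have h : k ∣ 7 * 102943 ^ 1 * 6 ^ 1 * 41529 ^ 1 * 7 ^ 1 * 7 ^ 1 * 8 ^ 1 * (-1 + x) ^ 8 * (1 + x) ^ 8 * (1 + x + x ^ 2) ^ 4 * (1 + x ^ 2) ^ 4 * (1 + x + x ^ 2 + x ^ 3 + x ^ 4) ^ 2 * (1 - x + x ^ 2) ^ 4 * (1 + x + x ^ 2 + x ^ 3 + x ^ 4 + x ^ 5 + x ^ 6) ^ 1 * (1 + x ^ 4) ^ 2 * (1 + x ^ 3 + x ^ 6) ^ 1 * (1 - x + x ^ 2 - x ^ 3 + x ^ 4) ^ 2 * (1 - x ^ 2 + x ^ 4) ^ 2 := by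
    refine dvd_trans h14 (dvd_of_eq ?_); ring
  have h12 := dvd_mul_pow_step (B := 1 - x ^ 2 + x ^ 4) (c := 7) (-1) (x + x ^ 3 + x ^ 11 + 2 * x ^ 13 + x ^ 15 + x ^ 23 + x ^ 25)
    (by subst hk; ring) 2 _ h
  clear h
  have h : k ∣ 7 * 7 ^ 2 * 102943 ^ 1 * 6 ^ 1 * 41529 ^ 1 * 7 ^ 1 * 7 ^ 1 * 8 ^ 1 * (-1 + x) ^ 8 * (1 + x) ^ 8 * (1 + x + x ^ 2) ^ 4 * (1 + x ^ 2) ^ 4 * (1 + x + x ^ 2 + x ^ 3 + x ^ 4) ^ 2 * (1 - x + x ^ 2) ^ 4 * (1 + x + x ^ 2 + x ^ 3 + x ^ 4 + x ^ 5 + x ^ 6) ^ 1 * (1 + x ^ 4) ^ 2 * (1 + x ^ 3 + x ^ 6) ^ 1 * (1 - x + x ^ 2 - x ^ 3 + x ^ 4) ^ 2 := by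
    refine dvd_trans h12 (dvd_of_eq ?_); ring
  have h10 := dvd_mul_pow_step (B := 1 - x + x ^ 2 - x ^ 3 + x ^ 4) (c := 5) (-1) (-2 - x + x ^ 2 + 2 * x ^ 5 + x ^ 6 + x ^ 8 - 2 * x ^ 10 + x ^ 12 + x ^ 14 + 2 * x ^ 15 + x ^ 18 - x ^ 20 + x ^ 24 + x ^ 25)
    (by subst hk; ring) 2 _ h
  clear h
  have h : k ∣ 7 * 5 ^ 2 * 7 ^ 2 * 102943 ^ 1 * 6 ^ 1 * 41529 ^ 1 * 7 ^ 1 * 7 ^ 1 * 8 ^ 1 * (-1 + x) ^ 8 * (1 + x) ^ 8 * (1 + x + x ^ 2) ^ 4 * (1 + x ^ 2) ^ 4 * (1 + x + x ^ 2 + x ^ 3 + x ^ 4) ^ 2 * (1 - x + x ^ 2) ^ 4 * (1 + x + x ^ 2 + x ^ 3 + x ^ 4 + x ^ 5 + x ^ 6) ^ 1 * (1 + x ^ 4) ^ 2 * (1 + x ^ 3 + x ^ 6) ^ 1 := by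
    refine dvd_trans h10 (dvd_of_eq ?_); ring
  have h9 := dvd_mul_pow_step (B := 1 + x ^ 3 + x ^ 6) (c := 126001) (-17906 - 2534 * x - 2920 * x ^ 2 - 685 * x ^ 3 - 491 * x ^ 4 - 168 * x ^ 5) (659 + 168 * x - 17906 * x ^ 2 - 2534 * x ^ 3 - 2920 * x ^ 4 + 17221 * x ^ 5 + 2043 * x ^ 6 + 20658 * x ^ 7 + 3219 * x ^ 8 + 3411 * x ^ 9 - 17053 * x ^ 10 - 2043 * x ^ 11 - 2752 * x ^ 12 + 17221 * x ^ 13 + 2043 * x ^ 14 + 2752 * x ^ 15 + 685 * x ^ 16 + 18397 * x ^ 17 + 2702 * x ^ 18 + 2920 * x ^ 19 - 17221 * x ^ 20 - 2043 * x ^ 21 - 2752 * x ^ 22 + 17221 * x ^ 23 + 2043 * x ^ 24 + 2752 * x ^ 25 + 685 * x ^ 26 + 491 * x ^ 27 + 168 * x ^ 28)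
    (by subst hk; ring) 1 _ h
  clear h
  have h : k ∣ 7 * 126001 ^ 1 * 5 ^ 2 * 7 ^ 2 * 102943 ^ 1 * 6 ^ 1 * 41529 ^ 1 * 7 ^ 1 * 7 ^ 1 * 8 ^ 1 * (-1 + x) ^ 8 * (1 + x) ^ 8 * (1 + x + x ^ 2) ^ 4 * (1 + x ^ 2) ^ 4 * (1 + x + x ^ 2 + x ^ 3 + x ^ 4) ^ 2 * (1 - x + x ^ 2) ^ 4 * (1 + x + x ^ 2 + x ^ 3 + x ^ 4 + x ^ 5 + x ^ 6) ^ 1 * (1 + x ^ 4) ^ 2 := by
    refine dvd_trans h9 (dvd_of_eq ?_); ring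
  have h8 := dvd_mul_pow_step (B := 1 + x ^ 4) (c := 7) (-1) (x - x ^ 5 + x ^ 7 + x ^ 9 + x ^ 17 + x ^ 19 - x ^ 21 + x ^ 25)
    (by subst hk; ring) 2 _ h
  clear h
  have h : k ∣ 7 * 7 ^ 2 * 126001 ^ 1 * 5 ^ 2 * 7 ^ 2 * 102943 ^ 1 * 6 ^ 1 * 41529 ^ 1 * 7 ^ 1 * 7 ^ 1 * 8 ^ 1 * (-1 + x) ^ 8 * (1 + x) ^ 8 * (1 + x + x ^ 2) ^ 4 * (1 + x ^ 2) ^ 4 * (1 + x + x ^ 2 + x ^ 3 + x ^ 4) ^ 2 * (1 - x + x ^ 2) ^ 4 * (1 + x + x ^ 2 + x ^ 3 + x ^ 4 + x ^ 5 + x ^ 6) ^ 1 := by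
    refine dvd_trans h8 (dvd_of_eq ?_); ring
  have h7 := dvd_mul_pow_step (B := 1 + x + x ^ 2 + x ^ 3 + x ^ 4 + x ^ 5 + x ^ 6) (c := 137257) (-19608 - 2801 * x - 400 * x ^ 2 - 57 * x ^ 3 - 8 * x ^ 4 - x ^ 5) (1 + 19608 * x ^ 7 - 16807 * x ^ 8 - 2401 * x ^ 9 - 343 * x ^ 10 + 19559 * x ^ 11 - 16814 * x ^ 12 + 17206 * x ^ 13 + 2458 * x ^ 14 - 19257 * x ^ 15 - 2751 * x ^ 16 + 19215 * x ^ 17 + 2745 * x ^ 18 + 392 * x ^ 19 + 56 * x ^ 20 + 8 * x ^ 21 - 19607 * x ^ 22 + 16807 * x ^ 23 + 2401 * x ^ 24 + 343 * x ^ 25 + 49 * x ^ 26 + 7 * x ^ 27 + x ^ 28)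
    (by subst hk; ring) 1 _ h
  clear h
  have h : k ∣ 7 * 137257 ^ 1 * 7 ^ 2 * 126001 ^ 1 * 5 ^ 2 * 7 ^ 2 * 102943 ^ 1 * 6 ^ 1 * 41529 ^ 1 * 7 ^ 1 * 7 ^ 1 * 8 ^ 1 * (-1 + x) ^ 8 * (1 + x) ^ 8 * (1 + x + x ^ 2) ^ 4 * (1 + x ^ 2) ^ 4 * (1 + x + x ^ 2 + x ^ 3 + x ^ 4) ^ 2 * (1 - x + x ^ 2) ^ 4 := by
    refine dvd_trans h7 (dvd_of_eq ?_); ring
  have h6 := dvd_mul_pow_step (B := 1 - x + x ^ 2) (c := 3) (-1) (-4 - 3 * x + x ^ 2 + 4 * x ^ 3 + 3 * x ^ 4 - x ^ 5 - 4 * x ^ 6 - 2 * x ^ 7 + 2 * x ^ 8 + 4 * x ^ 9 + 2 * x ^ 10 - x ^ 11 - 3 * x ^ 12 - x ^ 13 + 2 * x ^ 14 + 3 * x ^ 15 + x ^ 16 - x ^ 17 - 2 * x ^ 18 + 2 * x ^ 20 + 2 * x ^ 21 - x ^ 23 - x ^ 24 + x ^ 26 + x ^ 27)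
    (by subst hk; ring) 4 _ h
  clear h
  have h : k ∣ 7 * 3 ^ 4 * 137257 ^ 1 * 7 ^ 2 * 126001 ^ 1 * 5 ^ 2 * 7 ^ 2 * 102943 ^ 1 * 6 ^ 1 * 41529 ^ 1 * 7 ^ 1 * 7 ^ 1 * 8 ^ 1 * (-1 + x) ^ 8 * (1 + x) ^ 8 * (1 + x + x ^ 2) ^ 4 * (1 + x ^ 2) ^ 4 * (1 + x + x ^ 2 + x ^ 3 + x ^ 4) ^ 2 := by
    refine dvd_trans h6 (dvd_of_eq ?_); ring
  have h5 := dvd_mul_pow_step (B := 1 + x + x ^ 2 + x ^ 3 + x ^ 4) (c := 9) (-1) (2 - x - x ^ 2 + 2 * x ^ 5 - x ^ 6 - x ^ 8 + 2 * x ^ 10 - x ^ 12 - x ^ 14 + 2 * x ^ 15 - x ^ 18 + x ^ 20 - x ^ 24 + x ^ 25)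
    (by subst hk; ring) 2 _ h
  clear h
  have h : k ∣ 7 * 9 ^ 2 * 3 ^ 4 * 137257 ^ 1 * 7 ^ 2 * 126001 ^ 1 * 5 ^ 2 * 7 ^ 2 * 102943 ^ 1 * 6 ^ 1 * 41529 ^ 1 * 7 ^ 1 * 7 ^ 1 * 8 ^ 1 * (-1 + x) ^ 8 * (1 + x) ^ 8 * (1 + x + x ^ 2) ^ 4 * (1 + x ^ 2) ^ 4 := by
    refine dvd_trans h5 (dvd_of_eq ?_); ring
  have h4 := dvd_mul_pow_step (B := 1 + x ^ 2) (c := 7) (-1) (x - x ^ 3 + x ^ 5 + x ^ 11 + x ^ 17 + x ^ 23 - x ^ 25 + x ^ 27)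
    (by subst hk; ring) 4 _ h
  clear h
  have h : k ∣ 7 * 7 ^ 4 * 9 ^ 2 * 3 ^ 4 * 137257 ^ 1 * 7 ^ 2 * 126001 ^ 1 * 5 ^ 2 * 7 ^ 2 * 102943 ^ 1 * 6 ^ 1 * 41529 ^ 1 * 7 ^ 1 * 7 ^ 1 * 8 ^ 1 * (-1 + x) ^ 8 * (1 + x) ^ 8 * (1 + x + x ^ 2) ^ 4 := by
    refine dvd_trans h4 (dvd_of_eq ?_); ring
  have h3 := dvd_mul_pow_step (B := 1 + x + x ^ 2) (c := 11) (-1) (4 - 3 * x - x ^ 2 + 4 * x ^ 3 - 3 * x ^ 4 - x ^ 5 + 4 * x ^ 6 - 2 * x ^ 7 - 2 * x ^ 8 + 4 * x ^ 9 - 2 * x ^ 10 - x ^ 11 + 3 * x ^ 12 - x ^ 13 - 2 * x ^ 14 + 3 * x ^ 15 - x ^ 16 - x ^ 17 + 2 * x ^ 18 - 2 * x ^ 20 + 2 * x ^ 21 - x ^ 23 + x ^ 24 - x ^ 26 + x ^ 27)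
    (by subst hk; ring) 4 _ h
  clear h
  have h : k ∣ 7 * 11 ^ 4 * 7 ^ 4 * 9 ^ 2 * 3 ^ 4 * 137257 ^ 1 * 7 ^ 2 * 126001 ^ 1 * 5 ^ 2 * 7 ^ 2 * 102943 ^ 1 * 6 ^ 1 * 41529 ^ 1 * 7 ^ 1 * 7 ^ 1 * 8 ^ 1 * (-1 + x) ^ 8 * (1 + x) ^ 8 := by
    refine dvd_trans h3 (dvd_of_eq ?_); ring
  have h2 := dvd_mul_pow_step (B := 1 + x) (c := 15) (-1) (8 - 7 * x + 7 * x ^ 2 - 7 * x ^ 3 + 7 * x ^ 4 - 7 * x ^ 5 + 7 * x ^ 6 - 6 * x ^ 7 + 6 * x ^ 8 - 6 * x ^ 9 + 6 * x ^ 10 - 5 * x ^ 11 + 5 * x ^ 12 - 4 * x ^ 13 + 4 * x ^ 14 - 4 * x ^ 15 + 4 * x ^ 16 - 3 * x ^ 17 + 3 * x ^ 18 - 2 * x ^ 19 + 2 * x ^ 20 - 2 * x ^ 21 + 2 * x ^ 22 - x ^ 23 + x ^ 24 - x ^ 25 + x ^ 26 - x ^ 27 + x ^ 28)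
    (by subst hk; ring) 8 _ h
  clear h
  have h : k ∣ 7 * 15 ^ 8 * 11 ^ 4 * 7 ^ 4 * 9 ^ 2 * 3 ^ 4 * 137257 ^ 1 * 7 ^ 2 * 126001 ^ 1 * 5 ^ 2 * 7 ^ 2 * 102943 ^ 1 * 6 ^ 1 * 41529 ^ 1 * 7 ^ 1 * 7 ^ 1 * 8 ^ 1 * (-1 + x) ^ 8 := by
    refine dvd_trans h2 (dvd_of_eq ?_); ring
  have h1 := dvd_mul_pow_step (B := -1 + x) (c := 1) (1) (-8 - 7 * x - 7 * x ^ 2 - 7 * x ^ 3 - 7 * x ^ 4 - 7 * x ^ 5 - 7 * x ^ 6 - 6 * x ^ 7 - 6 * x ^ 8 - 6 * x ^ 9 - 6 * x ^ 10 - 5 * x ^ 11 - 5 * x ^ 12 - 4 * x ^ 13 - 4 * x ^ 14 - 4 * x ^ 15 - 4 * x ^ 16 - 3 * x ^ 17 - 3 * x ^ 18 - 2 * x ^ 19 - 2 * x ^ 20 - 2 * x ^ 21 - 2 * x ^ 22 - x ^ 23 - x ^ 24 - x ^ 25 - x ^ 26 - x ^ 27 - x ^ 28)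
    (by subst hk; ring) 8 _ h
  clear h
  have h : k ∣ 7 * 1 ^ 8 * 15 ^ 8 * 11 ^ 4 * 7 ^ 4 * 9 ^ 2 * 3 ^ 4 * 137257 ^ 1 * 7 ^ 2 * 126001 ^ 1 * 5 ^ 2 * 7 ^ 2 * 102943 ^ 1 * 6 ^ 1 * 41529 ^ 1 * 7 ^ 1 * 7 ^ 1 * 8 ^ 1 := by
    refine dvd_trans h1 (dvd_of_eq ?_); ring
  have hle := Int.le_of_dvd (by norm_num) h
  obtain ⟨u, hu, rfl⟩ : ∃ u, 0 ≤ u ∧ x = 52 + u := ⟨x - 52, by omega, by ring⟩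
  have e : k - 43190409861426870132100671911890695905164218750000 = 14899000132670512210685233494947161628030568426493 + 32396017111753751242111209986792936454467128193025 * u + 8722004606935649831273190403173436747683904783360 * u ^ 2 + 1509577720420596695075465814463461145611677848320 * u ^ 3 + 188697215051507073316644094571794097770981464000 * u ^ 4 + 18143962985639717546512058121928777200134634960 * u ^ 5 + 1395689460428823746956649575747619310655265132 * u ^ 6 + 88189169202672895458826662076693284469746177 * u ^ 7 + 4663850294362018827236890986021059047730752 * u ^ 8 + 209275333721027154154910748706202417512432 * u ^ 9 + 8049051296952616923490088174280971100092 * u ^ 10 + 267363592031398948508099601491568539617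 * u ^ 11 + 7712411308592964897272962278088045220 * u ^ 12 + 193951171961567193671919219407178753 * u ^ 13 + 4262663120033080790184459967914496 * u ^ 14 + 81974290769849463570497946976384 * u ^ 15 + 1379375085069393290464755794612 * u ^ 16 + 20284927721607014188002491953 * u ^ 17 + 260063175918025849950451676 * u ^ 18 + 2895440217710736425649921 * u ^ 19 + 27840771324141322875328 * u ^ 20 + 229456906517646897232 * u ^ 21 + 1604593751871653036 * u ^ 22 + 9391435002593281 * u ^ 23 + 45151129820160 * u ^ 24 + 173658191616 * u ^ 25 + 513781632 * u ^ 26 + 1097824 * u ^ 27 + 1508 * u ^ 28 + u ^ 29 := by subst hk; ring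
  have : 0 < k - 43190409861426870132100671911890695905164218750000 := by rw [e]; positivity
  norm_num at hle
  linarith

theorem small_8 {x : ℤ} (hx : 197 ≤ x) (h : 8 + 7 * x + 7 * x ^ 2 + 7 * x ^ 3 + 7 * x ^ 4 + 7 * x ^ 5 + 7 * x ^ 6 + 6 * x ^ 7 + 6 * x ^ 8 + 6 * x ^ 9 + 6 * x ^ 10 + 5 * x ^ 11 + 5 * x ^ 12 + 4 * x ^ 13 + 4 * x ^ 14 + 4 * x ^ 15 + 4 * x ^ 16 + 3 * x ^ 17 + 3 * x ^ 18 + 2 * x ^ 19 + 2 * x ^ 20 + 2 * x ^ 21 + 2 * x ^ 22 + x ^ 23 + x ^ 24 + x ^ 25 + x ^ 26 + x ^ 27 + x ^ 28 ∣ 8 * ((-1 + x) ^ 7 * (1 + x) ^ 8 * (1 + x + x ^ 2) ^ 4 * (1 + x ^ 2) ^ 4 * (1 + x + x ^ 2 + x ^ 3 + x ^ 4) ^ 2 * (1 - x + x ^ 2) ^ 4 * (1 + x + x ^ 2 + x ^ 3 + x ^ 4 + x ^ 5 + x ^ 6) ^ 1 * (1 + x ^ 4) ^ 2 * (1 + x ^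 3 + x ^ 6) ^ 1 * (1 - x + x ^ 2 - x ^ 3 + x ^ 4) ^ 2 * (1 - x ^ 2 + x ^ 4) ^ 2 * (1 - x + x ^ 2 - x ^ 3 + x ^ 4 - x ^ 5 + x ^ 6) ^ 1 * (1 - x + x ^ 3 - x ^ 4 + x ^ 5 - x ^ 7 + x ^ 8) ^ 1 * (1 - x ^ 3 + x ^ 6) ^ 1 * (1 - x ^ 2 + x ^ 4 - x ^ 6 + x ^ 8) ^ 1 * (1 - x ^ 4 + x ^ 8) ^ 1 * (1 + x - x ^ 3 - x ^ 4 - x ^ 5 + x ^ 7 + x ^ 8) ^ 1)) : False := by
  generalize hk : (8 + 7 * x + 7 * x ^ 2 + 7 * x ^ 3 + 7 * x ^ 4 + 7 * x ^ 5 + 7 * x ^ 6 + 6 * x ^ 7 + 6 * x ^ 8 + 6 * x ^ 9 + 6 * x ^ 10 + 5 * x ^ 11 + 5 * x ^ 12 + 4 * x ^ 13 + 4 * x ^ 14 + 4 * x ^ 15 + 4 * x ^ 16 + 3 * x ^ 17 + 3 * x ^ 18 + 2 * x ^ 19 + 2 * x ^ 20 + 2 * x ^ 21 + 2 * x ^ 22 + x ^ 23 + x ^ 24 + x ^ 25 + x ^ 26 + x ^ 27 + x ^ 28 : ℤ) = k at h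
  simp only [← mul_assoc] at h
  have h30 := dvd_mul_pow_step (B := 1 + x - x ^ 3 - x ^ 4 - x ^ 5 + x ^ 7 + x ^ 8) (c := 9) (1 - x) (1 + x ^ 3 + x ^ 5 + x ^ 7 + x ^ 9 + x ^ 11 + x ^ 13 + x ^ 16 + x ^ 19 - x ^ 20 + x ^ 21)
    (by subst hk; ring) 1 _ h
  clear h
  have h : k ∣ 8 * 9 ^ 1 * (-1 + x) ^ 7 * (1 + x) ^ 8 * (1 + x + x ^ 2) ^ 4 * (1 + x ^ 2) ^ 4 * (1 + x + x ^ 2 + x ^ 3 + x ^ 4) ^ 2 * (1 - x + x ^ 2) ^ 4 * (1 + x + x ^ 2 + x ^ 3 + x ^ 4 + x ^ 5 + x ^ 6) ^ 1 * (1 + x ^ 4) ^ 2 * (1 + x ^ 3 + x ^ 6) ^ 1 * (1 - x + x ^ 2 - x ^ 3 + x ^ 4) ^ 2 * (1 - x ^ 2 + x ^ 4) ^ 2 * (1 - x + x ^ 2 - x ^ 3 + x ^ 4 - x ^ 5 + x ^ 6) ^ 1 * (1 - x + x ^ 3 - x ^ 4 + x ^ 5 - x ^ 7 + x ^ 8) ^ 1 * (1 - x ^ 3 + x ^ 6) ^ 1 *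 (1 - x ^ 2 + x ^ 4 - x ^ 6 + x ^ 8) ^ 1 * (1 - x ^ 4 + x ^ 8) ^ 1 := by
    refine dvd_trans h30 (dvd_of_eq ?_); ring
  have h24 := dvd_mul_pow_step (B := 1 - x ^ 4 + x ^ 8) (c := 8) (1 - x) (x + x ^ 5 + x ^ 7 + 2 * x ^ 11 + x ^ 15 + x ^ 17 + x ^ 21)
    (by subst hk; ring) 1 _ h
  clear h
  have h : k ∣ 8 * 8 ^ 1 * 9 ^ 1 * (-1 + x) ^ 7 * (1 + x) ^ 8 * (1 + x + x ^ 2) ^ 4 * (1 + x ^ 2) ^ 4 * (1 + x + x ^ 2 + x ^ 3 + x ^ 4) ^ 2 * (1 - x + x ^ 2) ^ 4 * (1 + x + x ^ 2 + x ^ 3 + x ^ 4 + x ^ 5 + x ^ 6) ^ 1 * (1 + x ^ 4) ^ 2 * (1 + x ^ 3 + x ^ 6) ^ 1 * (1 - x + x ^ 2 - x ^ 3 + x ^ 4) ^ 2 * (1 - x ^ 2 + x ^ 4) ^ 2 * (1 - x + x ^ 2 - x ^ 3 + x ^ 4 - x ^ 5 + x ^ 6) ^ 1 * (1 - x + x ^ 3 - x ^ 4 + x ^ 5 - x ^ 7 + x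 ^ 8) ^ 1 * (1 - x ^ 3 + x ^ 6) ^ 1 * (1 - x ^ 2 + x ^ 4 - x ^ 6 + x ^ 8) ^ 1 := by
    refine dvd_trans h24 (dvd_of_eq ?_); ring
  have h20 := dvd_mul_pow_step (B := 1 - x ^ 2 + x ^ 4 - x ^ 6 + x ^ 8) (c := 8) (1 - x) (x + x ^ 3 + x ^ 7 + x ^ 9 + x ^ 13 + x ^ 15 + x ^ 19 + x ^ 21)
    (by subst hk; ring) 1 _ h
  clear h
  have h : k ∣ 8 * 8 ^ 1 * 8 ^ 1 * 9 ^ 1 * (-1 + x) ^ 7 * (1 + x) ^ 8 * (1 + x + x ^ 2) ^ 4 * (1 + x ^ 2) ^ 4 * (1 + x + x ^ 2 + x ^ 3 + x ^ 4) ^ 2 * (1 - x + x ^ 2) ^ 4 * (1 + x + x ^ 2 + x ^ 3 + x ^ 4 + x ^ 5 + x ^ 6) ^ 1 * (1 + x ^ 4) ^ 2 * (1 + x ^ 3 + x ^ 6) ^ 1 * (1 - x + x ^ 2 - x ^ 3 + x ^ 4) ^ 2 * (1 - x ^ 2 + x ^ 4) ^ 2 * (1 - x + x ^ 2 - x ^ 3 + x ^ 4 - x ^ 5 + x ^ 6) ^ 1 * (1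 - x + x ^ 3 - x ^ 4 + x ^ 5 - x ^ 7 + x ^ 8) ^ 1 * (1 - x ^ 3 + x ^ 6) ^ 1 := by
    refine dvd_trans h20 (dvd_of_eq ?_); ring
  have h18 := dvd_mul_pow_step (B := 1 - x ^ 3 + x ^ 6) (c := 273961) (34432 - 29960 * x - 8049 * x ^ 2 + 2552 * x ^ 3 + 1344 * x ^ 4 - 151 * x ^ 5) (-1495 - 1344 * x + 33088 * x ^ 2 + 3128 * x ^ 3 - 4921 * x ^ 4 + 32063 * x ^ 5 + 3447 * x ^ 6 + 29679 * x ^ 7 + 2271 * x ^ 8 - 4434 * x ^ 9 + 32399 * x ^ 10 + 3783 * x ^ 11 - 4417 * x ^ 12 + 32567 * x ^ 13 + 3951 * x ^ 14 - 4249 * x ^ 15 - 1697 * x ^ 16 + 34079 * x ^ 17 + 3968 * x ^ 18 - 4081 * x ^ 19 + 32903 * x ^ 20 + 4287 * x ^ 21 - 3913 * x ^ 22 + 33071 * x ^ 23 + 4455 * x ^ 24 - 3745 * x ^ 25 - 1193 * x ^ 26 + 151 * x ^ 27)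
    (by subst hk; ring) 1 _ h
  clear h
  have h : k ∣ 8 * 273961 ^ 1 * 8 ^ 1 * 8 ^ 1 * 9 ^ 1 * (-1 + x) ^ 7 * (1 + x) ^ 8 * (1 + x + x ^ 2) ^ 4 * (1 + x ^ 2) ^ 4 * (1 + x + x ^ 2 + x ^ 3 + x ^ 4) ^ 2 * (1 - x + x ^ 2) ^ 4 * (1 + x + x ^ 2 + x ^ 3 + x ^ 4 + x ^ 5 + x ^ 6) ^ 1 * (1 + x ^ 4) ^ 2 * (1 + x ^ 3 + x ^ 6) ^ 1 * (1 - x + x ^ 2 - x ^ 3 + x ^ 4) ^ 2 * (1 - x ^ 2 + x ^ 4) ^ 2 * (1 - x + x ^ 2 - x ^ 3 + x ^ 4 - x ^ 5 + x ^ 6) ^ 1 * (1 - x + x ^ 3 - x ^ 4 + x ^ 5 - x ^ 7 + x ^ 8) ^ 1 := by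
    refine dvd_trans h18 (dvd_of_eq ?_); ring
  have h15 := dvd_mul_pow_step (B := 1 - x + x ^ 3 - x ^ 4 + x ^ 5 - x ^ 7 + x ^ 8) (c := 7) (1 - x) (-1 + x ^ 3 + x ^ 5 + x ^ 7 + x ^ 9 + x ^ 11 + x ^ 13 - x ^ 16 + x ^ 19 + x ^ 20 + x ^ 21)
    (by subst hk; ring) 1 _ h
  clear h
  have h : k ∣ 8 * 7 ^ 1 * 273961 ^ 1 * 8 ^ 1 * 8 ^ 1 * 9 ^ 1 * (-1 + x) ^ 7 * (1 + x) ^ 8 * (1 + x + x ^ 2) ^ 4 * (1 + x ^ 2) ^ 4 * (1 + x + x ^ 2 + x ^ 3 + x ^ 4) ^ 2 * (1 - x + x ^ 2) ^ 4 * (1 + x + x ^ 2 + x ^ 3 + x ^ 4 + x ^ 5 + x ^ 6) ^ 1 * (1 + x ^ 4) ^ 2 * (1 + x ^ 3 + x ^ 6) ^ 1 * (1 - x + x ^ 2 - x ^ 3 + x ^ 4) ^ 2 * (1 - x ^ 2 + x ^ 4) ^ 2 * (1 - x + x ^ 2 - x ^ 3 + x ^ 4 - x ^ 5 + x ^ 6) ^ 1 := by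
    refine dvd_trans h15 (dvd_of_eq ?_); ring
  have h14 := dvd_mul_pow_step (B := 1 - x + x ^ 2 - x ^ 3 + x ^ 4 - x ^ 5 + x ^ 6) (c := 233017) (29128 - 25487 * x - 3185 * x ^ 2 - 399 * x ^ 3 - 49 * x ^ 4 - 7 * x ^ 5) (-7 - 7 * x - 7 * x ^ 2 - 7 * x ^ 3 - 7 * x ^ 4 - 7 * x ^ 5 - 7 * x ^ 6 + 29121 * x ^ 7 + 32762 * x ^ 8 + 4090 * x ^ 9 + 506 * x ^ 10 + 29186 * x ^ 11 + 32771 * x ^ 12 + 33220 * x ^ 13 + 4149 * x ^ 14 - 28612 * x ^ 15 - 3580 * x ^ 16 + 28677 * x ^ 17 + 3582 * x ^ 18 + 446 * x ^ 19 + 54 * x ^ 20 + 5 * x ^ 21 + 29126 * x ^ 22 + 32767 * x ^ 23 + 4095 * x ^ 24 + 511 * x ^ 25 + 63 * x ^ 26 + 7 * x ^ 27)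
    (by subst hk; ring) 1 _ h
  clear h
  have h : k ∣ 8 * 233017 ^ 1 * 7 ^ 1 * 273961 ^ 1 * 8 ^ 1 * 8 ^ 1 * 9 ^ 1 * (-1 + x) ^ 7 * (1 + x) ^ 8 * (1 + x + x ^ 2) ^ 4 * (1 + x ^ 2) ^ 4 * (1 + x + x ^ 2 + x ^ 3 + x ^ 4) ^ 2 * (1 - x + x ^ 2) ^ 4 * (1 + x + x ^ 2 + x ^ 3 + x ^ 4 + x ^ 5 + x ^ 6) ^ 1 * (1 + x ^ 4) ^ 2 * (1 + x ^ 3 + x ^ 6) ^ 1 * (1 - x + x ^ 2 - x ^ 3 + x ^ 4) ^ 2 * (1 - x ^ 2 + x ^ 4) ^ 2 := by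
    refine dvd_trans h14 (dvd_of_eq ?_); ring
  have h12 := dvd_mul_pow_step (B := 1 - x ^ 2 + x ^ 4) (c := 8) (1 - x) (x + x ^ 3 + x ^ 11 + 2 * x ^ 13 + x ^ 15 + x ^ 23 + x ^ 25)
    (by subst hk; ring) 2 _ h
  clear h
  have h : k ∣ 8 * 8 ^ 2 * 233017 ^ 1 * 7 ^ 1 * 273961 ^ 1 * 8 ^ 1 * 8 ^ 1 * 9 ^ 1 * (-1 + x) ^ 7 * (1 + x) ^ 8 * (1 + x + x ^ 2) ^ 4 * (1 + x ^ 2) ^ 4 * (1 + x + x ^ 2 + x ^ 3 + x ^ 4) ^ 2 * (1 - x + x ^ 2) ^ 4 * (1 + x + x ^ 2 + x ^ 3 + x ^ 4 + x ^ 5 + x ^ 6) ^ 1 * (1 + x ^ 4) ^ 2 * (1 + x ^ 3 + x ^ 6) ^ 1 * (1 - x + x ^ 2 - x ^ 3 + x ^ 4) ^ 2 := by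
    refine dvd_trans h12 (dvd_of_eq ?_); ring
  have h10 := dvd_mul_pow_step (B := 1 - x + x ^ 2 - x ^ 3 + x ^ 4) (c := 6) (1 - x) (-2 - x + x ^ 2 + 2 * x ^ 5 + x ^ 6 + x ^ 8 - 2 * x ^ 10 + x ^ 12 + x ^ 14 + 2 * x ^ 15 + x ^ 18 - x ^ 20 + x ^ 24 + x ^ 25)
    (by subst hk; ring) 2 _ h
  clear h
  have h : k ∣ 8 * 6 ^ 2 * 8 ^ 2 * 233017 ^ 1 * 7 ^ 1 * 273961 ^ 1 * 8 ^ 1 * 8 ^ 1 * 9 ^ 1 * (-1 + x) ^ 7 * (1 + x) ^ 8 * (1 + x + x ^ 2) ^ 4 * (1 + x ^ 2) ^ 4 * (1 + x + x ^ 2 + x ^ 3 + x ^ 4) ^ 2 * (1 - x + x ^ 2) ^ 4 * (1 + x + x ^ 2 + x ^ 3 + x ^ 4 + x ^ 5 + x ^ 6) ^ 1 * (1 + x ^ 4) ^ 2 * (1 + x ^ 3 + x ^ 6) ^ 1 := by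
    refine dvd_trans h10 (dvd_of_eq ?_); ring
  have h9 := dvd_mul_pow_step (B := 1 + x ^ 3 + x ^ 6) (c := 92019) (11536 - 10040 * x + 187 * x ^ 2 - 1198 * x ^ 3 - 106 * x ^ 4 - 163 * x ^ 5) (-269 - 432 * x - 11968 * x ^ 2 - 1928 * x ^ 3 - 2115 * x ^ 4 + 10619 * x ^ 5 + 685 * x ^ 6 + 12571 * x ^ 7 + 1333 * x ^ 8 + 1414 * x ^ 9 - 11483 * x ^ 10 - 1549 * x ^ 11 - 1899 * x ^ 12 + 10835 * x ^ 13 + 901 * x ^ 14 + 1251 * x ^ 15 + 53 * x ^ 16 + 11483 * x ^ 17 + 1280 * x ^ 18 + 1467 * x ^ 19 - 11267 * x ^ 20 - 1333 * x ^ 21 - 1683 * x ^ 22 + 11051 * x ^ 23 + 1117 * x ^ 24 + 1467 * x ^ 25 + 269 * x ^ 26 + 163 * x ^ 27)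
    (by subst hk; ring) 1 _ h
  clear h
  have h : k ∣ 8 * 92019 ^ 1 * 6 ^ 2 * 8 ^ 2 * 233017 ^ 1 * 7 ^ 1 * 273961 ^ 1 * 8 ^ 1 * 8 ^ 1 * 9 ^ 1 * (-1 + x) ^ 7 * (1 + x) ^ 8 * (1 + x + x ^ 2) ^ 4 * (1 + x ^ 2) ^ 4 * (1 + x + x ^ 2 + x ^ 3 + x ^ 4) ^ 2 * (1 - x + x ^ 2) ^ 4 * (1 + x + x ^ 2 + x ^ 3 + x ^ 4 + x ^ 5 + x ^ 6) ^ 1 * (1 + x ^ 4) ^ 2 := by
    refine dvd_trans h9 (dvd_of_eq ?_); ring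
  have h8 := dvd_mul_pow_step (B := 1 + x ^ 4) (c := 8) (1 - x) (x - x ^ 5 + x ^ 7 + x ^ 9 + x ^ 17 + x ^ 19 - x ^ 21 + x ^ 25)
    (by subst hk; ring) 2 _ h
  clear h
  have h : k ∣ 8 * 8 ^ 2 * 92019 ^ 1 * 6 ^ 2 * 8 ^ 2 * 233017 ^ 1 * 7 ^ 1 * 273961 ^ 1 * 8 ^ 1 * 8 ^ 1 * 9 ^ 1 * (-1 + x) ^ 7 * (1 + x) ^ 8 * (1 + x + x ^ 2) ^ 4 * (1 + x ^ 2) ^ 4 * (1 + x + x ^ 2 + x ^ 3 + x ^ 4) ^ 2 * (1 - x + x ^ 2) ^ 4 * (1 + x + x ^ 2 + x ^ 3 + x ^ 4 + x ^ 5 + x ^ 6) ^ 1 := by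
    refine dvd_trans h8 (dvd_of_eq ?_); ring
  have h7 := dvd_mul_pow_step (B := 1 + x + x ^ 2 + x ^ 3 + x ^ 4 + x ^ 5 + x ^ 6) (c := 42799) (5350 - 4681 * x - 585 * x ^ 2 - 73 * x ^ 3 - 9 * x ^ 4 - x ^ 5) (-1 - x - x ^ 2 - x ^ 3 - x ^ 4 - x ^ 5 - x ^ 6 + 5349 * x ^ 7 - 4682 * x ^ 8 - 586 * x ^ 9 - 74 * x ^ 10 + 5340 * x ^ 11 - 4683 * x ^ 12 + 4764 * x ^ 13 + 595 * x ^ 14 - 5276 * x ^ 15 - 660 * x ^ 16 + 5267 * x ^ 17 + 658 * x ^ 18 + 82 * x ^ 19 + 10 * x ^ 20 + x ^ 21 - 5350 * x ^ 22 + 4681 * x ^ 23 + 585 * x ^ 24 + 73 * x ^ 25 + 9 * x ^ 26 + x ^ 27)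
    (by subst hk; ring) 1 _ h
  clear h
  have h : k ∣ 8 * 42799 ^ 1 * 8 ^ 2 * 92019 ^ 1 * 6 ^ 2 * 8 ^ 2 * 233017 ^ 1 * 7 ^ 1 * 273961 ^ 1 * 8 ^ 1 * 8 ^ 1 * 9 ^ 1 * (-1 + x) ^ 7 * (1 + x) ^ 8 * (1 + x + x ^ 2) ^ 4 * (1 + x ^ 2) ^ 4 * (1 + x + x ^ 2 + x ^ 3 + x ^ 4) ^ 2 * (1 - x + x ^ 2) ^ 4 := by
    refine dvd_trans h7 (dvd_of_eq ?_); ring
  have h6 := dvd_mul_pow_step (B := 1 - x + x ^ 2) (c := 4) (1 - x) (-4 - 3 * x + x ^ 2 + 4 * x ^ 3 + 3 * x ^ 4 - x ^ 5 - 4 * x ^ 6 - 2 * x ^ 7 + 2 * x ^ 8 + 4 * x ^ 9 + 2 * x ^ 10 - x ^ 11 - 3 * x ^ 12 - x ^ 13 + 2 * x ^ 14 + 3 * x ^ 15 + x ^ 16 - x ^ 17 - 2 * x ^ 18 + 2 * x ^ 20 + 2 * x ^ 21 - x ^ 23 - x ^ 24 + x ^ 26 + x ^ 27)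
    (by subst hk; ring) 4 _ h
  clear h
  have h : k ∣ 8 * 4 ^ 4 * 42799 ^ 1 * 8 ^ 2 * 92019 ^ 1 * 6 ^ 2 * 8 ^ 2 * 233017 ^ 1 * 7 ^ 1 * 273961 ^ 1 * 8 ^ 1 * 8 ^ 1 * 9 ^ 1 * (-1 + x) ^ 7 * (1 + x) ^ 8 * (1 + x + x ^ 2) ^ 4 * (1 + x ^ 2) ^ 4 * (1 + x + x ^ 2 + x ^ 3 + x ^ 4) ^ 2 := by
    refine dvd_trans h6 (dvd_of_eq ?_); ring
  have h5 := dvd_mul_pow_step (B := 1 + x + x ^ 2 + x ^ 3 + x ^ 4) (c := 10) (1 - x) (2 - x - x ^ 2 + 2 * x ^ 5 - x ^ 6 - x ^ 8 + 2 * x ^ 10 - x ^ 12 - x ^ 14 + 2 * x ^ 15 - x ^ 18 + x ^ 20 - x ^ 24 + x ^ 25)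
    (by subst hk; ring) 2 _ h
  clear h
  have h : k ∣ 8 * 10 ^ 2 * 4 ^ 4 * 42799 ^ 1 * 8 ^ 2 * 92019 ^ 1 * 6 ^ 2 * 8 ^ 2 * 233017 ^ 1 * 7 ^ 1 * 273961 ^ 1 * 8 ^ 1 * 8 ^ 1 * 9 ^ 1 * (-1 + x) ^ 7 * (1 + x) ^ 8 * (1 + x + x ^ 2) ^ 4 * (1 + x ^ 2) ^ 4 := by
    refine dvd_trans h5 (dvd_of_eq ?_); ring
  have h4 := dvd_mul_pow_step (B := 1 + x ^ 2) (c := 8) (1 - x) (x - x ^ 3 + x ^ 5 + x ^ 11 + x ^ 17 + x ^ 23 - x ^ 25 + x ^ 27)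
    (by subst hk; ring) 4 _ h
  clear h
  have h : k ∣ 8 * 8 ^ 4 * 10 ^ 2 * 4 ^ 4 * 42799 ^ 1 * 8 ^ 2 * 92019 ^ 1 * 6 ^ 2 * 8 ^ 2 * 233017 ^ 1 * 7 ^ 1 * 273961 ^ 1 * 8 ^ 1 * 8 ^ 1 * 9 ^ 1 * (-1 + x) ^ 7 * (1 + x) ^ 8 * (1 + x + x ^ 2) ^ 4 := by
    refine dvd_trans h4 (dvd_of_eq ?_); ring
  have h3 := dvd_mul_pow_step (B := 1 + x + x ^ 2) (c := 12) (1 - x) (4 - 3 * x - x ^ 2 + 4 * x ^ 3 - 3 * x ^ 4 - x ^ 5 + 4 * x ^ 6 - 2 * x ^ 7 - 2 * x ^ 8 + 4 * x ^ 9 - 2 * x ^ 10 - x ^ 11 + 3 * x ^ 12 - x ^ 13 - 2 * x ^ 14 + 3 * x ^ 15 - x ^ 16 - x ^ 17 + 2 * x ^ 18 - 2 * x ^ 20 + 2 * x ^ 21 - x ^ 23 + x ^ 24 - x ^ 26 + x ^ 27)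
    (by subst hk; ring) 4 _ h
  clear h
  have h : k ∣ 8 * 12 ^ 4 * 8 ^ 4 * 10 ^ 2 * 4 ^ 4 * 42799 ^ 1 * 8 ^ 2 * 92019 ^ 1 * 6 ^ 2 * 8 ^ 2 * 233017 ^ 1 * 7 ^ 1 * 273961 ^ 1 * 8 ^ 1 * 8 ^ 1 * 9 ^ 1 * (-1 + x) ^ 7 * (1 + x) ^ 8 := by
    refine dvd_trans h3 (dvd_of_eq ?_); ring
  have h2 := dvd_mul_pow_step (B := 1 + x) (c := 8) (1) (-7 * x - 7 * x ^ 3 - 7 * x ^ 5 - 6 * x ^ 7 - 6 * x ^ 9 - 5 * x ^ 11 - 4 * x ^ 13 - 4 * x ^ 15 - 3 * x ^ 17 - 2 * x ^ 19 - 2 * x ^ 21 - x ^ 23 - x ^ 25 - x ^ 27)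
    (by subst hk; ring) 8 _ h
  clear h
  have h : k ∣ 8 * 8 ^ 8 * 12 ^ 4 * 8 ^ 4 * 10 ^ 2 * 4 ^ 4 * 42799 ^ 1 * 8 ^ 2 * 92019 ^ 1 * 6 ^ 2 * 8 ^ 2 * 233017 ^ 1 * 7 ^ 1 * 273961 ^ 1 * 8 ^ 1 * 8 ^ 1 * 9 ^ 1 * (-1 + x) ^ 7 := by
    refine dvd_trans h2 (dvd_of_eq ?_); ring
  have h1 := dvd_mul_pow_step (B := -1 + x) (c := 120) (1) (-112 - 105 * x - 98 * x ^ 2 - 91 * x ^ 3 - 84 * x ^ 4 - 77 * x ^ 5 - 70 * x ^ 6 - 64 * x ^ 7 - 58 * x ^ 8 - 52 * x ^ 9 - 46 * x ^ 10 - 41 * x ^ 11 - 36 * x ^ 12 - 32 * x ^ 13 - 28 * x ^ 14 - 24 * x ^ 15 - 20 * x ^ 16 - 17 * x ^ 17 - 14 * x ^ 18 - 12 * x ^ 19 - 10 * x ^ 20 - 8 * x ^ 21 - 6 * x ^ 22 - 5 * x ^ 23 - 4 * x ^ 24 - 3 * x ^ 25 - 2 * x ^ 26 - x ^ 27)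
    (by subst hk; ring) 7 _ h
  clear h
  have h : k ∣ 8 * 120 ^ 7 * 8 ^ 8 * 12 ^ 4 * 8 ^ 4 * 10 ^ 2 * 4 ^ 4 * 42799 ^ 1 * 8 ^ 2 * 92019 ^ 1 * 6 ^ 2 * 8 ^ 2 * 233017 ^ 1 * 7 ^ 1 * 273961 ^ 1 * 8 ^ 1 * 8 ^ 1 * 9 ^ 1 := by
    refine dvd_trans h1 (dvd_of_eq ?_); ring
  have hle := Int.le_of_dvd (by norm_num) h
  obtain ⟨u, hu, rfl⟩ : ∃ u, 0 ≤ u ∧ x = 197 + u := ⟨x - 197, by omega, by ring⟩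
  have e : k - 15630539037847265792876913207828586565285510276223860736000000000 = 2040597695938394687104034427058273873076842225799939449542607352 + 2511175988249289431397731783439511725851971021152044841340132288 * u + 172054313590177112666695630484861422004124905275530586488134032 * u ^ 2 + 7567846609604536616989428997650261429586702670702468617199078 * u ^ 3 + 240052932686217149587544587705077171783263636287126983026182 * u ^ 4 + 5847940519562060840207941154667286326297656599873653404108 * u ^ 5 + 113771698325074888418891086065443121442082262758723663024 * u ^ 6 + 1814736632612681887142657187802420606727473081316242363 * u ^ 7 + 24176735179412933864949748825669506837688738526561569 * u ^ 8 + 272671592625869755027180055277406090541955085062303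 * u ^ 9 + 2629349189911695973972132596428584398608584443349 * u ^ 10 + 21836492066959944992994405812046241064439684858 * u ^ 11 + 157002059343278160041457006298567098862883902 * u ^ 12 + 980701401899740984422846716813355825013586 * u ^ 13 + 5332794540946841190115683411285069785910 * u ^ 14 + 25260763683797627606875142762456886634 * u ^ 15 + 104165693292024399675762326732926038 * u ^ 16 + 373174458964993506759873660207550 * u ^ 17 + 1157409348130245222605953049586 * u ^ 18 + 3091635560709554905454997960 * u ^ 19 + 7060829626926257942139098 * u ^ 20 + 13651531156968206246219 * u ^ 21 + 22045079997782136737 * u ^ 22 + 29187040732756739 * u ^ 23 + 30860560732351 * u ^ 24 + 25059869030 * u ^ 25 + 14675122 * u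 ^ 26 + 5517 * u ^ 27 + u ^ 28 := by subst hk; ring
  have : 0 < k - 15630539037847265792876913207828586565285510276223860736000000000 := by rw [e]; positivity
  norm_num at hle
  linarith

end CfsgLib.RootChain.E8
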