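import Cfsg.Agent.Lib.RootChain.Step

/-! The last root subsystem: the characters of one root subgroup form torus orbits. -/

set_option autoImplicit false
set_option linter.unusedSectionVars false

namespace CfsgLib.RootChain

open Matrix
open CfsgLib.InvCentralizers

universe u

variable {T : Table} {Φ : List ℕ} {χ : ℕ → ℤ} {F : Type*} [Field F] [Fintype F]

/-- A root subgroup moved faithfully by the torus needs `q - 1` dimensions. -/
theorem bound_one (hall : (Φ.all fun r => radB T Φ [] [r] && (χ r == 1 || χ r == -1)) = true) :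
    Bound.{u} T Φ χ F (Fintype.card F - 1) := by
  intro W _ _ _ x h O hne
  classical
  obtain ⟨r, hrΦ, t, ht⟩ := hne
  simp only [List.all_eq_true, Bool.and_eq_true, Bool.or_eq_true, beq_iff_eq] at hall
  obtain ⟨hr, hχ⟩ := hall r hrΦ
  have hR := rad_of_radB hr
  have hS : ∃ S, rad [r] x S ≠ (1 : Module.End ℂ W) := by
    refine ⟨Pi.single (⟨0, by simp⟩ : Fin [r].length) t, ?_⟩
    rw [rad_single O hR]
    exact ht
  obtain ⟨B, hB0, w, hw, hw0⟩ := AbelianEigen.exists_eig (setup O hR) hS
  have hB : Occ [r] x B := fun e => hw0 (by simpa [e] using (show w ∈ E [r] x B from hw))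
  let i₀ : Fin [r].length := ⟨0, by simp⟩
  have hi : ∀ i : Fin [r].length, i = i₀ := fun i => Fin.ext (by have := i.isLt; simp at this ⊢)
  have hb : B i₀ ≠ 0 := fun e => hB0 (funext fun i => by rw [hi i]; exact e)
  let f : Fˣ → (Fin [r].length → F) := fun s i => (((s ^ χ r)⁻¹ : Fˣ) : F) * B i
  have hinj : Function.Injective f := fun s s' e => by
    have h1 : (s ^ χ r)⁻¹ = (s' ^ χ r)⁻¹ := Units.ext (mul_right_cancel₀ hb (congrFun e i₀))
    rw [_root_.inv_inj] at h1
    rcases hχ with h2 | h2 <;> simpa [h2] using h1
  have hocc : ∀ s, f s ∈ occSet [r] x := by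
    intro s
    refine mem_occSet.2 ⟨fun e => hb ((mul_eq_zero.1 (congrFun e i₀)).resolve_left (Units.ne_zero _)), ?_⟩
    obtain ⟨w, hw, hw0⟩ := Submodule.exists_mem_ne_zero_of_ne_bot hB
    refine fun e => hw0 ?_
    have hmem : h s w ∈ E [r] x (f s) := by
      intro S
      let S' : Fin [r].length → F := fun i => (((s ^ χ r)⁻¹ : Fˣ) : F) * S i
      have e1 := LinearMap.congr_fun (h_rad O hR s S') w
      have hS : (fun i => ((s ^ χ ([r].get i) : Fˣ) : F) * S' i) = S := funext fun i => by
        rw [hi i, show [r].get i₀ = r from rfl]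
        simp only [S']
        rw [← mul_assoc, ← Units.val_mul, mul_inv_cancel, Units.val_one, one_mul]
      rw [hS] at e1
      simp only [Module.End.mul_apply] at e1
      rw [← e1, hw S', map_smul]
      congr 1
      simp only [pair, dotProduct, S', f]
      congr 1
      exact Finset.sum_congr rfl fun i _ => by ring
    rw [e, Submodule.mem_bot] at hmem
    have := congrArg (h s⁻¹) hmem
    simpa [← Module.End.mul_apply, O.h_inv' s] using this
  calc Fintype.card F - 1 = Fintype.card Fˣ := (Fintype.card_units F).symm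
    _ = (Finset.univ.image f).card := by rw [Finset.card_image_of_injective _ hinj, Finset.card_univ]
    _ ≤ (occSet [r] x).card := Finset.card_le_card fun y hy => by
        obtain ⟨s, -, rfl⟩ := Finset.mem_image.1 hy
        exact hocc s
    _ ≤ Module.finrank ℂ W := (Nat.le_add_right _ _).trans (card_occSet_le O hR)

end CfsgLib.RootChain
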