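import Cfsg.Agent.Lib.RootChain.ArithE6

/-! No number just below the bound divides the order of type E6, with two exceptions. -/

set_option autoImplicit false
set_option maxRecDepth 100000

namespace CfsgLib.RootChain.E6

/-- The bound. -/
def target (q : ℕ) : ℕ := q ^ 11 + q ^ 8 + q ^ 7 + q ^ 5 + q ^ 4 + q

/-- A multiple of the order. -/
def orderMul (q : ℕ) : ℕ :=
  q ^ 36 * ((q ^ 2 - 1) * (q ^ 5 - 1) * (q ^ 6 - 1) * (q ^ 8 - 1) * (q ^ 9 - 1) * (q ^ 12 - 1))

theorem small_range : (List.range 136).all (fun q => (List.range 7).all fun j =>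
    decide (q < 3 ∨ j = 0 ∨ (q = 4 ∧ j = 4) ∨ ¬ (target q - j) ∣ orderMul q)) = true := by
  decide +kernel

theorem target_prime_part {p n j : ℕ} (hp : p.Prime) (hj : j ≠ 0) (hjq : j < p ^ n) {k : ℕ}
    (hk : k + j = target (p ^ n)) {P' : ℕ} (hd : k ∣ (p ^ n) ^ 36 * P') : k ∣ j * P' := by
  obtain ⟨a, j', hj', rfl⟩ := Nat.exists_eq_pow_mul_and_not_dvd hj p hp.ne_one
  have ha : a < n := by
    by_contra hcon
    have h1 : p ^ n ≤ p ^ a := Nat.pow_le_pow_right hp.pos (by omega)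
    have h2 : p ^ a ≤ p ^ a * j' := Nat.le_mul_of_pos_right _
      (Nat.pos_of_ne_zero fun e => hj' (e ▸ dvd_zero p))
    omega
  set M := (p ^ n) ^ 10 + (p ^ n) ^ 7 + (p ^ n) ^ 6 + (p ^ n) ^ 4 + (p ^ n) ^ 3 + 1 with hM
  have hpa : p ^ n = p ^ a * (p ^ (n - a)) := by rw [← pow_add, Nat.add_sub_cancel' ha.le]
  have hkM : k + p ^ a * j' = p ^ a * (p ^ (n - a) * M) := by
    rw [hk, target, ← mul_assoc, ← hpa, hM]; ring
  set k' := p ^ (n - a) * M - j'
  have hk' : k = p ^ a * k' := by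
    rw [Nat.mul_sub, ← hkM, Nat.add_sub_cancel]
  have hle : j' ≤ p ^ (n - a) * M := by
    have h1 : p ^ a * j' ≤ p ^ a * (p ^ (n - a) * M) := hkM ▸ Nat.le_add_left _ _
    exact Nat.le_of_mul_le_mul_left h1 (pow_pos hp.pos a)
  have hcop : Nat.Coprime k' p := by
    refine (hp.coprime_iff_not_dvd.2 fun hdvd => hj' ?_).symm
    have hpd : p ∣ p ^ (n - a) * M := (dvd_pow_self p (by omega)).mul_right M
    have h1 : k' + j' = p ^ (n - a) * M := Nat.sub_add_cancel hle
    exact (Nat.dvd_add_right hdvd).1 (h1 ▸ hpd)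
  rw [hk'] at hd ⊢
  have h2 : k' ∣ P' :=
    ((hcop.pow_right n).pow_right 36).dvd_of_dvd_mul_left ((dvd_mul_left k' _).trans hd)
  rw [mul_assoc]
  exact mul_dvd_mul (dvd_refl _) (h2.trans (dvd_mul_left _ _))

theorem not_dvd {q j k : ℕ} (hq : IsPrimePow q) (hq3 : 3 ≤ q) (hj : 1 ≤ j) (hj6 : j ≤ 6)
    (hex : ¬ (q = 4 ∧ j = 4)) (hk : k + j = target q) : ¬ k ∣ orderMul q := by
  intro hd
  by_cases hs : q < 136
  · have h := small_range
    simp only [List.all_eq_true, List.mem_range, decide_eq_true_eq] at h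
    have h1 := h q hs j (by omega)
    rw [show target q - j = k by omega] at h1
    rcases h1 with h1 | h1 | h1 | h1
    exacts [by omega, by omega, hex h1, h1 hd]
  obtain ⟨p, n, hp, -, rfl⟩ := (isPrimePow_nat_iff q).1 hq
  have h2 := target_prime_part hp (by omega) (by omega) hk hd
  set q := p ^ n
  have h3 : ((k : ℕ) : ℤ) ∣ ((j * ((q ^ 2 - 1) * (q ^ 5 - 1) * (q ^ 6 - 1) * (q ^ 8 - 1) *
      (q ^ 9 - 1) * (q ^ 12 - 1)) : ℕ) : ℤ) := by exact_mod_cast h2
  have hk' : (k : ℤ) = (target q : ℤ) - j := by rw [← hk]; push_cast; ring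
  have h1le : ∀ e : ℕ, 1 ≤ q ^ e := fun e => Nat.one_le_pow _ _ (by omega)
  simp only [Nat.cast_mul, Nat.cast_sub (h1le _), Nat.cast_pow, Nat.cast_one] at h3
  rw [hk', target] at h3
  push_cast at h3
  have hx : (136 : ℤ) ≤ (q : ℤ) := by exact_mod_cast (by omega : 136 ≤ q)
  generalize (q : ℤ) = x at h3 hx
  interval_cases j
  · refine small_1 (x := x) (by omega) (Int.dvd_of_mul_dvd_mul_left (a := x ^ 2 - x + 1) ?_ ?_)
    · nlinarith
    · convert h3 using 1 <;> push_cast <;> ring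
  · refine small_2 (x := x) (by omega) (Int.dvd_of_mul_dvd_mul_left (a := x ^ 2 + 1) ?_ ?_)
    · nlinarith
    · convert h3 using 1 <;> push_cast <;> ring
  · exact small_3 (x := x) (by omega) (by convert h3 using 1 <;> push_cast <;> ring)
  · exact small_4 (x := x) (by omega) (by convert h3 using 1 <;> push_cast <;> ring)
  · exact small_5 (x := x) (by omega) (by convert h3 using 1 <;> push_cast <;> ring)
  · refine small_6 (x := x) (by omega) (Int.dvd_of_mul_dvd_mul_left (a := x - 1) ?_ ?_)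
    · omega
    · convert h3 using 1 <;> push_cast <;> ring

end CfsgLib.RootChain.E6
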