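import Cfsg.Agent.Lib.RootChain.RouteE6
import Cfsg.Agent.Lib.RootChain.NoDivE6

/-! The bound along the chain for type E6. -/

set_option autoImplicit false
set_option linter.unusedSectionVars false

namespace CfsgLib.RootChain.E6

universe u

variable {F : Type*} [Field F] [Fintype F]

theorem bound_chain (hq : 3 ≤ Fintype.card F) :
    Bound.{u} T phi1 chi F (target (Fintype.card F) - 6) := by
  have h5 : Bound.{u} T phi5 chi F (Fintype.card F ^ 2 + Fintype.card F - 2) := by
    refine bound_step base5 trace5 (Or.inr ⟨fix5, hq⟩) (bound_one torus_last) (Or.inl rfl) ?_ ?_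
    all_goals
      try rw [cells5]
      obtain ⟨u, hu⟩ : ∃ u, Fintype.card F = u + 2 := ⟨_, (Nat.sub_add_cancel (by omega)).symm⟩
    all_goals
      rw [hu]; (try simp only [Nat.reduceSubDiff]); ring_nf; omega
  have h4 : Bound.{u} T phi4 chi F
      (Fintype.card F ^ 3 + Fintype.card F ^ 2 + Fintype.card F - 3) := by
    refine bound_step base4 trace4 (Or.inr ⟨fix4, hq⟩) h5 (Or.inl rfl) ?_ ?_
    all_goals
      try rw [cells4]
      obtain ⟨u, hu⟩ : ∃ u, Fintype.card F = u + 2 := ⟨_, (Nat.sub_add_cancel (by omega)).symm⟩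
    all_goals
      rw [hu]; (try simp only [Nat.reduceSubDiff]); ring_nf; omega
  have h3 : Bound.{u} T phi3 chi F
      (Fintype.card F ^ 4 + Fintype.card F ^ 3 + Fintype.card F ^ 2 + Fintype.card F - 4) := by
    refine bound_step base3 trace3 (Or.inl fix3) h4 (Or.inl rfl) ?_ ?_
    all_goals
      try rw [cells3]
      obtain ⟨u, hu⟩ : ∃ u, Fintype.card F = u + 2 := ⟨_, (Nat.sub_add_cancel (by omega)).symm⟩
    all_goals
      rw [hu]; (try simp only [Nat.reduceSubDiff]); ring_nf; omega
  have h2 : Bound.{u} T phi2 chi F (Fintype.card F ^ 7 + Fintype.card F ^ 5 + Fintype.card F ^ 4 +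
      Fintype.card F ^ 3 + Fintype.card F - 5) := by
    refine bound_step base2 trace2 (Or.inr ⟨fix2, hq⟩) h3 (Or.inr ?_) ?_ ?_
    all_goals
      try rw [cells2]
      obtain ⟨u, hu⟩ : ∃ u, Fintype.card F = u + 2 := ⟨_, (Nat.sub_add_cancel (by omega)).symm⟩
    all_goals
      rw [hu]; (try simp only [Nat.reduceSubDiff]); ring_nf; omega
  refine bound_step base1 trace1 (Or.inl fix1) h2 (Or.inr ?_) ?_ ?_
  all_goals
    try rw [cells1]
    obtain ⟨u, hu⟩ : ∃ u, Fintype.card F = u + 2 := ⟨_, (Nat.sub_add_cancel (by omega)).symm⟩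
  all_goals
    rw [hu]; simp only [target, Nat.reduceSubDiff]; ring_nf; omega

end CfsgLib.RootChain.E6
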