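import Cfsg.Agent.Lib.RootChain.DataE8

/-! The cells of the Heisenberg radical of type E8. -/

set_option autoImplicit false
set_option maxRecDepth 100000

namespace CfsgLib.RootChain.E8

theorem cells0 (q : ℕ) (hq : 1 ≤ q) :
    cellsTotal T1 sub0 rad0 q + (q ^ 9 + q ^ 5 + 1) = q ^ 28 + q ^ 23 + q ^ 19 := by
  have he : (List.ofFn fun μ => ell T1 sub0 rad0 μ) = [27, 26, 25, 24, 23, 22, 22, 21, 20, 19, 18, 17, 21, 20, 19, 18, 17, 16, 18, 17, 16, 15, 16, 15, 14, 14, 13, 12, 15, 14, 13, 13, 12, 11, 12, 11, 10, 9, 11, 10, 9, 8, 7, 6, 10, 9, 8, 7, 6, 5, 5, 4, 3, 2, 1, 0] := by decide +kernel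
  rw [cellsTotal, ← Finset.sum_mul, ← List.sum_ofFn (f := fun μ => q ^ ell T1 sub0 rad0 μ),
    show (List.ofFn fun μ => q ^ ell T1 sub0 rad0 μ) =
      (List.ofFn fun μ => ell T1 sub0 rad0 μ).map (q ^ ·) from List.map_ofFn.symm, he]
  obtain ⟨u, rfl⟩ : ∃ u, q = u + 1 := ⟨q - 1, by omega⟩
  simp only [List.map_cons, List.map_nil, List.sum_cons, List.sum_nil, Nat.add_zero,
    Nat.add_sub_cancel]
  ring

theorem moved0 (q : ℕ) (hq : 1 ≤ q) :
    movedTotal T1 sub0 rad0 226 q + q ^ 17 = q ^ 28 + (q - 1) * q ^ 22 := by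
  have he : (List.ofFn fun μ => if inJ T1 rad0 226 μ then some (ell T1 sub0 rad0 μ) else none) =
      [some 27, some 26, some 25, some 24, some 23, some 22, some 22, some 21, some 20, some 19, some 18, some 17, none, none, none, none, none, none, none, none, none, none, none, none, none, none, none, none, none, none, none, none, none, none, none, none, none, none, none, none, none, none, none, none, none, none, none, none, none, none, none, none, none, none, none, none] := by decide +kernel
  rw [movedTotal, show (fun μ => if inJ T1 rad0 226 μ = true then q ^ ell T1 sub0 rad0 μ * (q - 1) else 0) =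
      fun μ => (if inJ T1 rad0 226 μ then some (ell T1 sub0 rad0 μ) else none).elim 0
        fun e => q ^ e * (q - 1) from funext fun μ => by split <;> rfl,
    ← List.sum_ofFn, show (List.ofFn fun μ =>
        (if inJ T1 rad0 226 μ then some (ell T1 sub0 rad0 μ) else none).elim 0
          fun e => q ^ e * (q - 1)) =
      (List.ofFn fun μ => if inJ T1 rad0 226 μ then some (ell T1 sub0 rad0 μ) else none).map
        (fun o => o.elim 0 fun e => q ^ e * (q - 1)) from by rw [List.map_ofFn]; rfl, he]
  obtain ⟨u, rfl⟩ : ∃ u, q = u + 1 := ⟨q - 1, by omega⟩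
  simp only [List.map_cons, List.map_nil, List.sum_cons, List.sum_nil, Nat.add_zero,
    Option.elim_none, Option.elim_some, Nat.zero_add, Nat.add_sub_cancel]
  ring

end CfsgLib.RootChain.E8
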