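import Cfsg.Agent.Lib.RootChain.HeisE8
import Cfsg.Agent.Lib.RootChain.ChainE8
import Cfsg.Agent.Lib.RootChain.CellsE8
import Cfsg.Agent.Lib.RootChain.Base
import Cfsg.Agent.Lib.RootChain.NoDivE8

/-! The bound along the chain for type E8. -/

set_option autoImplicit false
set_option linter.unusedSectionVars false

namespace CfsgLib.RootChain.E8

universe u

variable {F : Type*} [Field F] [Fintype F]

theorem chi_top : chi top = 1 := by decide +kernel

theorem gap {q : ℕ} (hq : 2 ≤ q) :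
    q ^ (27 + 1) + (q - 1) * q ^ (radA.length - 1 - 6) ≠ movedTotal (eraseRoot T top) sub0 rad0 226 q := by
  have h := moved0 q (by omega)
  have : 0 < q ^ 17 := pow_pos (by omega) 17
  rw [show radA.length - 1 - 6 = 22 from rfl, show 27 + 1 = 28 from rfl]
  show _ ≠ movedTotal T1 sub0 rad0 226 q
  omega

theorem bound_chain (hq : 3 ≤ Fintype.card F) :
    Bound.{u} T (List.range 240) chi F (target (Fintype.card F) - 8) := by
  set q := Fintype.card F with hqd
  have h6 : Bound.{u} T1 sub5 chi F (q ^ 2 + q - 2) := by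
    refine bound_step base6 trace6 (Or.inr ⟨fix6, hq⟩) (bound_one torus_last) (Or.inl rfl) ?_ ?_
    all_goals
      rw [← hqd]
      try rw [cells6]
      obtain ⟨u, hu⟩ : ∃ u, q = u + 2 := ⟨_, (Nat.sub_add_cancel (by omega)).symm⟩
    all_goals
      rw [hu]; (try simp only [Nat.reduceSubDiff]); ring_nf; omega
  have h5 : Bound.{u} T1 sub4 chi F (q ^ 3 + q ^ 2 + q - 3) := by
    refine bound_step base5 trace5 (Or.inr ⟨fix5, hq⟩) h6 (Or.inl rfl) ?_ ?_
    all_goals
      rw [← hqd]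
      try rw [cells5]
      obtain ⟨u, hu⟩ : ∃ u, q = u + 2 := ⟨_, (Nat.sub_add_cancel (by omega)).symm⟩
    all_goals
      rw [hu]; (try simp only [Nat.reduceSubDiff]); ring_nf; omega
  have h4 : Bound.{u} T1 sub3 chi F (q ^ 4 + q ^ 3 + q ^ 2 + q - 4) := by
    refine bound_step base4 trace4 (Or.inl fix4) h5 (Or.inl rfl) ?_ ?_
    all_goals
      rw [← hqd]
      try rw [cells4]
      obtain ⟨u, hu⟩ : ∃ u, q = u + 2 := ⟨_, (Nat.sub_add_cancel (by omega)).symm⟩
    all_goals
      rw [hu]; (try simp only [Nat.reduceSubDiff]); ring_nf; omega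
  have h3 : Bound.{u} T1 sub2 chi F (q ^ 7 + q ^ 5 + q ^ 4 + q ^ 3 + q - 5) := by
    refine bound_step base3 trace3 (Or.inr ⟨fix3, hq⟩) h4 (Or.inr ?_) ?_ ?_
    all_goals
      rw [← hqd]
      try rw [cells3]
      obtain ⟨u, hu⟩ : ∃ u, q = u + 2 := ⟨_, (Nat.sub_add_cancel (by omega)).symm⟩
    all_goals
      rw [hu]; (try simp only [Nat.reduceSubDiff]); ring_nf; omega
  have h2 : Bound.{u} T1 sub1 chi F (q ^ 11 + q ^ 8 + q ^ 7 + q ^ 5 + q ^ 4 + q - 6) := by
    refine bound_step base2 trace2 (Or.inl fix2) h3 (Or.inr ?_) ?_ ?_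
    all_goals
      rw [← hqd]
      try rw [cells2]
      obtain ⟨u, hu⟩ : ∃ u, q = u + 2 := ⟨_, (Nat.sub_add_cancel (by omega)).symm⟩
    all_goals
      rw [hu]; (try simp only [Nat.reduceSubDiff]); ring_nf; omega
  have h1 : Bound.{u} T1 sub0 chi F
      (q ^ 17 + q ^ 13 + q ^ 11 + q ^ 9 + q ^ 7 + q ^ 5 + q - 7) := by
    refine bound_step base1 trace1 (Or.inl fix1) h2 (Or.inr ?_) ?_ ?_
    all_goals
      rw [← hqd]
      try rw [cells1]
      obtain ⟨u, hu⟩ : ∃ u, q = u + 2 := ⟨_, (Nat.sub_add_cancel (by omega)).symm⟩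
    all_goals
      rw [hu]; (try simp only [Nat.reduceSubDiff]); ring_nf; omega
  have hc := cells0 q (by omega)
  refine bound_heis heis0 chi_top count0 (gap (by omega)) h1 ?_ ?_ ?_ ?_
  all_goals
    rw [← hqd, show radA.length - 1 = 28 from rfl, target]
    try rw [show eraseRoot T top = T1 from rfl]
    obtain ⟨u, hu⟩ : ∃ u, q = u + 2 := ⟨_, (Nat.sub_add_cancel (by omega)).symm⟩
    rw [hu] at hc ⊢
    generalize cellsTotal T1 sub0 rad0 (u + 2) = N at hc ⊢
    simp only [Nat.reduceSubDiff]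
    ring_nf at hc ⊢
    omega

end CfsgLib.RootChain.E8
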