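import Cfsg.Agent.Lib.RootChain.BoundE8

/-! The bound along the chain for type E8 over the field of two elements. -/

set_option autoImplicit false
set_option linter.unusedSectionVars false

namespace CfsgLib.RootChain.E8

universe u

variable {F : Type*} [Field F] [Fintype F]

theorem bound_two (hq : Fintype.card F = 2) :
    Bound.{u} T (List.range 240) chi F 545925216 := by
  have h3 : Bound.{u} T1 sub2 chi F 155 := by
    refine bound_base base3 ?_ ?_ <;> rw [hq]
    · norm_num
    · rw [cells3]; norm_num
  have h2 : Bound.{u} T1 sub1 chi F 2450 := by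
    refine bound_step base2 trace2 (Or.inl fix2) h3 (Or.inr ?_) ?_ ?_ <;> rw [hq]
    · norm_num
    all_goals rw [cells2]; norm_num
  have h1 : Bound.{u} T1 sub0 chi F 141953 := by
    refine bound_step base1 trace1 (Or.inl fix1) h2 (Or.inr ?_) ?_ ?_ <;> rw [hq]
    · norm_num
    all_goals rw [cells1]; norm_num
  have hc := cells0 2 (by norm_num)
  norm_num at hc
  refine bound_heis heis0 chi_top count0 (gap (by omega)) h1 ?_ ?_ ?_ ?_
  all_goals
    rw [hq, show radA.length - 1 = 28 from rfl]
    try rw [show eraseRoot T top = T1 from rfl]
    norm_num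
    try omega

end CfsgLib.RootChain.E8
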