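import Cfsg.Agent.Lib.RootChain.Orbit

/-! The occurring characters when the normal ones are supported at one coordinate. -/

set_option autoImplicit false
set_option linter.unusedSectionVars false

namespace CfsgLib.RootChain

open Matrix
open CfsgLib.InvCentralizers

variable {T : Table} {Φ Φ' R : List ℕ} {χ : ℕ → ℤ} {F : Type*} [Field F] [Fintype F]
  {W : Type*} [AddCommGroup W] [Module ℂ W] [FiniteDimensional ℂ W]
  {x : ℕ → F → Module.End ℂ W} {h : Fˣ → Module.End ℂ W} {n₀ : ℕ}

theorem push_congr : ∀ {L : List (Fin R.length × ℕ)} {ts ts' : Fin R.length → F},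
    (∀ p ∈ L, ts p.1 = ts' p.1) → ∀ B : Fin R.length → F, push T R L ts B = push T R L ts' B
  | [], _, _, _, _ => rfl
  | (i, α) :: L, ts, ts', he, B => by
    rw [push, push, he (i, α) (List.mem_cons_self ..),
      push_congr (fun p hp => he p (List.mem_cons_of_mem _ hp))]

theorem push_filter (P : Fin R.length × ℕ → Bool) :
    ∀ {L : List (Fin R.length × ℕ)} {ts : Fin R.length → F},
    (∀ p ∈ L, P p = false → ts p.1 = 0) → ∀ B : Fin R.length → F,
      push T R (L.filter P) ts B = push T R L ts B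
  | [], _, _, _ => rfl
  | (i, α) :: L, ts, hz, B => by
    have ih := push_filter P (L := L) (ts := ts) (fun p hp => hz p (List.mem_cons_of_mem _ hp))
    cases hP : P (i, α) with
    | true => rw [List.filter_cons, if_pos hP, push, push, ih]
    | false =>
      rw [List.filter_cons, if_neg (by simp [hP]), push,
        show ts i = 0 from hz (i, α) (List.mem_cons_self ..) hP, act_zero, ih]

theorem keys_all (hA : Adj T Φ' R n₀) (hm : R.length = n₀ + 1) {μ k : Fin R.length} (hk : k ≠ μ) :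
    k ∈ keys T Φ' R μ := by
  classical
  by_contra hcon
  have hsub : (keys T Φ' R μ).toFinset ⊆ (Finset.univ.erase μ).erase k := fun i hi => by
    rw [List.mem_toFinset] at hi
    refine Finset.mem_erase.2 ⟨fun e => hcon (e ▸ hi), Finset.mem_erase.2 ⟨fun e => ?_, Finset.mem_univ _⟩⟩
    subst e
    have h1 := (mem_adj (mem_keys.1 hi)).2
    rw [hA.fixμ i _ (mem_keys.1 hi)] at h1
    simp at h1
  have := Finset.card_le_card hsub
  rw [List.toFinset_card_of_nodup (keys_nodup μ), hA.len, Finset.card_erase_of_mem (by simpa using hk),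
    Finset.card_erase_of_mem (Finset.mem_univ _), Finset.card_univ, Fintype.card_fin] at this
  have h0 : 0 < n₀ := by
    by_contra h0
    have h1 : R.length = 1 := by omega
    exact hk (Fin.ext (by have := k.isLt; have := μ.isLt; omega))
  omega

/-- With every coordinate adjacent to every other, all normal characters are at one coordinate. -/
theorem pure_of_complete (hA : Adj T Φ' R n₀) (hm : R.length = n₀ + 1) : Pure T Φ' R x := by
  intro μ c B _ hB
  funext k
  by_cases hk : k = μ
  · rw [hk, hB.2.1, Pi.single_eq_same]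
  · rw [Pi.single_eq_of_ne hk, hB.2.2 k (keys_all hA hm hk)]

variable (T Φ' R) in
/-- The later neighbours of `μ`. -/
def laterKeys (μ : Fin R.length) : List (Fin R.length) := (laterAdj T Φ' R μ).map Prod.fst

theorem mem_laterKeys {μ k : Fin R.length} :
    k ∈ laterKeys T Φ' R μ ↔ k ∈ keys T Φ' R μ ∧ μ < k := by
  simp only [laterKeys, laterAdj, keys, List.mem_map, List.mem_filter, decide_eq_true_eq]
  constructor
  · rintro ⟨p, ⟨hp, hlt⟩, rfl⟩; exact ⟨⟨p, hp, rfl⟩, hlt⟩
  · rintro ⟨⟨p, hp, rfl⟩, hlt⟩; exact ⟨p, ⟨hp, hlt⟩, rfl⟩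

theorem laterKeys_nodup (μ : Fin R.length) : (laterKeys T Φ' R μ).Nodup :=
  List.Nodup.sublist (List.filter_sublist.map _) (keys_nodup μ)

theorem push_later (hA : Adj T Φ' R n₀) (μ : Fin R.length) (ts B : Fin R.length → F)
    (hB : ∀ j, j < μ → B j = 0) :
    (∀ j, j < μ → push T R (laterAdj T Φ' R μ) ts B j = 0) ∧
      push T R (laterAdj T Φ' R μ) ts B μ = B μ ∧ ∀ k ∈ laterKeys T Φ' R μ,
        push T R (laterAdj T Φ' R μ) ts B k =
          B k + ts k * cf T R F (alph T Φ' R μ k) k * B μ := by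
  refine ⟨push_below hA (fun p hp => ?_) ts B hB, ?_, fun k hk => ?_⟩
  · simpa [laterAdj] using hp
  all_goals
    obtain ⟨h1, h2⟩ := push_apply hA (μ := μ) (L := laterAdj T Φ' R μ)
      (fun p hp => List.mem_of_mem_filter hp) (laterKeys_nodup μ) ts B
  · exact h1
  · exact (h2 k (mem_laterKeys.1 hk).1).trans (if_pos hk)

theorem occ_single (O : Ops T Φ χ x h) (hR : Rad T Φ Φ' R) (hA : Adj T Φ' R n₀) (hn : n₀ ≠ 0)
    (hP : Pure T Φ' R x) {B₀ : Fin R.length → F} (hB : Occ R x B₀) (hB₀ : B₀ ≠ 0)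
    (μ : Fin R.length) {c : F} (hc : c ≠ 0) : Occ R x (Pi.single μ c) := by
  obtain ⟨B, hB⟩ := exists_normal O hR hA hn hB hB₀ μ hc
  exact hP μ c B hc hB ▸ hB.1

/-- The first nonzero coordinate. -/
noncomputable def pivot (B : Fin R.length → F) (hB : B ≠ 0) : Fin R.length := by
  classical
  exact (Finset.univ.filter fun i => B i ≠ 0).min'
    ⟨(Function.ne_iff.1 hB).choose, by simpa using (Function.ne_iff.1 hB).choose_spec⟩

/-- `B` lies in the cell of `μ`. -/
def InCell (μ : Fin R.length) (B : Fin R.length → F) : Prop :=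
  B μ ≠ 0 ∧ ∀ j, j < μ → B j = 0

theorem inCell_pivot (B : Fin R.length → F) (hB : B ≠ 0) : InCell (pivot B hB) B := by
  classical
  refine ⟨?_, fun j hj => ?_⟩
  · have := Finset.min'_mem (Finset.univ.filter fun i => B i ≠ 0)
      ⟨(Function.ne_iff.1 hB).choose, by simpa using (Function.ne_iff.1 hB).choose_spec⟩
    simpa [pivot] using this
  · by_contra hne
    refine absurd hj (not_lt.2 ?_)
    unfold pivot
    exact Finset.min'_le _ _ (by simpa using hne)

theorem inCell_unique {μ ν : Fin R.length} {B : Fin R.length → F} (h : InCell μ B)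
    (h' : InCell ν B) : μ = ν :=
  le_antisymm (not_lt.1 fun hlt => h'.1 (h.2 ν hlt)) (not_lt.1 fun hlt => h.1 (h'.2 μ hlt))

/-- The parameters carrying `single μ (B μ)` to `B`. -/
noncomputable def cellTs (T : Table) (Φ' R : List ℕ) (μ : Fin R.length) (B : Fin R.length → F) :
    Fin R.length → F := fun k => B k / (cf T R F (alph T Φ' R μ k) k * B μ)

theorem eq_single_of_norm (O : Ops T Φ χ x h) (hR : Rad T Φ Φ' R) (hA : Adj T Φ' R n₀)
    (hP : Pure T Φ' R x) {μ : Fin R.length} {B : Fin R.length → F} (hB : Occ R x B)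
    (hμ : InCell μ B) :
    push T R (laterAdj T Φ' R μ) (normTs T Φ' R μ B) B = Pi.single μ (B μ) := by
  have hn := hP μ (B μ) _ hμ.1 (normalise O hR hA hB hμ.1)
  rw [← hn]
  refine push_filter _ (fun p hp hd => ?_) B
  simp only [decide_eq_false_iff_not, not_lt] at hd
  rcases hd.lt_or_eq with h | h
  · simp [normTs, hμ.2 p.1 h]
  · exfalso
    have h1 := (mem_adj hp).2
    have h2 := hA.fixμ μ p hp
    rw [h, h2] at h1
    simp at h1

theorem eq_push_single (O : Ops T Φ χ x h) (hR : Rad T Φ Φ' R) (hA : Adj T Φ' R n₀) (hn : n₀ ≠ 0)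
    (hP : Pure T Φ' R x) {μ : Fin R.length} {B : Fin R.length → F} (hB : Occ R x B)
    (hμ : InCell μ B) :
    B = push T R (laterAdj T Φ' R μ) (cellTs T Φ' R μ B) (Pi.single μ (B μ)) := by
  classical
  have hL : ∀ p ∈ laterAdj T Φ' R μ, p.2 ∈ Φ' := fun p hp =>
    (mem_adj (List.mem_of_mem_filter hp)).1
  set B' := push T R (laterAdj T Φ' R μ) (cellTs T Φ' R μ B) (Pi.single μ (B μ)) with hB'
  obtain ⟨h1, h2, h3⟩ := push_later hA μ (cellTs T Φ' R μ B) (Pi.single μ (B μ))
    fun j hj => Pi.single_eq_of_ne hj.ne _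
  rw [← hB', Pi.single_eq_same] at h2
  have ho : Occ R x B' := by
    rw [occ_iff, finrank_push O hR hL, ← occ_iff]
    exact occ_single O hR hA hn hP hB (fun e => hμ.1 (congrFun e μ)) μ hμ.1
  have e1 := eq_single_of_norm O hR hA hP hB hμ
  have e2 := eq_single_of_norm O hR hA hP ho ⟨h2 ▸ hμ.1, h1⟩
  rw [h2] at e2
  refine push_injective hR hL (normTs T Φ' R μ B) (e1.trans ?_)
  rw [← e2]
  refine push_congr (fun p hp => ?_) B'
  have hk : p.1 ∈ laterKeys T Φ' R μ := List.mem_map_of_mem hp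
  obtain ⟨hk1, hk2⟩ := mem_laterKeys.1 hk
  have hcf := cf_ne_zero (F := F) hR (mem_adj (mem_keys.1 hk1)).1 (mem_adj (mem_keys.1 hk1)).2
  have h4 := h3 p.1 hk
  rw [← hB', Pi.single_eq_of_ne hk2.ne', Pi.single_eq_same, zero_add] at h4
  have hμ' := hμ.1
  simp only [normTs, h2, h4, cellTs]
  field_simp

/-- The cell of `μ`. -/
noncomputable def cell (R : List ℕ) (x : ℕ → F → Module.End ℂ W) (μ : Fin R.length) :
    Finset (Fin R.length → F) := by
  classical exact (occSet R x).filter fun B => InCell μ B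

theorem mem_cell {μ : Fin R.length} {B : Fin R.length → F} :
    B ∈ cell R x μ ↔ Occ R x B ∧ InCell μ B := by
  classical
  simp only [cell, Finset.mem_filter, mem_occSet]
  exact ⟨fun h => ⟨h.1.2, h.2⟩, fun h => ⟨⟨fun e => h.2.1 (congrFun e μ), h.1⟩, h.2⟩⟩

/-- The cell of `μ` is parametrised by its value at `μ` and at the later neighbours. -/
theorem sum_cell (O : Ops T Φ χ x h) (hR : Rad T Φ Φ' R) (hA : Adj T Φ' R n₀) (hn : n₀ ≠ 0)
    (hP : Pure T Φ' R x) {B₀ : Fin R.length → F} (hB : Occ R x B₀) (hB₀ : B₀ ≠ 0)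
    (μ : Fin R.length) [Fintype {c : F // c ≠ 0}] {M : Type*} [AddCommMonoid M] (g : F → M) :
    ∑ B ∈ cell R x μ, g (B μ) =
      Fintype.card F ^ (laterKeys T Φ' R μ).length • ∑ c : {c : F // c ≠ 0}, g c := by
  classical
  have key : ∑ B ∈ cell R x μ, g (B μ) =
      ∑ p : {c : F // c ≠ 0} × ({k // k ∈ laterKeys T Φ' R μ} → F), g p.1 := by
    refine Finset.sum_bij (fun B hB => (⟨B μ, (mem_cell.1 hB).2.1⟩, fun k => B k))
      (fun _ _ => Finset.mem_univ _) (fun B hB B' hB' e => ?_) (fun p _ => ?_) (fun _ _ => rfl)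
    · simp only [Prod.mk.injEq, Subtype.mk.injEq] at e
      rw [eq_push_single O hR hA hn hP (mem_cell.1 hB).1 (mem_cell.1 hB).2,
        eq_push_single O hR hA hn hP (mem_cell.1 hB').1 (mem_cell.1 hB').2, e.1]
      refine push_congr (fun q hq => ?_) _
      simp only [cellTs, e.1, show B q.1 = B' q.1 from
        congrFun e.2 ⟨q.1, List.mem_map_of_mem hq⟩]
    · let ts : Fin R.length → F := fun k => if hk : k ∈ laterKeys T Φ' R μ then
        p.2 ⟨k, hk⟩ / (cf T R F (alph T Φ' R μ k) k * p.1) else 0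
      obtain ⟨h1, h2, h3⟩ := push_later hA μ ts (Pi.single μ (p.1 : F))
        fun j hj => Pi.single_eq_of_ne hj.ne _
      rw [Pi.single_eq_same] at h2
      have ho : Occ R x (push T R (laterAdj T Φ' R μ) ts (Pi.single μ (p.1 : F))) := by
        rw [occ_iff, finrank_push O hR (L := laterAdj T Φ' R μ)
          (fun q hq => (mem_adj (List.mem_of_mem_filter hq)).1),
          ← occ_iff]
        exact occ_single O hR hA hn hP hB hB₀ μ p.1.2
      refine ⟨_, mem_cell.2 ⟨ho, h2.trans_ne p.1.2, h1⟩, Prod.ext (Subtype.ext h2) (funext fun k => ?_)⟩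
      obtain ⟨hk1, hk2⟩ := mem_laterKeys.1 k.2
      have hcf := cf_ne_zero (F := F) hR (mem_adj (mem_keys.1 hk1)).1 (mem_adj (mem_keys.1 hk1)).2
      have hp := p.1.2
      show push T R (laterAdj T Φ' R μ) ts (Pi.single μ (p.1 : F)) k = p.2 k
      rw [h3 k k.2, Pi.single_eq_of_ne hk2.ne', Pi.single_eq_same, zero_add]
      simp only [ts, dif_pos k.2]
      field_simp
  rw [key, Fintype.sum_prod_type, Finset.smul_sum]
  refine Finset.sum_congr rfl fun c _ => ?_
  simp only []
  rw [Finset.sum_const, Finset.card_univ, Fintype.card_fun]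
  congr 2
  rw [Fintype.card_of_subtype (laterKeys T Φ' R μ).toFinset (fun k => List.mem_toFinset),
    List.toFinset_card_of_nodup (laterKeys_nodup μ)]

theorem card_cell (O : Ops T Φ χ x h) (hR : Rad T Φ Φ' R) (hA : Adj T Φ' R n₀) (hn : n₀ ≠ 0)
    (hP : Pure T Φ' R x) {B₀ : Fin R.length → F} (hB : Occ R x B₀) (hB₀ : B₀ ≠ 0)
    (μ : Fin R.length) :
    (cell R x μ).card =
      Fintype.card F ^ (laterKeys T Φ' R μ).length * (Fintype.card F - 1) := by
  classical
  letI : DecidableEq F := Classical.decEq F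
  have := sum_cell O hR hA hn hP hB hB₀ μ (fun _ => (1 : ℕ))
  rw [Finset.sum_const, Finset.sum_const, Finset.card_univ, Fintype.card_subtype_compl,
    Fintype.card_subtype_eq] at this
  simpa using this

theorem sum_occSet_cells {M : Type*} [AddCommMonoid M] (g : (Fin R.length → F) → M) :
    ∑ B ∈ occSet R x, g B = ∑ μ, ∑ B ∈ cell R x μ, g B := by
  classical
  have hd : (↑(Finset.univ : Finset (Fin R.length)) : Set (Fin R.length)).PairwiseDisjoint
      fun μ => cell R x μ := fun μ _ ν _ hne => Finset.disjoint_left.2 fun B h h' =>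
    hne (inCell_unique (mem_cell.1 h).2 (mem_cell.1 h').2)
  rw [← Finset.sum_biUnion hd]
  refine Finset.sum_congr (Finset.ext fun B => ?_) fun _ _ => rfl
  simp only [Finset.mem_biUnion, Finset.mem_univ, true_and, mem_cell, mem_occSet]
  exact ⟨fun h => ⟨_, h.2, inCell_pivot B h.1⟩,
    fun ⟨μ, h, hc⟩ => ⟨fun e => hc.1 (congrFun e μ), h⟩⟩

/-- All occurring characters have the same multiplicity. -/
theorem finrank_eq_const (O : Ops T Φ χ x h) (hR : Rad T Φ Φ' R) (hA : Adj T Φ' R n₀)
    (hn : n₀ ≠ 0) (hP : Pure T Φ' R x) {B₀ : Fin R.length → F} (hB : Occ R x B₀) (hB₀ : B₀ ≠ 0)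
    (i₀ : Fin R.length) (hi₀ : i₀.val = 0) :
    ∀ B ∈ occSet R x,
      Module.finrank ℂ (E R x B) = Module.finrank ℂ (E R x (Pi.single i₀ 1)) := by
  classical
  have norm : ∀ {μ : Fin R.length} {B : Fin R.length → F}, Occ R x B → B μ ≠ 0 →
      Module.finrank ℂ (E R x B) = Module.finrank ℂ (E R x (Pi.single μ (B μ))) := by
    intro μ B hBo hμ
    rw [← hP μ (B μ) _ hμ (normalise O hR hA hBo hμ),
      finrank_push O hR (fun p hp => (mem_adj hp).1)]
  have step : ∀ {μ k : Fin R.length}, k ∈ keys T Φ' R μ → ∀ {c d : F}, c ≠ 0 → d ≠ 0 →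
      Module.finrank ℂ (E R x (Pi.single μ c)) = Module.finrank ℂ (E R x (Pi.single k d)) := by
    intro μ k hk c d hc hd
    obtain ⟨hα, hu⟩ := mem_adj (mem_keys.1 hk)
    have hfix := hA.fixμ μ _ (mem_keys.1 hk)
    have hcf := cf_ne_zero (F := F) hR hα hu
    set α := alph T Φ' R μ k
    set t := d / (cf T R F α k * c)
    have ho := occ_single O hR hA hn hP hB hB₀ μ hc
    have hkμ : k ≠ μ := fun e => by
      simp only [e] at hu
      rw [hfix] at hu
      simp at hu
    set B1 := act T R α t (Pi.single μ c)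
    have h1 : B1 k = d := by
      simp only [B1, act, hu, Option.elim_some, Pi.single_eq_same, Pi.single_eq_of_ne hkμ, t]
      field_simp
      ring
    have h2 : B1 μ = c := by simp [B1, act, hfix]
    have e1 : _ = _ := norm (B := B1) (occ_act O hR hα t ho) (μ := k) (by rw [h1]; exact hd)
    rw [h1, show Module.finrank ℂ (E R x B1) = _ from finrank_act O hR hα t _] at e1
    exact e1
  have hdown : ∀ n, ∀ μ : Fin R.length, μ.val = n → ∀ c : F, c ≠ 0 →
      Module.finrank ℂ (E R x (Pi.single μ c)) = Module.finrank ℂ (E R x (Pi.single i₀ 1)) := by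
    intro n
    induction n using Nat.strong_induction_on with
    | _ n ih =>
      intro μ hμn c hc
      by_cases h0 : μ.val = 0
      · obtain ⟨k, hk⟩ : ∃ k, k ∈ keys T Φ' R μ :=
          List.exists_mem_of_length_pos (by rw [hA.len]; omega)
        have he : μ = i₀ := Fin.ext (h0.trans hi₀.symm)
        subst he
        exact (step hk hc one_ne_zero).trans (step hk one_ne_zero one_ne_zero).symm
      · obtain ⟨i, hi, hlt⟩ := hA.down μ h0
        exact (step hi hc one_ne_zero).trans (ih i.val (hμn ▸ hlt) i rfl 1 one_ne_zero)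
  intro B hBm
  obtain ⟨hne, hBo⟩ := mem_occSet.1 hBm
  have hμ := (inCell_pivot B hne).1
  rw [norm hBo hμ]
  exact hdown _ _ rfl _ hμ

end CfsgLib.RootChain
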