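import Cfsg.Agent.Lib.RootChain.Step

/-! A representation split by a central root subgroup of an abelian radical. -/

set_option autoImplicit false
set_option linter.unusedSectionVars false

namespace CfsgLib.RootChain

open Matrix
open CfsgLib.InvCentralizers

variable {T : Table} {Φ Φ' Φ₀ RA : List ℕ} {χ : ℕ → ℤ} {F : Type*} [Field F] [Fintype F]
  {W : Type*} [AddCommGroup W] [Module ℂ W] [FiniteDimensional ℂ W]
  {x : ℕ → F → Module.End ℂ W} {h : Fˣ → Module.End ℂ W} {z : ℕ}

/-- The table with the root `z` erased as a sum. -/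
def eraseRoot (T : Table) (z : ℕ) : Table where
  add r s := if T.add r s = some z then none else T.add r s
  coef := T.coef
  opp := T.opp

/-- Closedness up to `z`. -/
def closedUpToB (T : Table) (Φ₀ : List ℕ) (z : ℕ) : Bool :=
  Φ₀.all fun r => Φ₀.all fun s => match T.add r s with
    | none => true
    | some c => c == z || Φ₀.contains c

theorem mem_zero_iff (O : Ops T Φ χ x h) (hz : Rad T Φ Φ₀ [z]) {v : W} :
    v ∈ E [z] x (0 : Fin [z].length → F) ↔ ∀ t, x z t v = v := by
  refine ⟨fun hv t => ?_, fun hv S => ?_⟩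
  · have h0 := hv (Pi.single (⟨0, by simp⟩ : Fin [z].length) t)
    rw [rad_single O hz, show pair [z] (0 : Fin [z].length → F)
      (Pi.single (⟨0, by simp⟩ : Fin [z].length) t) = 1 by simp [pair], one_smul] at h0
    exact h0
  · rw [show pair [z] (0 : Fin [z].length → F) S = 1 by simp [pair], one_smul]
    simp [rad, List.finRange_succ, hv]

/-- The operators on the invariants of `z`. -/
theorem ops_erase (O : Ops T Φ χ x h) (hz : Rad T Φ Φ₀ [z]) (hcl : closedUpToB T Φ₀ z = true) :
    Ops (eraseRoot T z) Φ₀ χ (zeroX O hz) (zeroH O hz) := by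
  simp only [closedUpToB, List.all_eq_true] at hcl
  refine ⟨fun r hr => ?_, fun r hr t u => ?_, fun r hr s hs h1 h2 h3 t u => ?_,
    fun r hr s hs c h1 h2 h3 t u => ?_, fun r hr s t => ?_, fun s => ?_⟩ <;>
    refine LinearMap.ext fun w => Subtype.ext ?_
  · rw [coe_zeroX O hz hr, O.map_zero r (hz.sub r hr)]; rfl
  · rw [Module.End.mul_apply, coe_zeroX O hz hr, coe_zeroX O hz hr, coe_zeroX O hz hr,
      O.map_add r (hz.sub r hr)]; rfl
  · simp only [Module.End.mul_apply, coe_zeroX O hz hr, coe_zeroX O hz hs]
    cases hc : T.add r s with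
    | none =>
      exact LinearMap.congr_fun
        (O.comm_none r (hz.sub r hr) s (hz.sub s hs) h1 h2 hc t u).eq (w : W)
    | some c =>
      have hcz : c = z := by
        by_contra hne
        simp [eraseRoot, hc, hne] at h3
      subst hcz
      have e := LinearMap.congr_fun
        (O.comm_some r (hz.sub r hr) s (hz.sub s hs) c h1 h2 hc t u) (w : W)
      simp only [Module.End.mul_apply] at e
      have hmem : x r t w ∈ E [c] x (0 : Fin [c].length → F) := by
        rw [← coe_zeroX O hz hr t w]; exact Submodule.coe_mem _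
      rw [(mem_zero_iff O hz).1 hmem] at e
      exact e
  · simp only [eraseRoot] at h3
    split_ifs at h3 with hc
    have hcmem : c ∈ Φ₀ := by
      have := hcl r hr s hs
      rw [h3] at this
      simp only [Bool.or_eq_true, beq_iff_eq, List.contains_iff_mem] at this
      exact this.resolve_left fun e => hc (e ▸ h3)
    simp only [Module.End.mul_apply, coe_zeroX O hz hr, coe_zeroX O hz hs, coe_zeroX O hz hcmem]
    exact LinearMap.congr_fun (O.comm_some r (hz.sub r hr) s (hz.sub s hs) c h1 h2 h3 t u) (w : W)
  · simp only [Module.End.mul_apply, coe_zeroX O hz hr]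
    simp only [zeroH, LinearMap.coe_restrict_apply, coe_zeroX O hz hr]
    rw [← Module.End.mul_apply, O.torus r (hz.sub r hr) s t, Module.End.mul_apply]
  · simp only [Module.End.mul_apply, zeroH, LinearMap.coe_restrict_apply]
    rw [← Module.End.mul_apply, O.h_inv s]
    rfl

theorem finrank_scale (O : Ops T Φ χ x h) (hR : Rad T Φ Φ' RA) (s : Fˣ) (B : Fin RA.length → F) :
    Module.finrank ℂ (E RA x B) ≤ Module.finrank ℂ
      (E RA x fun i => (((s ^ χ (RA.get i))⁻¹ : Fˣ) : F) * B i) := by
  have hm : ∀ w ∈ E RA x B, h s w ∈ E RA x fun i => (((s ^ χ (RA.get i))⁻¹ : Fˣ) : F) * B i := by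
    intro w hw S
    let S' : Fin RA.length → F := fun i => (((s ^ χ (RA.get i))⁻¹ : Fˣ) : F) * S i
    have e1 := LinearMap.congr_fun (h_rad O hR s S') w
    have hS : (fun i => ((s ^ χ (RA.get i) : Fˣ) : F) * S' i) = S := funext fun i => by
      simp only [S']
      rw [← mul_assoc, ← Units.val_mul, mul_inv_cancel, Units.val_one, one_mul]
    rw [hS] at e1
    simp only [Module.End.mul_apply] at e1
    rw [← e1, hw S', map_smul]
    congr 1
    simp only [pair, dotProduct, S']
    congr 1
    exact Finset.sum_congr rfl fun i _ => by ring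
  refine LinearMap.finrank_le_finrank_of_injective (f := (h s).restrict hm) fun u v e => Subtype.ext ?_
  have := congrArg (h s⁻¹) (congrArg Subtype.val e)
  simpa [← Module.End.mul_apply, O.h_inv' s] using this

/-- Every coordinate of `RA` other than the first is translated by some root. -/
def transB (T : Table) (Φ' RA : List ℕ) : Bool :=
  (List.finRange RA.length).all fun i => i.val == 0 ||
    Φ'.any fun p => (up T RA p i).map (fun j => j.val) == some 0 &&
      (List.finRange RA.length).all fun j => j == i || up T RA p j == none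

theorem finrank_translate (O : Ops T Φ χ x h) (hR : Rad T Φ Φ' RA) (htr : transB T Φ' RA = true)
    {i₀ : Fin RA.length} (hi₀ : i₀.val = 0) {B : Fin RA.length → F} (hB : B i₀ ≠ 0) :
    Module.finrank ℂ (E RA x B) = Module.finrank ℂ (E RA x (Pi.single i₀ (B i₀))) := by
  classical
  simp only [transB, List.all_eq_true, List.mem_finRange, forall_const, Bool.or_eq_true, beq_iff_eq,
    List.any_eq_true, Bool.and_eq_true] at htr
  suffices key : ∀ (s : Finset (Fin RA.length)) (B : Fin RA.length → F), B i₀ ≠ 0 →
      (∀ i, i ∉ s → i ≠ i₀ → B i = 0) →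
      Module.finrank ℂ (E RA x B) = Module.finrank ℂ (E RA x (Pi.single i₀ (B i₀))) from
    key Finset.univ B hB fun i hi => absurd (Finset.mem_univ i) hi
  intro s
  induction s using Finset.induction_on with
  | empty =>
    intro B _ hz
    rw [show B = Pi.single i₀ (B i₀) from funext fun i => by
      by_cases hi : i = i₀
      · rw [hi, Pi.single_eq_same]
      · rw [Pi.single_eq_of_ne hi, hz i (Finset.notMem_empty i) hi]]
    rw [Pi.single_eq_same]
  | insert a s ha ih =>
    intro B hB0 hz
    by_cases hai : a = i₀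
    · exact ih B hB0 fun i hi hne => hz i (by simp [hi, hai ▸ hne]) hne
    obtain ⟨p, hp, hup, hnone⟩ := (htr a).resolve_left fun e => hai (Fin.ext (e.trans hi₀.symm))
    obtain ⟨j, hj, hj0⟩ := Option.map_eq_some_iff.1 hup
    obtain rfl : j = i₀ := Fin.ext (hj0.trans hi₀.symm)
    have hcf := cf_ne_zero (F := F) hR hp hj
    set t := -B a / (cf T RA F p a * B j)
    have h1 : ∀ i, i ≠ a → act T RA p t B i = B i := fun i hi => by
      simp [act, (hnone i).resolve_left hi]
    have h2 : act T RA p t B a = 0 := by
      simp only [act, hj, Option.elim_some, t]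
      field_simp
      ring
    have h3 := h1 j (Ne.symm hai)
    have := ih (act T RA p t B) (h3 ▸ hB0) fun i hi hne => by
      by_cases hia : i = a
      · rw [hia, h2]
      · rw [h1 i hia, hz i (by simp [hi, hia]) hne]
    rwa [finrank_act O hR hp, h3] at this

/-- The trace split into the invariants of `z` and the other characters of `RA`. -/
theorem trace_split (O : Ops T Φ χ x h) (hz : Rad T Φ Φ₀ [z]) (hR : Rad T Φ Φ' RA)
    {i₀ : Fin RA.length} (hi : RA.get i₀ = z) [DecidableEq F] (g : Module.End ℂ W)
    (hg : ∀ w ∈ E [z] x (0 : Fin [z].length → F), g w ∈ E [z] x (0 : Fin [z].length → F)) :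
    LinearMap.trace ℂ W g = LinearMap.trace ℂ (E [z] x (0 : Fin [z].length → F)) (g.restrict hg) +
      ∑ B ∈ Finset.univ.filter (fun B : Fin RA.length → F => B i₀ ≠ 0),
        LinearMap.trace ℂ W (g * AbelianEigen.eproj (pair RA) (rad RA x) B) := by
  classical
  have hsZ := setup O hz
  have hsA := setup O hR
  have hP : ∑ B ∈ Finset.univ.filter (fun B : Fin RA.length → F => B i₀ = 0),
      AbelianEigen.eproj (pair RA) (rad RA x) B = AbelianEigen.eproj (pair [z]) (rad [z] x) 0 := by
    refine LinearMap.ext fun w => ?_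
    conv_rhs => rw [← Module.End.one_apply (R := ℂ) w, ← AbelianEigen.sum_eproj hsA]
    simp only [LinearMap.sum_apply, map_sum, Finset.sum_filter]
    refine Finset.sum_congr rfl fun B _ => ?_
    set v := AbelianEigen.eproj (pair RA) (rad RA x) B w
    have hv : v ∈ E RA x B := AbelianEigen.eproj_mem hsA B w
    have hvz : ∀ t, x z t v = AddChar.FiniteField.primitiveChar_to_Complex F (B i₀ * t) • v := by
      intro t
      have := hv (Pi.single i₀ t)
      rw [rad_single O hR, hi, pair, dotProduct_single] at this
      exact this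
    have hv' : v ∈ E [z] x (fun _ => B i₀) := by
      intro S
      rw [← Finset.univ_sum_single S]
      simp only [List.length_singleton, Fin.sum_univ_one]
      rw [rad_single O hz, pair, dotProduct_single]
      exact hvz _
    by_cases hB : B i₀ = 0
    · rw [if_pos hB, AbelianEigen.eproj_eig hsZ]
      have he : (fun _ : Fin [z].length => B i₀) = 0 := funext fun _ => hB
      exact he ▸ hv'
    · rw [if_neg hB, AbelianEigen.eproj_eig_ne hsZ (fun e => hB (congrFun e ⟨0, by simp⟩)) hv',
        LinearMap.zero_apply]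
  have h1 : LinearMap.trace ℂ W g =
      LinearMap.trace ℂ W (g * AbelianEigen.eproj (pair [z]) (rad [z] x) 0) +
      ∑ B ∈ Finset.univ.filter (fun B : Fin RA.length → F => B i₀ ≠ 0),
        LinearMap.trace ℂ W (g * AbelianEigen.eproj (pair RA) (rad RA x) B) := by
    rw [← hP, Finset.mul_sum, map_sum,
      Finset.sum_filter_add_sum_filter_not Finset.univ (fun B : Fin RA.length → F => B i₀ = 0),
      ← map_sum, ← Finset.mul_sum, AbelianEigen.sum_eproj hsA, mul_one]
  rw [h1]
  congr 1
  set P := AbelianEigen.eproj (pair [z]) (rad [z] x) (0 : Fin [z].length → F)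
  let p : W →ₗ[ℂ] E [z] x (0 : Fin [z].length → F) :=
    P.codRestrict _ (AbelianEigen.eproj_mem hsZ 0)
  have e : g * P = (g ∘ₗ (E [z] x (0 : Fin [z].length → F)).subtype) ∘ₗ p := rfl
  rw [e, LinearMap.trace_comp_comm']
  congr 1
  exact LinearMap.ext fun w => Subtype.ext (AbelianEigen.eproj_eig hsZ (hg w w.2))

theorem card_top {n : ℕ} (i₀ : Fin n) (S : Finset (Fin n)) (hS : i₀ ∉ S) [DecidableEq F] :
    (Finset.univ.filter fun B : Fin n → F => B i₀ ≠ 0 ∧ ∀ j ∈ S, B j = 0).card =
      (Fintype.card F - 1) * Fintype.card F ^ (n - 1 - S.card) := by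
  classical
  have he : (Finset.univ.filter fun B : Fin n → F => B i₀ ≠ 0 ∧ ∀ j ∈ S, B j = 0) =
      Fintype.piFinset fun i => if i = i₀ then Finset.univ.erase 0 else if i ∈ S then {0} else Finset.univ := by
    ext B
    simp only [Finset.mem_filter, Finset.mem_univ, true_and, Fintype.mem_piFinset]
    refine ⟨fun h i => ?_, fun h => ⟨?_, fun j hj => ?_⟩⟩
    · split_ifs with h1 h2
      · exact Finset.mem_erase.2 ⟨h1 ▸ h.1, Finset.mem_univ _⟩
      · exact Finset.mem_singleton.2 (h.2 i h2)
      · exact Finset.mem_univ _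
    · have := h i₀; simpa using this
    · have := h j
      rw [if_neg (fun e : j = i₀ => hS (e ▸ hj)), if_pos hj] at this
      simpa using this
  rw [he, Fintype.card_piFinset, ← Finset.mul_prod_erase _ _ (Finset.mem_univ i₀), if_pos rfl,
    Finset.card_erase_of_mem (Finset.mem_univ _), Finset.card_univ]
  congr 1
  have hsub : S ⊆ Finset.univ.erase i₀ := fun j hj =>
    Finset.mem_erase.2 ⟨fun e => hS (e ▸ hj), Finset.mem_univ _⟩
  rw [← Finset.prod_sdiff hsub, Finset.prod_congr (s₂ := S) rfl fun j hj => by
      rw [if_neg (fun e : j = i₀ => hS (e ▸ hj)), if_pos hj, Finset.card_singleton],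
    Finset.prod_congr (s₂ := Finset.univ.erase i₀ \ S) rfl fun j hj => by
      obtain ⟨h1, h2⟩ := Finset.mem_sdiff.1 hj
      rw [if_neg (Finset.mem_erase.1 h1).1, if_neg h2, Finset.card_univ],
    Finset.prod_const_one, mul_one, Finset.prod_const, Finset.card_sdiff_of_subset hsub,
    Finset.card_erase_of_mem (Finset.mem_univ _), Finset.card_univ, Fintype.card_fin]

end CfsgLib.RootChain
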