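import Cfsg.Agent.Lib.RootChain.Radical

/-! Charts on the characters of the radical around a coordinate. -/

set_option autoImplicit false
set_option linter.unusedSectionVars false

namespace CfsgLib.RootChain

open Matrix
open CfsgLib.InvCentralizers

section Tables

variable (T : Table) (Φ' R : List ℕ)

/-- The chosen root from `R i` to `R μ`. -/
def alph (μ i : Fin R.length) : ℕ := (Φ'.find? fun α => up T R α i == some μ).getD 0

/-- The pairs of `adj μ` after `μ`. -/
def laterAdj (μ : Fin R.length) : List (Fin R.length × ℕ) :=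
  (adj T Φ' R μ).filter fun p => decide (μ < p.1)

/-- The adjacency data of the radical: every coordinate has `n₀` neighbours. -/
def adjB (n₀ : ℕ) : Bool :=
  (List.finRange R.length).all fun μ =>
    (adj T Φ' R μ).length == n₀ &&
    (adj T Φ' R μ).all (fun p => up T R p.2 μ == none &&
      (adj T Φ' R μ).all (fun p' => p'.1 == p.1 || up T R p.2 p'.1 == none) &&
      (keys T Φ' R p.1).contains μ &&
      (!decide (μ < p.1) || (List.finRange R.length).all fun j =>
        !decide (j < μ) || match up T R p.2 j with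
          | none => true
          | some k => decide (k < μ))) &&
    (μ.val == 0 || (keys T Φ' R μ).any fun i => decide (i < μ))

/-- `ρ` is moved in two ways by roots fixing `μ` and keeping its neighbours. -/
def movedB (μ ρ : Fin R.length) : Bool :=
  Φ'.any fun α => up T R α μ == none &&
    (keys T Φ' R μ).all (fun k => match up T R α k with
      | none => true
      | some k' => (keys T Φ' R μ).contains k') &&
    match (List.finRange R.length).find? (fun i => up T R α i == some ρ) with
    | none => false
    | some i => Φ'.any fun α' => up T R α' μ == none &&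
        (keys T Φ' R μ).all (fun k => match up T R α' k with
          | none => true
          | some k' => (keys T Φ' R μ).contains k') &&
        up T R α' i == none &&
        (List.finRange R.length).any fun i' => up T R α' i' == some ρ

/-- `α` keeps a character supported at `μ` and `ρ` normal at `μ`. -/
def keepB (μ ρ : Fin R.length) (α : ℕ) : Bool :=
  up T R α μ != some μ && up T R α μ != some ρ &&
    (keys T Φ' R μ).all fun k => up T R α k != some μ && up T R α k != some ρ

/-- `ρ` is the only coordinate without `movedB`, and it is moved in two ways while the character is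
supported at `μ` and `ρ`. -/
def loneB (μ ρ : Fin R.length) : Bool :=
  (List.finRange R.length).all (fun ρ' => ρ' == μ || (keys T Φ' R μ).contains ρ' || ρ' == ρ ||
    movedB T Φ' R μ ρ') &&
  Φ'.any fun α => keepB T Φ' R μ ρ α &&
    match (List.finRange R.length).find? (fun i => up T R α i == some ρ) with
    | none => false
    | some i => Φ'.any fun α' => keepB T Φ' R μ ρ α' && up T R α' i != some ρ && up T R α' i != some μ &&
        (List.finRange R.length).any fun i' => up T R α' i' == some ρ

/-- Every coordinate away from `μ` and its neighbours is moved in two ways by roots keeping the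
characters normal at `μ`. -/
def residB : Bool :=
  (List.finRange R.length).all fun μ => (List.finRange R.length).all fun ρ =>
    ρ == μ || (keys T Φ' R μ).contains ρ || movedB T Φ' R μ ρ || loneB T Φ' R μ ρ

variable {T Φ' R}

theorem mem_keys {μ i : Fin R.length} :
    i ∈ keys T Φ' R μ ↔ (i, alph T Φ' R μ i) ∈ adj T Φ' R μ := by
  constructor
  · intro h
    simp only [keys, List.mem_map] at h
    obtain ⟨⟨i', α⟩, hp, rfl⟩ := h
    simp only [adj, List.mem_filterMap, Option.map_eq_some_iff, Prod.mk.injEq] at hp ⊢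
    obtain ⟨a, ha, b, hb, rfl, rfl⟩ := hp
    exact ⟨a, ha, b, hb, rfl, by simp [alph, hb]⟩
  · exact fun h => List.mem_map.2 ⟨_, h, rfl⟩

theorem alph_eq {μ i : Fin R.length} {α : ℕ} (h : (i, α) ∈ adj T Φ' R μ) :
    α = alph T Φ' R μ i := by
  simp only [adj, List.mem_filterMap, Option.map_eq_some_iff, Prod.mk.injEq] at h
  obtain ⟨a, -, b, hb, rfl, rfl⟩ := h
  simp [alph, hb]

/-- The facts read off `adjB`. -/
structure Adj (T : Table) (Φ' R : List ℕ) (n₀ : ℕ) : Prop where
  len : ∀ μ : Fin R.length, (keys T Φ' R μ).length = n₀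
  fixμ : ∀ μ : Fin R.length, ∀ p ∈ adj T Φ' R μ, up T R p.2 μ = none
  nonint : ∀ μ : Fin R.length, ∀ p ∈ adj T Φ' R μ, ∀ k ∈ keys T Φ' R μ, k ≠ p.1 →
    up T R p.2 k = none
  symm : ∀ μ : Fin R.length, ∀ p ∈ adj T Φ' R μ, μ ∈ keys T Φ' R p.1
  below : ∀ μ : Fin R.length, ∀ p ∈ adj T Φ' R μ, μ < p.1 → ∀ j, j < μ →
    ∀ k, up T R p.2 j = some k → k < μ
  down : ∀ μ : Fin R.length, μ.val ≠ 0 → ∃ i ∈ keys T Φ' R μ, i < μ

theorem adj_of_adjB {n₀ : ℕ} (h : adjB T Φ' R n₀ = true) : Adj T Φ' R n₀ := by
  simp only [adjB, Bool.and_eq_true, List.all_eq_true, List.mem_finRange, forall_const,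
    Bool.or_eq_true, beq_iff_eq, List.contains_iff_mem, List.any_eq_true, decide_eq_true_eq,
    Bool.not_eq_true', decide_eq_false_iff_not] at h
  refine ⟨fun μ => by rw [keys, List.length_map]; exact (h μ).1.1, fun μ p hp => ((h μ).1.2 p hp).1.1.1,
    fun μ p hp k hk hne => ?_, fun μ p hp => ((h μ).1.2 p hp).1.2, fun μ p hp hlt j hj k hk => ?_,
    fun μ hμ => (h μ).2.resolve_left hμ⟩
  · obtain ⟨p', hp', rfl⟩ := List.mem_map.1 hk
    exact (((h μ).1.2 p hp).1.1.2 p' hp').resolve_left hne
  · have h2 := ((((h μ).1.2 p hp).2).resolve_left (not_not.2 hlt) j).resolve_left (not_not.2 hj)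
    rw [hk] at h2
    simpa using h2

end Tables

variable (T : Table) (R : List ℕ) {F : Type*} [Field F] [Fintype F]

/-- Apply the root elements of a list in turn. -/
def push : List (Fin R.length × ℕ) → (Fin R.length → F) → (Fin R.length → F) → (Fin R.length → F)
  | [], _, B => B
  | (i, α) :: L, ts, B => push L ts (act T R α (ts i) B)

variable {T R} {Φ Φ' : List ℕ}

theorem act_act_neg (hR : Rad T Φ Φ' R) {α : ℕ} (hα : α ∈ Φ') (t : F) (B : Fin R.length → F) :
    act T R α (-t) (act T R α t B) = B := by
  funext i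
  cases h : up T R α i with
  | none => simp [act, h]
  | some j =>
    have hj := (hR.up_add hα h).2.2.1
    simp [act, h, hj]

theorem act_injective (hR : Rad T Φ Φ' R) {α : ℕ} (hα : α ∈ Φ') (t : F) :
    Function.Injective (act T R α t : (Fin R.length → F) → _) := fun B B' e => by
  rw [← act_act_neg hR hα t B, e, act_act_neg hR hα t B']

theorem cf_ne_zero (hR : Rad T Φ Φ' R) {α : ℕ} (hα : α ∈ Φ') {i j : Fin R.length}
    (h : up T R α i = some j) : cf T R F α i ≠ 0 :=
  intCast_ne_zero (hR.up_add hα h).2.1

section Push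

variable {n₀ : ℕ} {μ : Fin R.length}

theorem push_injective (hR : Rad T Φ Φ' R) : ∀ {L : List (Fin R.length × ℕ)},
    (∀ p ∈ L, p.2 ∈ Φ') → ∀ ts : Fin R.length → F, Function.Injective (push T R L ts)
  | [], _, _ => fun _ _ e => e
  | (i, α) :: L, hL, ts => fun B B' e =>
    act_injective hR (hL (i, α) (List.mem_cons_self ..)) _
      (push_injective hR (fun p hp => hL p (List.mem_cons_of_mem _ hp)) ts e)

theorem push_apply (hA : Adj T Φ' R n₀) :
    ∀ {L : List (Fin R.length × ℕ)}, (∀ p ∈ L, p ∈ adj T Φ' R μ) → (L.map Prod.fst).Nodup →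
      ∀ (ts B : Fin R.length → F),
        push T R L ts B μ = B μ ∧ ∀ k ∈ keys T Φ' R μ, push T R L ts B k =
          if k ∈ L.map Prod.fst then B k + ts k * cf T R F (alph T Φ' R μ k) k * B μ else B k
  | [], _, _, _, _ => ⟨rfl, fun k _ => by simp [push]⟩
  | (i, α) :: L, hL, hnd, ts, B => by
    have hp := hL (i, α) (List.mem_cons_self ..)
    simp only [List.map_cons, List.nodup_cons] at hnd
    obtain ⟨ih1, ih2⟩ := push_apply hA (fun p h => hL p (List.mem_cons_of_mem _ h)) hnd.2 ts
      (act T R α (ts i) B)
    have hμ : act T R α (ts i) B μ = B μ := by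
      have := hA.fixμ μ _ hp
      simp [act, this]
    refine ⟨ih1.trans hμ, fun k hk => ?_⟩
    rw [push, ih2 k hk, hμ]
    by_cases hki : k = i
    · subst hki
      rw [if_neg hnd.1, if_pos (by simp), ← alph_eq hp]
      simp [act, (mem_adj hp).2]
    · have hk' : act T R α (ts i) B k = B k := by
        have := hA.nonint μ _ hp k hk hki
        simp [act, this]
      simp only [hk', List.map_cons, List.mem_cons, hki, false_or]

theorem push_adj (hA : Adj T Φ' R n₀) (ts B : Fin R.length → F) :
    push T R (adj T Φ' R μ) ts B μ = B μ ∧ ∀ k ∈ keys T Φ' R μ,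
      push T R (adj T Φ' R μ) ts B k = B k + ts k * cf T R F (alph T Φ' R μ k) k * B μ := by
  obtain ⟨h1, h2⟩ := push_apply hA (fun p h => h) (keys_nodup μ) ts B
  exact ⟨h1, fun k hk => (h2 k hk).trans (if_pos hk)⟩

theorem push_below (hA : Adj T Φ' R n₀) :
    ∀ {L : List (Fin R.length × ℕ)}, (∀ p ∈ L, p ∈ adj T Φ' R μ ∧ μ < p.1) →
      ∀ (ts B : Fin R.length → F), (∀ j, j < μ → B j = 0) → ∀ j, j < μ → push T R L ts B j = 0
  | [], _, _, _, hB, j, hj => hB j hj
  | (i, α) :: L, hL, ts, B, hB, j, hj => by
    obtain ⟨hp, hlt⟩ := hL (i, α) (List.mem_cons_self ..)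
    refine push_below hA (fun p h => hL p (List.mem_cons_of_mem _ h)) ts _ (fun k hk => ?_) j hj
    cases hu : up T R α k with
    | none => simp [act, hu, hB k hk]
    | some k' => simp [act, hu, hB k hk, hB k' (hA.below μ _ hp hlt k hk k' hu)]

end Push

end CfsgLib.RootChain
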