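import Cfsg.Agent.Lib.RootChain.Ops
import Cfsg.Agent.Lib.Chevalley.Generation
import Cfsg.Agent.Lib.Chevalley.Torus

/-! The operators of a representation of a simply laced Chevalley group. -/

set_option autoImplicit false
set_option linter.unusedSectionVars false

namespace CfsgLib.RootChain

open Cfsg.Lie CfsgLib.Chevalley

/-- The table of a Chevalley datum. -/
def tableOf (D : ChevalleyDatum) : Table where
  add r s := (D.chainEntry r s).head?.map Prod.fst
  coef r s := ((D.chainEntry r s).head?.map Prod.snd).getD 0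
  opp := D.neg

/-- The exponents of the one-parameter torus given by `e`. -/
def chiOf (D : ChevalleyDatum) (e : ℕ → ℤ) (r : ℕ) : ℤ :=
  ∑ i : Fin D.rank, e i * D.cartan i r

variable {D : ChevalleyDatum} {A : Aux} {F : Type*} [Field F] [Fintype F]
  {W : Type*} [AddCommGroup W] [Module ℂ W]

/-- The operator of a root element. -/
noncomputable def repX (h : Full D A) (ρ : Representation ℂ (D.group F) W) (r : ℕ) (t : F) :
    Module.End ℂ W :=
  ρ ⟨xG h.cert r t, xG_mem_group h.cert r t⟩

theorem torusHom_mem (h : Full D A) (c : Fin D.rank → Fˣ) : torusHom D F c ∈ D.group F :=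
  diagonal_le_group (F := F) h.cert (by rw [diagonalSubgroup_eq_range h]; exact ⟨c, rfl⟩)

/-- The operator of a torus element. -/
noncomputable def repH (h : Full D A) (ρ : Representation ℂ (D.group F) W) (e : ℕ → ℤ) (s : Fˣ) :
    Module.End ℂ W :=
  ρ ⟨torusHom D F fun i => s ^ e i, torusHom_mem h _⟩

theorem xG_comm_one (h : Full D A) (hsl : slB D = true) {r s : ℕ} (hr : r < D.nroots)
    (hs : s < D.nroots) (hsr : s ≠ r) (hneg : s ≠ D.neg r) (t u : F) :
    ((D.chainEntry r s).head? = none → Commute (xG h.cert r t) (xG h.cert s u)) ∧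
      ∀ c M, (D.chainEntry r s).head? = some (c, M) →
        xG h.cert r t * xG h.cert s u =
          xG h.cert s u * xG h.cert c ((M : F) * t * u) * xG h.cert r t := by
  have hc := commAt_of_slB h.cert hsl (r := ⟨r, hr⟩) (s := ⟨s, hs⟩) (fun e => hsr (congrArg Fin.val e))
    hneg (-t) u
  obtain ⟨hterms, hlen⟩ := commTerms_simply_laced h.cert hsl hr hs
  unfold CommAt at hc
  simp only at hc
  rw [hterms, chainTerms] at hc
  have hconv : ∀ w : List (ℕ × F),
      wordN D F w = (((w.map fun p => xG h.cert p.1 p.2).prod : GL D.Idx F) : Matrix D.Idx D.Idx F) :=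
    fun w => by rw [wordN_eq_wordMat, wordMat_eq_prod h.cert]
  rw [hconv, hconv] at hc
  have hc' := Units.ext hc
  match hl : D.chainEntry r s, hlen with
  | [], _ =>
    refine ⟨fun _ => ?_, fun c M h' => by simp at h'⟩
    rw [hl] at hc'
    simp only [List.zipIdx_nil, List.map_nil, List.map_cons, List.prod_cons, List.prod_nil,
      mul_one] at hc'
    have h2 : Commute (xG h.cert r (-t)) (xG h.cert s u) := hc'.symm
    have h3 := h2.inv_left
    rwa [xG_inv, neg_neg] at h3
  | [(c, M)], _ =>
    refine ⟨fun h' => by simp at h', fun c' M' h' => ?_⟩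
    simp only [List.head?_cons, Option.some.injEq, Prod.mk.injEq] at h'
    obtain ⟨rfl, rfl⟩ := h'
    rw [hl] at hc'
    simp only [List.zipIdx_cons, List.zipIdx_nil, List.map_nil, List.map_cons, List.prod_cons,
      List.prod_nil, mul_one, Nat.reduceAdd, zero_add, pow_one, neg_neg] at hc'
    rw [← xG_inv] at hc'
    have h4 := congrArg (fun z => xG h.cert r t * z * xG h.cert r t) hc'
    simp only [mul_assoc, inv_mul_cancel, mul_one, mul_inv_cancel_left] at h4
    simp only [mul_assoc]
    exact h4
  | _ :: _ :: _, hl' => simp at hl'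

/-- A representation gives operators on all roots. -/
theorem ops_of_rep (h : Full D A) (hsl : slB D = true) (e : ℕ → ℤ)
    (ρ : Representation ℂ (D.group F) W) :
    Ops (tableOf D) (List.range D.nroots) (chiOf D e) (repX h ρ) (repH h ρ e) := by
  refine ⟨fun r _ => ?_, fun r _ t u => ?_, fun r hr s hs h1 h2 h3 t u => ?_,
    fun r hr s hs c h1 h2 h3 t u => ?_, fun r hr s t => ?_, fun s => ?_⟩
  · simp only [repX]
    rw [show (⟨xG h.cert r (0 : F), _⟩ : D.group F) = 1 from Subtype.ext (xG_zero h.cert r), map_one]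
  · simp only [repX, ← map_mul]
    exact congrArg ρ (Subtype.ext (xG_mul h.cert r t u).symm)
  · simp only [repX, commute_iff_eq, ← map_mul]
    refine congrArg ρ (Subtype.ext ?_)
    refine ((xG_comm_one h hsl (List.mem_range.1 hr) (List.mem_range.1 hs) h1 h2 t u).1 ?_).eq
    simpa [tableOf] using h3
  · simp only [repX, ← map_mul]
    refine congrArg ρ (Subtype.ext ?_)
    simp only [tableOf, Option.map_eq_some_iff] at h3 ⊢
    obtain ⟨⟨c', M⟩, hh, rfl⟩ := h3
    show xG h.cert r t * xG h.cert s u =
      xG h.cert s u * xG h.cert c' ((((Option.map Prod.snd (D.chainEntry r s).head?).getD 0 : ℤ) : F) * t * u) *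
        xG h.cert r t
    rw [show (Option.map Prod.snd (D.chainEntry r s).head?).getD 0 = M by rw [hh]; rfl]
    exact (xG_comm_one h hsl (List.mem_range.1 hr) (List.mem_range.1 hs) h1 h2 t u).2 _ _ hh
  · simp only [repX, repH, ← map_mul]
    refine congrArg ρ (Subtype.ext ?_)
    have hA := (acts_torus (F := F) h.cert fun i => s ^ e i).conj ⟨r, List.mem_range.1 hr⟩ t
    rw [mul_inv_eq_iff_eq_mul] at hA
    show torusHom D F _ * xG h.cert r t = xG h.cert r _ * torusHom D F _
    rw [hA]
    congr 2
    simp only [chiOf, Equiv.Perm.coe_one, id_eq]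
    congr 1
    rw [Units.val_inj, chi]
    simp only [MonoidHom.coe_mk, OneHom.coe_mk, ← _root_.zpow_mul]
    induction (Finset.univ : Finset (Fin D.rank)) using Finset.induction_on with
    | empty => simp
    | insert a S ha ih => rw [Finset.prod_insert ha, Finset.sum_insert ha, _root_.zpow_add, ih]
  · simp only [repH, ← map_mul]
    rw [show (⟨_, _⟩ * ⟨_, _⟩ : D.group F) = 1 from Subtype.ext (by
      show torusHom D F _ * torusHom D F _ = 1
      rw [← map_mul, ← map_one (torusHom D F)]
      congr 1
      funext i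
      simp [_root_.inv_zpow]), map_one]

/-- A nontrivial representation moves some root element. -/
theorem exists_repX_ne_one (h : Full D A) (ρ : Representation ℂ (D.group F) W) (hρ : ∃ g, ρ g ≠ 1) :
    ∃ r ∈ List.range D.nroots, ∃ t, repX h ρ r t ≠ 1 := by
  by_contra hcon
  push Not at hcon
  obtain ⟨g, hg⟩ := hρ
  refine hg ?_
  have hle : D.group F ≤ (MonoidHom.ker ρ).map (D.group F).subtype := (group_le_iff h.cert).2
    fun r t => ⟨⟨xG h.cert r t, xG_mem_group h.cert r t⟩,
      hcon r (List.mem_range.2 r.isLt) t, rfl⟩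
  obtain ⟨g', hg', e⟩ := hle g.2
  rw [← Subtype.ext e]
  exact hg'

end CfsgLib.RootChain
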