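import Cfsg.Agent.Lib.RootChain.DataE8

/-! Checks on the Heisenberg radical of type E8. -/

set_option autoImplicit false
set_option maxRecDepth 100000

namespace CfsgLib.RootChain.E8

theorem comm0 : commB T1 sub0 rad0 27 226 = true := by decide +kernel

theorem fix0 : fixAll T1 sub0 rad0 226 = true := by decide +kernel

theorem closed_low : closedUpToB T low0 top = true := by decide +kernel

theorem closed0 : closedB T1 sub0 = true := by decide +kernel

end CfsgLib.RootChain.E8
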