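import Cfsg.Agent.Lib.RootChain.Orbit

/-! Quicker checks from tables of neighbours and of witnesses. -/

set_option autoImplicit false
set_option linter.unusedSectionVars false

namespace CfsgLib.RootChain

variable (T : Table) (Φ' R : List ℕ)

/-- The table `K` of neighbours. -/
def tabAdj (K : List (List (ℕ × ℕ))) (μ : Fin R.length) : List (Fin R.length × ℕ) :=
  (K.getD μ.val []).filterMap fun p => if h : p.1 < R.length then some (⟨p.1, h⟩, p.2) else none

/-- The table agrees with the neighbours at the coordinates from `lo` to `hi`. -/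
def tabB (K : List (List (ℕ × ℕ))) (lo hi : ℕ) : Bool :=
  (List.finRange R.length).all fun μ =>
    !(decide (lo ≤ μ.val) && decide (μ.val < hi)) || adj T Φ' R μ == tabAdj R K μ

/-- `adjB` for a table. -/
def adjTabB (A : Fin R.length → List (Fin R.length × ℕ)) (n₀ : ℕ) : Bool :=
  (List.finRange R.length).all fun μ =>
    (A μ).length == n₀ &&
    (A μ).all (fun p => up T R p.2 μ == none &&
      (A μ).all (fun p' => p'.1 == p.1 || up T R p.2 p'.1 == none) &&
      ((A p.1).map Prod.fst).contains μ &&
      (!decide (μ < p.1) || (List.finRange R.length).all fun j =>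
        !decide (j < μ) || match up T R p.2 j with
          | none => true
          | some k => decide (k < μ))) &&
    (μ.val == 0 || ((A μ).map Prod.fst).any fun i => decide (i < μ))

/-- A witness `(α, α')` for `movedB` or `loneB`, with `K` the neighbours. -/
def witB (K : List (Fin R.length)) (μ ρ : Fin R.length) (w : ℕ × ℕ) : Bool :=
  let ok := fun α => Φ'.contains α && up T R α μ == none && K.all (fun k => match up T R α k with
      | none => true
      | some k' => K.contains k')
  ok w.1 && ok w.2 &&
    match (List.finRange R.length).find? (fun i => up T R w.1 i == some ρ) with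
    | none => false
    | some i => up T R w.2 i == none && (List.finRange R.length).any fun i' => up T R w.2 i' == some ρ

/-- The same for `loneB`. -/
def witLoneB (K : List (Fin R.length)) (μ ρ : Fin R.length) (w : ℕ × ℕ) : Bool :=
  let keep := fun α => Φ'.contains α && up T R α μ != some μ && up T R α μ != some ρ &&
    K.all fun k => up T R α k != some μ && up T R α k != some ρ
  keep w.1 && keep w.2 &&
    match (List.finRange R.length).find? (fun i => up T R w.1 i == some ρ) with
    | none => false
    | some i => up T R w.2 i != some ρ && up T R w.2 i != some μ &&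
        (List.finRange R.length).any fun i' => up T R w.2 i' == some ρ

/-- Witnesses for every coordinate away from `μ` and its neighbours. -/
def residTabB (A : Fin R.length → List (Fin R.length × ℕ)) (Wt : List (List (ℕ × ℕ)))
    (lone : List ℕ) : Bool :=
  (List.finRange R.length).all fun μ => (List.finRange R.length).all fun ρ =>
    ρ == μ || ((A μ).map Prod.fst).contains ρ ||
      if lone.getD μ.val R.length == ρ.val then
        witLoneB T Φ' R ((A μ).map Prod.fst) μ ρ ((Wt.getD μ.val []).getD ρ.val (0, 0))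
      else witB T Φ' R ((A μ).map Prod.fst) μ ρ ((Wt.getD μ.val []).getD ρ.val (0, 0))

variable {T Φ' R}

theorem adjB_of_tab {A : Fin R.length → List (Fin R.length × ℕ)} {n₀ : ℕ}
    (hA : adj T Φ' R = A) (h : adjTabB T R A n₀ = true) : adjB T Φ' R n₀ = true := by
  subst hA
  exact h

theorem residB_of_tab {A : Fin R.length → List (Fin R.length × ℕ)} {Wt : List (List (ℕ × ℕ))}
    {lone : List ℕ} (hA : adj T Φ' R = A) (h : residTabB T Φ' R A Wt lone = true) :
    residB T Φ' R = true := by
  subst hA
  simp only [residTabB, List.all_eq_true, List.mem_finRange, forall_const, Bool.or_eq_true,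
    beq_iff_eq, List.contains_iff_mem] at h
  simp only [residB, List.all_eq_true, List.mem_finRange, forall_const, Bool.or_eq_true,
    beq_iff_eq, List.contains_iff_mem]
  intro μ
  have hmoved : ∀ ρ, lone.getD μ.val R.length ≠ ρ.val → ρ ≠ μ → ρ ∉ keys T Φ' R μ →
      movedB T Φ' R μ ρ = true := by
    intro ρ hl h1 h2
    have h3 := ((h μ ρ).resolve_left (by simp [keys] at h2 ⊢; exact ⟨h1, h2⟩))
    rw [if_neg hl] at h3
    generalize (Wt.getD μ.val []).getD ρ.val (0, 0) = w at h3
    simp only [witB, Bool.and_eq_true, beq_iff_eq, List.all_eq_true, List.contains_iff_mem] at h3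
    obtain ⟨⟨⟨⟨ha, ha1⟩, ha2⟩, ⟨hb, hb1⟩, hb2⟩, h4⟩ := h3
    simp only [movedB, List.any_eq_true, Bool.and_eq_true, beq_iff_eq, List.all_eq_true]
    refine ⟨_, ha, ⟨ha1, fun k hk => ?_⟩, ?_⟩
    · exact ha2 k hk
    · cases hf : (List.finRange R.length).find?
          (fun i => up T R w.1 i == some ρ) with
      | none => simp [hf] at h4
      | some i =>
        simp only [hf, Bool.and_eq_true, beq_iff_eq, List.any_eq_true] at h4 ⊢
        exact ⟨_, hb, ⟨⟨⟨hb1, List.all_eq_true.2 hb2⟩, h4.1⟩, h4.2⟩⟩
  intro ρ
  by_cases h1 : ρ = μ; · exact Or.inl (Or.inl (Or.inl h1))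
  by_cases h2 : ρ ∈ keys T Φ' R μ; · exact Or.inl (Or.inl (Or.inr h2))
  by_cases hl : lone.getD μ.val R.length = ρ.val
  · refine Or.inr ?_
    have h3 := ((h μ ρ).resolve_left (by simp [keys] at h2 ⊢; exact ⟨h1, h2⟩))
    rw [if_pos hl] at h3
    generalize (Wt.getD μ.val []).getD ρ.val (0, 0) = w at h3
    simp only [witLoneB, Bool.and_eq_true, List.contains_iff_mem] at h3
    obtain ⟨⟨⟨⟨⟨ha, ha1⟩, ha2⟩, ha3⟩, ⟨⟨hb, hb1⟩, hb2⟩, hb3⟩, h4⟩ := h3
    simp only [loneB, Bool.and_eq_true, List.all_eq_true, List.mem_finRange, forall_const,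
      Bool.or_eq_true, beq_iff_eq, List.contains_iff_mem, List.any_eq_true]
    refine ⟨fun ρ' => ?_, _, ha, ?_, ?_⟩
    · by_cases e1 : ρ' = μ; · exact Or.inl (Or.inl (Or.inl e1))
      by_cases e2 : ρ' ∈ keys T Φ' R μ; · exact Or.inl (Or.inl (Or.inr e2))
      by_cases e3 : ρ' = ρ; · exact Or.inl (Or.inr e3)
      exact Or.inr (hmoved ρ' (fun e => e3 (Fin.ext (e.symm.trans hl))) e1 e2)
    · simp only [keepB, Bool.and_eq_true]; exact ⟨⟨ha1, ha2⟩, ha3⟩
    · cases hf : (List.finRange R.length).find?
          (fun i => up T R w.1 i == some ρ) with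
      | none => simp [hf] at h4
      | some i =>
        simp only [hf, Bool.and_eq_true, List.any_eq_true] at h4 ⊢
        exact ⟨_, hb, ⟨⟨⟨by simp only [keepB, Bool.and_eq_true]; exact ⟨⟨hb1, hb2⟩, hb3⟩, h4.1.1⟩,
          h4.1.2⟩, h4.2⟩⟩
  · exact Or.inl (Or.inr (hmoved ρ hl h1 h2))

theorem adj_eq_tab {K : List (List (ℕ × ℕ))} (cuts : List (ℕ × ℕ))
    (hcov : (List.range R.length).all (fun m => cuts.any fun c => decide (c.1 ≤ m) && decide (m < c.2)) = true)
    (h : ∀ c ∈ cuts, tabB T Φ' R K c.1 c.2 = true) : adj T Φ' R = tabAdj R K := by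
  funext μ
  simp only [List.all_eq_true, List.any_eq_true, Bool.and_eq_true, decide_eq_true_eq] at hcov
  obtain ⟨c, hc, h1, h2⟩ := hcov μ.val (List.mem_range.2 μ.isLt)
  have h3 := h c hc
  simp only [tabB, List.all_eq_true, List.mem_finRange, forall_const, Bool.or_eq_true,
    Bool.not_eq_true', Bool.and_eq_false_iff, decide_eq_false_iff_not, beq_iff_eq] at h3
  exact (h3 μ).resolve_left (by rintro (h | h) <;> contradiction)

end CfsgLib.RootChain
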