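import Cfsg.Agent.Lib.RootChain.Cells

/-! Characters whose eigenspaces a root element of the Levi part fixes pointwise. -/

set_option autoImplicit false
set_option linter.unusedSectionVars false

namespace CfsgLib.RootChain

open Matrix
open CfsgLib.InvCentralizers

variable {T : Table} {Φ Φ' R : List ℕ} {χ : ℕ → ℤ} {F : Type*} [Field F] [Fintype F]
  {W : Type*} [AddCommGroup W] [Module ℂ W] [FiniteDimensional ℂ W]
  {x : ℕ → F → Module.End ℂ W} {h : Fˣ → Module.End ℂ W} {n₀ : ℕ}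

/-- Some root of the radical is the sum of `θ` and another one, equal to `R μ`. -/
def inJ (T : Table) (R : List ℕ) (θ : ℕ) (μ : Fin R.length) : Bool :=
  (List.finRange R.length).any fun i => up T R θ i == some μ

theorem up_ne_of_not_inJ {θ : ℕ} {μ : Fin R.length} (hJ : inJ T R θ μ = false) (i : Fin R.length) :
    up T R θ i ≠ some μ := by
  intro he
  simp [inJ] at hJ
  exact hJ i he

theorem act_single {α : ℕ} {μ : Fin R.length} (hμ : ∀ i, up T R α i ≠ some μ) (t c : F) :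
    act T R α t (Pi.single μ c) = Pi.single μ c := by
  funext i
  cases hu : up T R α i with
  | none => simp [act, hu]
  | some j =>
    have hj : j ≠ μ := fun e => hμ i (e ▸ hu)
    simp [act, hu, hj]

theorem x_mem_E (O : Ops T Φ χ x h) (hR : Rad T Φ Φ' R) {α : ℕ} (hα : α ∈ Φ') (t : F)
    {B : Fin R.length → F} (hB : act T R α (-t) B = B) {w : W} (hw : w ∈ E R x B) :
    x α t w ∈ E R x B := by
  have := map_eig O hR hα (-t) hw
  rwa [neg_neg, hB] at this

/-- The eigenspace of `B` is fixed pointwise by `x θ t`. -/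
def FixE (R : List ℕ) (x : ℕ → F → Module.End ℂ W) (θ : ℕ) (B : Fin R.length → F) : Prop :=
  ∀ t, ∀ w ∈ E R x B, x θ t w = w

theorem fixE_act (O : Ops T Φ χ x h) (hR : Rad T Φ Φ' R) {θ α : ℕ} (hα : α ∈ Φ') (u : F)
    (hc : ∀ t v, Commute (x θ t) (x α v)) {B : Fin R.length → F} (hB : FixE R x θ B) :
    FixE R x θ (act T R α u B) := by
  intro t w hw
  have h1 : x α u w ∈ E R x B := by
    have h2 := map_eig O hR hα (-u) hw
    rwa [neg_neg, act_act_neg hR hα] at h2
  have h2 := hB t _ h1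
  rw [← Module.End.mul_apply, (hc t u).eq, Module.End.mul_apply] at h2
  exact x_apply_injective O (hR.sub α hα) u h2

theorem fixE_push (O : Ops T Φ χ x h) (hR : Rad T Φ Φ' R) {θ : ℕ} :
    ∀ {L : List (Fin R.length × ℕ)}, (∀ p ∈ L, p.2 ∈ Φ' ∧ ∀ t v, Commute (x θ t) (x p.2 v)) →
      ∀ (ts B : Fin R.length → F), FixE R x θ B → FixE R x θ (push T R L ts B)
  | [], _, _, _, hB => hB
  | (i, α) :: L, hL, ts, B, hB =>
    fixE_push O hR (fun p hp => hL p (List.mem_cons_of_mem _ hp)) ts _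
      (fixE_act O hR (hL (i, α) (List.mem_cons_self ..)).1 _
        (hL (i, α) (List.mem_cons_self ..)).2 hB)

theorem exists_scalar {B : Fin R.length → F} (h1 : Module.finrank ℂ (E R x B) = 1)
    (a : Module.End ℂ W) (ha : ∀ w ∈ E R x B, a w ∈ E R x B) :
    ∃ z : ℂ, ∀ w ∈ E R x B, a w = z • w := by
  obtain ⟨w₀, -, hw⟩ := finrank_eq_one_iff'.1 h1
  obtain ⟨z, hz⟩ := hw ⟨a w₀, ha _ w₀.2⟩
  refine ⟨z, fun w hwm => ?_⟩
  obtain ⟨c, hc⟩ := hw ⟨w, hwm⟩
  have hz' : z • (w₀ : W) = a w₀ := congrArg Subtype.val hz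
  have hc' : c • (w₀ : W) = w := congrArg Subtype.val hc
  rw [← hc', map_smul, ← hz', smul_comm]

/-- The roots `γ`, `δ` with sum `θ` fix `R μ`. -/
def fixA (T : Table) (Φ' R : List ℕ) (θ : ℕ) (μ : Fin R.length) : Bool :=
  Φ'.any fun γ => Φ'.any fun δ => δ != γ && δ != T.opp γ && T.add γ δ == some θ &&
    (T.coef γ δ).natAbs == 1 && !inJ T R γ μ && !inJ T R δ μ

theorem fixE_of_fixA (O : Ops T Φ χ x h) (hR : Rad T Φ Φ' R) {θ : ℕ} {μ : Fin R.length}
    (hA : fixA T Φ' R θ μ = true) (hθJ : inJ T R θ μ = false) (hθ : θ ∈ Φ') {c : F}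
    (h1 : Module.finrank ℂ (E R x (Pi.single μ c)) = 1) : FixE R x θ (Pi.single μ c) := by
  simp only [fixA, List.any_eq_true, Bool.and_eq_true, bne_iff_ne, beq_iff_eq,
    Bool.not_eq_true'] at hA
  obtain ⟨γ, hγ, δ, hδ, ⟨⟨⟨⟨hne, hopp⟩, hadd⟩, hN⟩, hγJ⟩, hδJ⟩ := hA
  intro t w hw
  have hm : ∀ {α : ℕ}, α ∈ Φ' → inJ T R α μ = false → ∀ s, ∀ v ∈ E R x (Pi.single μ c),
      x α s v ∈ E R x (Pi.single μ c) := fun {α} hα hJ s v hv =>
    x_mem_E O hR hα s (act_single (up_ne_of_not_inJ hJ) _ _) hv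
  set s := t / (T.coef γ δ : F)
  obtain ⟨za, hza⟩ := exists_scalar h1 (x γ s) (hm hγ hγJ s)
  obtain ⟨zb, hzb⟩ := exists_scalar h1 (x δ 1) (hm hδ hδJ 1)
  have hst : (T.coef γ δ : F) * s * 1 = t := by
    rw [mul_one, mul_div_cancel₀ t (intCast_ne_zero hN)]
  have he := LinearMap.congr_fun
    (O.comm_some γ (hR.sub γ hγ) δ (hR.sub δ hδ) θ hne hopp hadd s 1) w
  simp only [hst, Module.End.mul_apply] at he
  rw [hzb w hw, map_smul, hza w hw, map_smul, map_smul, hzb _ (hm hθ hθJ t w hw)] at he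
  by_cases hw0 : w = 0
  · simp [hw0]
  have hza0 : za ≠ 0 := fun e => hw0 (x_apply_injective O (hR.sub γ hγ) s (by
    rw [hza w hw, e, zero_smul, map_zero]))
  have hzb0 : zb ≠ 0 := fun e => hw0 (x_apply_injective O (hR.sub δ hδ) 1 (by
    rw [hzb w hw, e, zero_smul, map_zero]))
  rw [smul_comm za zb] at he
  refine smul_right_injective W (mul_ne_zero hzb0 hza0) ?_
  simp only [mul_smul]
  rw [smul_comm zb za] at he ⊢
  rw [smul_comm za zb]
  exact he.symm.trans (smul_comm ..)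

theorem h_rad (O : Ops T Φ χ x h) (hR : Rad T Φ Φ' R) (s : Fˣ) (S : Fin R.length → F) :
    h s * rad R x S =
      rad R x (fun i => ((s ^ χ (R.get i) : Fˣ) : F) * S i) * h s := by
  simp only [rad]
  induction List.finRange R.length with
  | nil => simp
  | cons a l ih =>
    simp only [List.map_cons, List.prod_cons]
    rw [← mul_assoc, O.torus _ (hR.memR a), mul_assoc, ih, ← mul_assoc]

theorem h_mem_E (O : Ops T Φ χ x h) (hR : Rad T Φ Φ' R) (s : Fˣ) {B : Fin R.length → F}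
    (hB : ∀ i, B i = 0 ∨ χ (R.get i) = 0) {w : W} (hw : w ∈ E R x B) : h s w ∈ E R x B := by
  intro S
  set S' : Fin R.length → F := fun i => ((s ^ χ (R.get i) : Fˣ) : F)⁻¹ * S i
  have e := LinearMap.congr_fun (h_rad O hR s S') w
  have hS : (fun i => ((s ^ χ (R.get i) : Fˣ) : F) * S' i) = S := funext fun i => by
    simp only [S']
    rw [← mul_assoc, mul_inv_cancel₀ (Units.ne_zero _), one_mul]
  rw [hS] at e
  simp only [Module.End.mul_apply] at e
  rw [← e, hw S', map_smul]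
  congr 1
  simp only [pair, dotProduct]
  congr 1
  refine Finset.sum_congr rfl fun i _ => ?_
  rcases hB i with h0 | h0
  · simp [S', h0]
  · have h0' : χ R[(i : ℕ)] = 0 := h0
    simp [S', h0']

theorem fixE_of_torus (O : Ops T Φ χ x h) (hR : Rad T Φ Φ' R) (hq : 3 ≤ Fintype.card F) {θ : ℕ}
    {μ : Fin R.length} (hθ : θ ∈ Φ') (hχθ : χ θ = 1) (hχμ : χ (R.get μ) = 0)
    (hθJ : inJ T R θ μ = false) {c : F}
    (h1 : Module.finrank ℂ (E R x (Pi.single μ c)) = 1) : FixE R x θ (Pi.single μ c) := by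
  classical
  intro t w hw
  by_cases hw0 : w = 0
  · simp [hw0]
  have hθΦ := hR.sub θ hθ
  have hm : ∀ s, ∀ v ∈ E R x (Pi.single μ c), x θ s v ∈ E R x (Pi.single μ c) := fun s v hv =>
    x_mem_E O hR hθ s (act_single (up_ne_of_not_inJ hθJ) _ _) hv
  choose z hz using fun s => exists_scalar h1 (x θ s) (hm s)
  have hadd : ∀ a b, z (a + b) = z a * z b := fun a b => by
    refine smul_left_injective ℂ hw0 ?_
    show z (a + b) • w = (z a * z b) • w
    rw [← hz (a + b) w hw, O.map_add θ hθΦ, Module.End.mul_apply, hz b w hw, map_smul, hz a w hw,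
      smul_smul, mul_comm]
  have hz0 : ∀ s, z s ≠ 0 := fun s e => hw0 (x_apply_injective O hθΦ s (by
    rw [hz s w hw, e, zero_smul, map_zero]))
  have htor : ∀ (s : Fˣ) a, z ((s : F) * a) = z a := fun s a => by
    have hB : ∀ i, (Pi.single μ c : Fin R.length → F) i = 0 ∨ χ (R.get i) = 0 := fun i => by
      by_cases hi : i = μ
      · exact Or.inr (hi ▸ hχμ)
      · exact Or.inl (Pi.single_eq_of_ne hi _)
    have hhw := h_mem_E O hR s hB hw
    have hh0 : h s w ≠ 0 := fun e => hw0 (by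
      have := congrArg (h s⁻¹) e
      simpa [← Module.End.mul_apply, O.h_inv' s] using this)
    have e := LinearMap.congr_fun (O.torus θ hθΦ s a) w
    simp only [Module.End.mul_apply, hχθ, zpow_one] at e
    rw [hz a w hw, map_smul, hz _ _ hhw] at e
    exact (smul_left_injective ℂ hh0 e).symm
  have hone : ∀ a, a ≠ 0 → z a = z 1 := fun a ha => by
    simpa using htor (Units.mk0 a ha) 1
  obtain ⟨a, ha⟩ : ∃ a : F, a ∉ ({0, -1} : Finset F) := by
    by_contra hcon
    push Not at hcon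
    have := Finset.card_le_card (fun a _ => hcon a : (Finset.univ : Finset F) ⊆ {0, -1})
    rw [Finset.card_univ] at this
    have := Finset.card_le_two (a := (0 : F)) (b := -1)
    omega
  simp only [Finset.mem_insert, Finset.mem_singleton, not_or] at ha
  have hz1 : z 1 = 1 := by
    have h2 := hadd a 1
    rw [hone _ (fun e => ha.2 (eq_neg_of_add_eq_zero_left e)), hone a ha.1] at h2
    exact mul_right_cancel₀ (hz0 1) (h2.symm.trans (one_mul _).symm)
  by_cases ht : t = 0
  · simp [ht, O.map_zero θ hθΦ]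
  · rw [hz t w hw, hone t ht, hz1, one_smul]

end CfsgLib.RootChain
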