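import Cfsg.Agent.Lib.RootChain.DataE8

/-! Checks on the Heisenberg radical of type E8. -/

set_option autoImplicit false
set_option maxRecDepth 100000

namespace CfsgLib.RootChain.E8

theorem rad_top : radB T (List.range 240) low0 [top] = true := by decide +kernel

theorem rad_A : radB T (List.range 240) levA radA = true := by decide +kernel

theorem trans_A : transB T levA radA = true := by decide +kernel

theorem head0 : (radA.head? == some top && radA.tail.head? == rad0.head? && rad0 != [] && levA.contains 226) = true := by decide +kernel

theorem reach0_ok : (reachB T (List.range 240) [top] reach0 && (List.range 240).all (fun r => [top].contains r || (reach0.map Prod.fst).contains r)) = true := by decide +kernel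

theorem paths0 : (!pathZ.isEmpty && pathB T (List.range 240) (rad0.headD 0) pathZ && pathEnd (rad0.headD 0) pathZ == top && !pathT.isEmpty && pathB T (List.range 240) (rad0.headD 0) pathT && pathEnd (rad0.headD 0) pathT == 226) = true := by decide +kernel

theorem rad_0 : radB T1 low0 sub0 rad0 = true := by decide +kernel

theorem fixtop : (List.finRange radA.length).all (fun j => fixTopB T levA radA 226 j) = true := by decide +kernel

end CfsgLib.RootChain.E8
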