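import Cfsg.Agent.Lib.RootChain.ResidE8
import Cfsg.Agent.Lib.RootChain.AdjE8
import Cfsg.Agent.Lib.RootChain.CommE8
import Cfsg.Agent.Lib.RootChain.RadE8

/-! The first step of the chain of type E8. -/

set_option autoImplicit false
set_option maxRecDepth 100000

namespace CfsgLib.RootChain.E8

theorem adj0 : adj T1 sub0 rad0 = tabAdj rad0 nbr0 :=
  adj_eq_tab [(0, 28), (28, 56)] (by decide +kernel) (by
    intro c hc
    simp only [List.mem_cons, List.not_mem_nil, or_false] at hc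
    rcases hc with rfl | rfl
    exacts [tab_lo, tab_hi])

theorem heis0 : heisB T (List.range 240) sub0 low0 rad0 radA levA top 226 27 reach0 pathZ pathT =
    true := by
  have h1 := head0
  have h2 := reach0_ok
  have h3 := paths0
  simp only [Bool.and_eq_true] at h1 h2 h3
  simp only [heisB, Bool.and_eq_true, show eraseRoot T top = T1 from rfl]
  exact ⟨⟨⟨⟨⟨⟨⟨⟨⟨⟨⟨⟨⟨⟨⟨⟨⟨⟨⟨⟨⟨⟨⟨rad_top, closed_low⟩, rad_A⟩, trans_A⟩, h1.1.1.1⟩, h1.1.1.2⟩,
    h1.1.2⟩, h1.2⟩, h2.1⟩, h2.2⟩, h3.1.1.1.1.1⟩, h3.1.1.1.1.2⟩, h3.1.1.1.2⟩, h3.1.1.2⟩, h3.1.2⟩,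
    h3.2⟩, by decide⟩, rad_0⟩, adjB_of_tab adj0 adjtab⟩, residB_of_tab adj0 residtab⟩, comm0⟩, fix0⟩,
    closed0⟩, fixtop⟩

theorem count0 : ((List.finRange radA.length).filter fun j => inJ T radA 226 j).length = 6 := by
  decide +kernel

end CfsgLib.RootChain.E8
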