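import Cfsg.Agent.Lib.RootChain.Center

/-! The first step through a Heisenberg radical. -/

set_option autoImplicit false
set_option linter.unusedSectionVars false

namespace CfsgLib.RootChain

open Matrix
open CfsgLib.InvCentralizers

universe u

variable {T : Table} {Φ Φ' Φ₀ R RA Lev : List ℕ} {χ : ℕ → ℤ} {F : Type*} [Field F] [Fintype F]
  {W : Type u} [AddCommGroup W] [Module ℂ W] [FiniteDimensional ℂ W]
  {x : ℕ → F → Module.End ℂ W} {h : Fˣ → Module.End ℂ W} {z : ℕ}

theorem sum_pair_top {n : ℕ} (i₀ a : Fin n) (ha : a ≠ i₀) [DecidableEq F] :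
    ∑ B ∈ Finset.univ.filter (fun B : Fin n → F => B i₀ ≠ 0),
      AddChar.FiniteField.primitiveChar_to_Complex F (B a) = 0 := by
  classical
  set ψ := AddChar.FiniteField.primitiveChar_to_Complex F
  set s := Finset.univ.filter (fun B : Fin n → F => B i₀ ≠ 0)
  obtain ⟨u, hu⟩ : ∃ u, ψ u ≠ 1 := by
    by_contra hcon
    push Not at hcon
    exact AddChar.FiniteField.primitiveChar_to_Complex_isPrimitive F (one_ne_zero (α := F))
      (DFunLike.ext _ _ fun v => by simpa [AddChar.mulShift_apply] using hcon v)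
  have h1 : ∑ B ∈ s, ψ (B a) = ψ u * ∑ B ∈ s, ψ (B a) := by
    rw [Finset.mul_sum]
    refine Finset.sum_nbij' (fun B => B - Pi.single a u) (fun B => B + Pi.single a u) ?_ ?_ ?_ ?_ ?_
    · intro B hB; simpa [s, Ne.symm ha] using hB
    · intro B hB; simpa [s, Ne.symm ha] using hB
    · intro B _; simp
    · intro B _; simp
    · intro B _
      rw [← AddChar.map_add_eq_mul]
      congr 1
      simp
  have h2 : (ψ u - 1) * ∑ B ∈ s, ψ (B a) = 0 := by rw [sub_mul, one_mul, ← h1, sub_self]
  exact (mul_eq_zero.1 h2).resolve_left (sub_ne_zero.2 hu)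

/-- The first coordinate is fixed by `θ`, and the others away from the image of `θ` are translated
to it by roots commuting with `θ`. -/
def fixTopB (T : Table) (Lev RA : List ℕ) (θ : ℕ) (j : Fin RA.length) : Bool :=
  if j.val == 0 then !inJ T RA θ j && fixA T Lev RA θ j
  else inJ T RA θ j || Lev.any fun p => (up T RA p j).map (fun k => k.val) == some 0 &&
    (List.finRange RA.length).all (fun i => i == j || up T RA p i == none) &&
    (p == θ || (p != T.opp θ && T.add θ p == none))

theorem fixE_top {θ : ℕ} (O : Ops T Φ χ x h) (hR : Rad T Φ Lev RA) (hθ : θ ∈ Lev)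
    (htop : ∀ j, fixTopB T Lev RA θ j = true) {i₀ : Fin RA.length} (hi₀ : i₀.val = 0)
    {B : Fin RA.length → F} (hB : B i₀ ≠ 0)
    (hone : Module.finrank ℂ (E RA x (Pi.single i₀ (B i₀))) = 1)
    (hJ : ∀ j, inJ T RA θ j = true → B j = 0) : FixE RA x θ B := by
  classical
  suffices key : ∀ (s : Finset (Fin RA.length)) (B' : Fin RA.length → F), B' i₀ = B i₀ →
      (∀ j, inJ T RA θ j = true → B' j = 0) → (∀ i, i ∉ s → i ≠ i₀ → B' i = 0) → FixE RA x θ B' from
    key Finset.univ B rfl hJ fun i hi => absurd (Finset.mem_univ i) hi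
  intro s
  induction s using Finset.induction_on with
  | empty =>
    intro B' h0 _ hz
    rw [show B' = Pi.single i₀ (B i₀) from funext fun i => by
      by_cases hi : i = i₀
      · rw [hi, Pi.single_eq_same, h0]
      · rw [Pi.single_eq_of_ne hi, hz i (Finset.notMem_empty i) hi]]
    have h1 := htop i₀
    simp only [fixTopB, hi₀, beq_self_eq_true, if_true, Bool.and_eq_true, Bool.not_eq_true'] at h1
    exact fixE_of_fixA O hR h1.2 h1.1 hθ hone
  | insert a s ha ih =>
    intro B' h0 hJ' hz
    by_cases hai : a = i₀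
    · exact ih B' h0 hJ' fun i hi hne => hz i (by simp [hi, hai ▸ hne]) hne
    by_cases haJ : inJ T RA θ a = true
    · refine ih B' h0 hJ' fun i hi hne => ?_
      by_cases hia : i = a
      · exact hia ▸ hJ' a haJ
      · exact hz i (by simp [hi, hia]) hne
    have h1 := htop a
    have ha0 : ¬ a.val = 0 := fun e => hai (Fin.ext (e.trans hi₀.symm))
    simp only [fixTopB, beq_iff_eq, if_neg ha0, Bool.or_eq_true, List.any_eq_true,
      Bool.and_eq_true, List.all_eq_true, List.mem_finRange, forall_const, bne_iff_ne] at h1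
    obtain ⟨p, hp, ⟨hup, hnone⟩, hcomm⟩ := h1.resolve_left haJ
    obtain ⟨j, hj, hj0⟩ := Option.map_eq_some_iff.1 hup
    obtain rfl : j = i₀ := Fin.ext (hj0.trans hi₀.symm)
    have hcf := cf_ne_zero (F := F) hR hp hj
    have hB' : B' j ≠ 0 := h0 ▸ hB
    set t := -B' a / (cf T RA F p a * B' j)
    have h2 : ∀ i, i ≠ a → act T RA p t B' i = B' i := fun i hi => by
      simp [act, (hnone i).resolve_left hi]
    have h3 : act T RA p t B' a = 0 := by
      simp only [act, hj, Option.elim_some, t]
      field_simp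
      ring
    have hfix := ih (act T RA p t B') ((h2 j (Ne.symm hai)).trans h0) (fun i hi => by
      by_cases hia : i = a
      · rw [hia, h3]
      · rw [h2 i hia, hJ' i hi]) (fun i hi hne => by
      by_cases hia : i = a
      · rw [hia, h3]
      · rw [h2 i hia, hz i (by simp [hi, hia]) hne])
    have hcm : ∀ u v, Commute (x θ u) (x p v) := fun u v => by
      by_cases he : p = θ
      · rw [he, commute_iff_eq, ← O.map_add θ (hR.sub θ hθ), ← O.map_add θ (hR.sub θ hθ), add_comm]
      · obtain ⟨h4, h5⟩ := hcomm.resolve_left he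
        exact O.comm_none θ (hR.sub θ hθ) p (hR.sub p hp) he h4 h5 u v
    have := fixE_act O hR hp (-t) hcm hfix
    rwa [act_act_neg hR hp] at this

/-- The facts used about the Heisenberg step. -/
def heisB (T : Table) (Φ Φ' Φ₀ R RA Lev : List ℕ) (z θ n₀ : ℕ)
    (reach pathZ pathθ : List (ℕ × ℕ × ℕ)) : Bool :=
  radB T Φ Φ₀ [z] && closedUpToB T Φ₀ z && radB T Φ Lev RA && transB T Lev RA &&
    RA.head? == some z && RA.tail.head? == R.head? && R != [] && Lev.contains θ &&
    reachB T Φ [z] reach && Φ.all (fun r => [z].contains r || (reach.map Prod.fst).contains r) &&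
    !pathZ.isEmpty && pathB T Φ (R.headD 0) pathZ && pathEnd (R.headD 0) pathZ == z &&
    !pathθ.isEmpty && pathB T Φ (R.headD 0) pathθ && pathEnd (R.headD 0) pathθ == θ &&
    n₀ != 0 && radB (eraseRoot T z) Φ₀ Φ' R && adjB (eraseRoot T z) Φ' R n₀ &&
    residB (eraseRoot T z) Φ' R && commB (eraseRoot T z) Φ' R n₀ θ &&
    fixAll (eraseRoot T z) Φ' R θ && closedB (eraseRoot T z) Φ' &&
    (List.finRange RA.length).all fun j => fixTopB T Lev RA θ j

/-- The moved cells. -/
def movedTotal (T : Table) (Φ' R : List ℕ) (θ q : ℕ) : ℕ :=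
  ∑ μ : Fin R.length, if inJ T R θ μ = true then q ^ ell T Φ' R μ * (q - 1) else 0

/-- The bound through the Heisenberg radical. -/
theorem bound_heis {θ n₀ r : ℕ} {reach pathZ pathθ : List (ℕ × ℕ × ℕ)}
    (hd : heisB T Φ Φ' Φ₀ R RA Lev z θ n₀ reach pathZ pathθ = true) (hχ : χ z = 1)
    (hr : ((List.finRange RA.length).filter fun j => inJ T RA θ j).length = r)
    (hgap : Fintype.card F ^ (n₀ + 1) + (Fintype.card F - 1) * Fintype.card F ^ (RA.length - 1 - r) ≠
      movedTotal (eraseRoot T z) Φ' R θ (Fintype.card F))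
    {b b' : ℕ} (hb' : Bound.{u} (eraseRoot T z) Φ' χ F b')
    (h1 : b ≤ (Fintype.card F - 1) * Fintype.card F ^ (RA.length - 1) +
      (Fintype.card F + 1) * Fintype.card F ^ n₀)
    (h2 : b ≤ 2 * ((Fintype.card F - 1) * Fintype.card F ^ (RA.length - 1)) +
      cellsTotal (eraseRoot T z) Φ' R (Fintype.card F))
    (h2' : b ≤ (Fintype.card F - 1) * Fintype.card F ^ (RA.length - 1) +
      2 * cellsTotal (eraseRoot T z) Φ' R (Fintype.card F))
    (h3 : b ≤ (Fintype.card F - 1) * Fintype.card F ^ (RA.length - 1) +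
      (cellsTotal (eraseRoot T z) Φ' R (Fintype.card F) + b')) : Bound.{u} T Φ χ F b := by
  intro W _ _ _ x h O hne
  classical
  simp only [heisB, Bool.and_eq_true, List.all_eq_true, Bool.or_eq_true, beq_iff_eq, bne_iff_ne,
    List.contains_iff_mem, Bool.not_eq_true', List.mem_finRange, forall_const,
    List.isEmpty_eq_false_iff] at hd
  obtain ⟨⟨⟨⟨⟨⟨⟨⟨⟨⟨⟨⟨⟨⟨⟨⟨⟨⟨⟨⟨⟨⟨⟨hrz, hclz⟩, hrA⟩, htrans⟩, hhead⟩, hsecond⟩, hRne⟩, hθL⟩, hreach⟩,
    hcov⟩, hpz0⟩, hpz⟩, hpzend⟩, hpθ0⟩, hpθ⟩, hpθend⟩, hn⟩, hr1⟩, ha1⟩, hres⟩, hcm⟩, hfix⟩, hcl⟩,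
    hJtop⟩ := hd
  have hz := rad_of_radB hrz
  have hR := rad_of_radB hrA
  have hR1 := rad_of_radB hr1
  have hA1 := adj_of_adjB ha1
  -- the two first indices of `RA`
  obtain ⟨R₀, R', rfl⟩ : ∃ R₀ R', R = R₀ :: R' := by
    cases R with
    | nil => exact absurd rfl hRne
    | cons a l => exact ⟨a, l, rfl⟩
  obtain ⟨RA', rfl⟩ : ∃ RA', RA = z :: R₀ :: RA' := by
    rcases RA with _ | ⟨a, _ | ⟨b, l⟩⟩
    · simp at hhead
    · simp at hsecond
    · simp only [List.head?_cons, Option.some.injEq, List.tail_cons] at hhead hsecond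
      exact ⟨l, by rw [hhead, hsecond]⟩
  simp only [List.headD_cons] at hpz hpzend hpθ hpθend
  set RA := z :: R₀ :: RA' with hRA
  set q := Fintype.card F with hq
  let i₀ : Fin RA.length := ⟨0, by simp [RA]⟩
  let i₁ : Fin RA.length := ⟨1, by simp [RA]⟩
  have hg0 : RA.get i₀ = z := rfl
  have hg1 : RA.get i₁ = R₀ := rfl
  set top := Finset.univ.filter (fun B : Fin RA.length → F => B i₀ ≠ 0)
  have hcardtop : top.card = (q - 1) * q ^ (RA.length - 1) := by
    have := card_top (F := F) i₀ ∅ (by simp)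
    simpa [top] using this
  -- uniform multiplicity
  set m := Module.finrank ℂ (E RA x (Pi.single i₀ (1 : F)))
  have hunit : ∀ B ∈ top, Module.finrank ℂ (E RA x B) = m := by
    intro B hB
    have hB0 := (Finset.mem_filter.1 hB).2
    rw [finrank_translate O hR htrans rfl hB0]
    have key : ∀ (s : Fˣ) (c : F), Module.finrank ℂ (E RA x (Pi.single i₀ c)) ≤
        Module.finrank ℂ (E RA x (Pi.single i₀ (((s⁻¹ : Fˣ) : F) * c))) := fun s c => by
      refine (finrank_scale O hR s (Pi.single i₀ c)).trans_eq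
        (congrArg (fun B : Fin RA.length → F => Module.finrank ℂ (E RA x B)) (funext fun i => ?_))
      by_cases hi : i = i₀
      · subst hi; rw [Pi.single_eq_same, Pi.single_eq_same, hg0, hχ, _root_.zpow_one]
      · rw [Pi.single_eq_of_ne hi, Pi.single_eq_of_ne hi, mul_zero]
    refine le_antisymm ?_ ?_
    · refine (key (Units.mk0 _ hB0) (B i₀)).trans_eq ?_
      rw [Units.val_inv_eq_inv_val, Units.val_mk0, inv_mul_cancel₀ hB0]
    · refine (key (Units.mk0 _ hB0)⁻¹ 1).trans_eq ?_
      rw [inv_inv, Units.val_mk0, mul_one]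
  have hsA := setup O hR
  have hpres : ∀ a ∈ Φ₀, ∀ t, ∀ w ∈ E [z] x (0 : Fin [z].length → F), x a t w ∈ E [z] x 0 :=
    fun a ha t w hw => x_mem_E O hz ha t (by funext i; cases hu : up T [z] a i <;> simp [act, hu]) hw
  have hsplit : Module.finrank ℂ W =
      Module.finrank ℂ (E [z] x (0 : Fin [z].length → F)) + top.card * m := by
    have h4 := trace_split O hz hR hg0 (1 : Module.End ℂ W) (fun w hw => hw)
    rw [LinearMap.trace_one, show (1 : Module.End ℂ W).restrict _ = 1 from rfl, LinearMap.trace_one,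
      Finset.sum_congr rfl (fun B hB => show _ = (m : ℂ) by
        rw [one_mul, AbelianEigen.trace_eproj hsA]
        exact congrArg _ (hunit B hB)), Finset.sum_const, nsmul_eq_mul] at h4
    exact_mod_cast h4
  have hm : 1 ≤ m := by
    by_contra hcon
    have h0 : Module.finrank ℂ (E [z] x (0 : Fin [z].length → F)) = Module.finrank ℂ W := by
      rw [hsplit, show m = 0 by omega, mul_zero, add_zero]
    have htop := Submodule.eq_top_of_finrank_eq h0
    obtain ⟨r, hrΦ, t, ht⟩ := hne
    refine ht (O.trivial_of_reach hreach (fun d hd u => ?_) r (hcov r hrΦ) t)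
    rw [List.mem_singleton] at hd
    subst hd
    exact LinearMap.ext fun v => (mem_zero_iff O hz).1 (htop ▸ Submodule.mem_top) u
  have O0 := ops_erase O hz hclz
  have hcl0 : ∀ {v : W}, v ∈ E [z] x (0 : Fin [z].length → F) → ∀ t, x z t v = v :=
    fun hv => (mem_zero_iff O hz).1 hv
  have hmemR : R₀ ∈ Φ₀ := hR1.memR ⟨0, by simp⟩
  have hmemθ : θ ∈ Φ₀ := by
    have h := hcm
    simp only [commB, Bool.and_eq_true, List.contains_iff_mem] at h
    exact hR1.sub θ h.1
  have hrest : ∀ a (ha : a ∈ Φ₀) (t : F), (x a t).restrict (hpres a ha t) = zeroX O hz a t :=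
    fun a ha t => LinearMap.ext fun w => Subtype.ext (by rw [coe_zeroX O hz ha]; rfl)
  have htrR : LinearMap.trace ℂ W (x R₀ 1) =
      LinearMap.trace ℂ _ (zeroX O hz R₀ (1 : F)) := by
    rw [trace_split O hz hR hg0 _ (hpres R₀ hmemR 1), hrest R₀ hmemR, add_eq_left,
      Finset.sum_congr rfl (fun B hB => show _ =
        AddChar.FiniteField.primitiveChar_to_Complex F (B i₁) * (m : ℂ) by
        have h5 : x R₀ 1 * AbelianEigen.eproj (pair RA) (rad RA x) B =
            pair RA B (Pi.single i₁ (1 : F)) • AbelianEigen.eproj (pair RA) (rad RA x) B :=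
          LinearMap.ext fun w => by
            rw [← hg1, ← rad_single O hR i₁ 1]
            exact AbelianEigen.eproj_mem hsA B w _
        rw [h5, map_smul, AbelianEigen.trace_eproj hsA, smul_eq_mul, pair, dotProduct_single, mul_one]
        congr 2
        exact hunit B hB), ← Finset.sum_mul, sum_pair_top i₀ i₁ (by simp [i₀, i₁]), zero_mul]
  -- either the radical moves something on the invariants of `z`
  by_cases hmove : ∃ B : Fin (R₀ :: R').length → F, B ≠ 0 ∧ Occ (R₀ :: R') (zeroX O hz) B
  swap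
  · exfalso
    have htriv : zeroX O hz R₀ (1 : F) = 1 := by
      by_contra hne1
      have hS : ∃ S, rad (R₀ :: R') (zeroX O hz) S ≠
          (1 : Module.End ℂ (E [z] x (0 : Fin [z].length → F))) := by
        refine ⟨Pi.single ⟨0, by simp⟩ 1, ?_⟩
        rw [rad_single O0 hR1]
        exact hne1
      obtain ⟨B, hB, w, hw, hw0⟩ := AbelianEigen.exists_eig (setup O0 hR1) hS
      exact hmove ⟨B, hB, fun e => hw0 (by simpa [e] using (show w ∈ E _ (zeroX O hz) B from hw))⟩
    rw [htriv, LinearMap.trace_one] at htrR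
    have hmem : ∀ w ∈ E [z] x (0 : Fin [z].length → F), x z 1 w ∈ E [z] x 0 := fun w hw => by
      rw [hcl0 hw]; exact hw
    have hz1 : (x z 1).restrict hmem = 1 :=
      LinearMap.ext fun w => Subtype.ext (hcl0 w.2 1)
    have htrz : LinearMap.trace ℂ W (x z 1) =
        (Module.finrank ℂ (E [z] x (0 : Fin [z].length → F)) : ℂ) +
        ∑ B ∈ top, AddChar.FiniteField.primitiveChar_to_Complex F (B i₀) * (m : ℂ) := by
      rw [trace_split O hz hR hg0 _ hmem, hz1, LinearMap.trace_one]
      refine congrArg₂ _ rfl (Finset.sum_congr rfl fun B hB => ?_)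
      have h5 : x z 1 * AbelianEigen.eproj (pair RA) (rad RA x) B =
          pair RA B (Pi.single i₀ (1 : F)) • AbelianEigen.eproj (pair RA) (rad RA x) B :=
        LinearMap.ext fun w => by
          rw [← hg0, ← rad_single O hR i₀ 1]
          exact AbelianEigen.eproj_mem hsA B w _
      rw [h5, map_smul, AbelianEigen.trace_eproj hsA, smul_eq_mul, pair, dotProduct_single, mul_one]
      congr 2
      exact hunit B hB
    have heq := O.trace_path hpz0 hpz (s := (1 : F)) (t := (1 : F)) one_ne_zero one_ne_zero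
    rw [hpzend, htrR, htrz, left_eq_add, ← Finset.sum_mul] at heq
    have hsum : ∑ B ∈ top, AddChar.FiniteField.primitiveChar_to_Complex F (B i₀) =
        -((q : ℂ) ^ (RA.length - 1)) := by
      have h6 : ∑ B : Fin RA.length → F, AddChar.FiniteField.primitiveChar_to_Complex F (B i₀) = 0 := by
        refine Eq.trans (Finset.sum_congr rfl fun B _ => ?_)
          (sum_pair (R := RA) (B := Pi.single i₀ (1 : F)) (by simp))
        rw [pair, single_dotProduct, one_mul]
      rw [← Finset.sum_filter_add_sum_filter_not Finset.univ (fun B : Fin RA.length → F => B i₀ ≠ 0)]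
        at h6
      have h7 : ((Finset.univ.filter fun B : Fin RA.length → F => ¬ B i₀ ≠ 0).card : ℂ) =
          (q : ℂ) ^ (RA.length - 1) := by
        have h8 := Finset.card_filter_add_card_filter_not (s := (Finset.univ : Finset (Fin RA.length → F)))
          (fun B => B i₀ ≠ 0)
        rw [Finset.card_univ, Fintype.card_fun, Fintype.card_fin] at h8
        change top.card + _ = _ at h8
        have hl : RA.length = RA.length - 1 + 1 := (Nat.sub_add_cancel i₀.pos).symm
        rw [hcardtop] at h8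
        have h9 : q ^ RA.length = (q - 1) * q ^ (RA.length - 1) + q ^ (RA.length - 1) := by
          conv_lhs => rw [hl, pow_succ']
          rw [← Nat.succ_mul, Nat.succ_eq_add_one, Nat.sub_add_cancel Fintype.card_pos]
        rw [← hq] at h8
        have h10 : (Finset.univ.filter fun B : Fin RA.length → F => ¬ B i₀ ≠ 0).card =
            q ^ (RA.length - 1) := by omega
        exact_mod_cast h10
      have h11 : ∀ B ∈ Finset.univ.filter (fun B : Fin RA.length → F => ¬ B i₀ ≠ 0),
          AddChar.FiniteField.primitiveChar_to_Complex F (B i₀) = 1 := fun B hB => by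
        rw [not_not.1 (Finset.mem_filter.1 hB).2, AddChar.map_zero_eq_one]
      rw [Finset.sum_congr rfl h11, Finset.sum_const, nsmul_one, h7] at h6
      linear_combination h6
    rw [hsum] at heq
    rcases mul_eq_zero.1 heq with h | h
    · exact pow_ne_zero _ (by exact_mod_cast Fintype.card_ne_zero) (neg_eq_zero.1 h)
    · exact Nat.cast_ne_zero.2 (by omega) h
  obtain ⟨B₀, hB₀, hB⟩ := hmove
  rw [hcardtop] at hsplit
  set N := cellsTotal (eraseRoot T z) Φ' (R₀ :: R') q
  rcases three_cases O0 hR1 hA1 hn hres hB hB₀ with ⟨-, h⟩ | h | ⟨hP, hone, hsum⟩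
  · rw [← hq] at h
    have : (q - 1) * q ^ (RA.length - 1) * 1 ≤ (q - 1) * q ^ (RA.length - 1) * m :=
      Nat.mul_le_mul_left _ hm
    omega
  · rw [← hq] at h
    have : (q - 1) * q ^ (RA.length - 1) * 1 ≤ (q - 1) * q ^ (RA.length - 1) * m :=
      Nat.mul_le_mul_left _ hm
    omega
  rw [← hq] at hsum
  by_cases hm1 : m = 1
  swap
  · have : (q - 1) * q ^ (RA.length - 1) * 2 ≤ (q - 1) * q ^ (RA.length - 1) * m :=
      Nat.mul_le_mul_left _ (by omega)
    omega
  rw [hm1, mul_one] at hsplit
  have hnext : ∃ r ∈ Φ', ∃ t, zeroX O0 hR1 r t ≠ 1 := by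
    by_contra hcon
    push Not at hcon
    have hdiff := trace_diff (χ := χ) hcm (Or.inl hfix) O0 hR1 hA1 hn hP hone hB hB₀ hcon
    rw [List.headD_cons, ← htrR, ← hrest θ hmemθ] at hdiff
    have hθ' : θ ∈ Lev := hθL
    have hstot : LinearMap.trace ℂ W (x θ (-1)) = LinearMap.trace ℂ _ ((x θ (-1)).restrict (hpres θ hmemθ (-1))) +
        ∑ B ∈ top, LinearMap.trace ℂ W (x θ (-1) * AbelianEigen.eproj (pair RA) (rad RA x) B) :=
      trace_split O hz hR hg0 _ (hpres θ hmemθ (-1))
    set S := ∑ B ∈ top, LinearMap.trace ℂ W (x θ (-1) * AbelianEigen.eproj (pair RA) (rad RA x) B)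
    have heq := O.trace_path hpθ0 hpθ (s := (1 : F)) (t := (-1 : F)) one_ne_zero
      (neg_ne_zero.2 one_ne_zero)
    rw [hpθend, hstot] at heq
    have hMT : ∑ μ, (if inJ (eraseRoot T z) (R₀ :: R') θ μ = true then
        (cell (R₀ :: R') (zeroX O hz) μ).card else 0) =
        movedTotal (eraseRoot T z) Φ' (R₀ :: R') θ q := by
      refine Finset.sum_congr rfl fun μ _ => ?_
      split_ifs
      · exact card_cell O0 hR1 hA1 hn hP hB hB₀ μ
      · rfl
    rw [hMT] at hdiff
    set MT := movedTotal (eraseRoot T z) Φ' (R₀ :: R') θ q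
    have hS : S = (MT : ℂ) - (q : ℂ) ^ (n₀ + 1) := by linear_combination -heq - hdiff
    -- the fixed characters
    let J := Finset.univ.filter fun j : Fin RA.length => inJ T RA θ j = true
    have hJ0 : i₀ ∉ J := fun hmem => by
      have := hJtop i₀
      simp [J] at hmem
      simp [fixTopB, i₀] at this
      exact Bool.noConfusion (this.1.symm.trans hmem)
    have hfixed : ∀ B ∈ top, act T RA θ 1 B = B → ∀ j ∈ J, B j = 0 := by
      intro B _ he j hj
      simp only [J, Finset.mem_filter, inJ, List.any_eq_true, beq_iff_eq] at hj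
      obtain ⟨-, i, -, hi⟩ := hj
      have := congrFun he i
      simpa [act, hi, cf_ne_zero (F := F) hR hθ' hi] using this
    have hterm : ∀ B ∈ top, LinearMap.trace ℂ W
        (x θ (-1) * AbelianEigen.eproj (pair RA) (rad RA x) B) =
        if (∀ j ∈ J, B j = 0) then 1 else 0 := by
      intro B hBtop
      set P := AbelianEigen.eproj (pair RA) (rad RA x) B
      by_cases hJB : ∀ j ∈ J, B j = 0
      · rw [if_pos hJB]
        have hB0 := (Finset.mem_filter.1 hBtop).2
        have h1 : Module.finrank ℂ (E RA x B) = 1 := (hunit B hBtop).trans hm1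
        have hfx := fixE_top O hR hθ' hJtop (i₀ := i₀) rfl hB0
          ((finrank_translate O hR htrans rfl hB0).symm.trans h1)
          fun j hj => hJB j (by simp [J, hj])
        have h5 : x θ (-1) * P = P :=
          LinearMap.ext fun w => hfx _ _ (AbelianEigen.eproj_mem hsA B w)
        rw [h5, AbelianEigen.trace_eproj hsA]
        rw [E] at h1
        rw [h1, Nat.cast_one]
      · rw [if_neg hJB]
        have he : act T RA θ 1 B ≠ B := fun e => hJB (hfixed B hBtop e)
        have e : P * P = P := LinearMap.ext fun w =>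
          AbelianEigen.eproj_eig hsA (AbelianEigen.eproj_mem hsA B w)
        have e0 : P * (x θ (-1) * P) = 0 := LinearMap.ext fun w =>
          AbelianEigen.eproj_eig_ne hsA he (map_eig O hR hθ' 1 (AbelianEigen.eproj_mem hsA B w))
        calc LinearMap.trace ℂ W (x θ (-1) * P)
            = LinearMap.trace ℂ W ((x θ (-1) * P) * P) := by rw [mul_assoc, e]
          _ = LinearMap.trace ℂ W (P * (x θ (-1) * P)) := LinearMap.trace_mul_comm ℂ _ _
          _ = 0 := by rw [e0, map_zero]
    have hJcard : J.card = r := by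
      rw [← hr, ← List.toFinset_card_of_nodup ((List.nodup_finRange _).filter _)]
      congr 1
      ext j; simp [J]
    have hval : S = (((q - 1) * q ^ (RA.length - 1 - r) : ℕ) : ℂ) := by
      show ∑ B ∈ top, _ = _
      rw [Finset.sum_congr rfl hterm, Finset.sum_boole, Finset.filter_filter, card_top i₀ J hJ0,
        hJcard]
    refine hgap ?_
    have h6 : ((q ^ (n₀ + 1) + (q - 1) * q ^ (RA.length - 1 - r) : ℕ) : ℂ) = (MT : ℂ) := by
      rw [Nat.cast_add, ← hval, hS]
      push_cast
      ring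
    exact_mod_cast h6
  have := hb' _ _ _ (ops_zero O0 hR1 hcl) hnext
  omega

end CfsgLib.RootChain
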