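import Cfsg.Agent.Lib.RootChain.Step

/-! Vectors fixed by root elements. -/

set_option autoImplicit false
set_option linter.unusedSectionVars false

namespace CfsgLib.RootChain

open Matrix
open CfsgLib.InvCentralizers

variable {T : Table} {Φ Φ' R : List ℕ} {χ : ℕ → ℤ} {F : Type*} [Field F] [Fintype F]
  {W : Type*} [AddCommGroup W] [Module ℂ W] [FiniteDimensional ℂ W]
  {x : ℕ → F → Module.End ℂ W} {h : Fˣ → Module.End ℂ W}

/-- Each entry `(c, a, r)` has `c = a + r` with `a` and `r` already listed. -/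
def closureB (T : Table) (Φ : List ℕ) : List ℕ → List (ℕ × ℕ × ℕ) → Bool
  | _, [] => true
  | R, (c, a, r) :: l => decide (a ∈ Φ ∧ r ∈ Φ ∧ c ∈ Φ ∧ a ∈ R ∧ r ∈ R ∧ r ≠ a ∧ r ≠ T.opp a ∧
      T.add a r = some c ∧ (T.coef a r).natAbs = 1) && closureB T Φ (c :: R) l

theorem Ops.fix_of_closure (O : Ops T Φ χ x h) (v : W) : ∀ {l : List (ℕ × ℕ × ℕ)} {R : List ℕ},
    closureB T Φ R l = true → (∀ r ∈ R, ∀ t, x r t v = v) →
    ∀ c, c ∈ R ∨ c ∈ l.map Prod.fst → ∀ t, x c t v = v
  | [], R, _, hR, c, hc, t => hR c (hc.resolve_right (by simp)) t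
  | (c₀, a, r) :: l, R, hB, hR, c, hc, t => by
    simp only [closureB, Bool.and_eq_true, decide_eq_true_eq] at hB
    obtain ⟨⟨ha, hr, -, haR, hrR, h1, h2, hadd, hN⟩, hl⟩ := hB
    refine O.fix_of_closure v hl (fun d hd u => ?_) c ?_ t
    · rcases List.mem_cons.1 hd with rfl | hd
      · have e := LinearMap.congr_fun
          (O.conj_some ha hr h1 h2 hadd (u / (T.coef a r : F)) 1) v
        rw [mul_one, mul_div_cancel₀ u (intCast_ne_zero (F := F) hN)] at e
        simp only [Module.End.mul_apply, hR a haR, hR r hrR] at e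
        refine x_apply_injective O hr (1 : F) ?_
        rw [← e, hR r hrR]
      · exact hR d hd u
    · rcases hc with hc | hc
      · exact Or.inl (List.mem_cons_of_mem _ hc)
      · rcases List.mem_cons.1 hc with rfl | hc
        · exact Or.inl (List.mem_cons_self ..)
        · exact Or.inr hc

theorem mem_E_zero_of_fixed {v : W} (h : ∀ r ∈ R, ∀ t, x r t v = v) :
    v ∈ E R x (0 : Fin R.length → F) := by
  intro S
  have h0 : pair R (0 : Fin R.length → F) S = 1 := by simp [pair]
  rw [h0, one_smul]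
  simp only [rad]
  induction List.finRange R.length with
  | nil => simp
  | cons a l ih =>
    simp only [List.map_cons, List.prod_cons, Module.End.mul_apply, ih]
    exact h _ (List.get_mem ..) _

theorem fixed_of_mem_E_zero (O : Ops T Φ χ x h) (hR : Rad T Φ Φ' R) {v : W}
    (hv : v ∈ E R x (0 : Fin R.length → F)) {r : ℕ} (hr : r ∈ R) (t : F) : x r t v = v := by
  obtain ⟨i, rfl⟩ := List.mem_iff_get.1 hr
  have := hv (Pi.single i t)
  rw [rad_single O hR, show pair R (0 : Fin R.length → F) (Pi.single i t) = 1 by simp [pair],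
    one_smul] at this
  exact this

end CfsgLib.RootChain
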