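import Cfsg.Agent.Lib.RootChain.Step

/-! A transitive action on the nonzero characters of a small radical gives elements of given
prime order. -/

set_option autoImplicit false
set_option linter.unusedSectionVars false

namespace CfsgLib.RootChain

open Matrix
open CfsgLib.InvCentralizers

variable {T : Table} {Φ Φ' R : List ℕ} {χ : ℕ → ℤ} {F : Type*} [Field F] [Fintype F]
  {W : Type*} [AddCommGroup W] [Module ℂ W] [FiniteDimensional ℂ W]
  {x : ℕ → F → Module.End ℂ W} {h : Fˣ → Module.End ℂ W} {n₀ : ℕ}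

/-- A predicate stable under the action and true at a coordinate vector holds everywhere. -/
theorem transitive (hR : Rad T Φ Φ' R) (hA : Adj T Φ' R n₀) (hm : R.length = n₀ + 1) (hn : n₀ ≠ 0)
    (P : (Fin R.length → F) → Prop)
    (hP : ∀ α ∈ Φ', ∀ t B, P B → P (act T R α t B)) {i₀ : Fin R.length} (h0 : P (Pi.single i₀ 1))
    {B : Fin R.length → F} (hB : B ≠ 0) : P B := by
  classical
  have hpush : ∀ {L : List (Fin R.length × ℕ)}, (∀ p ∈ L, p.2 ∈ Φ') → ∀ (ts B : Fin R.length → F),
      P (push T R L ts B) → P B := by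
    intro L
    induction L with
    | nil => exact fun _ _ _ h => h
    | cons p L ih =>
      obtain ⟨i, α⟩ := p
      intro hL ts B h
      have h1 := ih (fun q hq => hL q (List.mem_cons_of_mem _ hq)) ts _ h
      have h2 := hP α (hL (i, α) (List.mem_cons_self ..)) (-ts i) _ h1
      rwa [act_act_neg hR (hL (i, α) (List.mem_cons_self ..))] at h2
  have hsupp : ∀ {μ : Fin R.length} {B : Fin R.length → F}, B μ ≠ 0 → P (Pi.single μ (B μ)) → P B := by
    intro μ B hμ h
    refine hpush (L := adj T Φ' R μ) (fun p hp => (mem_adj hp).1) (normTs T Φ' R μ B) B ?_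
    convert h using 1
    obtain ⟨h1, h2⟩ := push_adj (μ := μ) hA (normTs T Φ' R μ B) B
    funext k
    by_cases hk : k = μ
    · rw [hk, h1, Pi.single_eq_same]
    · have hk' := keys_all hA hm hk
      have hcf := cf_ne_zero (F := F) hR (mem_adj (mem_keys.1 hk')).1 (mem_adj (mem_keys.1 hk')).2
      rw [Pi.single_eq_of_ne hk, h2 k hk', normTs]
      field_simp
      ring
  have step : ∀ {i k : Fin R.length}, k ≠ i → ∀ {c d : F}, c ≠ 0 → d ≠ 0 → P (Pi.single i c) →
      P (Pi.single k d) := by
    intro i k hki c d hc hd h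
    have hk := keys_all hA hm hki
    have hi := keys_all hA hm hki.symm
    obtain ⟨hα, hu⟩ := mem_adj (mem_keys.1 hk)
    obtain ⟨hβ, hv⟩ := mem_adj (mem_keys.1 hi)
    set α := alph T Φ' R i k
    set β := alph T Φ' R k i
    have hca := cf_ne_zero (F := F) hR hα hu
    have hcb := cf_ne_zero (F := F) hR hβ hv
    set B1 := act T R α (d / (cf T R F α k * c)) (Pi.single i c) with hB1
    have h1i : B1 i = c := by
      have := hA.fixμ i _ (mem_keys.1 hk)
      simp [B1, act, α, this]
    have h1k : B1 k = d := by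
      simp only [B1, act, hu, Option.elim_some, Pi.single_eq_same, Pi.single_eq_of_ne hki]
      field_simp
      ring
    set B2 := act T R β (-c / (cf T R F β i * d)) B1 with hB2
    have h2 : P B2 := hP β hβ _ _ (hP α hα _ _ h)
    have h2i : B2 i = 0 := by
      simp only [B2, act, hv, Option.elim_some, h1i, h1k]
      field_simp
      ring
    have h2e : B2 = Pi.single k d := by
      funext j
      by_cases hjk : j = k
      · subst hjk
        have := hA.fixμ j _ (mem_keys.1 hi)
        simp [B2, act, β, this, h1k]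
      by_cases hji : j = i
      · rw [hji, h2i, Pi.single_eq_of_ne hki.symm]
      have ha : up T R α j = none := hA.nonint i _ (mem_keys.1 hk) j (keys_all hA hm hji) hjk
      have hb : up T R β j = none := hA.nonint k _ (mem_keys.1 hi) j (keys_all hA hm hjk) hji
      simp [B2, B1, act, ha, hb, hjk, hji]
    exact h2e ▸ h2
  obtain ⟨μ, hμ⟩ := Function.ne_iff.1 hB
  refine hsupp hμ ?_
  by_cases he : μ = i₀
  · subst he
    obtain ⟨k, hk⟩ : ∃ k, k ∈ keys T Φ' R μ :=
      List.exists_mem_of_length_pos (by rw [hA.len]; omega)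
    have hkμ : k ≠ μ := fun e => by
      have h1 := (mem_adj (mem_keys.1 hk)).2
      rw [e, hA.fixμ μ (μ, alph T Φ' R μ μ) (mem_keys.1 (e ▸ hk))] at h1
      simp at h1
    exact step hkμ.symm one_ne_zero hμ (step hkμ one_ne_zero one_ne_zero h0)
  · exact step he one_ne_zero hμ h0

theorem map_E (O : Ops T Φ χ x h) (hR : Rad T Φ Φ' R) {α : ℕ} (hα : α ∈ Φ') (t : F)
    (B : Fin R.length → F) : (E R x B).map (x α t) = E R x (act T R α (-t) B) := by
  refine Submodule.eq_of_le_of_finrank_eq ?_ ?_
  · rintro _ ⟨w, hw, rfl⟩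
    have := mapsTo_E O hR hα (-t) B w hw
    rwa [neg_neg] at this
  · rw [finrank_act O hR hα]
    exact (Submodule.equivMapOfInjective _ (x_apply_injective O (hR.sub α hα) t) _).finrank_eq.symm

/-- The orbit of the eigenspaces gives elements of prime order centralising what commutes with the
root elements. -/
theorem exists_orderOf (O : Ops T Φ χ x h) (hR : Rad T Φ Φ' R) (hA : Adj T Φ' R n₀)
    (hm : R.length = n₀ + 1) (hn : n₀ ≠ 0) {B₀ : Fin R.length → F} (hB : Occ R x B₀) (hB₀ : B₀ ≠ 0)
    {G : Type*} [Group G] [Finite G] (ρ : Representation ℂ G W) (y : ℕ → F → G)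
    (hy : ∀ r ∈ Φ', ∀ t, ρ (y r t) = x r t) (hy' : ∀ r ∈ Φ', ∀ t, (y r t)⁻¹ = y r (-t)) (S : Set G)
    (hS : ∀ r ∈ Φ', ∀ t, ∀ z ∈ S, Commute (y r t) z) {ℓ : ℕ} (hℓ : ℓ.Prime)
    (hd : ℓ ∣ Fintype.card F ^ R.length - 1) :
    ∃ g : G, orderOf g = ℓ ∧ ∀ z ∈ S, Commute g z := by
  classical
  set L : Subgroup G := Subgroup.closure {g | ∃ r ∈ Φ', ∃ t, y r t = g} with hL
  letI : MulAction L (Submodule ℂ W) :=
    { smul := fun g p => p.map (ρ (g : G))
      one_smul := fun p => by
        show p.map (ρ ((1 : L) : G)) = p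
        rw [Subgroup.coe_one, map_one]
        exact Submodule.map_id p
      mul_smul := fun a b p => by
        show p.map (ρ ((a * b : L) : G)) = (p.map (ρ (b : G))).map (ρ (a : G))
        rw [Subgroup.coe_mul, map_mul, ← Submodule.map_comp]
        rfl }
  obtain ⟨i₀, hi₀⟩ := Function.ne_iff.1 hB₀
  have hocc : ∀ B : Fin R.length → F, B ≠ 0 → Occ R x B := by
    have h1 : Occ R x (Pi.single i₀ 1) := by
      obtain ⟨C, hC, hC0, hCk⟩ := exists_normal O hR hA hn hB hB₀ i₀ (one_ne_zero (α := F))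
      convert hC
      funext k
      by_cases hk : k = i₀
      · rw [hk, Pi.single_eq_same, hC0]
      · rw [Pi.single_eq_of_ne hk, hCk k (keys_all hA hm hk)]
    exact fun B hne => transitive hR hA hm hn (fun B => Occ R x B)
      (fun α hα t B hB => occ_act O hR hα t hB) h1 hne
  set p₀ := E R x (Pi.single i₀ (1 : F) : Fin R.length → F)
  have hsub : ∀ g ∈ L, ∃ B : Fin R.length → F, B ≠ 0 ∧ p₀.map (ρ g) = E R x B := by
    intro g hg
    induction hg using Subgroup.closure_induction_left with
    | one => exact ⟨Pi.single i₀ 1, by simp, by rw [map_one]; exact Submodule.map_id _⟩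
    | mul_left a ha b hb ih =>
      obtain ⟨r, hr, t, rfl⟩ := ha
      obtain ⟨B, hB0, e⟩ := ih
      refine ⟨act T R r (-t) B, fun e0 => hB0 (act_injective hR hr (-t) (e0.trans ?_)), ?_⟩
      · funext i; cases hu : up T R r i <;> simp [act, hu]
      · rw [map_mul, hy r hr, Module.End.mul_eq_comp, Submodule.map_comp, e, map_E O hR hr]
    | inv_mul_cancel a ha b hb ih =>
      obtain ⟨r, hr, t, rfl⟩ := ha
      obtain ⟨B, hB0, e⟩ := ih
      refine ⟨act T R r (-(-t)) B, fun e0 => hB0 (act_injective hR hr (- -t) (e0.trans ?_)), ?_⟩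
      · funext i; cases hu : up T R r i <;> simp [act, hu]
      · rw [hy' r hr, map_mul, hy r hr, Module.End.mul_eq_comp, Submodule.map_comp, e, map_E O hR hr]
  have hmem : ∀ B : Fin R.length → F, B ≠ 0 → E R x B ∈ MulAction.orbit L p₀ := by
    intro B hne
    refine transitive hR hA hm hn (fun B => E R x B ∈ MulAction.orbit L p₀) (fun α hα t B hmemB => ?_)
      (MulAction.mem_orbit_self p₀) hne
    obtain ⟨g, hg⟩ := hmemB
    refine ⟨⟨y α (-t), Subgroup.subset_closure ⟨α, hα, -t, rfl⟩⟩ * g, ?_⟩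
    show (⟨y α (-t), _⟩ * g : L) • p₀ = _
    rw [mul_smul]
    show (g • p₀).map (ρ (y α (-t))) = _
    rw [show g • p₀ = E R x B from hg, hy α hα, map_E O hR hα, neg_neg]
  have horb : MulAction.orbit L p₀ = E R x '' {B | B ≠ 0} := by
    refine Set.ext fun p => ⟨?_, ?_⟩
    · rintro ⟨g, rfl⟩
      obtain ⟨B, hB0, e⟩ := hsub g g.2
      exact ⟨B, hB0, e.symm⟩
    · rintro ⟨B, hB0, rfl⟩
      exact hmem B hB0
  have hcard : Nat.card (MulAction.orbit L p₀) = Fintype.card F ^ R.length - 1 := by
    rw [horb, Nat.card_image_of_injOn]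
    · have h1 : Nat.card ↥{B : Fin R.length → F | B ≠ 0} =
          ((Finset.univ : Finset (Fin R.length → F)).erase 0).card := by
        rw [← Nat.card_eq_finsetCard]
        exact Nat.card_congr (Equiv.subtypeEquivRight fun B => by simp)
      rw [h1, Finset.card_erase_of_mem (Finset.mem_univ _), Finset.card_univ, Fintype.card_fun,
        Fintype.card_fin]
    · intro B hB B' hB' e
      obtain ⟨w, hw, hw0⟩ := Submodule.exists_mem_ne_zero_of_ne_bot (hocc B hB)
      exact eig_disjoint hw0 hw (show w ∈ E R x B' from e ▸ hw)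
  have hdL : ℓ ∣ Nat.card L := by
    refine hd.trans ?_
    rw [← hcard, Nat.card_congr (MulAction.orbitEquivQuotientStabilizer L p₀)]
    exact Subgroup.card_quotient_dvd_card _
  haveI : Fact ℓ.Prime := ⟨hℓ⟩
  obtain ⟨g, hg⟩ := exists_prime_orderOf_dvd_card' ℓ hdL
  refine ⟨g, by rw [Subgroup.orderOf_coe]; exact hg, fun z hz => ?_⟩
  have hle : L ≤ Subgroup.centralizer {z} := (Subgroup.closure_le _).2 fun a ⟨r, hr, t, e⟩ =>
    Subgroup.mem_centralizer_singleton_iff.2 (e ▸ (hS r hr t z hz).eq)
  exact Subgroup.mem_centralizer_singleton_iff.1 (hle g.2)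

end CfsgLib.RootChain
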