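import Cfsg.Agent.Lib.RootChain.Step

/-! The fixed space of the first root subgroup of the radical. -/

set_option autoImplicit false
set_option linter.unusedSectionVars false

namespace CfsgLib.RootChain

open Matrix
open CfsgLib.InvCentralizers

variable {T : Table} {Φ Φ' R : List ℕ} {χ : ℕ → ℤ} {F : Type*} [Field F] [Fintype F]
  {W : Type*} [AddCommGroup W] [Module ℂ W] [FiniteDimensional ℂ W]
  {x : ℕ → F → Module.End ℂ W} {h : Fˣ → Module.End ℂ W} {n₀ : ℕ}

theorem sum_trace_root (O : Ops T Φ χ x h) (hR : Rad T Φ Φ' R)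
    (hone : ∀ B ∈ occSet R x, Module.finrank ℂ (E R x B) = 1) (i₀ : Fin R.length) (hi₀ : i₀.val = 0) :
    ∑ t, LinearMap.trace ℂ W (x (R.get i₀) t) =
      (Fintype.card F : ℂ) * ((Module.finrank ℂ W - (cell R x i₀).card : ℕ) : ℂ) := by
  classical
  have hψ : ∀ c : F, ∑ t, AddChar.FiniteField.primitiveChar_to_Complex F (c * t) =
      if c = 0 then (Fintype.card F : ℂ) else 0 := fun c => by
    simpa [mul_comm] using AddChar.sum_mulShift (R := F) (R' := ℂ) c
      (AddChar.FiniteField.primitiveChar_to_Complex_isPrimitive F)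
  have hmem : ∀ B : Fin R.length → F, B i₀ ≠ 0 → (Occ R x B ↔ B ∈ cell R x i₀) := fun B hB => by
    rw [mem_cell]
    exact ⟨fun ho => ⟨ho, hB, fun j hj => absurd hj (by simp [Fin.lt_def, hi₀])⟩, And.left⟩
  have h1 : ∀ B : Fin R.length → F, (if B i₀ = 0 then Module.finrank ℂ (E R x B) else 0) +
      (if B ∈ cell R x i₀ then 1 else 0) = Module.finrank ℂ (E R x B) := fun B => by
    by_cases h0 : B i₀ = 0
    · rw [if_pos h0, if_neg fun hc => (mem_cell.1 hc).2.1 h0, add_zero]
    · rw [if_neg h0, zero_add]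
      by_cases ho : Occ R x B
      · rw [if_pos ((hmem B h0).1 ho), hone B (mem_occSet.2 ⟨fun e => h0 (by rw [e]; rfl), ho⟩)]
      · rw [if_neg fun hc => ho (mem_cell.1 hc).1]
        rw [Occ, not_not] at ho
        rw [ho, finrank_bot]
  have h2 : (∑ B, if B i₀ = 0 then Module.finrank ℂ (E R x B) else 0) + (cell R x i₀).card =
      Module.finrank ℂ W := by
    rw [AbelianEigen.finrank_eq_sum (setup O hR)]
    show _ = ∑ B, Module.finrank ℂ (E R x B)
    rw [← Finset.sum_congr rfl fun B _ => h1 B, Finset.sum_add_distrib]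
    simp
  calc ∑ t, LinearMap.trace ℂ W (x (R.get i₀) t)
      = ∑ t, ∑ B, pair R B (Pi.single i₀ t) * (Module.finrank ℂ (E R x B) : ℂ) :=
        Finset.sum_congr rfl fun t _ => by
          rw [← rad_single O hR, AbelianEigen.trace_U (setup O hR)]; rfl
    _ = ∑ B, (∑ t, pair R B (Pi.single i₀ t)) * (Module.finrank ℂ (E R x B) : ℂ) := by
        rw [Finset.sum_comm]
        exact Finset.sum_congr rfl fun B _ => (Finset.sum_mul ..).symm
    _ = ∑ B : Fin R.length → F, (Fintype.card F : ℂ) *
        ((if B i₀ = 0 then Module.finrank ℂ (E R x B) else 0 : ℕ) : ℂ) := by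
        refine Finset.sum_congr rfl fun B _ => ?_
        simp only [pair, dotProduct_single, hψ]
        split_ifs <;> simp
    _ = _ := by
        rw [← Finset.mul_sum, ← Nat.cast_sum, show (∑ B, if B i₀ = 0 then
          Module.finrank ℂ (E R x B) else 0) = Module.finrank ℂ W - (cell R x i₀).card by omega]

end CfsgLib.RootChain
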