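import Cfsg.Agent.Lib.CharTheory.FullDefect

/-! A degree of full defect restricts evenly to the product of a cyclic group and a root group. -/

set_option autoImplicit false
set_option linter.unusedSectionVars false

namespace CfsgLib.RootChain

open Cfsg CfsgLib.CharTheory

variable {G : Type*} [Group G] [Finite G] {F : Type*} [Field F] [Fintype F]
  {W : Type*} [AddCommGroup W] [Module ℂ W] [FiniteDimensional ℂ W]

theorem dvd_fixed_dim (ρ : Representation ℂ G W) [ρ.IsIrreducible] {ℓ : ℕ} (hℓ : ℓ.Prime)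
    (hℓq : ¬ ℓ ∣ Fintype.card F) {n : ℕ} (hn : ℓ ^ n ∣ Module.finrank ℂ W)
    (hn' : ¬ ℓ ^ (n + 1) ∣ Nat.card G) {g : G} (hg : orderOf g = ℓ) (z : F → G)
    (hz : ∀ t u, z (t + u) = z t * z u) (hcomm : ∀ t, Commute g (z t)) {N : ℕ}
    (hN : ∑ t, LinearMap.trace ℂ W (ρ (z t)) = (Fintype.card F : ℂ) * N) : ℓ ∣ N := by
  classical
  set q := Fintype.card F
  have hq : (q : ℂ) ≠ 0 := by exact_mod_cast Fintype.card_ne_zero
  have hℓ0 : (ℓ : ℂ) ≠ 0 := by exact_mod_cast hℓ.ne_zero
  have hz0 : z 0 = 1 := by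
    have := hz 0 0
    rw [add_zero] at this
    exact left_eq_mul.1 this
  have hzpow : ∀ (m : ℕ) t, z t ^ m = z (m • t) := fun m t => by
    induction m with
    | zero => rw [pow_zero, zero_nsmul, hz0]
    | succ m ih => rw [pow_succ, ih, succ_nsmul, hz]
  set P : Module.End ℂ W := (q : ℂ)⁻¹ • ∑ t, ρ (z t) with hP
  set Q : Module.End ℂ W := (ℓ : ℂ)⁻¹ • ∑ i ∈ Finset.range ℓ, ρ (g ^ i) with hQ
  have hzP : ∀ t, ρ (z t) * P = P := fun t => by
    rw [hP, mul_smul_comm, Finset.mul_sum]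
    congr 1
    refine (Fintype.sum_equiv (Equiv.addLeft t) _ _ fun u => ?_)
    rw [← map_mul, ← hz]; rfl
  have hPP : P * P = P := by
    conv_lhs => rw [hP]
    rw [smul_mul_assoc, Finset.sum_mul, Finset.sum_congr rfl fun t _ => hzP t, Finset.sum_const,
      Finset.card_univ, ← Nat.cast_smul_eq_nsmul ℂ, smul_smul, inv_mul_cancel₀ hq, one_smul]
  have hgpow : g ^ ℓ = 1 := hg ▸ pow_orderOf_eq_one g
  have hgQ : ρ g * Q = Q := by
    rw [hQ, mul_smul_comm, Finset.mul_sum]
    congr 1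
    simp only [← map_mul, ← pow_succ']
    have h1 := Finset.sum_range_succ (fun i => ρ (g ^ i)) ℓ
    rw [Finset.sum_range_succ' (fun i => ρ (g ^ i)) ℓ, hgpow, pow_zero] at h1
    exact add_right_cancel h1
  have hgiQ : ∀ i, ρ (g ^ i) * Q = Q := fun i => by
    induction i with
    | zero => rw [pow_zero, map_one, one_mul]
    | succ i ih => rw [pow_succ, map_mul, mul_assoc, hgQ, ih]
  have hQQ : Q * Q = Q := by
    conv_lhs => rw [hQ]
    rw [smul_mul_assoc, Finset.sum_mul, Finset.sum_congr rfl fun i _ => hgiQ i, Finset.sum_const,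
      Finset.card_range, ← Nat.cast_smul_eq_nsmul ℂ, smul_smul, inv_mul_cancel₀ hℓ0, one_smul]
  have hPQ : Commute Q P := by
    rw [hP, hQ]
    refine ((Commute.sum_left _ _ _ fun i _ => Commute.sum_right _ _ _ fun t _ => ?_).smul_left _).smul_right _
    rw [commute_iff_eq, ← map_mul, ← map_mul, ((hcomm t).pow_left i).eq]
  have hidem : (Q * P) * (Q * P) = Q * P := by
    rw [mul_assoc, ← mul_assoc P, ← hPQ.eq, mul_assoc Q P, hPP, ← mul_assoc, hQQ]
  have htr : LinearMap.trace ℂ W (Q * P) = (Module.finrank ℂ (LinearMap.range (Q * P)) : ℂ) :=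
    (LinearMap.IsProj.mk (fun w => LinearMap.mem_range_self _ w) (fun w ⟨v, hv⟩ => by
      rw [← hv, ← Module.End.mul_apply, hidem])).trace
  have hχ := isIrrCharacter_character ρ
  have hvan : ∀ i ∈ (Finset.range ℓ).erase 0, ∀ t, LinearMap.trace ℂ W (ρ (g ^ i * z t)) = 0 := by
    intro i hi t
    obtain ⟨hi0, hil⟩ := Finset.mem_erase.1 hi
    rw [Finset.mem_range] at hil
    refine IsIrrCharacter.eq_zero_of_fullDegree (G := G) hχ hℓ hn' ρ.char_one hn ?_
    have hgi : orderOf (g ^ i) = ℓ := by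
      rw [orderOf_pow' g hi0, hg, (Nat.Prime.coprime_iff_not_dvd hℓ).2
        (Nat.not_dvd_of_pos_of_lt (Nat.pos_of_ne_zero hi0) hil) |>.gcd_eq_one, Nat.div_one]
    have hzt : orderOf (z t) ∣ q := orderOf_dvd_of_pow_eq_one (by
      rw [hzpow, show q • t = 0 by rw [nsmul_eq_mul, FiniteField.cast_card_eq_zero, zero_mul], hz0])
    have hcop : Nat.Coprime (orderOf (g ^ i)) (orderOf (z t)) := by
      rw [hgi]
      exact Nat.Coprime.coprime_dvd_right hzt ((Nat.Prime.coprime_iff_not_dvd hℓ).2 hℓq)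
    rw [((hcomm t).pow_left i).orderOf_mul_eq_mul_orderOf_of_coprime hcop, hgi]
    exact dvd_mul_right _ _
  have hsum : LinearMap.trace ℂ W (Q * P) = (N : ℂ) / ℓ := by
    rw [hP, hQ, smul_mul_assoc, mul_smul_comm, Finset.sum_mul_sum, map_smul, map_smul, map_sum,
      Finset.sum_congr rfl fun i _ => by rw [map_sum, Finset.sum_congr rfl fun t _ => by rw [← map_mul]],
      ← Finset.add_sum_erase _ _ (Finset.mem_range.2 hℓ.pos),
      Finset.sum_eq_zero (s := (Finset.range ℓ).erase 0) fun i hi =>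
        Finset.sum_eq_zero fun t _ => hvan i hi t, add_zero]
    simp only [pow_zero, one_mul, hN, smul_eq_mul]
    field_simp
  rw [hsum, div_eq_iff hℓ0] at htr
  exact ⟨Module.finrank ℂ (LinearMap.range (Q * P)), by rw [mul_comm]; exact_mod_cast htr⟩

end CfsgLib.RootChain
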