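import Cfsg.Agent.Lib.RootChain.BoundE6
import Cfsg.Agent.Lib.RootChain.RootTrace
import Cfsg.Agent.Lib.RootChain.Orbits
import Cfsg.Agent.Lib.RootChain.Singular
import Cfsg.Agent.Lib.Chevalley.OrderE6
import Cfsg.Agent.Lib.Chevalley.CommE6

/-! The minimal degree of a nontrivial irreducible representation of the group of type E6. -/

set_option autoImplicit false
set_option linter.unusedSectionVars false
set_option maxRecDepth 100000

namespace CfsgLib.RootChain.E6

open Cfsg.Lie CfsgLib.Chevalley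

theorem fullE6 : Full chevE6 auxE6 := ⟨⟨cert_E6, posE6, by simp⟩, extraE6⟩

variable {F : Type*} [Field F] [Fintype F] {k : ℕ}
  (ρ : Representation ℂ (chevE6.group F) (Fin k → ℂ))

/-- The operators of the root elements. -/
noncomputable def X : ℕ → F → Module.End ℂ (Fin k → ℂ) := repX fullE6 ρ

/-- The operators of the torus. -/
noncomputable def H : Fˣ → Module.End ℂ (Fin k → ℂ) :=
  repH fullE6 ρ fun i => if i = 1 then 0 else 1

theorem ops : Ops T (List.range 72) chi (X ρ) (H ρ) :=
  ops_of_rep fullE6 commE6 (fun i => if i = 1 then 0 else 1) ρ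

theorem no_fixed_vector (hρ : ρ.IsIrreducible) (hk : 2 ≤ k) {v : Fin k → ℂ} (hv : v ≠ 0)
    (hfix : ∀ r ∈ List.range 72, ∀ t, X ρ r t v = v) : False := by
  haveI := hρ
  have hall : ∀ g, ρ g v = v := by
    intro g
    let K : Subgroup (chevE6.group F) :=
      { carrier := {g | ρ g v = v}
        one_mem' := by simp
        mul_mem' := fun {a b} (ha : ρ a v = v) (hb : ρ b v = v) => by
          show ρ (a * b) v = v
          rw [map_mul, Module.End.mul_apply, hb, ha]
        inv_mem' := fun {a} (ha : ρ a v = v) => by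
          show ρ a⁻¹ v = v
          conv_lhs => rw [← ha]
          rw [← Module.End.mul_apply, ← map_mul, inv_mul_cancel, map_one, Module.End.one_apply] }
    have hle : chevE6.group F ≤ K.map (chevE6.group F).subtype := (group_le_iff fullE6.cert).2
      fun r t => ⟨⟨xG fullE6.cert r t, xG_mem_group fullE6.cert r t⟩,
        hfix r (List.mem_range.2 r.isLt) t, rfl⟩
    obtain ⟨g', hg', e⟩ := hle g.2
    rw [← Subtype.ext e]
    exact hg'
  let S : Subrepresentation ρ := ⟨Submodule.span ℂ {v}, fun g w hw => by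
    obtain ⟨a, rfl⟩ := Submodule.mem_span_singleton.1 hw
    rw [map_smul, hall g]
    exact Submodule.smul_mem _ _ (Submodule.mem_span_singleton_self v)⟩
  rcases IsSimpleOrder.eq_bot_or_eq_top S with h | h
  · have h1 : Submodule.span ℂ {v} = (⊥ : Submodule ℂ (Fin k → ℂ)) :=
      congrArg Subrepresentation.toSubmodule h
    exact hv (Submodule.span_singleton_eq_bot.1 h1)
  · have h1 : Submodule.span ℂ {v} = (⊤ : Submodule ℂ (Fin k → ℂ)) :=
      congrArg Subrepresentation.toSubmodule h
    have h2 := finrank_span_singleton (K := ℂ) hv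
    rw [h1, finrank_top, Module.finrank_fin_fun] at h2
    omega

theorem nontrivial (hρ : ρ.IsIrreducible) (hk : 2 ≤ k) :
    ∃ r ∈ List.range 72, ∃ t, X ρ r t ≠ 1 := by
  by_contra hcon
  push Not at hcon
  refine no_fixed_vector ρ hρ hk (v := fun _ => 1) (fun e => ?_) fun r hr t => by
    rw [hcon r hr t]; rfl
  have := congrFun e ⟨0, by omega⟩
  simp at this

theorem dvd_orderMul (hρ : ρ.IsIrreducible) :
    k ∣ Nat.card (chevE6.group F) ∧ Nat.card (chevE6.group F) ∣ orderMul (Fintype.card F) := by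
  haveI := hρ
  haveI : Finite (chevE6.group F) := inferInstance
  haveI := Fintype.ofFinite (chevE6.group F)
  refine ⟨by simpa using CharTheory.finrank_dvd_card ρ, ?_⟩
  refine ⟨Nat.gcd (Fintype.card F - 1) 3, ?_⟩
  rw [mul_comm, cardE6]
  simp [orderMul, show chevE6.nroots = 72 from rfl, mul_assoc]

/-- A degree below the bound is not of full defect for a prime dividing `q ^ 4 - 1` or
`q ^ 5 - 1`. -/
theorem not_full_defect (hρ : ρ.IsIrreducible) (hk : 2 ≤ k) (hlt : k < target (Fintype.card F))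
    {ℓ n : ℕ} (hℓ : ℓ.Prime) (hℓq : ¬ ℓ ∣ Fintype.card F) (hℓn : ¬ ℓ ∣ Fintype.card F - 1)
    (hn : n ≠ 0) (hdk : ℓ ^ n ∣ k) (hn' : ¬ ℓ ^ (n + 1) ∣ orderMul (Fintype.card F))
    (hcyc : ℓ ∣ Fintype.card F ^ 5 - 1 ∨ ℓ ∣ Fintype.card F ^ 4 - 1) : False := by
  classical
  haveI := hρ
  set q := Fintype.card F
  have hq2 : 2 ≤ q := Fintype.one_lt_card
  have O := ops ρ
  have hne := nontrivial ρ hρ hk
  have b1 := base1
  simp only [baseB, Bool.and_eq_true, bne_iff_ne, List.all_eq_true, Bool.or_eq_true,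
    List.contains_iff_mem] at b1
  obtain ⟨⟨⟨⟨⟨hn1, hr1⟩, ha1⟩, hres1⟩, hreach1⟩, hcov1⟩ := b1
  have hR := rad_of_radB hr1
  have hA := adj_of_adjB ha1
  obtain ⟨B, hB0, hB⟩ := exists_occ O hR hreach1 hcov1 hne
  have hk' : Module.finrank ℂ (Fin k → ℂ) = k := Module.finrank_fin_fun ℂ
  rcases three_cases O hR hA hn1 hres1 hB hB0 with ⟨-, h⟩ | h | ⟨hP, hone, hsum⟩
  · rw [hk'] at h
    obtain ⟨u, hu⟩ : ∃ u, q = u + 2 := ⟨q - 2, by omega⟩
    simp only [target, hu] at hlt
    rw [show Fintype.card F = u + 2 from hu] at h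
    ring_nf at hlt h
    omega
  · rw [hk', cells1] at h
    obtain ⟨u, hu⟩ : ∃ u, q = u + 2 := ⟨q - 2, by omega⟩
    simp only [target, hu] at hlt
    rw [show Fintype.card F = u + 2 from hu] at h
    simp only [Nat.reduceSubDiff] at h
    ring_nf at hlt h
    omega
  -- an element of order `ℓ` centralising the root group of the highest root
  let y : ℕ → F → chevE6.group F := fun r t => ⟨xG fullE6.cert r t, xG_mem_group fullE6.cert r t⟩
  have horb : ∀ {Rs Ps : List ℕ} {m : ℕ} {reach : List (ℕ × ℕ × ℕ)},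
      (radB T (List.range 72) Ps Rs && adjB T Ps Rs m &&
        reachB T (List.range 72) Rs reach &&
        ((List.range 72).all fun r => Rs.contains r || (reach.map Prod.fst).contains r) &&
        Ps.all fun r => r != 71 && 71 != T.opp r && T.add r 71 == none) = true →
      Rs.length = m + 1 → m ≠ 0 → ℓ ∣ q ^ Rs.length - 1 →
      ∃ g : chevE6.group F, orderOf g = ℓ ∧ ∀ t, Commute g (y 71 t) := by
    intro Rs Ps m reach hd hm hm0 hdiv
    simp only [Bool.and_eq_true, List.all_eq_true, Bool.or_eq_true, List.contains_iff_mem,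
      bne_iff_ne, beq_iff_eq] at hd
    obtain ⟨⟨⟨⟨hr, ha⟩, hreach⟩, hcov⟩, hcomm⟩ := hd
    have hR' := rad_of_radB hr
    obtain ⟨B', hB'0, hB'⟩ := exists_occ O hR' hreach hcov hne
    obtain ⟨g, hg, hgc⟩ := exists_orderOf O hR' (adj_of_adjB ha) hm hm0 hB' hB'0 ρ y
      (fun r _ t => rfl) (fun r _ t => Subtype.ext (xG_inv fullE6.cert r t))
      (Set.range (y 71)) (fun r hr t z hz => by
        obtain ⟨u, rfl⟩ := hz
        obtain ⟨⟨h1, h2⟩, h3⟩ := hcomm r hr
        refine Subtype.ext ((xG_comm_one fullE6 commE6 (List.mem_range.1 (hR'.sub r hr))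
          (by decide : 71 < chevE6.nroots) h1.symm h2 t u).1 ?_).eq
        simpa [T, tableOf] using h3) hℓ hdiv
    exact ⟨g, hg, fun t => hgc _ ⟨t, rfl⟩⟩
  obtain ⟨g, hg, hgc⟩ : ∃ g : chevE6.group F, orderOf g = ℓ ∧ ∀ t, Commute g (y 71 t) := by
    rcases hcyc with h | h
    · exact horb orbFive rfl (by omega) h
    · exact horb orbFour rfl (by omega) h
  let i₀ : Fin rad1.length := ⟨0, by decide⟩
  have htr := sum_trace_root O hR hone i₀ rfl
  obtain ⟨hdvd, hcard⟩ := dvd_orderMul ρ hρ
  have hN := dvd_fixed_dim ρ hℓ hℓq (n := n) (by rw [hk']; exact hdk)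
    (fun e => hn' (e.trans hcard)) hg (y 71)
    (fun t u => Subtype.ext (xG_mul fullE6.cert 71 t u).symm) hgc htr
  have hℓk : ℓ ∣ k := (dvd_pow_self ℓ hn).trans hdk
  have hcell : (cell rad1 (X ρ) i₀).card = q ^ 10 * (q - 1) := by
    rw [card_cell O hR hA hn1 hP hB hB0 i₀,
      show (laterKeys T sub1 rad1 i₀).length = 10 by decide +kernel]
  have hle : (cell rad1 (X ρ) i₀).card ≤ k := by
    refine le_of_le_of_eq ?_ (hsum.trans hk')
    rw [cells1, hcell]
    refine le_trans (Nat.mul_le_mul_right _ ?_) (Nat.le_add_right _ _)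
    show Fintype.card F ^ 10 ≤ _
    omega
  rw [hk', hcell] at hN
  rw [hcell] at hle
  have h1 : ℓ ∣ q ^ 10 * (q - 1) := by
    have := Nat.dvd_sub hℓk hN
    rwa [show k - (k - q ^ 10 * (q - 1)) = q ^ 10 * (q - 1) by omega] at this
  rcases (Nat.Prime.dvd_mul hℓ).1 h1 with h2 | h2
  · exact hℓq (hℓ.dvd_of_dvd_pow h2)
  · exact hℓn h2

theorem range_two : ∀ k < 2482, 2450 ≤ k → (k = 2450 ∨ 2465 ≤ k) → k ∣ orderMul 2 →
    k = 2450 ∨ k = 2480 := by decide +kernel

theorem closure_ok : closureB T (List.range 72) (posRoots ++ (sub2 ++ subM2)) closure = true ∧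
    (List.range 72).all (fun r => (posRoots ++ (sub2 ++ subM2)).contains r ||
      (closure.map Prod.fst).contains r) = true ∧
    posRoots.all (fun r => rad1.contains r || rad2.contains r || sub2.contains r) = true ∧
    radM1.all (fun r => posRoots.contains r) = true ∧
    radM2.all (fun r => posRoots.contains r) = true := by decide +kernel

/-- The degree is at least the bound. -/
theorem min_degree (hρ : ρ.IsIrreducible) (hk : 2 ≤ k) : target (Fintype.card F) ≤ k := by
  by_contra hcon
  push Not at hcon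
  have O := ops ρ
  have hne := nontrivial ρ hρ hk
  have hk' : Module.finrank ℂ (Fin k → ℂ) = k := Module.finrank_fin_fun ℂ
  obtain ⟨hdvd, hcard⟩ := dvd_orderMul ρ hρ
  have hd := hdvd.trans hcard
  rcases lt_or_ge (Fintype.card F) 3 with hq | hq
  · have hq2 : Fintype.card F = 2 := by have := Fintype.one_lt_card (α := F); omega
    have h2450 : 2450 ≤ k ∧ (k = 2450 ∨ 2465 ≤ k) := by
      by_cases h65 : 2465 ≤ k
      · exact ⟨by omega, Or.inr h65⟩
      obtain ⟨hlo, hv, -⟩ := route base1 trace1 fix1 base2 base3 (by decide +kernel)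
        (by rw [cells1]; norm_num) (by rw [cells2]; norm_num) (by rw [cells3]; norm_num) O hne hq2 (by omega)
      rw [hk'] at hlo hv
      refine ⟨hlo, Or.inl ?_⟩
      by_contra hne'
      obtain ⟨v, hv0, f1, f2, f3⟩ := hv (by omega)
      obtain ⟨c1, c2, c3, c4, c5⟩ := closure_ok
      simp only [List.all_eq_true, Bool.or_eq_true, List.contains_iff_mem] at c2 c3 c4 c5
      have fpos : ∀ r ∈ posRoots, ∀ t, X ρ r t v = v := fun r hr => by
        rcases c3 r hr with (h | h) | h
        exacts [f1 r h, f2 r h, f3 r h]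
      obtain ⟨-, -, hM⟩ := route baseM1 traceM1 fixM1 baseM2 baseM3 (by decide +kernel)
        (by rw [cellsM1]; norm_num) (by rw [cellsM2]; norm_num) (by rw [cellsM3]; norm_num) O hne hq2 (by omega)
      have fM := hM v (fun r hr => fpos r (c4 r hr)) (fun r hr => fpos r (c5 r hr))
      refine no_fixed_vector ρ hρ hk hv0 fun r hr t =>
        O.fix_of_closure v c1 (fun a ha => ?_) r (c2 r hr) t
      simp only [List.mem_append] at ha
      rcases ha with h | h | h
      exacts [fpos a h, f3 a h, fM a h]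
    rw [hq2] at hd
    have hk2 : k < 2482 := by rw [hq2] at hcon; simpa [target] using hcon
    rcases range_two k hk2 h2450.1 h2450.2 hd with rfl | rfl
    · refine not_full_defect ρ hρ hk hcon (ℓ := 5) (n := 2) (by norm_num) ?_ ?_ (by norm_num)
        (by norm_num) ?_ (Or.inr ?_) <;> rw [hq2] <;> decide +kernel
    · refine not_full_defect ρ hρ hk hcon (ℓ := 31) (n := 1) (by norm_num) ?_ ?_ (by norm_num)
        (by norm_num) ?_ (Or.inl ?_) <;> rw [hq2] <;> decide +kernel
  · have hb := bound_chain (F := F) hq (Fin k → ℂ) (X ρ) (H ρ) O hne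
    rw [hk'] at hb
    obtain ⟨j, hj⟩ : ∃ j, k + j = target (Fintype.card F) := ⟨_, Nat.add_sub_cancel' hcon.le⟩
    by_cases hex : Fintype.card F = 4 ∧ j = 4
    · obtain ⟨hq4, rfl⟩ := hex
      have hk4 : k = target 4 - 4 := by rw [← hq4]; omega
      refine not_full_defect ρ hρ hk hcon (ℓ := 31) (n := 1) (by norm_num) ?_ ?_ (by norm_num)
        ?_ ?_ (Or.inl ?_)
      all_goals try rw [hq4]
      all_goals try rw [hk4]
      all_goals decide +kernel
    · exact not_dvd (FiniteField.isPrimePow_card F) hq (by omega) (by omega) hex hj hd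

end CfsgLib.RootChain.E6
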