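import Cfsg.Agent.Lib.RootChain.BoundTwoE8
import Cfsg.Agent.Lib.Chevalley.OrderE8
import Cfsg.Agent.Lib.Chevalley.CommE8
import Cfsg.Agent.Lib.CharTheory.Degree

/-! The minimal degree of a nontrivial irreducible representation of the group of type E8. -/

set_option autoImplicit false
set_option linter.unusedSectionVars false
set_option maxRecDepth 100000

namespace CfsgLib.RootChain.E8

open Cfsg.Lie CfsgLib.Chevalley

theorem fullE8 : Full chevE8 auxE8 := ⟨⟨cert_E8, posE8, by simp⟩, extraE8⟩

variable {F : Type*} [Field F] [Fintype F] {k : ℕ}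
  (ρ : Representation ℂ (chevE8.group F) (Fin k → ℂ))

/-- The operators of the root elements. -/
noncomputable def X : ℕ → F → Module.End ℂ (Fin k → ℂ) := repX fullE8 ρ

/-- The operators of the torus. -/
noncomputable def H : Fˣ → Module.End ℂ (Fin k → ℂ) :=
  repH fullE8 ρ fun i => [1, 1, 2, 3, 3, 3, 2, 1].getD i 0

theorem ops : Ops T (List.range 240) chi (X ρ) (H ρ) :=
  ops_of_rep fullE8 commE8 (fun i => [1, 1, 2, 3, 3, 3, 2, 1].getD i 0) ρ

theorem nontrivial (hρ : ρ.IsIrreducible) (hk : 2 ≤ k) :
    ∃ r ∈ List.range 240, ∃ t, X ρ r t ≠ 1 := by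
  by_contra hcon
  push Not at hcon
  haveI := hρ
  set v : Fin k → ℂ := fun _ => 1
  have hv : v ≠ 0 := fun e => by
    have := congrFun e ⟨0, by omega⟩
    simp [v] at this
  have hall : ∀ g, ρ g v = v := by
    intro g
    let K : Subgroup (chevE8.group F) :=
      { carrier := {g | ρ g v = v}
        one_mem' := by simp
        mul_mem' := fun {a b} (ha : ρ a v = v) (hb : ρ b v = v) => by
          show ρ (a * b) v = v
          rw [map_mul, Module.End.mul_apply, hb, ha]
        inv_mem' := fun {a} (ha : ρ a v = v) => by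
          show ρ a⁻¹ v = v
          conv_lhs => rw [← ha]
          rw [← Module.End.mul_apply, ← map_mul, inv_mul_cancel, map_one, Module.End.one_apply] }
    have hle : chevE8.group F ≤ K.map (chevE8.group F).subtype := (group_le_iff fullE8.cert).2
      fun r t => ⟨⟨xG fullE8.cert r t, xG_mem_group fullE8.cert r t⟩,
        (LinearMap.congr_fun (hcon r (List.mem_range.2 r.isLt) t) v : _), rfl⟩
    obtain ⟨g', hg', e⟩ := hle g.2
    rw [← Subtype.ext e]
    exact hg'
  let S : Subrepresentation ρ := ⟨Submodule.span ℂ {v}, fun g w hw => by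
    obtain ⟨a, rfl⟩ := Submodule.mem_span_singleton.1 hw
    rw [map_smul, hall g]
    exact Submodule.smul_mem _ _ (Submodule.mem_span_singleton_self v)⟩
  rcases IsSimpleOrder.eq_bot_or_eq_top S with h | h
  · have h1 : Submodule.span ℂ {v} = (⊥ : Submodule ℂ (Fin k → ℂ)) :=
      congrArg Subrepresentation.toSubmodule h
    exact hv (Submodule.span_singleton_eq_bot.1 h1)
  · have h1 : Submodule.span ℂ {v} = (⊤ : Submodule ℂ (Fin k → ℂ)) :=
      congrArg Subrepresentation.toSubmodule h
    have h2 := finrank_span_singleton (K := ℂ) hv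
    rw [h1, finrank_top, Module.finrank_fin_fun] at h2
    omega

theorem dvd_orderMul (hρ : ρ.IsIrreducible) : k ∣ orderMul (Fintype.card F) := by
  haveI := hρ
  haveI : Finite (chevE8.group F) := inferInstance
  haveI := Fintype.ofFinite (chevE8.group F)
  have h1 : k ∣ Nat.card (chevE8.group F) := by simpa using CharTheory.finrank_dvd_card ρ
  rw [← one_mul (Nat.card _), cardE8] at h1
  simpa [orderMul, show chevE8.nroots = 240 from rfl, mul_assoc] using h1

/-- The degree is at least the bound. -/
theorem min_degree (hρ : ρ.IsIrreducible) (hk : 2 ≤ k) : target (Fintype.card F) ≤ k := by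
  by_contra hcon
  push Not at hcon
  have O := ops ρ
  have hne := nontrivial ρ hρ hk
  have hk' : Module.finrank ℂ (Fin k → ℂ) = k := Module.finrank_fin_fun ℂ
  have hd := dvd_orderMul ρ hρ
  rcases lt_or_ge (Fintype.card F) 3 with hq | hq
  · have hq2 : Fintype.card F = 2 := by have := Fintype.one_lt_card (α := F); omega
    have hb := bound_two (F := F) hq2 (Fin k → ℂ) (X ρ) (H ρ) O hne
    rw [hk'] at hb
    rw [hq2] at hd hcon
    have h2 : target 2 = 545925250 := by norm_num [target]
    rw [h2] at hcon
    have h := below_two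
    simp only [List.all_eq_true, List.mem_range, decide_eq_true_eq] at h
    have h1 := h (545925250 - k) (by omega)
    rw [h2, show 545925250 - (545925250 - k) = k by omega] at h1
    rcases h1 with h1 | h1
    exacts [by omega, h1 hd]
  · have hb := bound_chain (F := F) hq (Fin k → ℂ) (X ρ) (H ρ) O hne
    rw [hk'] at hb
    obtain ⟨j, hj⟩ : ∃ j, k + j = target (Fintype.card F) := ⟨_, Nat.add_sub_cancel' hcon.le⟩
    exact not_dvd (FiniteField.isPrimePow_card F) hq (by omega) (by omega) hj hd

end CfsgLib.RootChain.E8
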