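import Mathlib

/-! Operators satisfying the relations of root elements of a simply laced root system. -/

set_option autoImplicit false
set_option linter.unusedSectionVars false

namespace CfsgLib.RootChain

/-- The addition table of a simply laced root system, the signs and the opposites. -/
structure Table where
  add : ℕ → ℕ → Option ℕ
  coef : ℕ → ℕ → ℤ
  opp : ℕ → ℕ

variable {F : Type*} [Field F] [Fintype F] {W : Type*} [AddCommGroup W] [Module ℂ W]

/-- `x r t` satisfies the relations of the root elements with root in `Φ`, and `h` those of a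
one-parameter torus acting by the exponents `χ`. -/
structure Ops (T : Table) (Φ : List ℕ) (χ : ℕ → ℤ) (x : ℕ → F → Module.End ℂ W)
    (h : Fˣ → Module.End ℂ W) : Prop where
  map_zero : ∀ r ∈ Φ, x r 0 = 1
  map_add : ∀ r ∈ Φ, ∀ t u, x r (t + u) = x r t * x r u
  comm_none : ∀ r ∈ Φ, ∀ s ∈ Φ, s ≠ r → s ≠ T.opp r → T.add r s = none →
    ∀ t u, Commute (x r t) (x s u)
  comm_some : ∀ r ∈ Φ, ∀ s ∈ Φ, ∀ c, s ≠ r → s ≠ T.opp r → T.add r s = some c →
    ∀ t u, x r t * x s u = x s u * x c ((T.coef r s : F) * t * u) * x r t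
  torus : ∀ r ∈ Φ, ∀ (s : Fˣ) (t : F), h s * x r t = x r (((s ^ χ r : Fˣ) : F) * t) * h s
  h_inv : ∀ s, h s * h s⁻¹ = 1

variable {T : Table} {Φ : List ℕ} {χ : ℕ → ℤ} {x : ℕ → F → Module.End ℂ W}
  {h : Fˣ → Module.End ℂ W}

theorem Ops.neg_mul (O : Ops T Φ χ x h) {r : ℕ} (hr : r ∈ Φ) (t : F) : x r (-t) * x r t = 1 := by
  rw [← O.map_add r hr, neg_add_cancel, O.map_zero r hr]

theorem Ops.mul_neg (O : Ops T Φ χ x h) {r : ℕ} (hr : r ∈ Φ) (t : F) : x r t * x r (-t) = 1 := by
  rw [← O.map_add r hr, add_neg_cancel, O.map_zero r hr]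

theorem Ops.h_inv' (O : Ops T Φ χ x h) (s : Fˣ) : h s⁻¹ * h s = 1 := by
  simpa using O.h_inv s⁻¹

/-- The conjugate of a root element, when the sum is a root. -/
theorem Ops.conj_some (O : Ops T Φ χ x h) {r s c : ℕ} (hr : r ∈ Φ) (hs : s ∈ Φ) (hne : s ≠ r)
    (hopp : s ≠ T.opp r) (ha : T.add r s = some c) (t u : F) :
    x r t * x s u * x r (-t) = x s u * x c ((T.coef r s : F) * t * u) := by
  rw [O.comm_some r hr s hs c hne hopp ha, mul_assoc, O.mul_neg hr, mul_one]

/-- The restriction to an invariant subspace. -/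
theorem Ops.restrict (O : Ops T Φ χ x h) {Φ' : List ℕ} (hsub : ∀ r ∈ Φ', r ∈ Φ)
    (hclosed : ∀ r ∈ Φ', ∀ s ∈ Φ', ∀ c, T.add r s = some c → c ∈ Φ') (W' : Submodule ℂ W)
    (x' : ℕ → F → Module.End ℂ W') (h' : Fˣ → Module.End ℂ W')
    (hx : ∀ r ∈ Φ', ∀ t (w : W'), (x' r t w : W) = x r t w)
    (hh : ∀ s (w : W'), (h' s w : W) = h s w) : Ops T Φ' χ x' h' := by
  refine ⟨fun r hr => ?_, fun r hr t u => ?_, fun r hr s hs h1 h2 h3 t u => ?_,
    fun r hr s hs c h1 h2 h3 t u => ?_, fun r hr s t => ?_, fun s => ?_⟩ <;>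
    refine LinearMap.ext fun w => Subtype.ext ?_
  · simp [hx r hr, O.map_zero r (hsub r hr)]
  · simp [hx r hr, O.map_add r (hsub r hr)]
  · simp only [Module.End.mul_apply, hx r hr, hx s hs]
    rw [← Module.End.mul_apply, (O.comm_none r (hsub r hr) s (hsub s hs) h1 h2 h3 t u).eq,
      Module.End.mul_apply]
  · simp only [Module.End.mul_apply, hx r hr, hx s hs, hx c (hclosed r hr s hs c h3)]
    rw [← Module.End.mul_apply, O.comm_some r (hsub r hr) s (hsub s hs) c h1 h2 h3 t u]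
    simp only [Module.End.mul_apply]
  · simp only [Module.End.mul_apply, hh, hx r hr]
    rw [← Module.End.mul_apply, O.torus r (hsub r hr) s t, Module.End.mul_apply]
  · simp only [Module.End.mul_apply, hh]
    rw [← Module.End.mul_apply, O.h_inv s, Module.End.one_apply, Module.End.one_apply]

/-- The data for one step of a path of adjacent roots: `c = r + a` and `r = c + b`. -/
def pathStepB (T : Table) (Φ : List ℕ) (r c a b : ℕ) : Bool :=
  decide (r ∈ Φ ∧ c ∈ Φ ∧ a ∈ Φ ∧ b ∈ Φ ∧ r ≠ a ∧ r ≠ T.opp a ∧ T.add a r = some c ∧ c ≠ b ∧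
    c ≠ T.opp b ∧ T.add b c = some r ∧ r ≠ b ∧ r ≠ T.opp b ∧ T.add b r = none ∧ c ≠ r ∧
    c ≠ T.opp r ∧ T.add r c = none ∧ (T.coef a r).natAbs = 1 ∧ (T.coef b c).natAbs = 1)

theorem intCast_ne_zero {z : ℤ} (hz : z.natAbs = 1) : (z : F) ≠ 0 := by
  rcases Int.natAbs_eq_iff.1 hz with rfl | rfl <;> simp

/-- Adjacent root elements have the same trace. -/
theorem Ops.trace_step (O : Ops T Φ χ x h) {r c a b : ℕ} (hB : pathStepB T Φ r c a b = true)
    {s t : F} (hs : s ≠ 0) (ht : t ≠ 0) :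
    LinearMap.trace ℂ W (x r s) = LinearMap.trace ℂ W (x c t) := by
  simp only [pathStepB, decide_eq_true_eq] at hB
  obtain ⟨hr, hc, ha, hb, h1, h2, hac, h3, h4, hbc, h5, h6, hbr, h7, h8, hrc, hN, hN'⟩ := hB
  have hN0 := intCast_ne_zero (F := F) hN
  have hN0' := intCast_ne_zero (F := F) hN'
  set u := t / ((T.coef a r : F) * s) with hu
  set v := -s / ((T.coef b c : F) * t) with hv
  have e1 : x a u * x r s * x a (-u) = x r s * x c t := by
    rw [O.conj_some ha hr h1 h2 hac]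
    congr 2
    rw [hu]; field_simp
  have e2 : x b v * (x r s * x c t) * x b (-v) = x c t := by
    have hbr' := O.comm_none b hb r hr h5 h6 hbr v s
    calc x b v * (x r s * x c t) * x b (-v) = x r s * (x b v * x c t * x b (-v)) := by
          rw [← mul_assoc, hbr'.eq]; simp only [mul_assoc]
      _ = x r s * x c t * x r ((T.coef b c : F) * v * t) := by
          rw [O.conj_some hb hc h3 h4 hbc, ← mul_assoc]
      _ = x c t * (x r s * x r ((T.coef b c : F) * v * t)) := by
          rw [(O.comm_none r hr c hc h7 h8 hrc s t).eq, mul_assoc]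
      _ = x c t := by
          rw [← O.map_add r hr, show s + (T.coef b c : F) * v * t = 0 by rw [hv]; field_simp; ring,
            O.map_zero r hr, mul_one]
  rw [← e2, ← e1]
  have key : ∀ (g g' f : Module.End ℂ W), g' * g = 1 →
      LinearMap.trace ℂ W f = LinearMap.trace ℂ W (g * f * g') := fun g g' f hg => by
    rw [LinearMap.trace_mul_cycle, hg, one_mul]
  rw [← key _ _ _ (O.neg_mul hb v), ← key _ _ _ (O.neg_mul ha u)]

/-- A path of adjacent roots starting at `r`. -/
def pathB (T : Table) (Φ : List ℕ) : ℕ → List (ℕ × ℕ × ℕ) → Bool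
  | _, [] => true
  | r, (c, a, b) :: l => pathStepB T Φ r c a b && pathB T Φ c l

/-- The end of a path. -/
def pathEnd : ℕ → List (ℕ × ℕ × ℕ) → ℕ
  | r, [] => r
  | _, (c, _, _) :: l => pathEnd c l

theorem Ops.trace_path (O : Ops T Φ χ x h) : ∀ {l : List (ℕ × ℕ × ℕ)} {r : ℕ},
    l ≠ [] → pathB T Φ r l = true → ∀ {s t : F}, s ≠ 0 → t ≠ 0 →
    LinearMap.trace ℂ W (x r s) = LinearMap.trace ℂ W (x (pathEnd r l) t)
  | [], _, hl, _, _, _, _, _ => absurd rfl hl
  | (c, a, b) :: l, r, _, hB, s, t, hs, ht => by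
    simp only [pathB, Bool.and_eq_true] at hB
    by_cases hl : l = []
    · subst hl
      exact O.trace_step hB.1 hs ht
    · exact (O.trace_step hB.1 hs ht).trans (O.trace_path hl hB.2 ht ht)

/-- Each entry `(c, a, r)` of `l` has `c = a + r` with `r` in `R` or earlier in `l`. -/
def reachB (T : Table) (Φ : List ℕ) : List ℕ → List (ℕ × ℕ × ℕ) → Bool
  | _, [] => true
  | R, (c, a, r) :: l => decide (a ∈ Φ ∧ r ∈ Φ ∧ r ∈ R ∧ r ≠ a ∧ r ≠ T.opp a ∧ T.add a r = some c ∧
      (T.coef a r).natAbs = 1) && reachB T Φ (c :: R) l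

theorem Ops.trivial_of_reach (O : Ops T Φ χ x h) : ∀ {l : List (ℕ × ℕ × ℕ)} {R : List ℕ},
    reachB T Φ R l = true → (∀ r ∈ R, ∀ t, x r t = 1) →
    ∀ c, c ∈ R ∨ c ∈ l.map Prod.fst → ∀ t, x c t = 1
  | [], R, _, hR, c, hc, t => hR c (hc.resolve_right (by simp)) t
  | (c₀, a, r) :: l, R, hB, hR, c, hc, t => by
    simp only [reachB, Bool.and_eq_true, decide_eq_true_eq] at hB
    obtain ⟨⟨ha, hr, hrR, h1, h2, hadd, hN⟩, hl⟩ := hB
    refine O.trivial_of_reach hl (fun d hd u => ?_) c ?_ t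
    · rcases List.mem_cons.1 hd with rfl | hd
      · have e := O.conj_some ha hr h1 h2 hadd (u / (T.coef a r : F)) 1
        rw [hR r hrR, mul_one, O.mul_neg ha, one_mul, mul_one,
          mul_div_cancel₀ u (intCast_ne_zero (F := F) hN)] at e
        exact e.symm
      · exact hR d hd u
    · rcases hc with hc | hc
      · exact Or.inl (List.mem_cons_of_mem _ hc)
      · rcases List.mem_cons.1 hc with rfl | hc
        · exact Or.inl (List.mem_cons_self ..)
        · exact Or.inr hc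

end CfsgLib.RootChain
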