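import Cfsg.Agent.Lib.RootChain.TableE8
import Cfsg.Agent.Lib.Chevalley.CommE8

/-! Operators of a representation of the group of type E8 for the packed table. -/

set_option autoImplicit false

namespace CfsgLib.RootChain.E8

open Cfsg.Lie CfsgLib.Chevalley

theorem rows {r : ℕ} (hr : r < 240) :
    chevE8.negIdx.getD r 0 = T.opp r ∧
      ((chevE8.chain.getD r #[]).toList.map fun e => (e.1, e.2.toList)) = rowList r := by
  have h : ∀ lo, rowsB lo = true → lo ≤ r → r < lo + 30 → chevE8.negIdx.getD r 0 = T.opp r ∧
      ((chevE8.chain.getD r #[]).toList.map fun e => (e.1, e.2.toList)) = rowList r := by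
    intro lo hB h1 h2
    simp only [rowsB, List.all_eq_true, Bool.and_eq_true, beq_iff_eq, List.mem_range'_1] at hB
    exact hB r ⟨h1, h2⟩
  by_cases h1 : r < 30; · exact h 0 rows0 (by omega) (by omega)
  by_cases h2 : r < 60; · exact h 30 rows1 (by omega) (by omega)
  by_cases h3 : r < 90; · exact h 60 rows2 (by omega) (by omega)
  by_cases h4 : r < 120; · exact h 90 rows3 (by omega) (by omega)
  by_cases h5 : r < 150; · exact h 120 rows4 (by omega) (by omega)
  by_cases h6 : r < 180; · exact h 150 rows5 (by omega) (by omega)
  by_cases h7 : r < 210; · exact h 180 rows6 (by omega) (by omega)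
  exact h 210 rows7 (by omega) (by omega)

theorem chainEntry_eq_find (D : ChevalleyDatum) (r s : ℕ) :
    D.chainEntry r s = (((((D.chain.getD r #[]).toList).map fun e => (e.1, e.2.toList)).find?
      fun e => e.1 = s).map Prod.snd).getD [] := by
  rw [ChevalleyDatum.chainEntry]
  induction (D.chain.getD r #[]).toList with
  | nil => rfl
  | cons a l ih => by_cases ha : a.1 = s <;> simp [ha, ih]

theorem chainEntry_eq {r s : ℕ} (hr : r < 240) (hs : s < 240) :
    chevE8.chainEntry r s = ((T.add r s).map fun c => (c, T.coef r s)).toList := by
  have h2 : ∀ l : List ℕ,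
      ((l.filterMap fun u => (T.add r u).map fun c => (u, [(c, T.coef r u)])).find? fun e => e.1 = s) =
        if s ∈ l then (T.add r s).map (fun c => (s, [(c, T.coef r s)])) else none := by
    intro l
    induction l with
    | nil => simp
    | cons a l ih =>
      rw [List.filterMap_cons]
      cases hc : T.add r a with
      | none =>
        simp only [Option.map_none, ih, List.mem_cons]
        by_cases has : s = a
        · subst has; simp [hc]
        · simp [has]
      | some c =>
        simp only [Option.map_some]
        by_cases has : a = s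
        · subst has; simp [hc]
        · rw [List.find?_cons_of_neg (by simpa using has), ih]
          simp [Ne.symm has]
  rw [chainEntry_eq_find, (rows hr).2, rowList, h2, if_pos (List.mem_range.2 hs)]
  cases T.add r s <;> rfl

/-- A representation gives operators for the packed table. -/
theorem ops_of_rep {A : Aux} {F : Type*} [Field F] [Fintype F] {W : Type*} [AddCommGroup W] [Module ℂ W]
    (h : Full chevE8 A) (hsl : slB chevE8 = true) (e : ℕ → ℤ)
    (ρ : Representation ℂ (chevE8.group F) W) :
    Ops T (List.range 240) (chiOf chevE8 e) (repX h ρ) (repH h ρ e) := by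
  have O := RootChain.ops_of_rep h hsl e ρ
  have hadd : ∀ r < 240, ∀ s < 240, (tableOf chevE8).add r s = T.add r s := fun r hr s hs => by
    simp only [tableOf, chainEntry_eq hr hs]
    cases T.add r s <;> rfl
  have hopp : ∀ r < 240, (tableOf chevE8).opp r = T.opp r := fun r hr => by
    have h := (rows hr).1
    simp only [tableOf, ChevalleyDatum.neg]
    exact h
  refine ⟨O.map_zero, O.map_add, fun r hr s hs h1 h2 h3 t u => ?_,
    fun r hr s hs c h1 h2 h3 t u => ?_, O.torus, O.h_inv⟩ <;>
    have hr' := List.mem_range.1 hr <;> have hs' := List.mem_range.1 hs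
  · exact O.comm_none r hr s hs h1 ((hopp r hr').symm ▸ h2) ((hadd r hr' s hs').trans h3) t u
  · have := O.comm_some r hr s hs c h1 ((hopp r hr').symm ▸ h2) ((hadd r hr' s hs').trans h3) t u
    rwa [show (tableOf chevE8).coef r s = T.coef r s by
      simp only [tableOf, chainEntry_eq hr' hs', h3]; rfl] at this

end CfsgLib.RootChain.E8
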