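import Cfsg.Agent.Lib.RootChain.Chart
import Cfsg.Agent.Lib.InvCentralizers.EigenTrace

/-! The characters of the radical occurring in a representation. -/

set_option autoImplicit false
set_option linter.unusedSectionVars false

namespace CfsgLib.RootChain

open Matrix
open CfsgLib.InvCentralizers

variable {T : Table} {Φ Φ' R : List ℕ} {χ : ℕ → ℤ} {F : Type*} [Field F] [Fintype F]
  {W : Type*} [AddCommGroup W] [Module ℂ W]
  {x : ℕ → F → Module.End ℂ W} {h : Fˣ → Module.End ℂ W}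

/-- The eigenspace of a character of the radical. -/
noncomputable def E (R : List ℕ) (x : ℕ → F → Module.End ℂ W) (B : Fin R.length → F) :
    Submodule ℂ W :=
  AbelianEigen.eig (pair R) (rad R x) B

/-- The character occurs. -/
def Occ (R : List ℕ) (x : ℕ → F → Module.End ℂ W) (B : Fin R.length → F) : Prop := E R x B ≠ ⊥

theorem mapsTo_E (O : Ops T Φ χ x h) (hR : Rad T Φ Φ' R) {α : ℕ} (hα : α ∈ Φ') (t : F)
    (B : Fin R.length → F) : ∀ w ∈ E R x B, x α (-t) w ∈ E R x (act T R α t B) :=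
  fun _ hw => map_eig O hR hα t hw

theorem x_apply_injective (O : Ops T Φ χ x h) {α : ℕ} (hα : α ∈ Φ) (t : F) :
    Function.Injective (x α t) := fun u v e => by
  have := congrArg (x α (-t)) e
  simpa [← Module.End.mul_apply, O.neg_mul hα] using this

theorem finrank_act [FiniteDimensional ℂ W] (O : Ops T Φ χ x h) (hR : Rad T Φ Φ' R) {α : ℕ}
    (hα : α ∈ Φ') (t : F) (B : Fin R.length → F) :
    Module.finrank ℂ (E R x (act T R α t B)) = Module.finrank ℂ (E R x B) := by
  have key : ∀ (t : F) (B : Fin R.length → F),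
      Module.finrank ℂ (E R x B) ≤ Module.finrank ℂ (E R x (act T R α t B)) := fun t B =>
    LinearMap.finrank_le_finrank_of_injective
      (f := (x α (-t)).restrict (mapsTo_E O hR hα t B))
      fun u v e => Subtype.ext (x_apply_injective O (hR.sub α hα) _ (congrArg Subtype.val e))
  refine le_antisymm ?_ (key t B)
  have := key (-t) (act T R α t B)
  rwa [act_act_neg hR hα] at this

theorem finrank_push [FiniteDimensional ℂ W] (O : Ops T Φ χ x h) (hR : Rad T Φ Φ' R) :
    ∀ {L : List (Fin R.length × ℕ)}, (∀ p ∈ L, p.2 ∈ Φ') → ∀ (ts B : Fin R.length → F),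
      Module.finrank ℂ (E R x (push T R L ts B)) = Module.finrank ℂ (E R x B)
  | [], _, _, _ => rfl
  | (i, α) :: L, hL, ts, B => by
    rw [push, finrank_push O hR (fun p h => hL p (List.mem_cons_of_mem _ h)) ts,
      finrank_act O hR (hL (i, α) (List.mem_cons_self ..))]

theorem occ_iff [FiniteDimensional ℂ W] {B : Fin R.length → F} :
    Occ R x B ↔ 1 ≤ Module.finrank ℂ (E R x B) :=
  Submodule.one_le_finrank_iff.symm

theorem occ_act [FiniteDimensional ℂ W] (O : Ops T Φ χ x h) (hR : Rad T Φ Φ' R) {α : ℕ}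
    (hα : α ∈ Φ') (t : F) {B : Fin R.length → F} (hB : Occ R x B) :
    Occ R x (act T R α t B) := by
  rw [occ_iff, finrank_act O hR hα, ← occ_iff]; exact hB

theorem occ_push [FiniteDimensional ℂ W] (O : Ops T Φ χ x h) (hR : Rad T Φ Φ' R)
    {μ : Fin R.length} (ts : Fin R.length → F) {B : Fin R.length → F} (hB : Occ R x B) :
    Occ R x (push T R (adj T Φ' R μ) ts B) := by
  rw [occ_iff, finrank_push O hR (fun p hp => (mem_adj hp).1), ← occ_iff]; exact hB

/-- The nonzero occurring characters. -/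
noncomputable def occSet (R : List ℕ) (x : ℕ → F → Module.End ℂ W) :
    Finset (Fin R.length → F) := by
  classical exact Finset.univ.filter fun B => B ≠ 0 ∧ Occ R x B

theorem mem_occSet {B : Fin R.length → F} : B ∈ occSet R x ↔ B ≠ 0 ∧ Occ R x B := by
  classical
  simp [occSet]

theorem finrank_split [FiniteDimensional ℂ W] (O : Ops T Φ χ x h) (hR : Rad T Φ Φ' R) :
    Module.finrank ℂ W = Module.finrank ℂ (E R x 0) +
      ∑ B ∈ occSet R x, Module.finrank ℂ (E R x B) := by
  classical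
  rw [AbelianEigen.finrank_eq_sum (setup O hR),
    ← Finset.add_sum_erase _ _ (Finset.mem_univ (0 : Fin R.length → F))]
  congr 1
  symm
  refine Finset.sum_subset (fun B hB => Finset.mem_erase.2 ⟨(mem_occSet.1 hB).1, Finset.mem_univ _⟩)
    fun B hB hnot => ?_
  have : ¬ Occ R x B := fun h => hnot (mem_occSet.2 ⟨(Finset.mem_erase.1 hB).1, h⟩)
  rw [Occ, not_not] at this
  show Module.finrank ℂ (E R x B) = 0
  rw [this, finrank_bot]

theorem card_occSet_le [FiniteDimensional ℂ W] (O : Ops T Φ χ x h) (hR : Rad T Φ Φ' R) :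
    (occSet R x).card + Module.finrank ℂ (E R x 0) ≤ Module.finrank ℂ W := by
  rw [finrank_split O hR, add_comm _ (Module.finrank ℂ _)]
  refine Nat.add_le_add_left ?_ _
  rw [Finset.card_eq_sum_ones]
  exact Finset.sum_le_sum fun B hB => occ_iff.1 (mem_occSet.1 hB).2

/-- `B` is normal at `μ` with value `c`. -/
def Normal (T : Table) (Φ' R : List ℕ) (x : ℕ → F → Module.End ℂ W) (μ : Fin R.length) (c : F)
    (B : Fin R.length → F) : Prop :=
  Occ R x B ∧ B μ = c ∧ ∀ k ∈ keys T Φ' R μ, B k = 0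

variable [FiniteDimensional ℂ W] {n₀ : ℕ}

/-- The parameters that normalise `B` at `μ`. -/
noncomputable def normTs (T : Table) (Φ' R : List ℕ) (μ : Fin R.length) (B : Fin R.length → F) :
    Fin R.length → F := fun i => -B i / (cf T R F (alph T Φ' R μ i) i * B μ)

theorem normalise (O : Ops T Φ χ x h) (hR : Rad T Φ Φ' R) (hA : Adj T Φ' R n₀)
    {μ : Fin R.length} {B : Fin R.length → F} (hB : Occ R x B) (hμ : B μ ≠ 0) :
    Normal T Φ' R x μ (B μ) (push T R (adj T Φ' R μ) (normTs T Φ' R μ B) B) := by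
  obtain ⟨h1, h2⟩ := push_adj (μ := μ) hA (normTs T Φ' R μ B) B
  refine ⟨occ_push O hR _ hB, h1, fun k hk => ?_⟩
  have hcf := cf_ne_zero (F := F) hR (mem_adj (mem_keys.1 hk)).1 (mem_adj (mem_keys.1 hk)).2
  rw [h2 k hk, normTs]
  field_simp
  ring

theorem exists_occ_at (O : Ops T Φ χ x h) (hR : Rad T Φ Φ' R) (hA : Adj T Φ' R n₀)
    {B₀ : Fin R.length → F} (hB : Occ R x B₀) (hB₀ : B₀ ≠ 0) (μ : Fin R.length) :
    ∃ B, Occ R x B ∧ B μ ≠ 0 := by
  have step : ∀ j i, i ∈ keys T Φ' R j → (∃ B, Occ R x B ∧ B j ≠ 0) → ∃ B, Occ R x B ∧ B i ≠ 0 := by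
    rintro j i hi ⟨B, hBo, hBj⟩
    by_cases hBi : B i = 0
    · obtain ⟨hα, hu⟩ := mem_adj (mem_keys.1 hi)
      refine ⟨_, occ_act O hR hα 1 hBo, ?_⟩
      simp [act, hu, hBi, hBj, cf_ne_zero (F := F) hR hα hu]
    · exact ⟨B, hBo, hBi⟩
  have step' : ∀ j i, i ∈ keys T Φ' R j → (∃ B, Occ R x B ∧ B i ≠ 0) → ∃ B, Occ R x B ∧ B j ≠ 0 :=
    fun j i hi => step i j (hA.symm j _ (mem_keys.1 hi))
  obtain ⟨j₀, hj₀⟩ := Function.ne_iff.1 hB₀
  suffices h : ∀ n, ∀ j : Fin R.length, j.val = n →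
      ((∃ B, Occ R x B ∧ B j ≠ 0) ↔ ∃ B, Occ R x B ∧ B ⟨0, j.pos⟩ ≠ 0) by
    exact (h _ μ rfl).2 ((h _ j₀ rfl).1 ⟨B₀, hB, hj₀⟩)
  intro n
  induction n using Nat.strong_induction_on with
  | _ n ih =>
    intro j hj
    by_cases h0 : j.val = 0
    · rw [show j = ⟨0, j.pos⟩ from Fin.ext h0]
    · obtain ⟨i, hi, hlt⟩ := hA.down j h0
      exact ⟨fun h => (ih i.val (hj ▸ hlt) i rfl).1 (step j i hi h),
        fun h => step' j i hi ((ih i.val (hj ▸ hlt) i rfl).2 h)⟩

theorem exists_normal (O : Ops T Φ χ x h) (hR : Rad T Φ Φ' R) (hA : Adj T Φ' R n₀) (hn : n₀ ≠ 0)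
    {B₀ : Fin R.length → F} (hB : Occ R x B₀) (hB₀ : B₀ ≠ 0) (μ : Fin R.length) {c : F}
    (hc : c ≠ 0) : ∃ B, Normal T Φ' R x μ c B := by
  obtain ⟨B, hBo, hBμ⟩ := exists_occ_at O hR hA hB hB₀ μ
  have hn1 := normalise O hR hA hBo hBμ
  set Bn := push T R (adj T Φ' R μ) (normTs T Φ' R μ B) B
  obtain ⟨k, hk⟩ : ∃ k, k ∈ keys T Φ' R μ :=
    List.exists_mem_of_length_pos (by rw [hA.len]; omega)
  obtain ⟨hα, hu⟩ := mem_adj (mem_keys.1 hk)
  have hkμ := hA.symm μ _ (mem_keys.1 hk)
  obtain ⟨hβ, hv⟩ := mem_adj (mem_keys.1 hkμ)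
  set α := alph T Φ' R μ k
  set β := alph T Φ' R k μ
  set B1 := act T R α 1 Bn
  have hc1 := cf_ne_zero (F := F) hR hα hu
  have hc2 := cf_ne_zero (F := F) hR hβ hv
  have h1k : B1 k = cf T R F α k * B μ := by simp [B1, act, hu, hn1.2.1, hn1.2.2 k hk]
  have h1μ : B1 μ = B μ := by
    have := hA.fixμ μ _ (mem_keys.1 hk)
    simp [B1, act, α, this, hn1.2.1]
  set s := (c - B μ) / (cf T R F β μ * B1 k)
  have h2μ : act T R β s B1 μ = c := by
    have hne : B1 k ≠ 0 := h1k ▸ mul_ne_zero hc1 hBμ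
    simp only [act, hv, Option.elim_some, h1μ, s]
    field_simp
    ring
  refine ⟨_, h2μ ▸ normalise O hR hA (occ_act O hR hβ s (occ_act O hR hα 1 hn1.1)) ?_⟩
  rw [h2μ]; exact hc

/-- Every normal character is supported at one coordinate. -/
def Pure (T : Table) (Φ' R : List ℕ) (x : ℕ → F → Module.End ℂ W) : Prop :=
  ∀ μ c B, c ≠ 0 → Normal T Φ' R x μ c B → B = Pi.single μ c

/-- Parameters supported on the keys of `μ`. -/
noncomputable def extTs (T : Table) (Φ' R : List ℕ) (μ : Fin R.length)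
    (a : {k // k ∈ keys T Φ' R μ} → F) : Fin R.length → F := by
  classical exact fun k => if h : k ∈ keys T Φ' R μ then a ⟨k, h⟩ else 0

/-- The roots `α`, `α'` give three normal characters with one value at `μ`. -/
def Three (T : Table) (Φ' R : List ℕ) (x : ℕ → F → Module.End ℂ W) (μ : Fin R.length) (c : F)
    (B : Fin R.length → F) : Prop :=
  ∃ B1 B2, Normal T Φ' R x μ c B1 ∧ Normal T Φ' R x μ c B2 ∧ B1 ≠ B ∧ B2 ≠ B ∧ B1 ≠ B2

theorem three_of_moved (O : Ops T Φ χ x h) (hR : Rad T Φ Φ' R) {μ ρ : Fin R.length} {c₁ : F}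
    {B : Fin R.length → F} (hB : Normal T Φ' R x μ c₁ B) (hρ : B ρ ≠ 0)
    (hmv : movedB T Φ' R μ ρ = true) : Three T Φ' R x μ c₁ B := by
  classical
  simp only [movedB, List.all_eq_true, Bool.or_eq_true, beq_iff_eq, List.contains_iff_mem,
    List.any_eq_true, Bool.and_eq_true] at hmv
  obtain ⟨α, hα, ⟨hαμ, hαk⟩, hi⟩ := hmv
  cases hf : (List.finRange R.length).find? (fun i => up T R α i == some ρ) with
  | none => simp [hf] at hi
  | some i =>
    simp only [hf, List.any_eq_true, Bool.and_eq_true, beq_iff_eq, List.all_eq_true] at hi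
    have hui : up T R α i = some ρ := by simpa using List.find?_some hf
    obtain ⟨α', hα', ⟨⟨hα'μ, hα'k⟩, hα'i⟩, i', -, hi'⟩ := hi
    have hnormal : ∀ {γ : ℕ}, γ ∈ Φ' → up T R γ μ = none →
        (∀ k ∈ keys T Φ' R μ, ∀ k', up T R γ k = some k' → k' ∈ keys T Φ' R μ) →
        Normal T Φ' R x μ c₁ (act T R γ 1 B) := by
      intro γ hγ hγμ hγk
      refine ⟨occ_act O hR hγ 1 hB.1, by simp [act, hγμ, hB.2.1], fun k hk => ?_⟩
      cases hu : up T R γ k with
      | none => simp [act, hu, hB.2.2 k hk]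
      | some k' => simp [act, hu, hB.2.2 k hk, hB.2.2 k' (hγk k hk k' hu)]
    have hA1 := hnormal hα (by simpa using hαμ) fun k hk k' e => by
      simpa [e] using hαk k hk
    have hA2 := hnormal hα' (by simpa using hα'μ) fun k hk k' e => by
      simpa [e] using hα'k k hk
    set B1 := act T R α 1 B
    set B2 := act T R α' 1 B
    have e1 : B1 i ≠ B i := by
      simp [B1, act, hui, hρ, cf_ne_zero (F := F) hR hα hui]
    have e2 : B2 i = B i := by simp [B2, act, show up T R α' i = none by simpa using hα'i]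
    have e3 : B2 i' ≠ B i' := by
      simp [B2, act, hi', hρ, cf_ne_zero (F := F) hR hα' hi']
    exact ⟨B1, B2, hA1, hA2, fun e => e1 (congrFun e i), fun e => e3 (congrFun e i'),
      fun e => e1 ((congrFun e i).trans e2)⟩

theorem three_of_lone (O : Ops T Φ χ x h) (hR : Rad T Φ Φ' R) {μ ρ : Fin R.length} {c₁ : F}
    {B : Fin R.length → F} (hB : Normal T Φ' R x μ c₁ B) (hρ : B ρ ≠ 0)
    (hsupp : ∀ j, j ≠ μ → j ≠ ρ → B j = 0)
    (hlone : loneB T Φ' R μ ρ = true) : Three T Φ' R x μ c₁ B := by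
  classical
  simp only [loneB, Bool.and_eq_true, List.any_eq_true, Bool.or_eq_true] at hlone
  obtain ⟨-, α, hα, hkα, hi⟩ := hlone
  cases hf : (List.finRange R.length).find? (fun i => up T R α i == some ρ) with
  | none => simp [hf] at hi
  | some i =>
    simp only [hf, List.any_eq_true, Bool.and_eq_true, beq_iff_eq, bne_iff_ne] at hi
    have hui : up T R α i = some ρ := by simpa using List.find?_some hf
    obtain ⟨α', hα', ⟨⟨hkα', hα'i⟩, hα'iμ⟩, i', -, hi'⟩ := hi
    have hnormal : ∀ {γ : ℕ}, γ ∈ Φ' → keepB T Φ' R μ ρ γ = true →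
        Normal T Φ' R x μ c₁ (act T R γ 1 B) := by
      intro γ hγ hk
      simp only [keepB, Bool.and_eq_true, List.all_eq_true, bne_iff_ne] at hk
      obtain ⟨⟨h1, h2⟩, h3⟩ := hk
      refine ⟨occ_act O hR hγ 1 hB.1, ?_, fun k hk => ?_⟩
      · cases hu : up T R γ μ with
        | none => simp [act, hu, hB.2.1]
        | some j =>
          have : B j = 0 := hsupp j (fun e => h1 (e ▸ hu)) (fun e => h2 (e ▸ hu))
          simp [act, hu, hB.2.1, this]
      · cases hu : up T R γ k with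
        | none => simp [act, hu, hB.2.2 k hk]
        | some j =>
          have : B j = 0 := hsupp j (fun e => (h3 k hk).1 (e ▸ hu)) (fun e => (h3 k hk).2 (e ▸ hu))
          simp [act, hu, hB.2.2 k hk, this]
    have e1 : act T R α 1 B i ≠ B i := by simp [act, hui, hρ, cf_ne_zero (F := F) hR hα hui]
    have e2 : act T R α' 1 B i = B i := by
      cases hu : up T R α' i with
      | none => simp [act, hu]
      | some j =>
        have : B j = 0 := hsupp j (fun e => hα'iμ (e ▸ hu)) (fun e => hα'i (e ▸ hu))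
        simp [act, hu, this]
    have e3 : act T R α' 1 B i' ≠ B i' := by
      simp [act, hi', hρ, cf_ne_zero (F := F) hR hα' hi']
    exact ⟨_, _, hnormal hα hkα, hnormal hα' hkα', fun e => e1 (congrFun e i),
      fun e => e3 (congrFun e i'), fun e => e1 ((congrFun e i).trans e2)⟩

theorem card_le_of_not_pure (O : Ops T Φ χ x h) (hR : Rad T Φ Φ' R) (hA : Adj T Φ' R n₀)
    (hn : n₀ ≠ 0) (hres : residB T Φ' R = true) (hP : ¬ Pure T Φ' R x) :
    (Fintype.card F + 1) * Fintype.card F ^ n₀ ≤ (occSet R x).card := by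
  classical
  simp only [Pure, not_forall, exists_prop] at hP
  obtain ⟨μ, c₁, B, hc₁, hB, hne⟩ := hP
  obtain ⟨ρ, hρ⟩ := Function.ne_iff.1 hne
  have hρμ : ρ ≠ μ := fun e => hρ (by rw [e, hB.2.1, Pi.single_eq_same])
  rw [Pi.single_eq_of_ne hρμ] at hρ
  simp only [residB, List.all_eq_true, List.mem_finRange, forall_const, Bool.or_eq_true,
    beq_iff_eq, List.contains_iff_mem] at hres
  have hres' : ∀ j, j ≠ μ → B j ≠ 0 → movedB T Φ' R μ j = true ∨ loneB T Φ' R μ j = true := by
    intro j hj hBj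
    rcases hres μ j with ((h | h) | h) | h
    exacts [absurd h hj, absurd (hB.2.2 j h) hBj, Or.inl h, Or.inr h]
  obtain ⟨B1, B2, hA1, hA2, hn1, hn2, hn12⟩ : Three T Φ' R x μ c₁ B := by
    by_cases hm : ∃ j, j ≠ μ ∧ B j ≠ 0 ∧ movedB T Φ' R μ j = true
    · obtain ⟨j, -, hBj, hmv⟩ := hm
      exact three_of_moved O hR hB hBj hmv
    · push Not at hm
      have hlone := (hres' ρ hρμ hρ).resolve_left (hm ρ hρμ hρ)
      refine three_of_lone O hR hB hρ (fun j hjμ hjρ => ?_) hlone
      by_contra hBj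
      have hl := hlone
      simp only [loneB, Bool.and_eq_true, List.all_eq_true, List.mem_finRange, forall_const,
        Bool.or_eq_true, beq_iff_eq, List.contains_iff_mem] at hl
      rcases hl.1 j with ((h | h) | h) | h
      exacts [hjμ h, hBj (hB.2.2 j h), hjρ h, hm j hjμ hBj h]
  choose form hform using fun c : {c : F // c ≠ 0} =>
    exists_normal O hR hA hn hB.1 (fun e => hρ (by rw [e]; rfl)) μ c.2
  set Sc := ((Finset.univ : Finset {c : F // c ≠ 0}).erase ⟨c₁, hc₁⟩).image form with hSc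
  set forms := Sc ∪ {B, B1, B2} with hforms
  have hdisj : Disjoint Sc {B, B1, B2} := by
    refine Finset.disjoint_left.2 fun D hD hD' => ?_
    obtain ⟨c, hc, rfl⟩ := Finset.mem_image.1 hD
    refine (Finset.mem_erase.1 hc).1 (Subtype.ext ?_)
    rw [← (hform c).2.1]
    simp only [Finset.mem_insert, Finset.mem_singleton] at hD'
    rcases hD' with e | e | e <;> rw [e]
    exacts [hB.2.1, hA1.2.1, hA2.2.1]
  have h3 : ({B, B1, B2} : Finset (Fin R.length → F)).card = 3 := by
    rw [Finset.card_insert_of_notMem, Finset.card_pair hn12]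
    simp only [Finset.mem_insert, Finset.mem_singleton, not_or]
    exact ⟨hn1.symm, hn2.symm⟩
  have hcardF : Fintype.card F + 1 ≤ forms.card := by
    rw [hforms, Finset.card_union_of_disjoint hdisj, h3, hSc, Finset.card_image_of_injective _
      (fun c c' e => Subtype.ext (by rw [← (hform c).2.1, ← (hform c').2.1, e])),
      Finset.card_erase_of_mem (Finset.mem_univ _), Finset.card_univ, Fintype.card_subtype_compl,
      Fintype.card_subtype_eq]
    have := Fintype.one_lt_card (α := F)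
    omega
  have hnorm : ∀ D ∈ forms, ∃ c, c ≠ 0 ∧ Normal T Φ' R x μ c D := by
    intro D hD
    simp only [hforms, Finset.mem_union, Finset.mem_insert, Finset.mem_singleton] at hD
    rcases hD with hD | rfl | rfl | rfl
    · obtain ⟨c, -, rfl⟩ := Finset.mem_image.1 hD
      exact ⟨c, c.2, hform c⟩
    exacts [⟨c₁, hc₁, hB⟩, ⟨c₁, hc₁, hA1⟩, ⟨c₁, hc₁, hA2⟩]
  let f : (Fin R.length → F) × ({k // k ∈ keys T Φ' R μ} → F) → (Fin R.length → F) := fun p =>
    push T R (adj T Φ' R μ) (extTs T Φ' R μ p.2) p.1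
  have hu : (Finset.univ : Finset ({k // k ∈ keys T Φ' R μ} → F)).card = Fintype.card F ^ n₀ := by
    rw [Finset.card_univ, Fintype.card_fun]
    congr 1
    rw [Fintype.card_of_subtype (keys T Φ' R μ).toFinset (fun k => List.mem_toFinset),
      List.toFinset_card_of_nodup (keys_nodup μ), hA.len]
  calc (Fintype.card F + 1) * Fintype.card F ^ n₀
      ≤ forms.card * (Finset.univ : Finset ({k // k ∈ keys T Φ' R μ} → F)).card := by
        rw [hu]; exact Nat.mul_le_mul_right _ hcardF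
    _ = (forms ×ˢ Finset.univ).card := (Finset.card_product _ _).symm
    _ ≤ (occSet R x).card := Finset.card_le_card_of_injOn f ?_ ?_
  · intro p hp
    obtain ⟨c, hc, hD⟩ := hnorm p.1 (Finset.mem_product.1 hp).1
    refine mem_occSet.2 ⟨fun e => hc ?_, occ_push O hR _ hD.1⟩
    rw [← hD.2.1, ← (push_adj (μ := μ) hA (extTs T Φ' R μ p.2) p.1).1]
    exact congrFun e μ
  · rintro ⟨D, a⟩ hp ⟨D', a'⟩ hp' e
    obtain ⟨c, hc, hD⟩ := hnorm D (Finset.mem_product.1 hp).1
    obtain ⟨c', hc', hD'⟩ := hnorm D' (Finset.mem_product.1 hp').1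
    obtain ⟨h1, h2⟩ := push_adj (μ := μ) hA (extTs T Φ' R μ a) D
    obtain ⟨h1', h2'⟩ := push_adj (μ := μ) hA (extTs T Φ' R μ a') D'
    have hμe : D μ = D' μ := (h1.symm.trans (congrFun e μ)).trans h1'
    have ha : a = a' := by
      funext k
      have hk := k.2
      have e' := ((h2 k hk).symm.trans (congrFun e k)).trans (h2' k hk)
      have hcf := cf_ne_zero (F := F) hR (mem_adj (mem_keys.1 hk)).1 (mem_adj (mem_keys.1 hk)).2
      simp [extTs, hk, hD.2.2 k hk, hD'.2.2 k hk, ← hμe, hD.2.1, hc, hcf] at e'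
      exact e'
    subst ha
    exact Prod.ext (push_injective hR (fun q hq => (mem_adj hq).1) _ e) rfl

end CfsgLib.RootChain
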