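import Cfsg.Agent.Lib.RootChain.Ops
import Cfsg.Agent.Lib.InvCentralizers.AbelianEigen

/-! An abelian radical, its characters and the action of the Levi root elements on them. -/

set_option autoImplicit false
set_option linter.unusedSectionVars false

namespace CfsgLib.RootChain

open Matrix
open CfsgLib.InvCentralizers

section Tables

variable (T : Table) (Φ Φ' R : List ℕ)

/-- The index of `α + R i` in `R`. -/
def up (α : ℕ) (i : Fin R.length) : Option (Fin R.length) :=
  (T.add α (R.get i)).bind fun c => (List.finRange R.length).find? fun j => R.get j == c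

/-- The pairs `(i, α)`, `α ∈ Φ'`, with `α + R i = R μ`, one for each possible `i`. -/
def adj (μ : Fin R.length) : List (Fin R.length × ℕ) :=
  (List.finRange R.length).filterMap fun i =>
    (Φ'.find? fun α => up T R α i == some μ).map fun α => (i, α)

/-- The indices adjacent to `μ`. -/
def keys (μ : Fin R.length) : List (Fin R.length) := (adj T Φ' R μ).map Prod.fst

/-- `R` is an abelian radical for the roots `Φ'`. -/
def radB : Bool :=
  R.all (fun r => Φ.contains r) && Φ'.all (fun r => Φ.contains r) && decide R.Nodup &&
    (List.finRange R.length).all (fun i => (List.finRange R.length).all fun j =>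
      i == j || (R.get j != T.opp (R.get i) && T.add (R.get i) (R.get j) == none)) &&
    Φ'.all fun α => (List.finRange R.length).all fun i =>
      R.get i != α && R.get i != T.opp α &&
        match T.add α (R.get i), up T R α i with
        | none, _ => true
        | some c, some j => (T.coef α (R.get i)).natAbs == 1 && up T R α j == none && j != i &&
            R.get j == c
        | some _, none => false

variable {T Φ Φ' R}

theorem up_none_of_add_none {α : ℕ} {i : Fin R.length} (h : T.add α (R.get i) = none) :
    up T R α i = none := by unfold up; rw [h]; rfl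

theorem mem_adj {μ i : Fin R.length} {α : ℕ} (h : (i, α) ∈ adj T Φ' R μ) :
    α ∈ Φ' ∧ up T R α i = some μ := by
  simp only [adj, List.mem_filterMap, Option.map_eq_some_iff, Prod.mk.injEq] at h
  obtain ⟨a, -, b, hb, rfl, rfl⟩ := h
  exact ⟨List.mem_of_find?_eq_some hb, by simpa using List.find?_some hb⟩

theorem keys_nodup (μ : Fin R.length) : (keys T Φ' R μ).Nodup := by
  have h : keys T Φ' R μ = (List.finRange R.length).filter
      (fun i => (Φ'.find? fun α => up T R α i == some μ).isSome) := by
    simp only [keys, adj]
    induction List.finRange R.length with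
    | nil => rfl
    | cons a l ih =>
      cases hf : Φ'.find? (fun α => up T R α a == some μ) with
      | none => simp [List.filterMap_cons, hf, ih]
      | some b => simp [List.filterMap_cons, hf, ih]
  rw [h]
  exact (List.nodup_finRange _).filter _

/-- The facts read off `radB`. -/
structure Rad (T : Table) (Φ Φ' R : List ℕ) : Prop where
  memR : ∀ i : Fin R.length, R.get i ∈ Φ
  sub : ∀ r ∈ Φ', r ∈ Φ
  inj : Function.Injective R.get
  rr : ∀ i j : Fin R.length, i ≠ j →
    R.get j ≠ T.opp (R.get i) ∧ T.add (R.get i) (R.get j) = none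
  ne : ∀ α ∈ Φ', ∀ i : Fin R.length, R.get i ≠ α ∧ R.get i ≠ T.opp α
  some : ∀ α ∈ Φ', ∀ (i : Fin R.length) (c : ℕ), T.add α (R.get i) = .some c →
    ∃ j, up T R α i = .some j ∧ R.get j = c ∧ (T.coef α (R.get i)).natAbs = 1 ∧
      up T R α j = none ∧ j ≠ i

theorem rad_of_radB (h : radB T Φ Φ' R = true) : Rad T Φ Φ' R := by
  simp only [radB, Bool.and_eq_true, List.all_eq_true, decide_eq_true_eq, List.mem_finRange,
    forall_const, Bool.or_eq_true, beq_iff_eq, bne_iff_ne, ne_eq, List.contains_iff_mem] at h
  obtain ⟨⟨⟨⟨hR, hsub⟩, hnd⟩, hrr⟩, har⟩ := h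
  refine ⟨fun i => hR _ (List.get_mem ..), hsub, List.nodup_iff_injective_get.1 hnd,
    fun i j hij => (hrr i j).resolve_left hij, fun α hα i => (har α hα i).1,
    fun α hα i c hc => ?_⟩
  have h2 := (har α hα i).2
  rw [hc] at h2
  cases hu : up T R α i with
  | none => simp [hu] at h2
  | some j =>
    simp only [hu, Bool.and_eq_true, beq_iff_eq, bne_iff_ne] at h2
    exact ⟨j, rfl, h2.2, h2.1.1.1, h2.1.1.2, h2.1.2⟩

theorem Rad.up_add (hR : Rad T Φ Φ' R) {α : ℕ} (hα : α ∈ Φ') {i j : Fin R.length}
    (h : up T R α i = .some j) : T.add α (R.get i) = .some (R.get j) ∧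
      (T.coef α (R.get i)).natAbs = 1 ∧ up T R α j = none ∧ j ≠ i := by
  cases hc : T.add α (R.get i) with
  | none => rw [up_none_of_add_none hc] at h; simp at h
  | some c =>
    obtain ⟨j', hj', hjc, hN, hn, hne⟩ := hR.some α hα i c hc
    rw [h, Option.some.injEq] at hj'
    subst hj'
    exact ⟨by rw [hjc], hN, hn, hne⟩

theorem Rad.add_none (hR : Rad T Φ Φ' R) {α : ℕ} (hα : α ∈ Φ') {i : Fin R.length}
    (h : up T R α i = none) : T.add α (R.get i) = none := by
  cases hc : T.add α (R.get i) with
  | none => rfl
  | some c =>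
    obtain ⟨j', hj', -⟩ := hR.some α hα i c hc
    rw [h] at hj'; simp at hj'

end Tables

variable (T : Table) (R : List ℕ) {F : Type*} [Field F] [Fintype F] {W : Type*} [AddCommGroup W]
  [Module ℂ W]

/-- The sign of the commutator of `α` and `R i`. -/
def cf (F : Type*) [Field F] (α : ℕ) (i : Fin R.length) : F := (T.coef α (R.get i) : F)

/-- The action of `x α t` on the characters of the radical. -/
def act (α : ℕ) (t : F) (B : Fin R.length → F) : Fin R.length → F := fun i =>
  B i + (up T R α i).elim 0 fun j => t * cf T R F α i * B j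

/-- The action of `x α t` on the radical. -/
def adjAct (α : ℕ) (t : F) (S : Fin R.length → F) : Fin R.length → F :=
  S + ∑ i, (up T R α i).elim 0 fun j => Pi.single j (t * cf T R F α i * S i)

/-- The pairing. -/
noncomputable def pair (B S : Fin R.length → F) : ℂ :=
  AddChar.FiniteField.primitiveChar_to_Complex F (B ⬝ᵥ S)

/-- The element of the radical. -/
def rad (x : ℕ → F → Module.End ℂ W) (S : Fin R.length → F) : Module.End ℂ W :=
  ((List.finRange R.length).map fun i => x (R.get i) (S i)).prod

variable {T R}

theorem dot_adjAct (α : ℕ) (t : F) (B S : Fin R.length → F) :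
    B ⬝ᵥ adjAct T R α t S = act T R α t B ⬝ᵥ S := by
  rw [adjAct, dotProduct_add, dotProduct_sum]
  simp only [act, dotProduct, add_mul, Finset.sum_add_distrib]
  congr 1
  refine Finset.sum_congr rfl fun i _ => ?_
  cases up T R α i with
  | none => simp
  | some j =>
    simp only [Option.elim_some]
    rw [Finset.sum_eq_single j (fun k _ hk => by simp [hk]) (by simp)]
    simp; ring

theorem act_zero (α : ℕ) (B : Fin R.length → F) : act T R α 0 B = B := by
  funext i; cases h : up T R α i <;> simp [act, h]

theorem pair_addL (B B' S : Fin R.length → F) :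
    pair R (B + B') S = pair R B S * pair R B' S := by
  rw [pair, add_dotProduct, AddChar.map_add_eq_mul]; rfl

theorem pair_addR (B S S' : Fin R.length → F) :
    pair R B (S + S') = pair R B S * pair R B S' := by
  rw [pair, dotProduct_add, AddChar.map_add_eq_mul]; rfl

theorem sum_pair {B : Fin R.length → F} (hB : B ≠ 0) : ∑ S, pair R B S = 0 := by
  classical
  obtain ⟨i, hi⟩ := Function.ne_iff.1 hB
  let φ : AddChar (Fin R.length → F) ℂ :=
    { toFun := pair R B
      map_zero_eq_one' := by simp [pair]
      map_add_eq_mul' := pair_addR B }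
  refine AddChar.sum_eq_zero_of_ne_one (ψ := φ) fun h => ?_
  apply AddChar.FiniteField.primitiveChar_to_Complex_isPrimitive F hi
  refine DFunLike.ext _ _ fun u => ?_
  have := DFunLike.congr_fun h (Pi.single i u)
  simpa [φ, pair, AddChar.mulShift_apply] using this

theorem pair_comm (B S : Fin R.length → F) : pair R B S = pair R S B := by
  simp [pair, dotProduct_comm]

theorem eq_of_pair_eq {B B' : Fin R.length → F} (h : ∀ S, pair R B S = pair R B' S) : B = B' := by
  classical
  by_contra hne
  have h1 := sum_pair (sub_ne_zero.2 hne)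
  have h2 : ∀ S, pair R (B - B') S = 1 := fun S => by
    have h3 := pair_addL (B - B') B' S
    rw [sub_add_cancel, ← h] at h3
    refine mul_right_cancel₀ ?_ (h3.symm.trans (one_mul _).symm)
    intro h0
    have h4 := pair_addR B S (-S)
    rw [h0, zero_mul, add_neg_cancel, pair, dotProduct_zero, AddChar.map_zero_eq_one] at h4
    exact one_ne_zero h4
  simp [h2] at h1

variable {Φ Φ' : List ℕ} {χ : ℕ → ℤ} {x : ℕ → F → Module.End ℂ W} {h : Fˣ → Module.End ℂ W}

theorem commute_radical (O : Ops T Φ χ x h) (hR : Rad T Φ Φ' R) (i j : Fin R.length) (t u : F) :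
    Commute (x (R.get i) t) (x (R.get j) u) := by
  by_cases hij : i = j
  · subst hij
    rw [commute_iff_eq, ← O.map_add _ (hR.memR i), ← O.map_add _ (hR.memR i), add_comm]
  · exact O.comm_none _ (hR.memR i) _ (hR.memR j) (fun e => hij (hR.inj e).symm) (hR.rr i j hij).1
      (hR.rr i j hij).2 t u

theorem rad_zero (O : Ops T Φ χ x h) (hR : Rad T Φ Φ' R) : rad R x (0 : Fin R.length → F) = 1 := by
  refine List.prod_eq_one fun a ha => ?_
  obtain ⟨i, -, rfl⟩ := List.mem_map.1 ha
  exact O.map_zero _ (hR.memR i)

theorem rad_add (O : Ops T Φ χ x h) (hR : Rad T Φ Φ' R) (S S' : Fin R.length → F) :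
    rad R x (S + S') = rad R x S * rad R x S' := by
  simp only [rad]
  induction List.finRange R.length with
  | nil => simp
  | cons a l ih =>
    simp only [Pi.add_apply] at ih
    simp only [List.map_cons, List.prod_cons, ih, Pi.add_apply, O.map_add _ (hR.memR a)]
    have hc : Commute (x (R.get a) (S' a)) (l.map fun i => x (R.get i) (S i)).prod :=
      Commute.list_prod_right _ _ fun b hb => by
        obtain ⟨i, -, rfl⟩ := List.mem_map.1 hb
        exact commute_radical O hR a i _ _
    simp only [mul_assoc]
    rw [← mul_assoc (x (R.get a) (S' a)), hc.eq, mul_assoc]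

theorem rad_single (O : Ops T Φ χ x h) (hR : Rad T Φ Φ' R) (i : Fin R.length) (t : F) :
    rad R x (Pi.single i t) = x (R.get i) t := by
  classical
  have key : ∀ l : List (Fin R.length), l.Nodup →
      (l.map fun j => x (R.get j) ((Pi.single i t : Fin R.length → F) j)).prod =
        if i ∈ l then x (R.get i) t else 1 := by
    intro l hl
    induction l with
    | nil => simp
    | cons a l ih =>
      obtain ⟨ha, hl⟩ := List.nodup_cons.1 hl
      simp only [List.map_cons, List.prod_cons, ih hl, List.mem_cons]
      by_cases hia : i = a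
      · subst hia; simp [ha]
      · rw [Pi.single_eq_of_ne (Ne.symm hia), O.map_zero _ (hR.memR a), one_mul]
        simp [hia]
  rw [rad, key _ (List.nodup_finRange _), if_pos (List.mem_finRange i)]

theorem eq_of_single {f g : (Fin R.length → F) → Module.End ℂ W} (hf0 : f 0 = g 0)
    (hf : ∀ S S', f (S + S') = f S * f S') (hg : ∀ S S', g (S + S') = g S * g S')
    (hs : ∀ i t, f (Pi.single i t) = g (Pi.single i t)) : ∀ S, f S = g S := by
  classical
  intro S
  rw [← Finset.univ_sum_single S]
  induction (Finset.univ : Finset (Fin R.length)) using Finset.induction_on with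
  | empty => simpa using hf0
  | insert a s ha ih => rw [Finset.sum_insert ha, hf, hg, hs, ih]

theorem setup (O : Ops T Φ χ x h) (hR : Rad T Φ Φ' R) :
    AbelianEigen.Setup (pair R (F := F)) (rad R x) :=
  ⟨pair_addL, pair_addR, fun S => by simp [pair], fun B hB => sum_pair hB,
    fun S hS => by simpa [pair_comm] using sum_pair (R := R) hS, fun B => by simp [pair],
    rad_zero O hR, rad_add O hR⟩

theorem adjAct_add (α : ℕ) (t : F) (S S' : Fin R.length → F) :
    adjAct T R α t (S + S') = adjAct T R α t S + adjAct T R α t S' := by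
  simp only [adjAct]
  rw [add_add_add_comm, ← Finset.sum_add_distrib]
  congr 1
  refine Finset.sum_congr rfl fun i _ => ?_
  cases up T R α i <;> simp [mul_add, Pi.single_add]

theorem conj_rad (O : Ops T Φ χ x h) (hR : Rad T Φ Φ' R) {α : ℕ} (hα : α ∈ Φ') (t : F)
    (S : Fin R.length → F) : x α t * rad R x S * x α (-t) = rad R x (adjAct T R α t S) := by
  classical
  have hαΦ := hR.sub α hα
  refine eq_of_single (f := fun S => x α t * rad R x S * x α (-t))
    (g := fun S => rad R x (adjAct T R α t S)) ?_ ?_ ?_ ?_ S
  · rw [rad_zero O hR, mul_one, O.mul_neg hαΦ]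
    have : adjAct T R α t (0 : Fin R.length → F) = 0 := by
      funext k
      simp only [adjAct, zero_add, Finset.sum_apply, Pi.zero_apply]
      exact Finset.sum_eq_zero fun i _ => by cases up T R α i <;> simp
    rw [this, rad_zero O hR]
  · intro S S'
    calc x α t * rad R x (S + S') * x α (-t)
        = x α t * rad R x S * (x α (-t) * x α t) * rad R x S' * x α (-t) := by
          rw [O.neg_mul hαΦ, mul_one, rad_add O hR]; simp only [mul_assoc]
      _ = _ := by simp only [mul_assoc]
  · intro S S'
    rw [adjAct_add, rad_add O hR]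
  · intro i u
    rw [rad_single O hR]
    have hsum : ∀ v, adjAct T R α t (Pi.single i u : Fin R.length → F) = v ↔
        Pi.single i u + (up T R α i).elim 0 (fun j => Pi.single j (t * cf T R F α i * u)) = v := by
      intro v
      rw [adjAct, Finset.sum_eq_single i (fun k _ hk => by
        cases up T R α k <;> simp [hk]) (by simp), Pi.single_eq_same]
    rw [(hsum _).2 rfl]
    cases hu : up T R α i with
    | none =>
      simp only [Option.elim_none, add_zero]
      rw [rad_single O hR, (O.comm_none α hαΦ _ (hR.memR i) (hR.ne α hα i).1 (hR.ne α hα i).2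
        (hR.add_none hα hu) t u).eq, mul_assoc, O.mul_neg hαΦ, mul_one]
    | some j =>
      simp only [Option.elim_some]
      rw [rad_add O hR, rad_single O hR, rad_single O hR,
        O.conj_some hαΦ (hR.memR i) (hR.ne α hα i).1 (hR.ne α hα i).2 (hR.up_add hα hu).1]
      congr 2
      simp only [cf]; ring

/-- Root elements of the Levi part move the eigenspaces. -/
theorem map_eig (O : Ops T Φ χ x h) (hR : Rad T Φ Φ' R) {α : ℕ} (hα : α ∈ Φ') (t : F)
    {B : Fin R.length → F} {w : W} (hw : w ∈ AbelianEigen.eig (pair R) (rad R x) B) :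
    x α (-t) w ∈ AbelianEigen.eig (pair R) (rad R x) (act T R α t B) := by
  intro S
  have hαΦ := hR.sub α hα
  have e : rad R x S * x α (-t) = x α (-t) * rad R x (adjAct T R α t S) := by
    rw [← conj_rad O hR hα, ← mul_assoc, ← mul_assoc, O.neg_mul hαΦ, one_mul]
  have h1 := LinearMap.congr_fun e w
  simp only [Module.End.mul_apply] at h1
  rw [h1, hw _, map_smul]
  congr 1
  rw [pair, dot_adjAct]
  rfl

theorem eig_disjoint {B B' : Fin R.length → F} {w : W} (hw0 : w ≠ 0)
    (hw : w ∈ AbelianEigen.eig (pair R) (rad R x) B)
    (hw' : w ∈ AbelianEigen.eig (pair R) (rad R x) B') : B = B' :=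
  eq_of_pair_eq fun S => smul_left_injective ℂ hw0 ((hw S).symm.trans (hw' S))

end CfsgLib.RootChain
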