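import Cfsg.Agent.Lib.RootChain.DataE8

/-! Checks on the Heisenberg radical of type E8. -/

set_option autoImplicit false
set_option maxRecDepth 100000

namespace CfsgLib.RootChain.E8

theorem residtab : residTabB T1 sub0 rad0 (tabAdj rad0 nbr0) wit0 lone0 = true := by decide +kernel

end CfsgLib.RootChain.E8
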