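import Cfsg.Agent.Lib.RootChain.DataE6
import Cfsg.Agent.Lib.RootChain.Invariant

/-! Two steps of a chain with a trivial end, for fields of two elements. -/

set_option autoImplicit false
set_option linter.unusedSectionVars false

namespace CfsgLib.RootChain.E6

variable {F : Type*} [Field F] [Fintype F] {W : Type*} [AddCommGroup W] [Module ℂ W]
  [FiniteDimensional ℂ W] {x : ℕ → F → Module.End ℂ W} {h : Fˣ → Module.End ℂ W}

/-- Below `2482`, two steps of a chain of type `E₆ ⊃ D₅ ⊃ A₄` account for `2450` dimensions; a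
smaller surplus than `15` consists of vectors fixed by the last subsystem. -/
theorem route {χ : ℕ → ℤ} {Φ R1 P1 R2 P2 R3 P3 : List ℕ} {θ : ℕ}
    {r1 r2 r3 path : List (ℕ × ℕ × ℕ)}
    (b1 : baseB T Φ P1 R1 10 r1 = true) (t1 : traceB T Φ P1 R1 10 θ path = true)
    (f1 : fixAll T P1 R1 θ = true) (b2 : baseB T P1 P2 R2 6 r2 = true)
    (b3 : baseB T P2 P3 R3 3 r3 = true) (hcl : closedB T P2 = true)
    (c1 : cellsTotal T P1 R1 2 = 2295) (c2 : cellsTotal T P2 R2 2 = 155)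
    (c3 : cellsTotal T P3 R3 2 = 15)
    (O : Ops T Φ χ x h) (hne : ∃ r ∈ Φ, ∃ t, x r t ≠ 1) (hq : Fintype.card F = 2)
    (hk : Module.finrank ℂ W < 2465) :
    2450 ≤ Module.finrank ℂ W ∧
      (2450 < Module.finrank ℂ W → ∃ v : W, v ≠ 0 ∧ (∀ r ∈ R1, ∀ t, x r t v = v) ∧
        (∀ r ∈ R2, ∀ t, x r t v = v) ∧ ∀ r ∈ P2, ∀ t, x r t v = v) ∧
      ∀ v : W, (∀ r ∈ R1, ∀ t, x r t v = v) → (∀ r ∈ R2, ∀ t, x r t v = v) →
        ∀ r ∈ P2, ∀ t, x r t v = v := by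
  classical
  simp only [baseB, Bool.and_eq_true, bne_iff_ne, List.all_eq_true, Bool.or_eq_true,
    List.contains_iff_mem] at b1 b2
  obtain ⟨⟨⟨⟨⟨hn1, hr1⟩, ha1⟩, hres1⟩, hreach1⟩, hcov1⟩ := b1
  obtain ⟨⟨⟨⟨⟨hn2, hr2⟩, ha2⟩, hres2⟩, hreach2⟩, hcov2⟩ := b2
  have hR1 := rad_of_radB hr1
  have hR2 := rad_of_radB hr2
  obtain ⟨B, hB0, hB⟩ := exists_occ O hR1 hreach1 hcov1 hne
  rcases three_cases O hR1 (adj_of_adjB ha1) hn1 hres1 hB hB0 with ⟨-, h⟩ | h | ⟨hP, hone, hsum⟩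
  · rw [hq] at h; norm_num at h; omega
  · rw [hq, c1] at h; omega
  have O1 := ops_zero O hR1 (closed_of_traceB t1)
  have hne1 := step_nontrivial t1 (Or.inl f1) O hR1 (adj_of_adjB ha1) hn1 hP hone hB hB0
  obtain ⟨B', hB'0, hB'⟩ := exists_occ O1 hR2 hreach2 hcov2 hne1
  rw [hq, c1] at hsum
  rcases three_cases O1 hR2 (adj_of_adjB ha2) hn2 hres2 hB' hB'0 with ⟨-, h⟩ | h | ⟨-, -, hsum2⟩
  · rw [hq] at h; norm_num at h; omega
  · rw [hq, c2] at h; omega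
  rw [hq, c2] at hsum2
  have O2 := ops_zero O1 hR2 hcl
  have htriv : ∀ r ∈ P2, ∀ t, zeroX O1 hR2 r t = 1 := by
    by_contra hcon
    push Not at hcon
    have := bound_base b3 (b := 15) (F := F) (χ := χ) (by rw [hq]; norm_num)
      (by rw [hq, c3]) _ _ _ O2 hcon
    omega
  have hfix : ∀ v : W, (∀ r ∈ R1, ∀ t, x r t v = v) → (∀ r ∈ R2, ∀ t, x r t v = v) →
      ∀ r ∈ P2, ∀ t, x r t v = v := by
    intro v h1 h2 r hr t
    have hmem1 := mem_E_zero_of_fixed (F := F) h1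
    have hmem2 : (⟨v, hmem1⟩ : E R1 x (0 : Fin R1.length → F)) ∈
        E R2 (zeroX O hR1) (0 : Fin R2.length → F) :=
      mem_E_zero_of_fixed fun a ha u => Subtype.ext (by
        obtain ⟨i, rfl⟩ := List.mem_iff_get.1 ha
        rw [coe_zeroX O hR1 (hR2.memR i)]
        exact h2 _ ha u)
    have h3 := LinearMap.congr_fun (htriv r hr t) ⟨⟨v, hmem1⟩, hmem2⟩
    have h4 := congrArg Subtype.val (congrArg Subtype.val h3)
    rw [coe_zeroX O1 hR2 hr, coe_zeroX O hR1 (hR2.sub r hr)] at h4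
    exact h4
  refine ⟨by omega, fun hgt => ?_, hfix⟩
  have hbot : E R2 (zeroX O hR1) (0 : Fin R2.length → F) ≠ ⊥ := fun e => by
    rw [e, finrank_bot] at hsum2; omega
  obtain ⟨v, hv, hv0⟩ := Submodule.exists_mem_ne_zero_of_ne_bot hbot
  have f1' : ∀ r ∈ R1, ∀ t, x r t (v : W) = v := fun r hr t => fixed_of_mem_E_zero O hR1 v.2 hr t
  have f2' : ∀ r ∈ R2, ∀ t, x r t (v : W) = v := fun r hr t => by
    obtain ⟨i, rfl⟩ := List.mem_iff_get.1 hr
    rw [← coe_zeroX O hR1 (hR2.memR i), fixed_of_mem_E_zero O1 hR2 hv hr t]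
  exact ⟨v, fun e => hv0 (Subtype.ext e), f1', f2', hfix v f1' f2'⟩

end CfsgLib.RootChain.E6
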