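import Cfsg.Agent.Lib.RootChain.Fixed

/-! The passage from a root subsystem to the next one. -/

set_option autoImplicit false
set_option linter.unusedSectionVars false

namespace CfsgLib.RootChain

open Matrix
open CfsgLib.InvCentralizers

universe u

/-- Every nontrivial representation of the relations has dimension at least `b`. -/
def Bound (T : Table) (Φ : List ℕ) (χ : ℕ → ℤ) (F : Type*) [Field F] [Fintype F] (b : ℕ) :
    Prop :=
  ∀ (W : Type u) [AddCommGroup W] [Module ℂ W] [FiniteDimensional ℂ W]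
    (x : ℕ → F → Module.End ℂ W) (h : Fˣ → Module.End ℂ W), Ops T Φ χ x h →
    (∃ r ∈ Φ, ∃ t, x r t ≠ 1) → b ≤ Module.finrank ℂ W

/-- The exponent of the cell of `μ`. -/
def ell (T : Table) (Φ' R : List ℕ) (μ : Fin R.length) : ℕ := (laterKeys T Φ' R μ).length

/-- The number of characters in all cells. -/
def cellsTotal (T : Table) (Φ' R : List ℕ) (q : ℕ) : ℕ :=
  ∑ μ : Fin R.length, q ^ ell T Φ' R μ * (q - 1)

/-- The data making the radical usable. -/
def baseB (T : Table) (Φ Φ' R : List ℕ) (n₀ : ℕ) (reach : List (ℕ × ℕ × ℕ)) : Bool :=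
  n₀ != 0 && radB T Φ Φ' R && adjB T Φ' R n₀ && residB T Φ' R && reachB T Φ R reach &&
    Φ.all fun r => R.contains r || (reach.map Prod.fst).contains r

/-- Closedness of a list of roots. -/
def closedB (T : Table) (Φ' : List ℕ) : Bool :=
  Φ'.all fun r => Φ'.all fun s => match T.add r s with
    | none => true
    | some c => Φ'.contains c

/-- The data for the trace comparison with the root `θ`. -/
def traceB (T : Table) (Φ Φ' R : List ℕ) (n₀ θ : ℕ) (path : List (ℕ × ℕ × ℕ)) : Bool :=
  !path.isEmpty && Φ'.contains θ && pathB T Φ (R.headD 0) path &&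
    pathEnd (R.headD 0) path == θ &&
    closedB T Φ' &&
    (List.finRange R.length).all fun μ =>
      (μ.val != 0 || ell T Φ' R μ == n₀) &&
      if inJ T R θ μ then
        decide (ell T Φ' R μ ≤ n₀) && (List.finRange R.length).all fun ν =>
          ν == μ || !inJ T R θ ν || ell T Φ' R ν != ell T Φ' R μ
      else (laterAdj T Φ' R μ).all fun p =>
        p.2 == θ || (p.2 != T.opp θ && T.add θ p.2 == none)

/-- The part of the data needed for the trace on the cells. -/
def commB (T : Table) (Φ' R : List ℕ) (n₀ θ : ℕ) : Bool :=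
  Φ'.contains θ && (List.finRange R.length).all fun μ =>
    (μ.val != 0 || ell T Φ' R μ == n₀) && (inJ T R θ μ || (laterAdj T Φ' R μ).all fun p =>
      p.2 == θ || (p.2 != T.opp θ && T.add θ p.2 == none))

/-- The roots fixing the cells away from `θ`. -/
def fixB (T : Table) (χ : ℕ → ℤ) (Φ' R : List ℕ) (θ : ℕ) : Bool :=
  (List.finRange R.length).all fun μ =>
    inJ T R θ μ || fixA T Φ' R θ μ || (χ θ == 1 && χ (R.get μ) == 0)

/-- Whether only pairs of roots are used. -/
def fixAll (T : Table) (Φ' R : List ℕ) (θ : ℕ) : Bool :=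
  (List.finRange R.length).all fun μ => inJ T R θ μ || fixA T Φ' R θ μ

variable {T : Table} {Φ Φ' R : List ℕ} {χ : ℕ → ℤ} {F : Type*} [Field F] [Fintype F]
  {W : Type u} [AddCommGroup W] [Module ℂ W] [FiniteDimensional ℂ W]
  {x : ℕ → F → Module.End ℂ W} {h : Fˣ → Module.End ℂ W} {n₀ : ℕ}

/-- A nontrivial representation has a nonzero character of the radical. -/
theorem exists_occ (O : Ops T Φ χ x h) (hR : Rad T Φ Φ' R) {reach : List (ℕ × ℕ × ℕ)}
    (hreach : reachB T Φ R reach = true)
    (hcov : ∀ r ∈ Φ, r ∈ R ∨ r ∈ reach.map Prod.fst) (hne : ∃ r ∈ Φ, ∃ t, x r t ≠ 1) :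
    ∃ B : Fin R.length → F, B ≠ 0 ∧ Occ R x B := by
  obtain ⟨r, hr, t, ht⟩ := hne
  have hS : ∃ S, rad R x S ≠ (1 : Module.End ℂ W) := by
    by_contra hcon
    push Not at hcon
    refine ht (O.trivial_of_reach hreach (fun a ha u => ?_) r (hcov r hr) t)
    obtain ⟨i, rfl⟩ := List.mem_iff_get.1 ha
    have := hcon (Pi.single i u)
    rwa [rad_single O hR] at this
  obtain ⟨B, hB, w, hw, hw0⟩ := AbelianEigen.exists_eig (setup O hR) hS
  exact ⟨B, hB, fun e => hw0 (by simpa [e] using (show w ∈ E R x B from hw))⟩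

/-- The three cases for the dimension. -/
theorem three_cases (O : Ops T Φ χ x h) (hR : Rad T Φ Φ' R) (hA : Adj T Φ' R n₀) (hn : n₀ ≠ 0)
    (hres : residB T Φ' R = true) {B₀ : Fin R.length → F} (hB : Occ R x B₀) (hB₀ : B₀ ≠ 0) :
    (R.length ≠ n₀ + 1 ∧ (Fintype.card F + 1) * Fintype.card F ^ n₀ ≤ Module.finrank ℂ W) ∨
      2 * cellsTotal T Φ' R (Fintype.card F) ≤ Module.finrank ℂ W ∨
      (Pure T Φ' R x ∧ (∀ B ∈ occSet R x, Module.finrank ℂ (E R x B) = 1) ∧
        cellsTotal T Φ' R (Fintype.card F) + Module.finrank ℂ (E R x 0) = Module.finrank ℂ W) := by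
  classical
  by_cases hP : Pure T Φ' R x
  · right
    obtain ⟨i, -⟩ := Function.ne_iff.1 hB₀
    have hconst := finrank_eq_const O hR hA hn hP hB hB₀ ⟨0, i.pos⟩ rfl
    set m := Module.finrank ℂ (E R x (Pi.single (⟨0, i.pos⟩ : Fin R.length) (1 : F)))
    have hm : 1 ≤ m := occ_iff.1 (occ_single O hR hA hn hP hB hB₀ _ one_ne_zero)
    have hcard : (occSet R x).card = cellsTotal T Φ' R (Fintype.card F) := by
      rw [Finset.card_eq_sum_ones, sum_occSet_cells, cellsTotal]
      refine Finset.sum_congr rfl fun μ _ => ?_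
      rw [← Finset.card_eq_sum_ones]
      exact card_cell O hR hA hn hP hB hB₀ μ
    have hsplit := finrank_split O hR
    rw [Finset.sum_congr rfl hconst, Finset.sum_const, smul_eq_mul, hcard] at hsplit
    by_cases h1 : m = 1
    · refine Or.inr ⟨hP, fun B hBm => (hconst B hBm).trans h1, ?_⟩
      rw [hsplit, h1, mul_one, add_comm]
    · refine Or.inl ?_
      rw [hsplit]
      calc 2 * cellsTotal T Φ' R (Fintype.card F)
          = cellsTotal T Φ' R (Fintype.card F) * 2 := mul_comm _ _
        _ ≤ cellsTotal T Φ' R (Fintype.card F) * m := Nat.mul_le_mul_left _ (by omega)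
        _ ≤ _ := Nat.le_add_left _ _
  · exact Or.inl ⟨fun hm => hP (pure_of_complete hA hm), (card_le_of_not_pure O hR hA hn hres hP).trans
      ((Nat.le_add_right _ _).trans (card_occSet_le O hR))⟩

/-- The last step. -/
theorem bound_base {reach : List (ℕ × ℕ × ℕ)} (hb : baseB T Φ Φ' R n₀ reach = true) {b : ℕ}
    (h1 : b ≤ (Fintype.card F + 1) * Fintype.card F ^ n₀)
    (h2 : b ≤ cellsTotal T Φ' R (Fintype.card F)) : Bound.{u} T Φ χ F b := by
  intro W _ _ _ x h O hne
  simp only [baseB, Bool.and_eq_true, bne_iff_ne, List.all_eq_true, Bool.or_eq_true,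
    List.contains_iff_mem] at hb
  obtain ⟨⟨⟨⟨⟨hn, hr⟩, ha⟩, hres⟩, hreach⟩, hcov⟩ := hb
  have hR := rad_of_radB hr
  obtain ⟨B, hB0, hB⟩ := exists_occ O hR hreach hcov hne
  rcases three_cases O hR (adj_of_adjB ha) hn hres hB hB0 with ⟨-, h⟩ | h | ⟨-, -, h⟩ <;> omega

theorem sum_geom_lt {ι : Type*} (s : Finset ι) (ℓ : ι → ℕ) (n q : ℕ) (hq : 2 ≤ q)
    (hle : ∀ i ∈ s, ℓ i ≤ n) (hinj : Set.InjOn ℓ s) :
    ∑ i ∈ s, q ^ ℓ i * (q - 1) < q ^ (n + 1) := by
  classical
  calc ∑ i ∈ s, q ^ ℓ i * (q - 1) = ∑ k ∈ s.image ℓ, q ^ k * (q - 1) :=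
        (Finset.sum_image (f := fun k => q ^ k * (q - 1)) hinj).symm
    _ ≤ ∑ k ∈ Finset.range (n + 1), q ^ k * (q - 1) := Finset.sum_le_sum_of_subset
        fun k hk => by
          obtain ⟨i, hi, rfl⟩ := Finset.mem_image.1 hk
          exact Finset.mem_range.2 (Nat.lt_succ_of_le (hle i hi))
    _ < q ^ (n + 1) := by
      have hg := geom_sum_mul_add (q - 1) (n + 1)
      rw [Nat.sub_add_cancel (by omega : 1 ≤ q)] at hg
      rw [← Finset.sum_mul]
      omega

/-- The operators on the invariants of the radical. -/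
noncomputable def zeroX (O : Ops T Φ χ x h) (hR : Rad T Φ Φ' R) (r : ℕ) (t : F) :
    Module.End ℂ (E R x (0 : Fin R.length → F)) := by
  classical
  exact if hr' : r ∈ Φ' then (x r t).restrict (fun _ hw => x_mem_E O hR hr' t
    (by funext i; cases hu : up T R r i <;> simp [act, hu]) hw) else 1

/-- The torus on the invariants of the radical. -/
noncomputable def zeroH (O : Ops T Φ χ x h) (hR : Rad T Φ Φ' R) (s : Fˣ) :
    Module.End ℂ (E R x (0 : Fin R.length → F)) :=
  (h s).restrict (fun _ hw => h_mem_E O hR s (fun _ => Or.inl rfl) hw)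

theorem coe_zeroX (O : Ops T Φ χ x h) (hR : Rad T Φ Φ' R) {r : ℕ} (hr : r ∈ Φ') (t : F)
    (w : E R x (0 : Fin R.length → F)) : (zeroX O hR r t w : W) = x r t w := by
  simp only [zeroX, dif_pos hr]
  rfl

theorem ops_zero (O : Ops T Φ χ x h) (hR : Rad T Φ Φ' R) (hcl : closedB T Φ' = true) :
    Ops T Φ' χ (zeroX O hR) (zeroH O hR) := by
  refine O.restrict hR.sub (fun r hr' s hs c hc => ?_) _ _ _ (fun r hr' t w => coe_zeroX O hR hr' t w)
    fun s w => rfl
  simp only [closedB, List.all_eq_true] at hcl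
  have := hcl r hr' s hs
  simpa [hc] using this

theorem closed_of_traceB {θ : ℕ} {path : List (ℕ × ℕ × ℕ)}
    (ht : traceB T Φ Φ' R n₀ θ path = true) : closedB T Φ' = true := by
  simp only [traceB, Bool.and_eq_true] at ht
  exact ht.1.2

/-- When the invariants of the radical are trivial for the next roots, the traces of `x θ` and of
the first root element of the radical differ by the moved cells. -/
theorem trace_diff {θ : ℕ} (hcm : commB T Φ' R n₀ θ = true)
    (hfix : fixAll T Φ' R θ = true ∨ (fixB T χ Φ' R θ = true ∧ 3 ≤ Fintype.card F))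
    (O : Ops T Φ χ x h) (hR : Rad T Φ Φ' R) (hA : Adj T Φ' R n₀) (hn : n₀ ≠ 0)
    (hP : Pure T Φ' R x) (hone : ∀ B ∈ occSet R x, Module.finrank ℂ (E R x B) = 1)
    {B₀ : Fin R.length → F} (hB : Occ R x B₀) (hB₀ : B₀ ≠ 0)
    (hcon : ∀ r ∈ Φ', ∀ t, zeroX O hR r t = 1) :
    LinearMap.trace ℂ W (x θ (-1)) - LinearMap.trace ℂ W (x (R.headD 0) 1) =
      (Fintype.card F : ℂ) ^ (n₀ + 1) -
        ((∑ μ, if inJ T R θ μ = true then (cell R x μ).card else 0 : ℕ) : ℂ) := by
  classical
  simp only [commB, Bool.and_eq_true, List.all_eq_true, List.mem_finRange, forall_const,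
    List.contains_iff_mem, Bool.or_eq_true, beq_iff_eq, bne_iff_ne] at hcm
  obtain ⟨hθ, hμs'⟩ := hcm
  have hμs : ∀ μ : Fin R.length, (μ.val ≠ 0 ∨ ell T Φ' R μ = n₀) ∧ (inJ T R θ μ = true ∨
      ∀ p ∈ laterAdj T Φ' R μ, p.2 = θ ∨ (p.2 ≠ T.opp θ ∧ T.add θ p.2 = none)) := hμs'
  have htriv : ∀ r ∈ Φ', ∀ t, ∀ w ∈ E R x (0 : Fin R.length → F), x r t w = w := by
    intro r hr' t w hw
    rw [← coe_zeroX O hR hr' t ⟨w, hw⟩, hcon r hr' t]
    rfl
  -- the cells away from the image of `θ` are fixed pointwise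
  have hfixed : ∀ μ, inJ T R θ μ = false → ∀ B, Occ R x B → InCell μ B → FixE R x θ B := by
    intro μ hJ B hBo hBμ
    rw [eq_push_single O hR hA hn hP hBo hBμ]
    refine fixE_push O hR (fun p hp => ⟨(mem_adj (List.mem_of_mem_filter hp)).1, fun t v => ?_⟩) _ _ ?_
    · have hc := (hμs μ).2
      simp only [hJ, Bool.false_eq_true, false_or] at hc
      have hp2 := hc p hp
      by_cases he : p.2 = θ
      · rw [he, commute_iff_eq, ← O.map_add θ (hR.sub θ hθ), ← O.map_add θ (hR.sub θ hθ), add_comm]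
      · obtain ⟨h4, h5⟩ := hp2.resolve_left he
        exact O.comm_none θ (hR.sub θ hθ) p.2 (hR.sub _ (mem_adj (List.mem_of_mem_filter hp)).1) he
          h4 h5 t v
    · have ho := occ_single O hR hA hn hP hB hB₀ μ hBμ.1
      have hdim := hone _ (mem_occSet.2 ⟨fun e => hBμ.1 (by simpa using congrFun e μ), ho⟩)
      rcases hfix with hf | ⟨hf, hq⟩
      · simp only [fixAll, List.all_eq_true, List.mem_finRange, forall_const] at hf
        have := hf μ
        rw [hJ, Bool.false_or] at this
        exact fixE_of_fixA O hR this hJ hθ hdim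
      · simp only [fixB, List.all_eq_true, List.mem_finRange, forall_const] at hf
        have := hf μ
        rw [hJ, Bool.false_or, Bool.or_eq_true, Bool.and_eq_true, beq_iff_eq, beq_iff_eq] at this
        rcases this with h4 | ⟨h4, h5⟩
        · exact fixE_of_fixA O hR h4 hJ hθ hdim
        · exact fixE_of_torus O hR hq hθ h4 h5 hJ hdim
  set π : (Fin R.length → F) → (Fin R.length → F) := act T R θ 1
  have hπ0 : π 0 = 0 := by funext i; cases hu : up T R θ i <;> simp [π, act, hu]
  have hmoved : ∀ μ, ∀ B : Fin R.length → F, InCell μ B → inJ T R θ μ = true → π B ≠ B := by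
    intro μ B hBμ hJ e
    simp only [inJ, List.any_eq_true, beq_iff_eq] at hJ
    obtain ⟨i, -, hi⟩ := hJ
    have := congrFun e i
    simp [π, act, hi, cf_ne_zero (F := F) hR hθ hi, hBμ.1] at this
  have hfixπ : ∀ μ, ∀ B : Fin R.length → F, Occ R x B → InCell μ B → inJ T R θ μ = false →
      π B = B := by
    intro μ B hBo hBμ hJ
    obtain ⟨w, hw, hw0⟩ := Submodule.exists_mem_ne_zero_of_ne_bot hBo
    have h4 := mapsTo_E O hR hθ 1 B w hw
    rw [hfixed μ hJ B hBo hBμ _ w hw] at h4
    exact eig_disjoint hw0 h4 hw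
  -- the trace of `x θ`
  have htrθ : LinearMap.trace ℂ W (x θ (-1)) = (Module.finrank ℂ (E R x (0 : Fin R.length → F)) : ℂ) +
      ∑ μ, if inJ T R θ μ then 0 else ((cell R x μ).card : ℂ) := by
    rw [AbelianEigen.trace_perm (setup O hR) (x θ (-1)) π hπ0 (fun B w hw => map_eig O hR hθ 1 hw)]
    · congr 1
      · refine (congrArg _ ?_).trans (LinearMap.trace_one ℂ _)
        exact LinearMap.ext fun w => Subtype.ext (htriv θ hθ (-1) w w.2)
      · rw [← Finset.sum_subset (s₁ := (occSet R x).filter fun B => π B = B)]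
        · rw [Finset.sum_congr rfl (fun B hBm =>
              show (Module.finrank ℂ (AbelianEigen.eig (pair R) (rad R x) B) : ℂ) = 1 from by
            have h5 : Module.finrank ℂ (AbelianEigen.eig (pair R) (rad R x) B) = 1 :=
              hone B (Finset.mem_filter.1 hBm).1
            rw [h5, Nat.cast_one]), Finset.sum_filter,
            sum_occSet_cells]
          refine Finset.sum_congr rfl fun μ _ => ?_
          by_cases hJ : inJ T R θ μ = true
          · rw [if_pos hJ]
            exact Finset.sum_eq_zero fun B hBm => if_neg (hmoved μ B (mem_cell.1 hBm).2 hJ)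
          · rw [Bool.not_eq_true] at hJ
            rw [if_neg (by simp [hJ]), Finset.sum_congr rfl fun B hBm =>
              if_pos (hfixπ μ B (mem_cell.1 hBm).1 (mem_cell.1 hBm).2 hJ)]
            simp
        · intro B hBm
          rw [Finset.mem_filter] at hBm ⊢
          exact ⟨Finset.mem_univ _, (mem_occSet.1 hBm.1).1, hBm.2⟩
        · intro B hBm hnot
          rw [Finset.mem_filter] at hBm
          have : ¬ Occ R x B := fun ho =>
            hnot (Finset.mem_filter.2 ⟨mem_occSet.2 ⟨hBm.2.1, ho⟩, hBm.2.2⟩)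
          rw [Occ, not_not, E] at this
          rw [this, finrank_bot, Nat.cast_zero]
    · intro B hB0 hπB w hw
      by_cases ho : Occ R x B
      · cases hJ : inJ T R θ (pivot B hB0) with
        | true => exact absurd hπB (hmoved _ B (inCell_pivot B hB0) hJ)
        | false => exact hfixed _ hJ B ho (inCell_pivot B hB0) _ w hw
      · rw [Occ, not_not] at ho
        have : w = 0 := by simpa [E] using (ho ▸ hw : w ∈ (⊥ : Submodule ℂ W))
        simp [this]
  -- the trace of the first root element of the radical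
  obtain ⟨i₁, -⟩ := Function.ne_iff.1 hB₀
  set i₀ : Fin R.length := ⟨0, i₁.pos⟩
  have hR0 : R.get i₀ = R.headD 0 := by
    have hpos := i₁.pos
    cases R with
    | nil => simp at hpos
    | cons a l => rfl
  set ψ := AddChar.FiniteField.primitiveChar_to_Complex F
  have hψ : ∑ c : {c : F // c ≠ 0}, ψ c = -1 := by
    have h0 : ∑ c, ψ c = 0 := AddChar.sum_eq_zero_of_ne_one fun e => by
      have := AddChar.FiniteField.primitiveChar_to_Complex_isPrimitive F (one_ne_zero (α := F))
      rw [AddChar.mulShift_one] at this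
      exact this e
    rw [← Finset.sum_subtype (Finset.univ.erase (0 : F)) (by simp) (fun c => ψ c),
      ← Finset.add_sum_erase _ _ (Finset.mem_univ (0 : F)), AddChar.map_zero_eq_one] at *
    linear_combination h0
  have htr0 : LinearMap.trace ℂ W (x (R.get i₀) 1) =
      (Module.finrank ℂ (E R x (0 : Fin R.length → F)) : ℂ) +
        ∑ μ, if μ = i₀ then -(Fintype.card F : ℂ) ^ n₀ else ((cell R x μ).card : ℂ) := by
    rw [← rad_single O hR i₀ 1, AbelianEigen.trace_U (setup O hR),
      ← Finset.add_sum_erase _ _ (Finset.mem_univ (0 : Fin R.length → F))]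
    congr 1
    · rw [(setup O hR).zeroL]; exact one_mul _
    rw [← Finset.sum_subset (s₁ := occSet R x)]
    · rw [Finset.sum_congr rfl (fun B hBm => show _ = ψ (B i₀) by
        have h4 := hone B hBm
        rw [E] at h4
        rw [h4, Nat.cast_one, mul_one, pair, dotProduct_single, mul_one]), sum_occSet_cells]
      refine Finset.sum_congr rfl fun μ _ => ?_
      by_cases hμ : μ = i₀
      · subst hμ
        rw [if_pos rfl, sum_cell O hR hA hn hP hB hB₀ i₀ (fun c => ψ c), hψ]
        have := (hμs i₀).1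
        replace this := this.resolve_left (not_not.2 rfl)
        simp only [ell] at this
        rw [this, smul_neg, nsmul_one, Nat.cast_pow]
      · rw [if_neg hμ, Finset.sum_congr rfl fun B hBm => by
          rw [(mem_cell.1 hBm).2.2 i₀ (Fin.lt_def.2 (Nat.pos_of_ne_zero fun e => hμ (Fin.ext e)))],
          AddChar.map_zero_eq_one]
        simp
    · exact fun B hBm => Finset.mem_erase.2 ⟨(mem_occSet.1 hBm).1, Finset.mem_univ _⟩
    · intro B hBm hnot
      have : ¬ Occ R x B := fun ho => hnot (mem_occSet.2 ⟨(Finset.mem_erase.1 hBm).1, ho⟩)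
      rw [Occ, not_not, E] at this
      rw [this, finrank_bot, Nat.cast_zero, mul_zero]
  have hi0 : ((cell R x i₀).card : ℂ) = (Fintype.card F : ℂ) ^ (n₀ + 1) - (Fintype.card F : ℂ) ^ n₀ := by
    have := (hμs i₀).1
    replace this := this.resolve_left (not_not.2 rfl)
    simp only [ell] at this
    rw [card_cell O hR hA hn hP hB hB₀, this, Nat.cast_mul, Nat.cast_pow,
      Nat.cast_sub Fintype.card_pos]
    push_cast
    ring
  have hJsum : LinearMap.trace ℂ W (x θ (-1)) - LinearMap.trace ℂ W (x (R.get i₀) 1) =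
      (Fintype.card F : ℂ) ^ (n₀ + 1) -
        ((∑ μ, if inJ T R θ μ = true then (cell R x μ).card else 0 : ℕ) : ℂ) := by
    have e1 : ∀ μ : Fin R.length, ((cell R x μ).card : ℂ) -
        (if inJ T R θ μ then 0 else ((cell R x μ).card : ℂ)) =
        if inJ T R θ μ = true then ((cell R x μ).card : ℂ) else 0 := fun μ => by
      split <;> simp
    have e2 : ∀ μ : Fin R.length, ((cell R x μ).card : ℂ) -
        (if μ = i₀ then -(Fintype.card F : ℂ) ^ n₀ else ((cell R x μ).card : ℂ)) =
        if μ = i₀ then (Fintype.card F : ℂ) ^ (n₀ + 1) else 0 := fun μ => by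
      by_cases hμ : μ = i₀
      · subst hμ; rw [if_pos rfl, if_pos rfl, hi0]; ring
      · rw [if_neg hμ, if_neg hμ, sub_self]
    simp only [Nat.cast_sum, Nat.cast_ite, Nat.cast_zero]
    rw [htrθ, htr0, ← Finset.sum_congr rfl fun μ _ => e1 μ, Finset.sum_sub_distrib]
    have e3 := Finset.sum_congr rfl (s₁ := (Finset.univ : Finset (Fin R.length))) fun μ _ => e2 μ
    rw [Finset.sum_sub_distrib] at e3
    simp only [Finset.sum_ite_eq', Finset.mem_univ, if_true] at e3
    linear_combination e3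
  rw [hR0] at hJsum
  exact hJsum

/-- One step of the chain. -/
theorem step_nontrivial {θ : ℕ} {path : List (ℕ × ℕ × ℕ)}
    (ht : traceB T Φ Φ' R n₀ θ path = true)
    (hfix : fixAll T Φ' R θ = true ∨ (fixB T χ Φ' R θ = true ∧ 3 ≤ Fintype.card F))
    (O : Ops T Φ χ x h) (hR : Rad T Φ Φ' R) (hA : Adj T Φ' R n₀) (hn : n₀ ≠ 0)
    (hP : Pure T Φ' R x) (hone : ∀ B ∈ occSet R x, Module.finrank ℂ (E R x B) = 1)
    {B₀ : Fin R.length → F} (hB : Occ R x B₀) (hB₀ : B₀ ≠ 0) :
    ∃ r ∈ Φ', ∃ t, zeroX O hR r t ≠ 1 := by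
  classical
  by_contra hcon
  push Not at hcon
  have hcm : commB T Φ' R n₀ θ = true := by
    simp only [traceB, Bool.and_eq_true, List.all_eq_true] at ht
    simp only [commB, Bool.and_eq_true, List.all_eq_true]
    refine ⟨ht.1.1.1.1.2, fun μ hμ => ⟨(ht.2 μ hμ).1, ?_⟩⟩
    have h := (ht.2 μ hμ).2
    cases hJ : inJ T R θ μ with
    | true => simp
    | false =>
      simp only [hJ, Bool.false_eq_true, if_false] at h
      simpa using h
  have hd := trace_diff hcm hfix O hR hA hn hP hone hB hB₀ hcon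
  simp only [traceB, Bool.and_eq_true, List.all_eq_true, Bool.not_eq_true', List.mem_finRange,
    forall_const, List.contains_iff_mem, beq_iff_eq, List.isEmpty_eq_false_iff] at ht
  obtain ⟨⟨⟨⟨⟨hpath0, hθ⟩, hpath⟩, hend⟩, -⟩, hμs⟩ := ht
  have heq := O.trace_path hpath0 hpath (s := (1 : F)) (t := (-1 : F)) one_ne_zero
    (neg_ne_zero.2 one_ne_zero)
  rw [hend] at heq
  rw [heq, sub_self, eq_comm, sub_eq_zero] at hd
  set J := Finset.univ.filter fun μ => inJ T R θ μ = true
  have hlt : ∑ μ ∈ J, (cell R x μ).card < Fintype.card F ^ (n₀ + 1) := by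
    rw [Finset.sum_congr rfl fun μ _ => card_cell O hR hA hn hP hB hB₀ μ]
    refine sum_geom_lt J (ell T Φ' R) n₀ _ (Fintype.one_lt_card) (fun μ hμ => ?_) fun μ hμ ν hν e => ?_
    · have hc := (hμs μ).2
      simp only [(Finset.mem_filter.1 hμ).2, if_true, Bool.and_eq_true, decide_eq_true_eq] at hc
      exact hc.1
    · have hc := (hμs μ).2
      simp only [(Finset.mem_filter.1 (Finset.mem_coe.1 hμ)).2, if_true, Bool.and_eq_true,
        List.all_eq_true, List.mem_finRange, forall_const] at hc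
      have h4 := hc.2 ν
      simp only [(Finset.mem_filter.1 (Finset.mem_coe.1 hν)).2, Bool.or_eq_true, Bool.not_true,
        Bool.false_eq_true, or_false, beq_iff_eq, bne_iff_ne] at h4
      exact (h4.resolve_right fun hne => hne e.symm).symm
  refine hlt.ne ?_
  rw [Finset.sum_filter]
  exact_mod_cast hd.symm

/-- The bound passes along a step. -/
theorem bound_step {θ : ℕ} {reach path : List (ℕ × ℕ × ℕ)}
    (hb : baseB T Φ Φ' R n₀ reach = true) (ht : traceB T Φ Φ' R n₀ θ path = true)
    (hfix : fixAll T Φ' R θ = true ∨ (fixB T χ Φ' R θ = true ∧ 3 ≤ Fintype.card F)) {b b' : ℕ}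
    (hb' : Bound.{u} T Φ' χ F b')
    (h1 : R.length = n₀ + 1 ∨ b ≤ (Fintype.card F + 1) * Fintype.card F ^ n₀)
    (h2 : b ≤ 2 * cellsTotal T Φ' R (Fintype.card F))
    (h3 : b ≤ cellsTotal T Φ' R (Fintype.card F) + b') : Bound.{u} T Φ χ F b := by
  intro W _ _ _ x h O hne
  simp only [baseB, Bool.and_eq_true, bne_iff_ne, List.all_eq_true, Bool.or_eq_true,
    List.contains_iff_mem] at hb
  obtain ⟨⟨⟨⟨⟨hn, hr⟩, ha⟩, hres⟩, hreach⟩, hcov⟩ := hb
  have hR := rad_of_radB hr
  have hA := adj_of_adjB ha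
  obtain ⟨B₀, hB₀, hB⟩ := exists_occ O hR hreach hcov hne
  rcases three_cases O hR hA hn hres hB hB₀ with ⟨hm, h⟩ | h | ⟨hP, hone, hsum⟩
  · have := h1.resolve_left hm
    omega
  · omega
  exact h3.trans (hsum ▸ Nat.add_le_add_left (hb' _ _ _ (ops_zero O hR (closed_of_traceB ht))
    (step_nontrivial ht hfix O hR hA hn hP hone hB hB₀)) _)

end CfsgLib.RootChain
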